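import Mathlib
import Cfsg.Agent.Coprime.PxQ

/-!
Hall's theorem on lower central factors of normal subgroups inside `γ_n(G)`.
-/

set_option autoImplicit false

namespace Cfsg.Agent.Transfer.HallFactor

open scoped commutatorElement

variable {Q : Type*} [Group Q]

theorem rotate_le {A B C N : Subgroup Q} [N.Normal] (h1 : ⁅⁅B, C⁆, A⁆ ≤ N) (h2 : ⁅⁅C, A⁆, B⁆ ≤ N) :
    ⁅⁅A, B⁆, C⁆ ≤ N := by
  have key : ∀ H : Subgroup Q, H ≤ N ↔ H.map (QuotientGroup.mk' N) = ⊥ := fun H => by
    rw [Subgroup.map_eq_bot_iff, QuotientGroup.ker_mk']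
  rw [key, Subgroup.map_commutator, Subgroup.map_commutator] at h1 h2 ⊢
  exact Subgroup.commutator_commutator_eq_bot_of_rotate h1 h2

theorem commutator_upper_top (j : ℕ) :
    ⁅Subgroup.upperCentralSeries Q (j + 1), (⊤ : Subgroup Q)⁆ ≤ Subgroup.upperCentralSeries Q j := by
  rw [Subgroup.commutator_le]
  exact fun g hg y _ => (Subgroup.mem_upperCentralSeries_succ_iff.1 hg) y

theorem upper_lower (m : ℕ) : ∀ j,
    ⁅Subgroup.upperCentralSeries Q (j + m + 1), (⊤ : Subgroup Q).lowerCentralSeries m⁆ ≤
      Subgroup.upperCentralSeries Q j := by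
  induction m with
  | zero => intro j; exact commutator_upper_top j
  | succ m ih =>
    intro j
    rw [Subgroup.commutator_comm, Subgroup.lowerCentralSeries_succ]
    apply rotate_le
    · refine (Subgroup.commutator_mono ?_ le_rfl).trans (ih j)
      rw [Subgroup.commutator_comm]
      exact commutator_upper_top (j + m + 1)
    · refine (Subgroup.commutator_mono ?_ le_rfl).trans (commutator_upper_top j)
      have := ih (j + 1)
      rwa [show j + 1 + m + 1 = j + (m + 1) + 1 by omega] at this

theorem inf_upper_stable (A : Subgroup Q) [A.Normal] {j : ℕ}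
    (h : A ⊓ Subgroup.upperCentralSeries Q (j + 1) ≤ A ⊓ Subgroup.upperCentralSeries Q j) :
    ∀ k, A ⊓ Subgroup.upperCentralSeries Q k ≤ Subgroup.upperCentralSeries Q j := by
  intro k
  induction k with
  | zero => rw [Subgroup.upperCentralSeries_zero, inf_bot_eq]; exact bot_le
  | succ k ih =>
    intro x hx
    refine (h ⟨hx.1, ?_⟩).2
    change x ∈ Subgroup.upperCentralSeries Q (j + 1)
    rw [Subgroup.mem_upperCentralSeries_succ_iff]
    intro y
    refine ih ⟨?_, (Subgroup.mem_upperCentralSeries_succ_iff.1 hx.2) y⟩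
    exact Subgroup.commutator_le_left A ⊤ (Subgroup.commutator_mem_commutator hx.1 (Subgroup.mem_top y))

variable [Finite Q] {p : ℕ} [Fact p.Prime]

theorem key (hQ : IsPGroup p Q) (A B N : Subgroup Q) [A.Normal] {n : ℕ} (hn : 1 ≤ n)
    (hN : N ≤ (⊤ : Subgroup Q).lowerCentralSeries (n - 1)) (hBA : B ≤ A)
    (hB : B ≤ Subgroup.center Q) (hAN : ⁅A, N⁆ ≠ ⊥) : Nat.card B * p ^ n ≤ Nat.card A := by
  haveI := hQ.isNilpotent
  have hZn : ¬ A ≤ Subgroup.upperCentralSeries Q n := fun h => hAN (le_bot_iff.1 (by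
    refine (Subgroup.commutator_mono h hN).trans ?_
    have := upper_lower (Q := Q) (n - 1) 0
    rwa [show 0 + (n - 1) + 1 = n by omega, Subgroup.upperCentralSeries_zero] at this))
  have hstep : ∀ k, k ≤ n → Nat.card B * p ^ k ≤
      Nat.card (A ⊓ Subgroup.upperCentralSeries Q (k + 1) : Subgroup Q) := by
    intro k hk
    induction k with
    | zero =>
      rw [pow_zero, mul_one]
      exact Subgroup.card_le_of_le (le_inf hBA (by rw [zero_add, Subgroup.upperCentralSeries_one]; exact hB))
    | succ k ih =>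
      have hlt : A ⊓ Subgroup.upperCentralSeries Q (k + 1) <
          A ⊓ Subgroup.upperCentralSeries Q (k + 1 + 1) := by
        refine lt_of_le_of_ne (inf_le_inf_left A (Subgroup.upperCentralSeries_mono Q (by omega))) fun h => hZn ?_
        obtain ⟨c, hc⟩ := Group.IsNilpotent.nilpotent (G := Q)
        have h2 := inf_upper_stable A h.ge c
        rw [hc, inf_top_eq] at h2
        exact h2.trans (Subgroup.upperCentralSeries_mono Q hk)
      set S := A ⊓ Subgroup.upperCentralSeries Q (k + 1)
      set T := A ⊓ Subgroup.upperCentralSeries Q (k + 1 + 1)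
      obtain ⟨a, ha⟩ := IsPGroup.iff_card.1 (hQ.to_subgroup S)
      obtain ⟨b, hb⟩ := IsPGroup.iff_card.1 (hQ.to_subgroup T)
      have hab : a < b := by
        have h1 : Nat.card S < Nat.card T := by
          rcases (Subgroup.card_le_of_le hlt.le).lt_or_eq with h | h
          · exact h
          · exact absurd (Subgroup.eq_of_le_of_card_ge hlt.le h.ge) hlt.ne
        rw [ha, hb] at h1
        exact (Nat.pow_lt_pow_iff_right (Fact.out : p.Prime).one_lt).1 h1
      rw [hb, pow_succ, ← mul_assoc]
      calc Nat.card B * p ^ k * p ≤ p ^ a * p := Nat.mul_le_mul_right _ (ha ▸ ih (by omega))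
        _ ≤ p ^ b := by
          rw [← pow_succ]; exact Nat.pow_le_pow_right (Fact.out : p.Prime).pos hab
  exact (hstep n le_rfl).trans (Subgroup.card_le_of_le inf_le_left)

theorem card_map_mk {M A : Subgroup Q} [M.Normal] (h : M ≤ A) :
    Nat.card (A.map (QuotientGroup.mk' M)) * Nat.card M = Nat.card A := by
  have hc := Subgroup.card_mul_index ((QuotientGroup.mk' M).comp A.subtype).ker
  rw [Subgroup.index_ker, MonoidHom.range_comp, Subgroup.range_subtype] at hc
  rw [← hc, mul_comm]
  congr 1
  refine (Nat.card_congr ?_).trans rfl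
  exact ((Subgroup.subgroupOfEquivOfLe h).toEquiv.symm.trans
    (Equiv.setCongr (by ext x; simp [Subgroup.mem_subgroupOf, MonoidHom.mem_ker])))

theorem bound (hQ : IsPGroup p Q) (n : ℕ) (hn : 1 ≤ n) (N : Subgroup Q) [N.Normal]
    (hN : N ≤ (⊤ : Subgroup Q).lowerCentralSeries (n - 1)) (i : ℕ) (hi : 1 ≤ i)
    (hne : N.lowerCentralSeries i ≠ ⊥) :
    p ^ n ≤ (N.lowerCentralSeries i).relIndex (N.lowerCentralSeries (i - 1)) := by
  have hnorm : ∀ k, (N.lowerCentralSeries k).Normal := fun k => by
    induction k with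
    | zero => assumption
    | succ k ih => haveI := ih; rw [Subgroup.lowerCentralSeries_succ]; infer_instance
  obtain ⟨j, rfl⟩ : ∃ j, i = j + 1 := ⟨i - 1, by omega⟩
  rw [Nat.add_sub_cancel]
  set A := N.lowerCentralSeries j with hA
  set B := N.lowerCentralSeries (j + 1) with hB
  haveI : A.Normal := hnorm j
  haveI : B.Normal := hnorm (j + 1)
  have hBA : B ≤ A := Subgroup.commutator_le_left A N
  set M := ⁅B, (⊤ : Subgroup Q)⁆ with hM
  haveI : M.Normal := by rw [hM]; infer_instance
  have hMB : M < B := Coprime.commutator_lt_of_isPGroup (hQ.to_subgroup B) (hQ.to_subgroup ⊤)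
    (by rw [Subgroup.normalizer_eq_top (H := B)]) hne
  set π := QuotientGroup.mk' M with hπ
  have hπs : Function.Surjective π := QuotientGroup.mk'_surjective M
  have hL : ∀ k, ((⊤ : Subgroup Q).lowerCentralSeries k).map π ≤
      (⊤ : Subgroup (Q ⧸ M)).lowerCentralSeries k := fun k => by
    induction k with
    | zero => exact le_top
    | succ k ih =>
      rw [Subgroup.lowerCentralSeries_succ, Subgroup.lowerCentralSeries_succ, Subgroup.map_commutator]
      exact Subgroup.commutator_mono ih le_top
  haveI : (A.map π).Normal := Subgroup.Normal.map inferInstance π hπs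
  have h := key (hQ.to_quotient M) (A.map π) (B.map π) (N.map π) hn
    ((Subgroup.map_mono hN).trans (hL _)) (Subgroup.map_mono hBA)
    (by
      rintro _ ⟨x, hx, rfl⟩
      rw [Subgroup.mem_center_iff]
      intro y
      obtain ⟨z, rfl⟩ := hπs y
      have h1 : π ⁅x, z⁆ = 1 := (QuotientGroup.eq_one_iff _).2
        (Subgroup.commutator_mem_commutator hx (Subgroup.mem_top z))
      rw [map_commutatorElement, commutatorElement_eq_one_iff_mul_comm] at h1
      exact h1.symm)
    (by
      rw [← Subgroup.map_commutator, Ne, Subgroup.map_eq_bot_iff, hπ, QuotientGroup.ker_mk']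
      exact hMB.not_ge)
  have h2 : Nat.card B * p ^ n ≤ Nat.card A := by
    rw [← card_map_mk (M := M) hMB.le, ← card_map_mk (M := M) (hMB.le.trans hBA), mul_right_comm]
    exact Nat.mul_le_mul_right _ h
  rw [← (B.subgroupOf A).card_mul_index, Nat.card_congr (Subgroup.subgroupOfEquivOfLe hBA).toEquiv] at h2
  exact Nat.le_of_mul_le_mul_left h2 Nat.card_pos

end Cfsg.Agent.Transfer.HallFactor
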