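import Cfsg.Agent.Transfer.SelfCentCyclic
import Cfsg.Agent.OddLocal.FixOrderP
import Cfsg.Prelude.Def_Transfer
import Cfsg.Agent.FGS3.PGroupFrattini

/-!
Groups of symplectic type.
-/

set_option autoImplicit false

namespace Cfsg.Agent.Transfer.SympType

universe u

open scoped commutatorElement

variable {G : Type u} [Group G]

theorem char_of_forall (S : Subgroup G) (h : ∀ α : G ≃* G, ∀ g ∈ S, α g ∈ S) : S.Characteristic :=
  Subgroup.characteristic_iff_map_le.2 fun α => by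
    rintro _ ⟨g, hg, rfl⟩
    exact h α g hg

theorem char_apply {S : Subgroup G} (h : S.Characteristic) (α : G ≃* G) {g : G} (hg : g ∈ S) : α g ∈ S :=
  Subgroup.characteristic_iff_map_le.1 h α ⟨g, hg, rfl⟩

theorem conj_pow_comm {a b c : G} (h : a * b * a⁻¹ * b⁻¹ = c) (hca : Commute c a) (t : ℕ) :
    a ^ t * b * (a ^ t)⁻¹ * b⁻¹ = c ^ t := by
  induction t with
  | zero => simp
  | succ t ih =>
    have h1 : a * b * a⁻¹ = c * b := by rw [← h]; group
    have h2 : a ^ t * b * (a ^ t)⁻¹ = c ^ t * b := by rw [← ih]; group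
    calc a ^ (t + 1) * b * (a ^ (t + 1))⁻¹ * b⁻¹ = a * (a ^ t * b * (a ^ t)⁻¹) * a⁻¹ * b⁻¹ := by
          rw [pow_succ']; group
      _ = a * c ^ t * a⁻¹ * (a * b * a⁻¹) * b⁻¹ := by rw [h2]; group
      _ = c ^ t * (c * b) * b⁻¹ := by rw [h1, ((hca.pow_left t).eq).symm, mul_inv_cancel_right]
      _ = c ^ (t + 1) := by rw [pow_succ]; group

theorem pow_mul' {a b : G} (hc : ∀ x ∈ ({a, b} : Set G), Commute (b * a * b⁻¹ * a⁻¹) x) (t : ℕ) :
    (a * b) ^ t = a ^ t * b ^ t * (b * a * b⁻¹ * a⁻¹) ^ t.choose 2 :=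
  Cfsg.Agent.OddLocal.pow_mul_class_two (x := a) (d := b) (c := b * a * b⁻¹ * a⁻¹) (by group)
    (hc a (by simp)) (hc b (by simp)) t

theorem relIndex_pos [Finite G] (A B : Subgroup G) : 0 < A.relIndex B :=
  Nat.pos_of_ne_zero Subgroup.index_ne_zero_of_finite

theorem closure_normal {s : Set G} (h : ∀ x ∈ s, ∀ g : G, g * x * g⁻¹ ∈ s) : (Subgroup.closure s).Normal :=
  ⟨fun x hx g => by
    have := Subgroup.mem_map_of_mem (MulAut.conj g).toMonoidHom hx
    rw [MonoidHom.map_closure] at this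
    refine Subgroup.closure_mono ?_ (by simpa using this)
    rintro _ ⟨y, hy, rfl⟩
    simpa using h y hy g⟩

variable [Finite G] {p : ℕ} [Fact p.Prime]

/-- The centralizer of `S` in `X` has index at most `|S : B|` when `[X, S]` lies in a central subgroup
of order `p`. -/
theorem centralizer_index_le (hG : IsPGroup p G) (X B Z : Subgroup G) (hZ : Z ≤ Subgroup.center G)
    (hZc : Nat.card Z = p) (hB : ∀ x ∈ X, ∀ b ∈ B, x * b = b * x) :
    ∀ (S : Subgroup G), B ≤ S → (∀ x ∈ X, ∀ s ∈ S, x * s * x⁻¹ * s⁻¹ ∈ Z) →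
      (Subgroup.centralizer (S : Set G)).relIndex X ≤ B.relIndex S := by
  intro S
  induction hS : Nat.card S using Nat.strong_induction_on generalizing S with
  | _ m ih =>
    intro hBS hcomm
    subst hS
    rcases eq_or_lt_of_le hBS with e | hlt
    · subst e
      have : X ≤ Subgroup.centralizer (B : Set G) := fun x hx =>
        Subgroup.mem_centralizer_iff.2 fun b hb => (hB x hx b hb).symm
      rw [Subgroup.relIndex_eq_one.2 this, Subgroup.relIndex_self]
    obtain ⟨S', ⟨hBS', hS'lt⟩, hmax⟩ := Set.Finite.exists_maximalFor (fun T : Subgroup G => Nat.card T)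
      {T : Subgroup G | B ≤ T ∧ T < S} (Set.toFinite _) ⟨B, le_rfl, hlt⟩
    obtain ⟨s, hsS, hsS'⟩ := SetLike.exists_of_lt hS'lt
    have hgen : S' ⊔ Subgroup.zpowers s = S := by
      by_contra hne
      have hle : S' ⊔ Subgroup.zpowers s ≤ S := sup_le hS'lt.le (Subgroup.zpowers_le.2 hsS)
      have hlt' : S' < S' ⊔ Subgroup.zpowers s := lt_of_le_of_ne le_sup_left fun e =>
        hsS' (e ▸ Subgroup.mem_sup_right (Subgroup.mem_zpowers s))
      have h1 : Nat.card S' < Nat.card (S' ⊔ Subgroup.zpowers s : Subgroup G) := by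
        refine lt_of_le_of_ne (Subgroup.card_le_of_le hlt'.le) fun e => hlt'.ne ?_
        exact Subgroup.eq_of_le_of_card_ge hlt'.le e.ge
      have h2 := hmax (j := S' ⊔ Subgroup.zpowers s) ⟨hBS'.trans le_sup_left, lt_of_le_of_ne hle hne⟩ h1.le
      simp only at h2
      omega
    have hcard' : Nat.card S' < Nat.card S := by
      refine lt_of_le_of_ne (Subgroup.card_le_of_le hS'lt.le) fun e => hS'lt.ne ?_
      exact Subgroup.eq_of_le_of_card_ge hS'lt.le e.ge
    have h1 := ih _ hcard' S' rfl hBS' (fun x hx t ht => hcomm x hx t (hS'lt.le ht))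
    have hC : Subgroup.centralizer (S' : Set G) ⊓ Subgroup.centralizer ({s} : Set G) ≤
        Subgroup.centralizer (S : Set G) := by
      intro g hg
      rw [← hgen, Subgroup.zpowers_eq_closure, ← Subgroup.closure_eq S', ← Subgroup.closure_union,
        Subgroup.centralizer_closure, Subgroup.mem_centralizer_iff]
      rintro t (ht | ht)
      · exact Subgroup.mem_centralizer_iff.1 hg.1 t ht
      · exact Subgroup.mem_centralizer_iff.1 hg.2 t ht
    have h2 : (Subgroup.centralizer ({s} : Set G)).relIndex X ≤ p := by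
      let θ : X →* Z := MonoidHom.mk' (fun x => ⟨(x : G) * s * (x : G)⁻¹ * s⁻¹, hcomm x x.2 s hsS⟩) (fun x y => by
        refine Subtype.ext ?_
        have hc := Subgroup.mem_center_iff.1 (hZ (hcomm y y.2 s hsS)) (x : G)
        show (x : G) * y * s * ((x : G) * y)⁻¹ * s⁻¹ = (x * s * (x : G)⁻¹ * s⁻¹) * (y * s * (y : G)⁻¹ * s⁻¹)
        calc (x : G) * y * s * ((x : G) * y)⁻¹ * s⁻¹ = (x : G) * (y * s * (y : G)⁻¹ * s⁻¹) * s * (x : G)⁻¹ * s⁻¹ := by group
          _ = (y * s * (y : G)⁻¹ * s⁻¹) * ((x : G) * s * (x : G)⁻¹ * s⁻¹) := by rw [hc]; group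
          _ = _ := Subgroup.mem_center_iff.1 (hZ (hcomm x x.2 s hsS)) _)
      have hker : θ.ker = (Subgroup.centralizer ({s} : Set G)).subgroupOf X := by
        ext x
        rw [MonoidHom.mem_ker, Subgroup.mem_subgroupOf, Subgroup.mem_centralizer_singleton_iff, Subtype.ext_iff]
        show (x : G) * s * (x : G)⁻¹ * s⁻¹ = 1 ↔ _
        rw [mul_inv_eq_one, mul_inv_eq_iff_eq_mul]
      show (_ : Subgroup X).index ≤ p
      rw [← hker, Subgroup.index_ker, ← hZc]
      exact Nat.card_le_card_of_injective _ Subtype.val_injective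
    have h3 : p ≤ S'.relIndex S := by
      obtain ⟨j, hj⟩ := (hG.to_subgroup S).index (S'.subgroupOf S)
      rcases j with _ | j
      · exact absurd (Subgroup.relIndex_eq_one.1 (by rw [Subgroup.relIndex, hj, pow_zero])) hS'lt.not_ge
      · rw [Subgroup.relIndex, hj, pow_succ]
        exact Nat.le_mul_of_pos_left _ (pow_pos (Fact.out : p.Prime).pos _)
    calc (Subgroup.centralizer (S : Set G)).relIndex X
        ≤ (Subgroup.centralizer (S' : Set G) ⊓ Subgroup.centralizer ({s} : Set G)).relIndex X :=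
          Nat.le_of_dvd (relIndex_pos _ _) (Subgroup.relIndex_dvd_of_le_left X hC)
      _ ≤ _ := Subgroup.relIndex_inf_le ..
      _ ≤ B.relIndex S' * S'.relIndex S := Nat.mul_le_mul h1 (h2.trans h3)
      _ = B.relIndex S := Subgroup.relIndex_mul_relIndex B S' S hBS' hS'lt.le

/-- In a cyclic group the elements of order `p` generate the elements of exponent `p`. -/
theorem mem_of_cyclic (hp : p.Prime) {t a z : G} (ha : a ∈ Subgroup.zpowers t) (hz : z ∈ Subgroup.zpowers t)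
    (hzo : orderOf z = p) (hap : a ^ p = 1) : a ∈ Subgroup.zpowers z := by
  classical
  let _ : Fintype (Subgroup.zpowers t) := Fintype.ofFinite _
  by_contra hna
  have he := IsCyclic.card_pow_eq_one_le (α := Subgroup.zpowers t) hp.pos
  have hsub : insert (⟨a, ha⟩ : Subgroup.zpowers t) ((Finset.range p).image fun i => (⟨z, hz⟩ : Subgroup.zpowers t) ^ i) ⊆
      Finset.univ.filter fun w : Subgroup.zpowers t => w ^ p = 1 := by
    intro w hw
    rw [Finset.mem_filter]
    refine ⟨Finset.mem_univ _, ?_⟩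
    rcases Finset.mem_insert.mp hw with rfl | hw
    · exact Subtype.ext hap
    · obtain ⟨i, -, rfl⟩ := Finset.mem_image.mp hw
      rw [← pow_mul, mul_comm, pow_mul, (show (⟨z, hz⟩ : Subgroup.zpowers t) ^ p = 1 from
        Subtype.ext (by show z ^ p = 1; rw [← hzo, pow_orderOf_eq_one])), one_pow]
  have hcard := (Finset.card_le_card hsub).trans he
  rw [Finset.card_insert_of_notMem, Finset.card_image_of_injOn, Finset.card_range] at hcard
  · omega
  · have hord : orderOf (⟨z, hz⟩ : Subgroup.zpowers t) = p := by rw [← Subgroup.orderOf_coe, hzo]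
    exact fun i hi j hj hij => pow_injOn_Iio_orderOf
      (by rw [hord]; simpa using hi) (by rw [hord]; simpa using hj) hij
  · rw [Finset.mem_image]
    rintro ⟨i, -, hi⟩
    exact hna (Subgroup.mem_zpowers_iff.2 ⟨i, by simpa using congrArg Subtype.val hi⟩)

/-- A subgroup with centre `Z` of order `p` and elementary abelian quotient by it is extraspecial. -/
theorem extraspecial_of (hG : IsPGroup p G) (E Z : Subgroup G) (hZE : Z ≤ E) (hZcard : Nat.card Z = p)
    (hZcen : Z ≤ Subgroup.center G) (hcen : ∀ e ∈ E, (∀ x ∈ E, Commute e x) → e ∈ Z)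
    (hcomm : ∀ a, a ∈ E → ∀ b, b ∈ E → a * b * a⁻¹ * b⁻¹ ∈ Z) (hpow : ∀ a, a ∈ E → a ^ p ∈ Z)
    (hne : E ≠ Z) : Cfsg.IsExtraspecial p ↥E := by
  have hZ : Subgroup.center E = Z.subgroupOf E := by
    ext e
    rw [Subgroup.mem_center_iff, Subgroup.mem_subgroupOf]
    exact ⟨fun h => hcen e e.2 fun x hx => (congrArg Subtype.val (h ⟨x, hx⟩)).symm,
      fun h y => Subtype.ext (Subgroup.mem_center_iff.1 (hZcen h) y)⟩
  have hc : Nat.card (Subgroup.center E) = p := by
    rw [hZ, Nat.card_congr (Subgroup.subgroupOfEquivOfLe hZE).toEquiv, hZcard]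
  have h1 : commutator E ≤ Subgroup.center E := by
    rw [commutator_def, Subgroup.commutator_le, hZ]
    exact fun a _ b _ => Subgroup.mem_subgroupOf.2 (hcomm a a.2 b b.2)
  have h2 : commutator E = Subgroup.center E := by
    rcases (Nat.dvd_prime Fact.out).1 (hc ▸ Subgroup.card_dvd_of_le h1) with e | e
    · exfalso
      apply hne
      refine le_antisymm (fun a ha => hcen a ha fun x hx => ?_) hZE
      have hmem : ⁅(⟨a, ha⟩ : E), (⟨x, hx⟩ : E)⁆ ∈ commutator E :=
        Subgroup.commutator_mem_commutator (Subgroup.mem_top _) (Subgroup.mem_top _)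
      rw [Subgroup.card_eq_one.1 e, Subgroup.mem_bot, commutatorElement_eq_one_iff_mul_comm] at hmem
      exact congrArg Subtype.val hmem
    · exact Subgroup.eq_of_le_of_card_ge h1 (by rw [e, hc])
  refine ⟨⟨hG.to_subgroup E, ?_, h2⟩, hc⟩
  refine le_antisymm (Cfsg.Agent.FGS3.frattini_le_of_elementary (p := p) h1 fun a => ?_)
    (h2 ▸ Cfsg.Agent.FGS3.commutator_le_frattini (hG.to_subgroup E))
  rw [hZ, Subgroup.mem_subgroupOf]
  simpa using hpow a a.2

/-- `E * R` with `R` non-abelian of order `p ^ 3`. -/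
theorem extraspecial_top_of_small (hG : IsPGroup p G) (hna : ∃ a b : G, ¬ Commute a b) (E R Z : Subgroup G)
    (hER : ∀ e ∈ E, ∀ r ∈ R, e * r = r * e) (htop : E ⊔ R = ⊤) (hZE : Z ≤ E) (hZcard : Nat.card Z = p)
    (hZcen : Z ≤ Subgroup.center G) (hcen : ∀ e ∈ E, (∀ x ∈ E, Commute e x) → e ∈ Z)
    (hcomm : ∀ a, a ∈ E → ∀ b, b ∈ E → a * b * a⁻¹ * b⁻¹ ∈ Z) (hpow : ∀ a, a ∈ E → a ^ p ∈ Z)
    (hZR : Z ≤ R) (hRna : ¬ IsMulCommutative R) (hRcard : Nat.card R = p ^ 3) :
    Cfsg.IsExtraspecial p ↥(⊤ : Subgroup G) := by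
  have hp : p.Prime := Fact.out
  set Z' := Z.subgroupOf R with hZ'
  have hZ'c : Nat.card Z' = p := by rw [Nat.card_congr (Subgroup.subgroupOfEquivOfLe hZR).toEquiv, hZcard]
  have hZ'le : Z' ≤ Subgroup.center R := fun x hx =>
    Subgroup.mem_center_iff.2 fun y => Subtype.ext (Subgroup.mem_center_iff.1 (hZcen hx) y)
  haveI : Z'.Normal := ⟨fun x hx g => by
    rw [(Subgroup.mem_center_iff.1 (hZ'le hx) g), mul_inv_cancel_right]; exact hx⟩
  have hQ : Nat.card (R ⧸ Z') = p ^ 2 := by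
    have := Z'.card_mul_index
    rw [hZ'c, hRcard, Subgroup.index_eq_card, pow_succ'] at this
    exact Nat.eq_of_mul_eq_mul_left hp.pos this
  have hnc : ¬ IsCyclic (R ⧸ Z') := fun h => hRna
    ((QuotientGroup.mk' Z').isMulCommutative_of_isCyclic_of_ker_le_center (by rw [QuotientGroup.ker_mk']; exact hZ'le))
  haveI := IsPGroup.isMulCommutative_of_card_eq_prime_sq (p := p) hQ
  have hRc : ∀ a ∈ R, ∀ b ∈ R, a * b * a⁻¹ * b⁻¹ ∈ Z := by
    intro a ha b hb
    have h1 : QuotientGroup.mk' Z' (⟨a, ha⟩ * ⟨b, hb⟩ * (⟨a, ha⟩)⁻¹ * (⟨b, hb⟩)⁻¹) = 1 := by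
      rw [map_mul, map_mul, map_mul, map_inv, map_inv, mul_comm' (QuotientGroup.mk' Z' ⟨a, ha⟩)]
      group
    have h2 := MonoidHom.mem_ker.2 h1
    rw [QuotientGroup.ker_mk'] at h2
    exact h2
  have hRp : ∀ a ∈ R, a ^ p ∈ Z := by
    intro a ha
    have h1 : ((⟨a, ha⟩ : R) : R ⧸ Z') ^ p = 1 := by
      obtain ⟨k, hk, hk'⟩ := (Nat.dvd_prime_pow hp).1 (hQ ▸ orderOf_dvd_natCard ((⟨a, ha⟩ : R) : R ⧸ Z'))
      have : k ≤ 1 := by
        by_contra h
        exact hnc (isCyclic_of_orderOf_eq_card _ (by rw [hk', hQ, show k = 2 by omega]))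
      rw [← orderOf_dvd_iff_pow_eq_one, hk']
      exact (pow_dvd_pow p this).trans (pow_one p).dvd
    rw [← QuotientGroup.mk_pow, QuotientGroup.eq_one_iff] at h1
    exact h1
  have hRcen : ∀ r ∈ R, (∀ x ∈ R, Commute r x) → r ∈ Z := by
    intro r hr hc
    have hrc : (⟨r, hr⟩ : R) ∈ Subgroup.center R := Subgroup.mem_center_iff.2 fun y => Subtype.ext (hc y y.2).eq.symm
    by_contra hrZ
    have hlt : Z' < Subgroup.center R := lt_of_le_of_ne hZ'le fun e => hrZ (e.symm ▸ hrc : (⟨r, hr⟩ : R) ∈ Z')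
    have h1 : Nat.card (R ⧸ Subgroup.center R) ∣ p := by
      have h2 := Subgroup.relIndex_mul_index (hlt.le)
      rw [Subgroup.index_eq_card Z', hQ, Subgroup.index_eq_card] at h2
      have h3 : 1 < Z'.relIndex (Subgroup.center R) := lt_of_le_of_ne (relIndex_pos _ _) fun e =>
        hlt.not_ge (Subgroup.relIndex_eq_one.1 e.symm)
      obtain ⟨i, hi, hi'⟩ := (Nat.dvd_prime_pow hp).1 (Dvd.intro_left _ h2)
      rw [hi']
      rcases Nat.lt_or_ge i 2 with h | h
      · exact (pow_dvd_pow p (show i ≤ 1 by omega)).trans (pow_one p).dvd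
      · exfalso
        rw [hi', show i = 2 by omega] at h2
        exact h3.ne' (Nat.eq_of_mul_eq_mul_right (pow_pos hp.pos 2) (h2.trans (one_mul _).symm))
    haveI : IsCyclic (R ⧸ Subgroup.center R) := by
      rcases (Nat.dvd_prime hp).1 h1 with e | e
      · haveI := (Nat.card_eq_one_iff_unique.mp e).1
        infer_instance
      · exact isCyclic_of_prime_card e
    exact hRna ((QuotientGroup.mk' (Subgroup.center R)).isMulCommutative_of_isCyclic_of_ker_le_center
      (by rw [QuotientGroup.ker_mk']))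
  haveI : R.Normal := ⟨fun r hr g => by
    have : g ∈ E ⊔ R := htop ▸ Subgroup.mem_top g
    have hle : E ⊔ R ≤ Subgroup.normalizer (R : Set G) := sup_le (fun e he => Subgroup.mem_normalizer_iff.2 fun x =>
      ⟨fun hx => by rw [hER e he x hx, mul_inv_cancel_right]; exact hx, fun hx => by
        have h1 := hER e he _ hx
        have h2 : x = e * x * e⁻¹ := by
          calc x = e⁻¹ * (e * x * e⁻¹ * e) := by group
            _ = e⁻¹ * (e * (e * x * e⁻¹)) := by rw [h1]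
            _ = e * x * e⁻¹ := by group
        rwa [h2]⟩) Subgroup.le_normalizer
    exact (Subgroup.mem_normalizer_iff.1 (hle this) r).1 hr⟩
  have hsplit : ∀ g : G, ∃ e ∈ E, ∃ r ∈ R, g = e * r := fun g => by
    have := htop.ge (Subgroup.mem_top g)
    rw [Subgroup.mem_sup_of_normal_right] at this
    obtain ⟨e, he, r, hr, h⟩ := this
    exact ⟨e, he, r, hr, h.symm⟩
  refine extraspecial_of hG ⊤ Z le_top hZcard hZcen ?_ ?_ ?_ ?_
  · intro g _ hg
    obtain ⟨e, he, r, hr, rfl⟩ := hsplit g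
    refine mul_mem (hcen e he fun x hx => ?_) (hRcen r hr fun x hx => ?_)
    · have h1 := hg x (Subgroup.mem_top x)
      have h2 : Commute r x := (hER x hx r hr).symm
      have h3 := h1.mul_left h2.inv_left
      rwa [mul_inv_cancel_right] at h3
    · have h1 := hg x (Subgroup.mem_top x)
      have h2 : Commute e x := hER e he x hx
      have h3 := h2.inv_left.mul_left h1
      rwa [inv_mul_cancel_left] at h3
  · intro x _ y _
    obtain ⟨a, ha, r, hr, rfl⟩ := hsplit x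
    obtain ⟨b, hb, s, hs, rfl⟩ := hsplit y
    have e1 : a * r * (b * s) * (a * r)⁻¹ * (b * s)⁻¹ = (a * b * a⁻¹ * b⁻¹) * (r * s * r⁻¹ * s⁻¹) := by
      have c1 : r * b = b * r := (hER b hb r hr).symm
      have c2 : a * (b * (r * s * r⁻¹)) = a * b * (r * s * r⁻¹) := (mul_assoc _ _ _).symm
      have c3 : a⁻¹ * (s⁻¹ * b⁻¹) = (a⁻¹ * b⁻¹) * s⁻¹ := by
        have := hER b hb s hs
        rw [mul_assoc a⁻¹ b⁻¹, ← mul_inv_rev, ← mul_inv_rev s, this]
      have c4 : (r * s * r⁻¹) * (a⁻¹ * b⁻¹) = (a⁻¹ * b⁻¹) * (r * s * r⁻¹) :=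
        (hER _ (mul_mem (inv_mem ha) (inv_mem hb)) _ (mul_mem (mul_mem hr hs) (inv_mem hr))).symm
      calc a * r * (b * s) * (a * r)⁻¹ * (b * s)⁻¹ = a * (r * b) * s * r⁻¹ * (a⁻¹ * (s⁻¹ * b⁻¹)) := by group
        _ = a * b * ((r * s * r⁻¹) * (a⁻¹ * b⁻¹)) * s⁻¹ := by rw [c1, c3]; group
        _ = _ := by rw [c4]; group
    rw [e1]
    exact mul_mem (hcomm a ha b hb) (hRc r hr s hs)
  · intro x _
    obtain ⟨a, ha, r, hr, rfl⟩ := hsplit x
    rw [(show Commute a r from hER a ha r hr).mul_pow]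
    exact mul_mem (hpow a ha) (hRp r hr)
  · intro htopZ
    obtain ⟨a, b, hab⟩ := hna
    exact hab (Subgroup.mem_center_iff.1 (hZcen (htopZ ▸ Subgroup.mem_top a)) b).symm

/-- Structure theorem. -/
theorem main (hG : IsPGroup p G)
    (hsymp : ∀ A : Subgroup G, A.Characteristic → IsMulCommutative A → IsCyclic A) :
    ∃ E R : Subgroup G, (∀ e ∈ E, ∀ r ∈ R, e * r = r * e) ∧ E ⊔ R = ⊤ ∧
      (E = ⊥ ∨ Cfsg.IsExtraspecial p ↥E) ∧ (IsCyclic R ∨ (p = 2 ∧ 16 ≤ Nat.card R ∧
        ((∃ m : ℕ, Nonempty (↥R ≃* DihedralGroup m)) ∨ (∃ m : ℕ, Nonempty (↥R ≃* QuaternionGroup m)) ∨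
          Cfsg.IsQuasiDihedral ↥R))) := by
  classical
  have hp : p.Prime := Fact.out
  by_cases hab : IsMulCommutative (⊤ : Subgroup G)
  · exact ⟨⊥, ⊤, fun e he r _ => by rw [Subgroup.mem_bot.1 he, one_mul, mul_one], bot_sup_eq ⊤,
      Or.inl rfl, Or.inl (hsymp ⊤ inferInstance hab)⟩
  haveI := hG.isNilpotent
  have hna' : ∃ a b : G, ¬ Commute a b := by
    by_contra h
    push Not at h
    exact hab ⟨⟨fun a b => Subtype.ext (h a b)⟩⟩
  -- a maximal characteristic abelian subgroup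
  obtain ⟨U, ⟨hUch, hUab⟩, hUmax⟩ := Set.Finite.exists_maximalFor (fun T : Subgroup G => Nat.card T)
    {T : Subgroup G | T.Characteristic ∧ IsMulCommutative T} (Set.toFinite _)
    ⟨⊥, inferInstance, ⟨⟨fun a b => Subsingleton.elim _ _⟩⟩⟩
  haveI := hUch
  have hUc := hsymp U hUch hUab
  have hmax' : ∀ T : Subgroup G, T.Characteristic → IsMulCommutative T → U ≤ T → T = U := fun T h1 h2 h3 =>
    (Subgroup.eq_of_le_of_card_ge h3 (hUmax (j := T) ⟨h1, h2⟩ (Subgroup.card_le_of_le h3))).symm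
  obtain ⟨u, hu⟩ := (Subgroup.isCyclic_iff_exists_zpowers_eq_top U).1 hUc
  have hUcomm : ∀ x ∈ U, ∀ y ∈ U, x * y = y * x := fun x hx y hy =>
    congrArg Subtype.val (hUab.is_comm.comm (⟨x, hx⟩ : U) ⟨y, hy⟩)
  have hUne : U ≠ ⊥ := by
    intro e
    have h1 := hmax' (Subgroup.center G) inferInstance inferInstance (e ▸ bot_le)
    haveI : Nontrivial G := by
      by_contra h
      rw [not_nontrivial_iff_subsingleton] at h
      exact hab ⟨⟨fun a b => Subsingleton.elim _ _⟩⟩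
    haveI := hG.center_nontrivial
    exact (Subgroup.nontrivial_iff_ne_bot _).1 this (h1.trans e)
  obtain ⟨n, hn⟩ := IsPGroup.iff_orderOf.1 hG u
  have hn1 : 1 ≤ n := Nat.one_le_iff_ne_zero.2 fun e => hUne (by
    have : u = 1 := orderOf_eq_one_iff.1 (by rw [hn, e, pow_zero])
    rw [← hu, this, Subgroup.zpowers_one_eq_bot])
  have hUcard : Nat.card U = p ^ n := by rw [← hu, Nat.card_zpowers, hn]
  set z := u ^ p ^ (n - 1) with hz
  have hzo : orderOf z = p := by
    rw [hz, orderOf_pow' _ (pow_ne_zero _ hp.ne_zero), hn, Nat.gcd_eq_right (pow_dvd_pow p (Nat.sub_le n 1)),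
      Nat.pow_div (Nat.sub_le n 1) hp.pos, show n - (n - 1) = 1 by omega, pow_one]
  set Z := Subgroup.zpowers z with hZdef
  have hZcard : Nat.card Z = p := by rw [hZdef, Nat.card_zpowers, hzo]
  have huU : u ∈ U := hu ▸ Subgroup.mem_zpowers u
  have hZU : Z ≤ U := Subgroup.zpowers_le.2 (pow_mem huU _)
  have hZmem : ∀ x ∈ U, x ^ p = 1 → x ∈ Z := by
    intro x hx hxp
    obtain ⟨t, rfl⟩ := Subgroup.mem_zpowers_iff.1 (hu.symm ▸ hx : x ∈ Subgroup.zpowers u)
    rw [← zpow_natCast, ← zpow_mul, ← orderOf_dvd_iff_zpow_eq_one, hn,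
      show n = (n - 1) + 1 by omega, pow_succ, Nat.cast_mul,
      mul_dvd_mul_iff_right (Int.natCast_ne_zero.2 hp.ne_zero)] at hxp
    obtain ⟨d, hd⟩ := hxp
    rw [hd, zpow_mul, zpow_natCast]
    exact Subgroup.zpow_mem _ (Subgroup.mem_zpowers z) d
  have hZp : ∀ x ∈ Z, x ^ p = 1 := fun x hx =>
    orderOf_dvd_iff_pow_eq_one.1 (hZcard ▸ Subgroup.orderOf_dvd_natCard Z hx)
  haveI hUn : U.Normal := inferInstance
  haveI hZn : Z.Normal := ⟨fun x hx g => hZmem _ (hUn.conj_mem x (hZU hx) g)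
    (by rw [conj_pow, hZp x hx, mul_one, mul_inv_cancel])⟩
  have hZcen : Z ≤ Subgroup.center G := by
    obtain ⟨w, hwZ, hw1, hwc⟩ := Cfsg.Agent.OddLocal.exists_ne_one_mem_center_of_normal Z
      (fun e => by rw [e, Subgroup.card_bot] at hZcard; exact hp.one_lt.ne hZcard)
    have : Subgroup.zpowers w = Z := Subgroup.eq_of_le_of_card_ge (Subgroup.zpowers_le.2 hwZ)
      (by rw [Nat.card_zpowers w, orderOf_eq_prime (hZp w hwZ) hw1, hZcard])
    exact this ▸ Subgroup.zpowers_le.2 hwc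
  have hZc : ∀ x ∈ Z, ∀ g : G, Commute x g := fun x hx g => (Subgroup.mem_center_iff.1 (hZcen hx) g).symm
  -- `H`
  set C := Subgroup.centralizer (U : Set G) with hC
  have hUC : U ≤ C := fun x hx => Subgroup.mem_centralizer_iff.2 fun y hy => hUcomm y hy x hx
  have hCU : ∀ g ∈ C, ∀ x ∈ U, Commute x g := fun g hg x hx => Subgroup.mem_centralizer_iff.1 hg x hx
  let H : Subgroup G :=
    { carrier := {g | g ∈ C ∧ (∀ x : G, g * x * g⁻¹ * x⁻¹ ∈ U) ∧ g ^ p ∈ U}
      one_mem' := ⟨one_mem _, fun x => by simp, by simp⟩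
      mul_mem' := by
        rintro a b ⟨ha, ha2, ha3⟩ ⟨hb, hb2, hb3⟩
        refine ⟨mul_mem ha hb, fun x => ?_, ?_⟩
        · rw [show a * b * x * (a * b)⁻¹ * x⁻¹ = a * (b * x * b⁻¹ * x⁻¹) * a⁻¹ * (a * x * a⁻¹ * x⁻¹) by group]
          exact mul_mem (hUn.conj_mem _ (hb2 x) a) (ha2 x)
        · rw [pow_mul' (fun x hx => by
            rcases hx with rfl | rfl
            · exact hCU _ ha _ (hb2 _)
            · exact hCU _ hb _ (hb2 _)) p]
          exact mul_mem (mul_mem ha3 hb3) (pow_mem (hb2 a) _)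
      inv_mem' := by
        rintro a ⟨ha, ha2, ha3⟩
        refine ⟨inv_mem ha, fun x => ?_, by rw [inv_pow]; exact inv_mem ha3⟩
        rw [show a⁻¹ * x * a⁻¹⁻¹ * x⁻¹ = a⁻¹ * (a * x * a⁻¹ * x⁻¹)⁻¹ * a⁻¹⁻¹ by group]
        exact hUn.conj_mem _ (inv_mem (ha2 x)) a⁻¹ }
  have hHmem : ∀ g, g ∈ H ↔ g ∈ C ∧ (∀ x : G, g * x * g⁻¹ * x⁻¹ ∈ U) ∧ g ^ p ∈ U := fun g => Iff.rfl
  haveI hHch : H.Characteristic := char_of_forall H fun α g ⟨h1, h2, h3⟩ => by
    refine ⟨Subgroup.mem_centralizer_iff.2 fun y hy => ?_, fun x => ?_, ?_⟩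
    · have h4 := hCU g h1 (α.symm y) (char_apply hUch α.symm hy)
      simpa using congrArg α h4.eq
    · simpa using char_apply hUch α (h2 (α.symm x))
    · rw [← map_pow]; exact char_apply hUch α h3
  have hUH : U ≤ H := fun x hx => ⟨hUC hx, fun y => by
    rw [show x * y * x⁻¹ * y⁻¹ = x * (y * x⁻¹ * y⁻¹) by group]
    exact mul_mem hx (hUn.conj_mem _ (inv_mem hx) y), pow_mem hx p⟩
  have hHH : ∀ a ∈ H, ∀ b ∈ H, a * b * a⁻¹ * b⁻¹ ∈ Z := by
    intro a ha b hb
    refine hZmem _ (ha.2.1 b) ?_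
    rw [← conj_pow_comm rfl (hCU a ha.1 _ (ha.2.1 b)) p, (hCU b hb.1 _ ha.2.2).eq, mul_inv_cancel_right,
      mul_inv_cancel]
  have hZH : ∀ h ∈ H, (∀ x ∈ H, Commute h x) → h ∈ U := by
    intro h hh hc
    set T := (Subgroup.center H).map H.subtype with hT
    have hTab : IsMulCommutative T := by rw [hT]; infer_instance
    have hTch : T.Characteristic := char_of_forall T fun α g hg => by
      obtain ⟨⟨g, hgH⟩, hgc, rfl⟩ := hg
      refine ⟨⟨α g, char_apply hHch α hgH⟩, Subgroup.mem_center_iff.2 fun y => Subtype.ext ?_, rfl⟩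
      have := congrArg Subtype.val (Subgroup.mem_center_iff.1 hgc ⟨α.symm y, char_apply hHch α.symm y.2⟩)
      simpa using congrArg α this
    have hUT : U ≤ T := fun x hx => ⟨⟨x, hUH hx⟩, Subgroup.mem_center_iff.2 fun y => Subtype.ext
      (hCU y y.2.1 x hx).eq.symm, rfl⟩
    rw [← hmax' T hTch hTab hUT]
    exact ⟨⟨h, hh⟩, Subgroup.mem_center_iff.2 fun y => Subtype.ext (hc y y.2).eq.symm, rfl⟩
  -- `C(H) = U`
  have hCH : ∀ g : G, (∀ x ∈ H, Commute g x) → g ∈ U := by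
    set D := Subgroup.centralizer (H : Set G) with hD
    suffices hDU : D ≤ U from fun g hg => hDU (Subgroup.mem_centralizer_iff.2 fun x hx => (hg x hx).eq.symm)
    haveI : D.Normal := by rw [hD]; infer_instance
    by_contra hDU
    set Dq := D.map (QuotientGroup.mk' U) with hDq
    have hne : Dq ≠ ⊥ := by
      rw [Ne, hDq, Subgroup.map_eq_bot_iff, QuotientGroup.ker_mk']
      exact hDU
    haveI := (hG.to_quotient U).isNilpotent
    haveI : Dq.Normal := (inferInstance : D.Normal).map _ (QuotientGroup.mk'_surjective U)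
    obtain ⟨w, hw, hw1, hwc⟩ := Cfsg.Agent.OddLocal.exists_ne_one_mem_center_of_normal Dq hne
    obtain ⟨k, hk⟩ := IsPGroup.iff_orderOf.1 (hG.to_quotient U) w
    have hk1 : 1 ≤ k := Nat.one_le_iff_ne_zero.2 fun e => hw1 (orderOf_eq_one_iff.1 (by rw [hk, e, pow_zero]))
    obtain ⟨d, hd, hdw⟩ := hw
    have hdD : d ^ p ^ (k - 1) ∈ D := pow_mem hd _
    have hdH : d ^ p ^ (k - 1) ∈ H := by
      refine ⟨Subgroup.mem_centralizer_iff.2 fun x hx => Subgroup.mem_centralizer_iff.1 hdD x (hUH hx), fun x => ?_, ?_⟩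
      · rw [← QuotientGroup.eq_one_iff]
        have h1 := Subgroup.mem_center_iff.1 ((Subgroup.center _).pow_mem hwc (p ^ (k - 1))) (QuotientGroup.mk' U x)
        rw [← hdw] at h1
        simp only [QuotientGroup.mk_mul, QuotientGroup.mk_inv, QuotientGroup.mk_pow, QuotientGroup.mk'_apply] at h1 ⊢
        rw [← h1]; group
      · rw [← QuotientGroup.eq_one_iff, ← pow_mul, ← pow_succ, Nat.sub_add_cancel hk1, QuotientGroup.mk_pow,
          ← QuotientGroup.mk'_apply, hdw, ← hk, pow_orderOf_eq_one]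
    have h2 := hZH _ hdH fun x hx => (Subgroup.mem_centralizer_iff.1 hdD x hx).symm
    have h3 : w ^ p ^ (k - 1) = 1 := by
      rw [← hdw, ← map_pow]; exact (QuotientGroup.eq_one_iff _).2 h2
    have h4 := orderOf_dvd_iff_pow_eq_one.2 h3
    rw [hk, Nat.pow_dvd_pow_iff_le_right hp.one_lt] at h4
    omega
  -- `K`
  let K : Subgroup G :=
    { carrier := {g | g ∈ H ∧ g ^ p ∈ Z}
      one_mem' := ⟨one_mem _, by simp⟩
      mul_mem' := by
        rintro a b ⟨ha, ha2⟩ ⟨hb, hb2⟩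
        refine ⟨mul_mem ha hb, ?_⟩
        rw [pow_mul' (fun x _ => hZc _ (hHH b hb a ha) x) p]
        exact mul_mem (mul_mem ha2 hb2) (pow_mem (hHH b hb a ha) _)
      inv_mem' := by
        rintro a ⟨ha, ha2⟩
        exact ⟨inv_mem ha, by rw [inv_pow]; exact inv_mem ha2⟩ }
  have hKmem : ∀ g, g ∈ K ↔ g ∈ H ∧ g ^ p ∈ Z := fun g => Iff.rfl
  have hZα : ∀ α : G ≃* G, ∀ x ∈ Z, α x ∈ Z := fun α x hx =>
    hZmem _ (char_apply hUch α (hZU hx)) (by rw [← map_pow, hZp x hx, map_one])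
  haveI hKch : K.Characteristic := char_of_forall K fun α g ⟨h1, h2⟩ =>
    ⟨char_apply hHch α h1, by rw [← map_pow]; exact hZα α _ h2⟩
  have hKc : ∀ g ∈ K, (∀ x ∈ K, Commute g x) → g ∈ U := by
    intro g hg hc
    rcases eq_or_lt_of_le hn1 with e | hn2
    · refine hZH g hg.1 fun x hx => hc x ⟨hx, ?_⟩
      refine hZmem _ hx.2.2 ?_
      have := orderOf_dvd_iff_pow_eq_one.1 (hUcard ▸ Subgroup.orderOf_dvd_natCard U hx.2.2)
      rwa [← e, pow_one] at this
    set T := (Subgroup.center K).map K.subtype with hT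
    have hTab : IsMulCommutative T := by rw [hT]; infer_instance
    have hTch : T.Characteristic := char_of_forall T fun α g hg => by
      obtain ⟨⟨g, hgK⟩, hgc, rfl⟩ := hg
      refine ⟨⟨α g, char_apply hKch α hgK⟩, Subgroup.mem_center_iff.2 fun y => Subtype.ext ?_, rfl⟩
      have := congrArg Subtype.val (Subgroup.mem_center_iff.1 hgc ⟨α.symm y, char_apply hKch α.symm y.2⟩)
      simpa using congrArg α this
    haveI hTc := hsymp T hTch hTab
    have hgT : g ∈ T := ⟨⟨g, hg⟩, Subgroup.mem_center_iff.2 fun y => Subtype.ext (hc y y.2).eq.symm, rfl⟩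
    set w := u ^ p ^ (n - 2) with hw
    have hwK : w ∈ K := ⟨hUH (pow_mem huU _), by
      rw [hw, ← pow_mul, ← pow_succ, show n - 2 + 1 = n - 1 by omega]
      exact Subgroup.mem_zpowers z⟩
    have hwT : w ∈ T := ⟨⟨w, hwK⟩, Subgroup.mem_center_iff.2 fun y => Subtype.ext
      (hCU y y.2.1.1 w (pow_mem huU _)).eq.symm, rfl⟩
    obtain ⟨t, ht⟩ := (Subgroup.isCyclic_iff_exists_zpowers_eq_top T).1 hTc
    have hto : orderOf t ∣ p ^ 2 := by
      have htT : t ∈ T := ht ▸ Subgroup.mem_zpowers t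
      obtain ⟨⟨t', ht'⟩, -, rfl⟩ := htT
      rw [orderOf_dvd_iff_pow_eq_one, pow_two, pow_mul]
      exact hZp _ ht'.2
    have hle : Subgroup.zpowers w = T := by
      refine Subgroup.eq_of_le_of_card_ge (Subgroup.zpowers_le.2 hwT) ?_
      rw [← ht, Nat.card_zpowers, Nat.card_zpowers, hw, orderOf_pow' _ (pow_ne_zero _ hp.ne_zero), hn,
        Nat.gcd_eq_right (pow_dvd_pow p (Nat.sub_le n 2)), Nat.pow_div (Nat.sub_le n 2) hp.pos,
        show n - (n - 2) = 2 by omega]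
      exact Nat.le_of_dvd (pow_pos hp.pos 2) hto
    exact (Subgroup.zpowers_le.2 (pow_mem huU _)) (hle.symm ▸ hgT : g ∈ Subgroup.zpowers w)
  -- `H = K U`
  set S := K ⊔ U with hS
  have hKH : K ≤ H := fun g hg => hg.1
  have hSH : S ≤ H := sup_le hKH hUH
  have hroot : ∀ h ∈ H, ∀ e : ℤ, h ^ p = u ^ ((p : ℤ) * e) → h ∈ S := by
    intro h hh e he
    have huC : Commute (u ^ (-e)) h := hCU h hh.1 _ (U.zpow_mem huU _)
    have hk : u ^ (-e) * h ∈ K := ⟨mul_mem (hUH (U.zpow_mem huU _)) hh, by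
      rw [huC.mul_pow, he, ← zpow_natCast, ← zpow_mul, ← zpow_add, show -e * (p : ℤ) + p * e = 0 by ring, zpow_zero]
      exact one_mem _⟩
    have h1 := mul_mem (Subgroup.mem_sup_right (U.zpow_mem huU e) : _ ∈ S) (Subgroup.mem_sup_left hk)
    rwa [← mul_assoc, ← zpow_add, add_neg_cancel, zpow_zero, one_mul] at h1
  have hHS : H ≤ S := by
    by_contra hHS
    have hcyc : ∀ h ∈ H, h ∉ S → ∀ x ∈ H, ∃ j : ℕ, x * (h ^ j)⁻¹ ∈ S := by
      intro h hh hhS x hx
      obtain ⟨e, he⟩ := Subgroup.mem_zpowers_iff.1 (hu.symm ▸ hh.2.2 : h ^ p ∈ Subgroup.zpowers u)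
      obtain ⟨e', he'⟩ := Subgroup.mem_zpowers_iff.1 (hu.symm ▸ hx.2.2 : x ^ p ∈ Subgroup.zpowers u)
      have hcop : IsCoprime (p : ℤ) e := by
        refine (Nat.prime_iff_prime_int.1 hp).coprime_iff_not_dvd.2 fun ⟨d, hd⟩ => hhS (hroot h hh d ?_)
        rw [← he, hd]
      obtain ⟨a, b, hab'⟩ := hcop
      set j : ℕ := ((e' * b) % (p : ℤ)).toNat with hj
      refine ⟨j, ?_⟩
      obtain ⟨c, hc⟩ : ∃ c : ℤ, e' - j * e = p * c := by
        refine ⟨e' * a + (e' * b) / p * e, ?_⟩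
        rw [hj, Int.toNat_of_nonneg (Int.emod_nonneg _ (Int.natCast_ne_zero.2 hp.ne_zero))]
        linear_combination (-e') * hab' - e * Int.emod_add_mul_ediv (e' * b) p
      have hjH : (h ^ j)⁻¹ ∈ H := inv_mem (pow_mem hh j)
      have hcm := hHH _ hjH x hx
      have hpow : (x * (h ^ j)⁻¹) ^ p = u ^ ((p : ℤ) * c) * ((h ^ j)⁻¹ * x * (h ^ j)⁻¹⁻¹ * x⁻¹) ^ p.choose 2 := by
        have hA : ((h ^ j)⁻¹) ^ p = u ^ (-((j : ℤ) * e)) := by
          rw [inv_pow, ← pow_mul, mul_comm j, pow_mul, ← he, ← zpow_natCast (u ^ e), ← zpow_mul, ← zpow_neg,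
            mul_comm e]
        rw [pow_mul' (fun y _ => hZc _ hcm y) p, ← hc, sub_eq_add_neg, zpow_add, he', hA]
      rcases eq_or_lt_of_le hn1 with e1 | hn2
      · exfalso
        refine hhS (Subgroup.mem_sup_left ⟨hh, hZmem _ hh.2.2 ?_⟩)
        have := orderOf_dvd_iff_pow_eq_one.1 (hUcard ▸ Subgroup.orderOf_dvd_natCard U hh.2.2)
        rwa [← e1, pow_one] at this
      obtain ⟨i, hi⟩ := Subgroup.mem_zpowers_iff.1
        (pow_mem hcm (p.choose 2) : _ ∈ Subgroup.zpowers z)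
      refine hroot _ (mul_mem hx hjH) (c + (p : ℤ) ^ (n - 2) * i) ?_
      rw [hpow, ← hi, hz, ← zpow_natCast u (p ^ (n - 1)), ← zpow_mul, ← zpow_add]
      congr 1
      rw [Nat.cast_pow, show n - 1 = n - 2 + 1 by omega, pow_succ]
      ring
    have hlt : S < H := lt_of_le_not_ge hSH hHS
    obtain ⟨r, hrH, hrC, hrU⟩ : ∃ r ∈ H, r ∈ Subgroup.centralizer (S : Set G) ∧ r ∉ U := by
      by_contra hcon
      push Not at hcon
      have h1 := centralizer_index_le hG H U Z hZcen hZcard (fun x hx b hb => (hCU x hx.1 b hb).eq.symm) S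
        le_sup_right (fun x hx s hs => hHH x hx s (hSH hs))
      have h2 : (U.relIndex H) ∣ (Subgroup.centralizer (S : Set G)).relIndex H := by
        rw [← Subgroup.inf_relIndex_right (Subgroup.centralizer (S : Set G)) H]
        exact Subgroup.relIndex_dvd_of_le_left H fun g hg => hcon g hg.2 hg.1
      have h3 := Nat.le_of_dvd (relIndex_pos _ _) h2
      have h4 := Subgroup.relIndex_mul_relIndex U S H le_sup_right hlt.le
      have h5 : 1 < S.relIndex H := Nat.lt_of_le_of_ne (relIndex_pos _ _)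
        fun e => hlt.not_ge (Subgroup.relIndex_eq_one.1 e.symm)
      have h6 : 0 < U.relIndex S := relIndex_pos _ _
      nlinarith
    have hrK : ∀ x ∈ S, Commute x r := fun x hx => Subgroup.mem_centralizer_iff.1 hrC x hx
    by_cases hrS : r ∈ S
    · have hS2 := hrS
      rw [hS, Subgroup.mem_sup_of_normal_right] at hS2
      obtain ⟨k, hk, v, hv, rfl⟩ := hS2
      refine hrU (mul_mem (hKc k hk fun x hx => ?_) hv)
      have h1 := hrK x (Subgroup.mem_sup_left hx)
      have h2 : Commute x v := (hCU x hx.1.1 v hv).symm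
      have h3 := h1.mul_right h2.inv_right
      rw [mul_inv_cancel_right] at h3
      exact h3.symm 
    · refine hrU (hZH r hrH fun x hx => ?_)
      obtain ⟨j, hj⟩ := hcyc r hrH hrS x hx
      have := (hrK _ hj).symm.mul_right ((Commute.refl r).pow_right j)
      rwa [inv_mul_cancel_right] at this
  -- `E`
  set W := K ⊓ U with hW
  have hZK : Z ≤ K := fun x hx => ⟨hUH (hZU hx), by rw [hZp x hx]; exact one_mem _⟩
  obtain ⟨E, ⟨hZE, hEK, hEW⟩, hEmax⟩ := Set.Finite.exists_maximalFor (fun T : Subgroup G => Nat.card T)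
    {T : Subgroup G | Z ≤ T ∧ T ≤ K ∧ T ⊓ U ≤ Z} (Set.toFinite _) ⟨Z, le_rfl, hZK, inf_le_left⟩
  have hKEU : K ≤ E ⊔ U := by
    intro k hk
    by_contra hkn
    have hEn : Subgroup.zpowers k ≤ Subgroup.normalizer (E : Set G) := Subgroup.zpowers_le.2
      (Subgroup.mem_normalizer_iff.2 fun e => by
        constructor
        · intro he
          rw [show k * e * k⁻¹ = (k * e * k⁻¹ * e⁻¹) * e by group]
          exact mul_mem (hZE (hHH k hk.1 e (hEK he).1)) he
        · intro he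
          have h1 : e ∈ K := by
            have := mul_mem (mul_mem (inv_mem hk) (hEK he)) hk
            rwa [show k⁻¹ * (k * e * k⁻¹) * k = e by group] at this
          have h2 := mul_mem (inv_mem (hZE (hHH k hk.1 e h1.1))) he
          rwa [show (k * e * k⁻¹ * e⁻¹)⁻¹ * (k * e * k⁻¹) = e by group] at h2)
    set E' := E ⊔ Subgroup.zpowers k with hE'
    have hE'U : E' ⊓ U ≤ Z := by
      intro g ⟨hg, hgU⟩
      have hg' : g ∈ (↑(E ⊔ Subgroup.zpowers k) : Set G) := hg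
      rw [Subgroup.coe_mul_of_right_le_normalizer_left _ _ hEn] at hg'
      obtain ⟨e, he, _, ⟨i, rfl⟩, rfl⟩ := hg'
      have hki : k ^ i ∈ E ⊔ U := by
        have := mul_mem (Subgroup.mem_sup_left (inv_mem he) : _ ∈ E ⊔ U) (Subgroup.mem_sup_right hgU)
        rwa [inv_mul_cancel_left] at this
      by_cases hdvd : (p : ℤ) ∣ i
      · obtain ⟨d, rfl⟩ := hdvd
        have hkE : k ^ ((p : ℤ) * d) ∈ E := by
          rw [zpow_mul, zpow_natCast]
          exact hZE (Subgroup.zpow_mem _ hk.2 d)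
        exact hEW ⟨mul_mem he hkE, hgU⟩
      · exfalso
        obtain ⟨a, b, hab'⟩ := (Nat.prime_iff_prime_int.1 hp).coprime_iff_not_dvd.2 hdvd
        refine hkn ?_
        rw [← zpow_one k, ← hab', zpow_add, mul_comm a, zpow_mul, zpow_natCast, mul_comm b, zpow_mul]
        exact mul_mem (Subgroup.mem_sup_left (hZE (Subgroup.zpow_mem _ hk.2 a))) (Subgroup.zpow_mem _ hki b)
    have h1 : Nat.card E < Nat.card E' := by
      have hlt : E < E' := lt_of_le_of_ne le_sup_left fun e =>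
        hkn (Subgroup.mem_sup_left (e ▸ Subgroup.mem_sup_right (Subgroup.mem_zpowers k) : k ∈ E))
      refine lt_of_le_of_ne (Subgroup.card_le_of_le hlt.le) fun e => hlt.ne ?_
      exact Subgroup.eq_of_le_of_card_ge hlt.le e.ge
    have h2 := hEmax (j := E') ⟨hZE.trans le_sup_left, sup_le hEK (Subgroup.zpowers_le.2 hk), hE'U⟩ h1.le
    simp only at h2
    omega
  have hHEU : H = E ⊔ U := le_antisymm (hHS.trans (sup_le hKEU le_sup_right))
    (sup_le (hEK.trans hKH) hUH)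
  have hEC : ∀ e ∈ E, e ∈ H := fun e he => hKH (hEK he)
  have hGE : ∀ g : G, ∀ e ∈ E, g * e * g⁻¹ * e⁻¹ ∈ Z := by
    intro g e he
    set w := g * e * g⁻¹ * e⁻¹ with hwdef
    have hwU : w ∈ U := by
      rw [hwdef, show g * e * g⁻¹ * e⁻¹ = (e * g * e⁻¹ * g⁻¹)⁻¹ by group]
      exact inv_mem ((hEC e he).2.1 g)
    refine hZmem _ hwU ?_
    have h1 : g * e * g⁻¹ = w * e := by rw [hwdef]; group
    have h2 := congrArg (· ^ p) h1
    simp only [conj_pow, (hCU e (hEC e he).1 w hwU).mul_pow] at h2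
    rw [← (hZc _ (hEK he).2 g).eq, mul_inv_cancel_right] at h2
    exact mul_eq_right.1 h2.symm
  set R := Subgroup.centralizer (E : Set G) with hR
  haveI hEn : E.Normal := ⟨fun e he g => by
    rw [show g * e * g⁻¹ = (g * e * g⁻¹ * e⁻¹) * e by group]
    exact mul_mem (hZE (hGE g e he)) he⟩
  haveI hRn : R.Normal := by rw [hR]; infer_instance
  have hcen : ∀ e ∈ E, (∀ x ∈ E, Commute e x) → e ∈ Z := by
    intro e he hc
    refine hEW ⟨he, hZH e (hEC e he) fun x hx => ?_⟩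
    rw [hHEU, Subgroup.mem_sup_of_normal_left] at hx
    obtain ⟨a, ha, b, hb, rfl⟩ := hx
    exact (hc a ha).mul_right (hCU e (hEC e he).1 b hb).symm
  have htop : E ⊔ R = ⊤ := by
    have h1 := centralizer_index_le hG ⊤ Z Z hZcen hZcard (fun x _ b hb => (hZc b hb x).eq.symm) E hZE
      (fun x _ s hs => hGE x s hs)
    rw [Subgroup.relIndex_top_right] at h1
    have h2 : Z.relIndex E = R.relIndex E := by
      rw [← Subgroup.inf_relIndex_right R E]
      congr 1
      exact le_antisymm (le_inf (fun x hx => Subgroup.mem_centralizer_iff.2 fun e _ => (hZc x hx e).eq.symm) hZE)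
        fun x hx => hcen x hx.2 fun y hy => (Subgroup.mem_centralizer_iff.1 hx.1 y hy).symm
    rw [h2, ← Subgroup.relIndex_sup_right (H := E) (K := R)] at h1
    have h3 : R.relIndex (R ⊔ E) * (R ⊔ E).index = R.index := Subgroup.relIndex_mul_index le_sup_left
    rw [sup_comm E R] at *
    have h4 : 0 < R.index := Nat.pos_of_ne_zero Subgroup.index_ne_zero_of_finite
    refine Subgroup.index_eq_one.1 ?_
    have h5 : 0 < (R ⊔ E).index := Nat.pos_of_ne_zero Subgroup.index_ne_zero_of_finite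
    nlinarith
  have hUR : U ≤ R := fun x hx => Subgroup.mem_centralizer_iff.2 fun e he => ((hCU e (hEC e he).1 x hx).eq).symm
  have hRU : ∀ r ∈ R, (∀ x ∈ U, Commute r x) → r ∈ U := fun r hr hc => hCH r fun x hx => by
    rw [hHEU, Subgroup.mem_sup_of_normal_left] at hx
    obtain ⟨a, ha, b, hb, rfl⟩ := hx
    exact (show Commute r a from (Subgroup.mem_centralizer_iff.1 hr a ha).symm).mul_right (hc b hb)
  have hER : ∀ e ∈ E, ∀ r ∈ R, e * r = r * e := fun e he r hr => Subgroup.mem_centralizer_iff.1 hr e he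
  have hEex : E ≠ Z → Cfsg.IsExtraspecial p ↥E := fun hne =>
    extraspecial_of hG E Z hZE hZcard hZcen hcen (fun a ha b hb => hGE a b hb) (fun a ha => (hEK ha).2) hne
  by_cases hRab : ∀ r ∈ R, ∀ x ∈ U, Commute r x
  · -- `R` is cyclic
    have hRU' : R ≤ U := fun r hr => hRU r hr (hRab r hr)
    have hRcyc : IsCyclic R := by rw [le_antisymm hRU' hUR]; exact hUc
    by_cases hEZ : E = Z
    · refine ⟨⊥, R, fun e he r _ => by rw [Subgroup.mem_bot.1 he, one_mul, mul_one], ?_, Or.inl rfl, Or.inl hRcyc⟩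
      rw [bot_sup_eq]
      exact top_le_iff.1 (htop ▸ sup_le (hEZ ▸ hZU.trans hUR) le_rfl)
    · exact ⟨E, R, hER, htop, Or.inr (hEex hEZ), Or.inl hRcyc⟩
  push Not at hRab
  obtain ⟨r₀, hr₀, x₀, hx₀, hnc⟩ := hRab
  have hRna : ¬ IsMulCommutative R := fun h => hnc
    (congrArg Subtype.val (h.is_comm.comm (⟨r₀, hr₀⟩ : R) ⟨x₀, hUR hx₀⟩))
  haveI hUn' : (U.subgroupOf R).Normal := hUn.comap R.subtype
  have hUc' : IsCyclic (U.subgroupOf R) := by
    haveI := hUc
    exact (Subgroup.subgroupOfEquivOfLe hUR).isCyclic.2 hUc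
  have hCent : Subgroup.centralizer ((U.subgroupOf R : Subgroup R) : Set R) = U.subgroupOf R := by
    ext g
    rw [Subgroup.mem_centralizer_iff]
    constructor
    · intro h
      exact hRU g g.2 fun x hx => (congrArg Subtype.val (h ⟨x, hUR hx⟩ hx)).symm
    · intro hg y hy
      exact Subtype.ext (hUcomm _ hy _ hg)
  have hUcard' : Nat.card (U.subgroupOf R) = p ^ n := by
    rw [Nat.card_congr (Subgroup.subgroupOfEquivOfLe hUR).toEquiv, hUcard]
  have hact : ∀ g : G, ∃ k : ℤ, g * u * g⁻¹ = u ^ k := fun g => by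
    obtain ⟨k, hk⟩ := Subgroup.mem_zpowers_iff.1 (hu.symm ▸ hUn.conj_mem u huU g : _ ∈ Subgroup.zpowers u)
    exact ⟨k, hk.symm⟩
  have hn2 : 2 ≤ n := by
    by_contra h
    refine hnc ?_
    have : U ≤ Z := fun x hx => hZmem x hx (by
      have := orderOf_dvd_iff_pow_eq_one.1 (hUcard ▸ Subgroup.orderOf_dvd_natCard U hx)
      rwa [show n = 1 by omega, pow_one] at this)
    exact (hZc x₀ (this hx₀) r₀).symm
  rcases Transfer.SelfCent.main (hG.to_subgroup R) hRna (U.subgroupOf R) hUc' n hUcard' hCent with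
    ⟨rfl, hRc, hshape⟩ | ⟨hrel, hel, hA2, -⟩
  · rcases Nat.lt_or_ge n 3 with hn3 | hn3
    · exact ⟨⊤, ⊥, fun e _ r hr => by rw [Subgroup.mem_bot.1 hr, one_mul, mul_one], sup_bot_eq ⊤,
        Or.inr (extraspecial_top_of_small hG hna' E R Z hER htop hZE hZcard hZcen hcen
          (fun a ha b hb => hGE a b hb) (fun a ha => (hEK ha).2) (hZU.trans hUR) hRna
          (by rw [hRc, show n = 2 by omega])), Or.inl inferInstance⟩
    · have h16 : 16 ≤ Nat.card R := by
        rw [hRc, show (16 : ℕ) = 2 ^ 4 from rfl]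
        exact Nat.pow_le_pow_right two_pos (by omega)
      by_cases hEZ : E = Z
      · refine ⟨⊥, R, fun e he r _ => by rw [Subgroup.mem_bot.1 he, one_mul, mul_one], ?_, Or.inl rfl,
          Or.inr ⟨rfl, h16, hshape⟩⟩
        rw [bot_sup_eq]; exact top_le_iff.1 (htop ▸ sup_le (hEZ ▸ hZU.trans hUR) le_rfl)
      · exact ⟨E, R, hER, htop, Or.inr (hEex hEZ), Or.inr ⟨rfl, h16, hshape⟩⟩
  -- `M = C_R(U ^ p)` contains `U` with index `p`
  set M := Subgroup.centralizer (Cfsg.powerClosure p 1 (U.subgroupOf R) : Set R) with hMdef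
  have hMmem : ∀ r : R, (r : G) * u ^ p * (r : G)⁻¹ = u ^ p → r ∈ M := by
    intro r hr
    rw [hMdef, Cfsg.powerClosure, Subgroup.centralizer_closure, Subgroup.mem_centralizer_iff]
    rintro _ ⟨x, hx, rfl⟩
    obtain ⟨i, hi⟩ := Subgroup.mem_zpowers_iff.1 (hu.symm ▸ hx : (x : G) ∈ Subgroup.zpowers u)
    refine Subtype.ext ?_
    show (x : G) ^ p ^ 1 * r = r * (x : G) ^ p ^ 1
    rw [← hi, pow_one, ← zpow_natCast, ← zpow_mul, mul_comm, zpow_mul, zpow_natCast]
    exact ((show Commute (r : G) (u ^ p) from mul_inv_eq_iff_eq_mul.1 hr).zpow_right i).eq.symm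
  set A := Cfsg.omegaOne p M with hAdef
  by_cases hn3 : n < 3
  · refine ⟨⊤, ⊥, fun e _ r hr => by rw [Subgroup.mem_bot.1 hr, one_mul, mul_one], sup_bot_eq ⊤,
      Or.inr (extraspecial_top_of_small hG hna' E R Z hER htop hZE hZcard hZcen hcen
        (fun a ha b hb => hGE a b hb) (fun a ha => (hEK ha).2) (hZU.trans hUR) hRna ?_), Or.inl inferInstance⟩
    -- `|R| = p ^ 3`
    have hMtop : M = ⊤ := top_le_iff.1 fun r _ => hMmem r (by
      have : u ^ p ∈ Z := hZmem _ (pow_mem huU p) (by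
        rw [← pow_mul, ← sq, ← orderOf_dvd_iff_pow_eq_one, hn]; exact pow_dvd_pow p (by omega))
      exact mul_inv_eq_iff_eq_mul.2 (hZc _ this r).eq.symm)
    rw [hMtop, Subgroup.relIndex_top_right] at hrel
    rw [← (U.subgroupOf R).card_mul_index, hrel, hUcard', show n = 2 by omega, ← pow_succ]
  exfalso
  -- an element of order `p` outside `U`
  have hAle : A ≤ M := (Subgroup.closure_le _).2 fun x hx => hx.1
  obtain ⟨a, haA, haU⟩ : ∃ a ∈ A, (a : G) ∉ U := by
    by_contra hcon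
    push Not at hcon
    have h1 : A.map R.subtype ≤ Z := by
      rintro _ ⟨a, ha, rfl⟩
      exact hZmem _ (hcon a ha) (congrArg Subtype.val (hel.2 a ha))
    have h2 := Subgroup.card_le_of_le h1
    rw [Nat.card_congr (A.equivMapOfInjective R.subtype R.subtype_injective).toEquiv.symm, hA2, hZcard] at h2
    exact absurd h2 (not_le.2 (lt_self_pow₀ hp.one_lt one_lt_two))
  have hap : (a : G) ^ p = 1 := congrArg Subtype.val (hel.2 a haA)
  haveI hMn : M.Normal := by
    haveI : (Cfsg.powerClosure p 1 (U.subgroupOf R)).Normal := by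
      refine closure_normal ?_
      rintro _ ⟨x, hx, rfl⟩ g
      exact ⟨g * x * g⁻¹, hUn'.conj_mem x hx g, by rw [conj_pow]⟩
    rw [hMdef]; infer_instance
  haveI hAn : A.Normal := by
    refine closure_normal ?_
    rintro x ⟨hx, hxp⟩ g
    exact ⟨hMn.conj_mem x hx g, by rw [conj_pow, hxp, mul_one, mul_inv_cancel]⟩
  -- `a` commutes with everything up to `Z`
  have haR : ∀ r ∈ R, (a : G) * r * (a : G)⁻¹ * r⁻¹ ∈ Z := by
    intro r hr
    have hcA : a * ⟨r, hr⟩ * a⁻¹ * (⟨r, hr⟩ : R)⁻¹ ∈ A := by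
      rw [show a * ⟨r, hr⟩ * a⁻¹ * (⟨r, hr⟩ : R)⁻¹ = a * (⟨r, hr⟩ * a⁻¹ * (⟨r, hr⟩ : R)⁻¹) by group]
      exact mul_mem haA (hAn.conj_mem _ (inv_mem haA) _)
    refine hZmem _ ?_ (congrArg Subtype.val (hel.2 _ hcA))
    refine hRU _ (a * ⟨r, hr⟩ * a⁻¹ * (⟨r, hr⟩ : R)⁻¹).2 fun x hx => ?_
    obtain ⟨i, rfl⟩ := Subgroup.mem_zpowers_iff.1 (hu.symm ▸ hx : x ∈ Subgroup.zpowers u)
    refine Commute.zpow_right ?_ i
    obtain ⟨k, hk⟩ := hact a
    obtain ⟨k', hk'⟩ := hact r
    obtain ⟨l, hl⟩ := hact (a : G)⁻¹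
    obtain ⟨l', hl'⟩ := hact r⁻¹
    have e1 : u = u ^ (k * l) := by
      have := congrArg (fun y => (a : G) * y * (a : G)⁻¹) hl
      simp only [← conj_zpow, hk, ← zpow_mul] at this
      rw [← this]; group
    have e2 : u = u ^ (k' * l') := by
      have := congrArg (fun y => r * y * r⁻¹) hl'
      simp only [← conj_zpow, hk', ← zpow_mul] at this
      rw [← this]; group
    show (a : G) * r * (a : G)⁻¹ * r⁻¹ * u = u * ((a : G) * r * (a : G)⁻¹ * r⁻¹)
    rw [← mul_inv_eq_iff_eq_mul]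
    calc (a : G) * r * (a : G)⁻¹ * r⁻¹ * u * ((a : G) * r * (a : G)⁻¹ * r⁻¹)⁻¹
        = (a : G) * (r * ((a : G)⁻¹ * (r⁻¹ * u * r⁻¹⁻¹) * (a : G)⁻¹⁻¹) * r⁻¹) * (a : G)⁻¹ := by group
      _ = u := by
        rw [hl', ← conj_zpow, hl, ← zpow_mul, ← conj_zpow, hk', ← zpow_mul, ← conj_zpow, hk, ← zpow_mul,
          show k * (k' * (l * l')) = k' * l' * (k * l) by ring, zpow_mul, ← e2, ← e1]
  let L : Subgroup G :=
    { carrier := {g | (∀ x : G, g * x * g⁻¹ * x⁻¹ ∈ Z) ∧ g ^ p ∈ Z}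
      one_mem' := ⟨fun x => by simp, by simp⟩
      mul_mem' := by
        rintro b c ⟨hb, hb2⟩ ⟨hc, hc2⟩
        refine ⟨fun x => ?_, ?_⟩
        · rw [show b * c * x * (b * c)⁻¹ * x⁻¹ = b * (c * x * c⁻¹ * x⁻¹) * b⁻¹ * (b * x * b⁻¹ * x⁻¹) by group]
          exact mul_mem (hZn.conj_mem _ (hc x) b) (hb x)
        · rw [pow_mul' (fun x _ => hZc _ (hc b) x) p]
          exact mul_mem (mul_mem hb2 hc2) (pow_mem (hc b) _)
      inv_mem' := by
        rintro b ⟨hb, hb2⟩
        refine ⟨fun x => ?_, by rw [inv_pow]; exact inv_mem hb2⟩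
        rw [show b⁻¹ * x * b⁻¹⁻¹ * x⁻¹ = b⁻¹ * (b * x * b⁻¹ * x⁻¹)⁻¹ * b⁻¹⁻¹ by group]
        exact hZn.conj_mem _ (inv_mem (hb x)) b⁻¹ }
  have hLch : L.Characteristic := char_of_forall L fun α g ⟨h1, h2⟩ =>
    ⟨fun x => by simpa using hZα α _ (h1 (α.symm x)), by rw [← map_pow]; exact hZα α _ h2⟩
  have hsplit : ∀ g : G, ∃ e ∈ E, ∃ r ∈ R, g = e * r := fun g => by
    have := htop.ge (Subgroup.mem_top g)
    rw [Subgroup.mem_sup_of_normal_left] at this
    obtain ⟨e, he, r, hr, h⟩ := this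
    exact ⟨e, he, r, hr, h.symm⟩
  have haL : (a : G) ∈ L := by
    refine ⟨fun x => ?_, by rw [hap]; exact one_mem _⟩
    obtain ⟨e, he, r, hr, rfl⟩ := hsplit x
    have hae : Commute (a : G) e := (hER e he a a.2).symm
    have : (a : G) * (e * r) * (a : G)⁻¹ * (e * r)⁻¹ = e * ((a : G) * r * (a : G)⁻¹ * r⁻¹) * e⁻¹ := by
      rw [mul_inv_rev, ← mul_assoc (a : G) e r, hae.eq]; group
    rw [this]
    exact hZn.conj_mem _ (haR r hr) e
  have hac : ∀ l ∈ L, Commute (a : G) l := by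
    intro l hl
    obtain ⟨e, he, r, hr, rfl⟩ := hsplit l
    refine (show Commute (a : G) e from (hER e he a a.2).symm).mul_right ?_
    have hru : r * u * r⁻¹ * u⁻¹ ∈ Z := by
      have h1 := hl.1 u
      have h2 : e * r * u * (e * r)⁻¹ * u⁻¹ = r * u * r⁻¹ * u⁻¹ := by
        obtain ⟨k, hk⟩ := hact r
        rw [show e * r * u * (e * r)⁻¹ = e * (r * u * r⁻¹) * e⁻¹ by group, hk,
          ((hCU e (hEC e he).1 _ (U.zpow_mem huU k)).symm).eq, mul_inv_cancel_right]
      rwa [h2] at h1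
    have hrM : (⟨r, hr⟩ : R) ∈ M := hMmem _ (by
      show r * u ^ p * r⁻¹ = u ^ p
      rw [← conj_pow, show r * u * r⁻¹ = (r * u * r⁻¹ * u⁻¹) * u by group, (hZc _ hru u).mul_pow,
        hZp _ hru, one_mul])
    have haM : a ∈ M := hAle haA
    have hgen : M ≤ U.subgroupOf R ⊔ Subgroup.zpowers a := by
      intro x hx
      by_contra hxn
      set T := (U.subgroupOf R ⊔ Subgroup.zpowers a) ⊓ M
      have hUM : U.subgroupOf R ≤ M := fun y hy => hMmem y (mul_inv_eq_iff_eq_mul.2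
        (hUcomm _ hy _ (pow_mem huU p)))
      have h1 := Subgroup.relIndex_mul_relIndex (U.subgroupOf R) T M (le_inf le_sup_left hUM) inf_le_right
      rw [hrel] at h1
      rcases (Nat.dvd_prime hp).1 (Dvd.intro _ h1) with e1 | e1
      · exact haU (Subgroup.relIndex_eq_one.1 e1 ⟨Subgroup.mem_sup_right (Subgroup.mem_zpowers a), haM⟩)
      · rw [e1] at h1
        exact hxn ((Subgroup.relIndex_eq_one.1 (Nat.eq_of_mul_eq_mul_left hp.pos (h1.trans (mul_one p).symm)) hx).1)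
    have hrg := hgen hrM
    rw [Subgroup.mem_sup_of_normal_left] at hrg
    obtain ⟨v, hv, _, ⟨j, rfl⟩, hrv⟩ := hrg
    have hrv' : (v : G) * (a : G) ^ j = r := by simpa using congrArg Subtype.val hrv
    have hc : (a : G) ^ j * v * ((a : G) ^ j)⁻¹ * (v : G)⁻¹ ∈ Z := by
      have h1 : (a : G) ^ j ∈ L := L.zpow_mem haL j
      exact h1.1 v
    have hvp : (v : G) ^ p ∈ Z := by
      have hrp : r ^ p ∈ Z := by
        have h2 := hl.2
        rw [(show Commute e r from hER e he r hr).mul_pow] at h2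
        have h3 := mul_mem (inv_mem (hEK he).2) h2
        rwa [inv_mul_cancel_left] at h3
      rw [← hrv', pow_mul' (fun x _ => hZc _ hc x) p, ← zpow_natCast ((a : G) ^ j), ← zpow_mul, mul_comm j,
        zpow_mul, zpow_natCast, hap, one_zpow, mul_one] at hrp
      have h4 := mul_mem hrp (inv_mem (pow_mem hc (p.choose 2)))
      rwa [mul_inv_cancel_right] at h4
    obtain ⟨i, hi⟩ := Subgroup.mem_zpowers_iff.1 (hu.symm ▸ hv : (v : G) ∈ Subgroup.zpowers u)
    have h5 : ((v : G) ^ p) ^ p = 1 := hZp _ hvp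
    rw [← hi, ← pow_mul, ← zpow_natCast, ← zpow_mul, ← orderOf_dvd_iff_zpow_eq_one, hn] at h5
    have hpi : (p : ℤ) ∣ i := by
      obtain ⟨q, rfl⟩ : ∃ q, n = q + 3 := ⟨n - 3, by omega⟩
      push_cast at h5
      rw [show (p : ℤ) ^ (q + 3) = ((p : ℤ) ^ q * p) * (p * p) by ring,
        mul_dvd_mul_iff_right (mul_ne_zero (Int.natCast_ne_zero.2 hp.ne_zero) (Int.natCast_ne_zero.2 hp.ne_zero))] at h5
      exact (dvd_mul_left _ _).trans h5
    rw [← hrv']
    refine Commute.mul_right ?_ ((Commute.refl _).zpow_right j)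
    obtain ⟨d, rfl⟩ := hpi
    rw [← hi, zpow_mul, zpow_natCast]
    refine Commute.zpow_right ?_ d
    have h6 : a * (⟨u, hUR huU⟩ : R) ^ p = (⟨u, hUR huU⟩ : R) ^ p * a :=
      (Subgroup.mem_centralizer_iff.1 haM _ (Subgroup.subset_closure ⟨⟨u, hUR huU⟩, huU, by rw [pow_one]⟩)).symm
    exact congrArg Subtype.val h6
  -- `Z(L)` is not cyclic
  set T := (Subgroup.center L).map L.subtype with hT
  have hTab : IsMulCommutative T := by rw [hT]; infer_instance
  have hTch : T.Characteristic := char_of_forall T fun α g hg => by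
    obtain ⟨⟨g, hgL⟩, hgc, rfl⟩ := hg
    refine ⟨⟨α g, char_apply hLch α hgL⟩, Subgroup.mem_center_iff.2 fun y => Subtype.ext ?_, rfl⟩
    have := congrArg Subtype.val (Subgroup.mem_center_iff.1 hgc ⟨α.symm y, char_apply hLch α.symm y.2⟩)
    simpa using congrArg α this
  obtain ⟨t, ht⟩ := (Subgroup.isCyclic_iff_exists_zpowers_eq_top T).1 (hsymp T hTch hTab)
  have haT : (a : G) ∈ Subgroup.zpowers t :=
    ht.symm ▸ (⟨⟨a, haL⟩, Subgroup.mem_center_iff.2 fun y => Subtype.ext (hac y y.2).eq.symm, rfl⟩ : (a : G) ∈ T)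
  have hzT : z ∈ Subgroup.zpowers t := by
    rw [ht]
    refine ⟨⟨z, ⟨fun x => ?_, ?_⟩⟩, Subgroup.mem_center_iff.2 fun y => Subtype.ext
      (hZc z (Subgroup.mem_zpowers z) y).eq.symm, rfl⟩
    · rw [(hZc z (Subgroup.mem_zpowers z) x).eq, mul_inv_cancel_right, mul_inv_cancel]; exact one_mem _
    · rw [← hzo, pow_orderOf_eq_one]; exact one_mem _
  exact haU (hZU (mem_of_cyclic hp haT hzT hzo hap))

end Cfsg.Agent.Transfer.SympType
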