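import Mathlib
import Cfsg.Agent.FGS3.Extraspecial

/-! Isomorphism of extraspecial groups with the same symplectic presentation. -/

set_option autoImplicit false
set_option maxHeartbeats 1000000

namespace Cfsg.Agent.Transfer.ESIso

open scoped commutatorElement
open Cfsg.Agent.FGS3

variable {E : Type*} [Group E]

/-- A symplectic generating system of `K` relative to the central element `z`. -/
structure Basis (p : ℕ) (z : E) (K : Subgroup E) {n : ℕ} (x y : Fin n → E) (q : Fin n → ℕ) : Prop where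
  gen : K = Subgroup.closure (Set.range x ∪ Set.range y ∪ {z})
  card : Nat.card K = p ^ (2 * n + 1)
  xy : ∀ i j, ⁅x i, y j⁆ = z ^ (if i = j then 1 else 0)
  xx : ∀ i j, ⁅x i, x j⁆ = 1
  yy : ∀ i j, ⁅y i, y j⁆ = 1
  xp : ∀ i, x i ^ p = z ^ q i
  yp : ∀ i, y i ^ p = z ^ q i

theorem Basis.mem {p : ℕ} {z : E} {K : Subgroup E} {n : ℕ} {x y : Fin n → E} {q : Fin n → ℕ}
    (h : Basis p z K x y q) : (∀ i, x i ∈ K) ∧ ∀ i, y i ∈ K :=
  ⟨fun i => h.gen ▸ Subgroup.subset_closure (Or.inl (Or.inl ⟨i, rfl⟩)),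
    fun i => h.gen ▸ Subgroup.subset_closure (Or.inl (Or.inr ⟨i, rfl⟩))⟩

/-- An elementary abelian group generated by `m` elements has order at most `p ^ m`. -/
theorem card_closure_le {A : Type*} [Group A] [Finite A] (hc : ∀ a b : A, a * b = b * a) {p : ℕ}
    (hp : 0 < p) (he : ∀ a : A, a ^ p = 1) (s : Finset A) :
    Nat.card (Subgroup.closure (s : Set A)) ≤ p ^ s.card := by
  classical
  induction s using Finset.induction_on with
  | empty => simp
  | @insert a t hat ih =>
    rw [Finset.card_insert_of_notMem hat, pow_succ, Finset.coe_insert, Set.insert_eq,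
      Subgroup.closure_union, ← Subgroup.zpowers_eq_closure]
    haveI : (Subgroup.closure (t : Set A)).Normal :=
      ⟨fun w hw g => by rwa [hc g w, mul_inv_cancel_right]⟩
    have hcard : Nat.card (Subgroup.zpowers a ⊔ Subgroup.closure (t : Set A) : Subgroup A) ≤
        Nat.card (Subgroup.zpowers a) * Nat.card (Subgroup.closure (t : Set A)) := by
      rw [← Nat.card_prod]
      refine Nat.card_le_card_of_surjective (fun w => (⟨(w.1 : A) * w.2,
        Subgroup.mul_mem_sup w.1.2 w.2.2⟩ : (Subgroup.zpowers a ⊔ Subgroup.closure (t : Set A) : Subgroup A))) ?_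
      rintro ⟨w, hw⟩
      obtain ⟨u, hu, v, hv, rfl⟩ := Subgroup.mem_sup_of_normal_right.mp hw
      exact ⟨(⟨u, hu⟩, ⟨v, hv⟩), rfl⟩
    refine hcard.trans ((Nat.mul_le_mul ?_ ih).trans_eq (mul_comm _ _))
    rw [Nat.card_zpowers]
    exact orderOf_le_of_pow_eq_one hp (he a)

/-- Two groups with bases satisfying the same relations are isomorphic. -/
theorem nonempty_iso [Finite E] {F : Type*} [Group F] [Finite F] {p : ℕ} [hp : Fact p.Prime]
    {n : ℕ} {q : Fin n → ℕ} {z : E} {z' : F} (hz : z ∈ Subgroup.center E)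
    (hz' : z' ∈ Subgroup.center F) (hzp : z ^ p = 1) (hzp' : z' ^ p = 1)
    {x y : Fin n → E} {x' y' : Fin n → F} (h : Basis p z ⊤ x y q) (h' : Basis p z' ⊤ x' y' q) :
    Nonempty (E ≃* F) := by
  classical
  let gx : Fin n → E × F := fun i => (x i, x' i)
  let gy : Fin n → E × F := fun i => (y i, y' i)
  let gz : E × F := (z, z')
  let s : Finset (E × F) := Finset.univ.image gx ∪ Finset.univ.image gy ∪ {gz}
  let D := Subgroup.closure (s : Set (E × F))
  have hgxm : ∀ i, gx i ∈ D := fun i => Subgroup.subset_closure (by simp [s])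
  have hgym : ∀ i, gy i ∈ D := fun i => Subgroup.subset_closure (by simp [s])
  have hgzm : gz ∈ D := Subgroup.subset_closure (by simp [s])
  set K : Subgroup (E × F) := Subgroup.zpowers gz with hK
  have hgzc : gz ∈ Subgroup.center (E × F) := Subgroup.mem_center_iff.mpr fun w =>
    Prod.ext (Subgroup.mem_center_iff.mp hz w.1) (Subgroup.mem_center_iff.mp hz' w.2)
  haveI hKn : K.Normal := ⟨fun w hw g => by
    rw [Subgroup.mem_center_iff.mp (Subgroup.zpowers_le.mpr hgzc hw) g, mul_inv_cancel_right]; exact hw⟩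
  have hKD : K ≤ D := Subgroup.zpowers_le.mpr hgzm
  have hcom : ∀ (a b : E × F) (k : ℕ), ⁅a.1, b.1⁆ = z ^ k → ⁅a.2, b.2⁆ = z' ^ k → ⁅a, b⁆ ∈ K :=
    fun a b k h1 h2 => by
      have : ⁅a, b⁆ = gz ^ k := Prod.ext h1 h2
      rw [this]; exact Subgroup.pow_mem _ (Subgroup.mem_zpowers gz) k
  have hcom' : ∀ a b : E × F, ⁅b, a⁆ ∈ K → ⁅a, b⁆ ∈ K := fun a b hm => by
    rw [← commutatorElement_inv]; exact K.inv_mem hm
  -- the generators commute modulo `K`
  have hgens : ∀ a ∈ (s : Set (E × F)), ∀ b ∈ (s : Set (E × F)), ⁅a, b⁆ ∈ K := by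
    have hzb : ∀ b : E × F, ⁅gz, b⁆ ∈ K := fun b => by
      rw [commutatorElement_eq_one_iff_mul_comm.mpr (Subgroup.mem_center_iff.mp hgzc b).symm]
      exact K.one_mem
    intro a ha b hb
    simp only [s, Finset.coe_union, Finset.coe_image, Finset.coe_univ, Set.image_univ,
      Finset.coe_singleton, Set.mem_union, Set.mem_range, Set.mem_singleton_iff] at ha hb
    rcases ha with (⟨i, rfl⟩ | ⟨i, rfl⟩) | rfl
    · rcases hb with (⟨j, rfl⟩ | ⟨j, rfl⟩) | rfl
      · exact hcom _ _ 0 (by simpa using h.xx i j) (by simpa using h'.xx i j)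
      · exact hcom _ _ _ (h.xy i j) (h'.xy i j)
      · exact hcom' _ _ (hzb _)
    · rcases hb with (⟨j, rfl⟩ | ⟨j, rfl⟩) | rfl
      · exact hcom' _ _ (hcom _ _ _ (h.xy j i) (h'.xy j i))
      · exact hcom _ _ 0 (by simpa using h.yy i j) (by simpa using h'.yy i j)
      · exact hcom' _ _ (hzb _)
    · exact hzb b
  -- the image modulo `K` is elementary abelian
  let mk := QuotientGroup.mk' K
  have hcommD : ∀ a ∈ D, ∀ b ∈ D, mk a * mk b = mk b * mk a := by
    have hab : IsMulCommutative (Subgroup.closure (mk '' (s : Set (E × F)))) := by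
      refine Subgroup.isMulCommutative_closure ?_
      rintro _ ⟨a, ha, rfl⟩ _ ⟨b, hb, rfl⟩
      rw [← commutatorElement_eq_one_iff_mul_comm, ← map_commutatorElement, QuotientGroup.mk'_apply,
        QuotientGroup.eq_one_iff]
      exact hgens a ha b hb
    intro a ha b hb
    have hmem : ∀ a ∈ D, mk a ∈ Subgroup.closure (mk '' (s : Set (E × F))) := fun a ha => by
      rw [← MonoidHom.map_closure]; exact Subgroup.mem_map_of_mem _ ha
    exact congrArg Subtype.val (hab.is_comm.comm ⟨_, hmem a ha⟩ ⟨_, hmem b hb⟩)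
  have hexpD : ∀ a ∈ D, mk a ^ p = 1 := by
    intro a ha
    induction ha using Subgroup.closure_induction with
    | mem a ha =>
      rw [← map_pow, QuotientGroup.mk'_apply, QuotientGroup.eq_one_iff]
      simp only [s, Finset.coe_union, Finset.coe_image, Finset.coe_univ, Set.image_univ,
        Finset.coe_singleton, Set.mem_union, Set.mem_range, Set.mem_singleton_iff] at ha
      rcases ha with (⟨i, rfl⟩ | ⟨i, rfl⟩) | rfl
      · rw [show gx i ^ p = gz ^ q i from Prod.ext (h.xp i) (h'.xp i)]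
        exact Subgroup.pow_mem _ (Subgroup.mem_zpowers gz) _
      · rw [show gy i ^ p = gz ^ q i from Prod.ext (h.yp i) (h'.yp i)]
        exact Subgroup.pow_mem _ (Subgroup.mem_zpowers gz) _
      · rw [show gz ^ p = 1 from Prod.ext hzp hzp']
        exact K.one_mem
    | one => simp
    | mul a b ha hb iha ihb =>
      rw [map_mul, (show Commute (mk a) (mk b) from hcommD a ha b hb).mul_pow, iha, ihb, one_mul]
    | inv a ha iha => rw [map_inv, inv_pow, iha, inv_one]
  let t : Finset (D.map mk) := Finset.univ.image (fun i => (⟨mk (gx i), Subgroup.mem_map_of_mem _ (hgxm i)⟩ : D.map mk)) ∪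
    Finset.univ.image (fun i => (⟨mk (gy i), Subgroup.mem_map_of_mem _ (hgym i)⟩ : D.map mk))
  have ht : Subgroup.closure (t : Set (D.map mk)) = ⊤ := by
    apply Subgroup.map_injective (D.map mk).subtype_injective
    rw [MonoidHom.map_closure]
    refine Eq.trans (b := D.map mk) ?_ ((MonoidHom.range_eq_map _).symm.trans (Subgroup.range_subtype _)).symm
    refine le_antisymm ?_ ?_
    · rw [Subgroup.closure_le]
      rintro _ ⟨w, -, rfl⟩
      exact w.2
    · refine Subgroup.map_le_iff_le_comap.mpr ((Subgroup.closure_le _).mpr fun a ha => ?_)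
      rw [SetLike.mem_coe, Subgroup.mem_comap]
      simp only [s, Finset.coe_union, Finset.coe_image, Finset.coe_univ, Set.image_univ,
        Finset.coe_singleton, Set.mem_union, Set.mem_range, Set.mem_singleton_iff] at ha
      rcases ha with (⟨i, rfl⟩ | ⟨i, rfl⟩) | rfl
      · exact Subgroup.subset_closure ⟨⟨mk (gx i), Subgroup.mem_map_of_mem _ (hgxm i)⟩, by simp [t], rfl⟩
      · exact Subgroup.subset_closure ⟨⟨mk (gy i), Subgroup.mem_map_of_mem _ (hgym i)⟩, by simp [t], rfl⟩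
      · rw [show mk gz = 1 from (QuotientGroup.eq_one_iff gz).mpr (Subgroup.mem_zpowers gz)]
        exact Subgroup.one_mem _
  have htc : t.card ≤ 2 * n := by
    refine (Finset.card_union_le _ _).trans ?_
    have h1 := (Finset.card_image_le (s := (Finset.univ : Finset (Fin n)))
      (f := fun i => (⟨mk (gx i), Subgroup.mem_map_of_mem _ (hgxm i)⟩ : D.map mk)))
    have h2 := (Finset.card_image_le (s := (Finset.univ : Finset (Fin n)))
      (f := fun i => (⟨mk (gy i), Subgroup.mem_map_of_mem _ (hgym i)⟩ : D.map mk)))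
    rw [Finset.card_univ, Fintype.card_fin] at h1 h2
    omega
  have hDQ : Nat.card (D.map mk) ≤ p ^ (2 * n) := by
    have h1 := card_closure_le (A := D.map mk)
      (by rintro ⟨_, a, ha, rfl⟩ ⟨_, b, hb, rfl⟩; exact Subtype.ext (hcommD a ha b hb))
      hp.out.pos (by rintro ⟨_, a, ha, rfl⟩; exact Subtype.ext (hexpD a ha)) t
    rw [ht, Subgroup.card_top] at h1
    exact h1.trans (Nat.pow_le_pow_right hp.out.pos htc)
  have hKc : Nat.card K ≤ p := by
    rw [hK, Nat.card_zpowers]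
    exact orderOf_le_of_pow_eq_one hp.out.pos (Prod.ext hzp hzp')
  have hDc : Nat.card D ≤ p ^ (2 * n + 1) := by
    have h1 : K.relIndex D = Nat.card (D.map mk) := by
      rw [← Subgroup.relIndex_ker, QuotientGroup.ker_mk']
    have h2 : Nat.card D = Nat.card K * K.relIndex D :=
      (Subgroup.card_mul_index (K.subgroupOf D)).symm.trans (congrArg (· * _)
        (Nat.card_congr (Subgroup.subgroupOfEquivOfLe hKD).toEquiv))
    rw [h2, h1, pow_succ']
    exact Nat.mul_le_mul hKc hDQ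
  have hE : Nat.card E = p ^ (2 * n + 1) := by rw [← h.card, Subgroup.card_top]
  have hF : Nat.card F = p ^ (2 * n + 1) := by rw [← h'.card, Subgroup.card_top]
  let π₁ : D →* E := (MonoidHom.fst E F).comp D.subtype
  let π₂ : D →* F := (MonoidHom.snd E F).comp D.subtype
  have hb₁ : Function.Bijective π₁ := by
    have hs : Function.Surjective π₁ := by
      rw [← MonoidHom.range_eq_top, eq_top_iff, h.gen, Subgroup.closure_le]
      rintro _ ((⟨i, rfl⟩ | ⟨i, rfl⟩) | rfl)
      · exact ⟨⟨_, hgxm i⟩, rfl⟩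
      · exact ⟨⟨_, hgym i⟩, rfl⟩
      · exact ⟨⟨_, hgzm⟩, rfl⟩
    exact (Nat.bijective_iff_surjective_and_card π₁).mpr
      ⟨hs, le_antisymm (hE ▸ hDc) (Nat.card_le_card_of_surjective π₁ hs)⟩
  have hb₂ : Function.Bijective π₂ := by
    have hs : Function.Surjective π₂ := by
      rw [← MonoidHom.range_eq_top, eq_top_iff, h'.gen, Subgroup.closure_le]
      rintro _ ((⟨i, rfl⟩ | ⟨i, rfl⟩) | rfl)
      · exact ⟨⟨_, hgxm i⟩, rfl⟩
      · exact ⟨⟨_, hgym i⟩, rfl⟩
      · exact ⟨⟨_, hgzm⟩, rfl⟩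
    exact (Nat.bijective_iff_surjective_and_card π₂).mpr
      ⟨hs, le_antisymm (hF ▸ hDc) (Nat.card_le_card_of_surjective π₂ hs)⟩
  exact ⟨(MulEquiv.ofBijective π₁ hb₁).symm.trans (MulEquiv.ofBijective π₂ hb₂)⟩

/-- A subgroup with centre `⟨z⟩` all of whose commutators lie in `⟨z⟩`. -/
structure Nondeg (p : ℕ) (z : E) (K : Subgroup E) : Prop where
  mem : z ∈ K
  nd : ∀ k ∈ K, (∀ l ∈ K, Commute k l) → k ∈ Subgroup.zpowers z

/-- The common hypotheses on the ambient group. -/
structure Setting (p : ℕ) (E : Type*) [Group E] (z : E) : Prop where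
  hc : commutator E ≤ Subgroup.center E
  hz : z ∈ Subgroup.center E
  ord : orderOf z = p
  hcom : ∀ a b : E, ⁅a, b⁆ ∈ Subgroup.zpowers z
  hpow : ∀ a : E, a ^ p ∈ Subgroup.zpowers z

variable [Finite E] {p : ℕ} [hp : Fact p.Prime] {z : E}

theorem Setting.exists_pow_eq (hS : Setting p E z) {w : E} (hw : w ∈ Subgroup.zpowers z) :
    ∃ a : ℕ, a < p ∧ z ^ a = w := by
  classical
  obtain ⟨a, ha, hae⟩ := Finset.mem_image.mp
    (((isOfFinOrder_of_finite z).mem_zpowers_iff_mem_range_orderOf).mp hw)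
  exact ⟨a, hS.ord ▸ Finset.mem_range.mp ha, hae⟩

/-- The commutator with `x` as a homomorphism. -/
theorem Setting.comm_mul (hS : Setting p E z) (a b x : E) : ⁅a * b, x⁆ = ⁅a, x⁆ * ⁅b, x⁆ :=
  commutatorElement_mul_left_of_center hS.hc a b x

theorem Setting.exists_partner (hS : Setting p E z) {K : Subgroup E} (hK : Nondeg p z K) {x : E}
    (hx : x ∈ K) (hxz : x ∉ Subgroup.zpowers z) : ∃ y ∈ K, ⁅x, y⁆ = z := by
  obtain ⟨l, hl, hne⟩ : ∃ l ∈ K, ⁅x, l⁆ ≠ 1 := by
    by_contra hcon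
    push Not at hcon
    exact hxz (hK.nd x hx fun l hl => commutatorElement_eq_one_iff_mul_comm.mp (hcon l hl))
  obtain ⟨a, ha, hae⟩ := hS.exists_pow_eq (hS.hcom x l)
  have ha0 : a ≠ 0 := fun h => hne (by rw [← hae, h, pow_zero])
  have hap : a.Coprime p := by
    rw [Nat.coprime_comm, hp.out.coprime_iff_not_dvd]
    exact Nat.not_dvd_of_pos_of_lt (Nat.pos_of_ne_zero ha0) ha
  obtain ⟨b, hb⟩ := Nat.exists_mul_mod_eq_one_of_coprime hap hp.out.one_lt
  refine ⟨l ^ b, K.pow_mem hl b, ?_⟩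
  rw [commutatorElement_pow_right hS.hc, ← hae, ← pow_mul]
  rw [← Nat.div_add_mod (a * b) p, hb.2, pow_add, pow_mul, ← hS.ord, pow_orderOf_eq_one, one_pow,
    one_mul, pow_one]

/-- Splitting off a pair. -/
theorem Setting.split (hS : Setting p E z) {K : Subgroup E} (hK : Nondeg p z K) {x y : E}
    (hx : x ∈ K) (hy : y ∈ K) (hxy : ⁅x, y⁆ = z) :
    ∃ C : Subgroup E, Nondeg p z C ∧ C ≤ K ∧ C < K ∧
      Nat.card K = Nat.card C * p ^ 2 ∧ (∀ c ∈ C, ⁅x, c⁆ = 1 ∧ ⁅y, c⁆ = 1) ∧
      (∀ k ∈ K, k ∈ C ⊔ (Subgroup.zpowers x ⊔ Subgroup.zpowers y)) := by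
  let f : K →* E × E := MonoidHom.mk' (fun k => (⁅(k : E), x⁆, ⁅(k : E), y⁆))
    (fun a b => Prod.ext (hS.comm_mul _ _ _) (hS.comm_mul _ _ _))
  set C : Subgroup E := f.ker.map K.subtype with hC
  have hmemC : ∀ c, c ∈ C ↔ c ∈ K ∧ ⁅c, x⁆ = 1 ∧ ⁅c, y⁆ = 1 := by
    intro c
    constructor
    · rintro ⟨⟨c, hc⟩, hk, rfl⟩
      have hk' : f ⟨c, hc⟩ = 1 := hk
      exact ⟨hc, congrArg Prod.fst hk', congrArg Prod.snd hk'⟩
    · rintro ⟨hc, h1, h2⟩
      exact ⟨⟨c, hc⟩, Prod.ext h1 h2, rfl⟩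
  have hyx : ⁅y, x⁆ = z⁻¹ := by rw [← commutatorElement_inv x y, hxy]
  have hdec : ∀ k ∈ K, k ∈ C ⊔ (Subgroup.zpowers x ⊔ Subgroup.zpowers y) := by
    intro k hk
    obtain ⟨a, -, ha⟩ := hS.exists_pow_eq (hS.hcom k x)
    obtain ⟨b, -, hb⟩ := hS.exists_pow_eq (hS.hcom k y)
    have hx1 : ∀ m : ℕ, ⁅(x ^ m)⁻¹, x⁆ = 1 := fun m =>
      commutatorElement_eq_one_iff_commute.mpr ((Commute.refl x).pow_left m).inv_left
    have hy1 : ∀ m : ℕ, ⁅y ^ m, y⁆ = 1 := fun m =>
      commutatorElement_eq_one_iff_commute.mpr ((Commute.refl y).pow_left m)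
    have hc : k * (x ^ b)⁻¹ * y ^ a ∈ C := by
      refine (hmemC _).mpr ⟨K.mul_mem (K.mul_mem hk (K.inv_mem (K.pow_mem hx b))) (K.pow_mem hy a), ?_, ?_⟩
      · rw [hS.comm_mul, hS.comm_mul, hx1, mul_one, commutatorElement_pow_left hS.hc, hyx, ← ha,
          inv_pow, mul_inv_cancel]
      · rw [hS.comm_mul, hS.comm_mul, hy1, mul_one, ← inv_pow, commutatorElement_pow_left hS.hc,
          ← hb]
        have : ⁅x⁻¹, y⁆ = z⁻¹ := by
          have h0 := hS.comm_mul x⁻¹ x y
          rw [inv_mul_cancel, commutatorElement_one_left, hxy] at h0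
          exact eq_inv_of_mul_eq_one_left h0.symm
        rw [this, inv_pow, mul_inv_cancel]
    have h1 := Subgroup.mul_mem_sup hc (Subgroup.mul_mem _
      (Subgroup.mem_sup_right (Subgroup.inv_mem _ (Subgroup.pow_mem _ (Subgroup.mem_zpowers y) a)))
      (Subgroup.mem_sup_left (Subgroup.pow_mem _ (Subgroup.mem_zpowers x) b)) :
        (y ^ a)⁻¹ * x ^ b ∈ Subgroup.zpowers x ⊔ Subgroup.zpowers y)
    simpa [mul_assoc] using h1
  have hCK : C ≤ K := Subgroup.map_subtype_le _
  have hzC : z ∈ C := (hmemC z).mpr ⟨hK.mem,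
    commutatorElement_eq_one_iff_mul_comm.mpr (Subgroup.mem_center_iff.mp hS.hz x).symm,
    commutatorElement_eq_one_iff_mul_comm.mpr (Subgroup.mem_center_iff.mp hS.hz y).symm⟩
  refine ⟨C, ⟨hzC, fun c hc hcom => ?_⟩, hCK, ?_, ?_, fun c hc => ?_, hdec⟩
  · refine hK.nd c (hCK hc) fun l hl => ?_
    have hle : C ⊔ (Subgroup.zpowers x ⊔ Subgroup.zpowers y) ≤ Subgroup.centralizer ({c} : Set E) := by
      refine sup_le (fun d hd => Subgroup.mem_centralizer_singleton_iff.mpr (hcom d hd).eq.symm)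
        (sup_le (Subgroup.zpowers_le.mpr ?_) (Subgroup.zpowers_le.mpr ?_))
      · exact Subgroup.mem_centralizer_singleton_iff.mpr
          (commutatorElement_eq_one_iff_mul_comm.mp ((hmemC c).mp hc).2.1).symm
      · exact Subgroup.mem_centralizer_singleton_iff.mpr
          (commutatorElement_eq_one_iff_mul_comm.mp ((hmemC c).mp hc).2.2).symm
    exact (Subgroup.mem_centralizer_singleton_iff.mp (hle (hdec l hl))).symm
  · refine lt_of_le_of_ne hCK fun e => ?_
    have := ((hmemC x).mp (e.symm ▸ hx)).2.2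
    rw [hxy] at this
    exact hp.out.ne_one (hS.ord ▸ orderOf_eq_one_iff.mpr this)
  · have h1 := f.ker.card_mul_index
    rw [Subgroup.index_ker] at h1
    rw [← h1, hC, Subgroup.card_map_of_injective K.subtype_injective]
    congr 1
    have hrange : f.range = (Subgroup.zpowers z).prod (Subgroup.zpowers z) := by
      refine le_antisymm ?_ ?_
      · rintro _ ⟨k, rfl⟩; exact ⟨hS.hcom _ _, hS.hcom _ _⟩
      · rintro ⟨u, v⟩ ⟨hu, hv⟩
        obtain ⟨a, ha, rfl⟩ := hS.exists_pow_eq hu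
        obtain ⟨b, hb, rfl⟩ := hS.exists_pow_eq hv
        refine ⟨⟨y⁻¹ ^ a * x ^ b, K.mul_mem (K.pow_mem (K.inv_mem hy) a) (K.pow_mem hx b)⟩, Prod.ext ?_ ?_⟩
        · show ⁅y⁻¹ ^ a * x ^ b, x⁆ = z ^ a
          have hy' : ⁅y⁻¹, x⁆ = z := by
            have h0 := hS.comm_mul y⁻¹ y x
            rw [inv_mul_cancel, commutatorElement_one_left, hyx] at h0
            exact (eq_inv_of_mul_eq_one_left h0.symm).trans (inv_inv z)
          rw [hS.comm_mul, commutatorElement_pow_left hS.hc, hy', commutatorElement_pow_left hS.hc,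
            commutatorElement_self, one_pow, mul_one]
        · show ⁅y⁻¹ ^ a * x ^ b, y⁆ = z ^ b
          rw [hS.comm_mul, commutatorElement_pow_left hS.hc, commutatorElement_pow_left hS.hc, hxy,
            commutatorElement_eq_one_iff_commute.mpr (Commute.refl y).inv_left, one_pow, one_mul]
    rw [hrange, Nat.card_congr (Subgroup.prodEquiv _ _).toEquiv, Nat.card_prod, Nat.card_zpowers, hS.ord, sq]
  · obtain ⟨-, h1, h2⟩ := (hmemC c).mp hc
    exact ⟨by rw [← commutatorElement_inv c x, h1, inv_one], by rw [← commutatorElement_inv c y, h2, inv_one]⟩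

theorem Setting.basis_zero (hS : Setting p E z) {K : Subgroup E} (hK : Nondeg p z K)
    (hab : ∀ a ∈ K, ∀ b ∈ K, Commute a b) (q : Fin 0 → ℕ) :
    Basis p z K (n := 0) Fin.elim0 Fin.elim0 q := by
  have hKeq : K = Subgroup.zpowers z :=
    le_antisymm (fun k hk => hK.nd k hk (hab k hk)) (Subgroup.zpowers_le.mpr hK.mem)
  refine ⟨?_, ?_, fun i => i.elim0, fun i => i.elim0, fun i => i.elim0, fun i => i.elim0, fun i => i.elim0⟩
  · rw [hKeq, Subgroup.zpowers_eq_closure]; congr 1; simp [Set.range_eq_empty]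
  · rw [hKeq, Nat.card_zpowers, hS.ord]; simp

theorem Setting.basis_cons (hS : Setting p E z) {K C : Subgroup E} (hK : Nondeg p z K) {x y : E}
    (hx : x ∈ K) (hy : y ∈ K) (hxy : ⁅x, y⁆ = z) (hCK : C ≤ K)
    (hcard : Nat.card K = Nat.card C * p ^ 2) (hcx : ∀ c ∈ C, ⁅x, c⁆ = 1 ∧ ⁅y, c⁆ = 1)
    (hdec : ∀ k ∈ K, k ∈ C ⊔ (Subgroup.zpowers x ⊔ Subgroup.zpowers y)) {n : ℕ} {a b : Fin n → E}
    {q : Fin n → ℕ} (h : Basis p z C a b q) {c : ℕ} (hxp : x ^ p = z ^ c) (hyp : y ^ p = z ^ c) :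
    Basis p z K (Fin.cons x a) (Fin.cons y b) (Fin.cons c q) := by
  obtain ⟨hA, hB⟩ := h.mem
  have hinv : ∀ {u v : E}, ⁅u, v⁆ = 1 → ⁅v, u⁆ = 1 := fun {u v} e => by
    rw [← commutatorElement_inv, e, inv_one]
  refine ⟨?_, ?_, ?_, ?_, ?_, ?_, ?_⟩
  · refine le_antisymm (fun k hk => ?_) ?_
    · refine (sup_le ?_ (sup_le (Subgroup.zpowers_le.mpr ?_) (Subgroup.zpowers_le.mpr ?_))) (hdec k hk)
      · rw [h.gen, Subgroup.closure_le]
        rintro _ ((⟨i, rfl⟩ | ⟨i, rfl⟩) | rfl)
        · exact Subgroup.subset_closure (Or.inl (Or.inl ⟨i.succ, by simp⟩))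
        · exact Subgroup.subset_closure (Or.inl (Or.inr ⟨i.succ, by simp⟩))
        · exact Subgroup.subset_closure (Or.inr rfl)
      · exact Subgroup.subset_closure (Or.inl (Or.inl ⟨0, by simp⟩))
      · exact Subgroup.subset_closure (Or.inl (Or.inr ⟨0, by simp⟩))
    · rw [Subgroup.closure_le]
      rintro _ ((⟨i, rfl⟩ | ⟨i, rfl⟩) | rfl)
      · exact Fin.cases (by simpa using hx) (fun j => by simpa using hCK (hA j)) i
      · exact Fin.cases (by simpa using hy) (fun j => by simpa using hCK (hB j)) i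
      · exact hK.mem
  · rw [hcard, h.card]; ring
  · intro i j
    induction i using Fin.cases <;> induction j using Fin.cases <;>
      simp only [Fin.cons_zero, Fin.cons_succ]
    · simpa using hxy
    · rw [(hcx _ (hB _)).1, if_neg (Fin.succ_ne_zero _).symm, pow_zero]
    · rw [hinv (hcx _ (hA _)).2, if_neg (Fin.succ_ne_zero _), pow_zero]
    · rw [h.xy]; simp only [Fin.succ_inj]
  · intro i j
    induction i using Fin.cases <;> induction j using Fin.cases <;>
      simp only [Fin.cons_zero, Fin.cons_succ]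
    · exact commutatorElement_self x
    · exact (hcx _ (hA _)).1
    · exact hinv (hcx _ (hA _)).1
    · exact h.xx _ _
  · intro i j
    induction i using Fin.cases <;> induction j using Fin.cases <;>
      simp only [Fin.cons_zero, Fin.cons_succ]
    · exact commutatorElement_self y
    · exact (hcx _ (hB _)).2
    · exact hinv (hcx _ (hB _)).2
    · exact h.yy _ _
  · intro i; induction i using Fin.cases <;> simp only [Fin.cons_zero, Fin.cons_succ]
    exacts [hxp, h.xp _]
  · intro i; induction i using Fin.cases <;> simp only [Fin.cons_zero, Fin.cons_succ]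
    exacts [hyp, h.yp _]

omit [Finite E] hp in
theorem setting_of_extraspecial [Finite E] [Fact p.Prime] (h : Cfsg.IsExtraspecial p E) :
    ∃ z : E, Setting p E z ∧ Nondeg p z (⊤ : Subgroup E) := by
  obtain ⟨⟨z, hzc⟩, hzgen⟩ := (isCyclic_of_prime_card (p := p) h.2).exists_generator
  have hzp : ∀ w ∈ Subgroup.center E, w ∈ Subgroup.zpowers z := fun w hw => by
    obtain ⟨k, hk⟩ := Subgroup.mem_zpowers_iff.mp (hzgen ⟨w, hw⟩)
    exact Subgroup.mem_zpowers_iff.mpr ⟨k, congrArg Subtype.val hk⟩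
  have hord : orderOf z = p := by
    rw [← Nat.card_zpowers, show Subgroup.zpowers z = Subgroup.center E from
      le_antisymm (Subgroup.zpowers_le.mpr hzc) hzp, h.2]
  refine ⟨z, ⟨(IsExtraspecial_commutator h).le, hzc, hord, fun a b => hzp _ ?_,
    fun a => hzp _ (IsExtraspecial_pow_mem h a)⟩, ⟨Subgroup.mem_top z, fun k _ hk => hzp k ?_⟩⟩
  · rw [← IsExtraspecial_commutator h, commutator_def]
    exact Subgroup.commutator_mem_commutator (Subgroup.mem_top a) (Subgroup.mem_top b)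
  · exact Subgroup.mem_center_iff.mpr fun g => ((hk g (Subgroup.mem_top g)).eq).symm

/-- Bases for groups of exponent `p`. -/
theorem Setting.exists_basis_exponent (hS : Setting p E z) (hexp : ∀ a : E, a ^ p = 1)
    (K : Subgroup E) (hK : Nondeg p z K) :
    ∃ (n : ℕ) (x y : Fin n → E), Basis p z K x y (fun _ => 0) := by
  induction hn : Nat.card K using Nat.strong_induction_on generalizing K with
  | _ m ih =>
    by_cases hab : ∀ a ∈ K, ∀ b ∈ K, Commute a b
    · exact ⟨0, _, _, hS.basis_zero hK hab _⟩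
    push Not at hab
    obtain ⟨x, hx, b, hb, hne⟩ := hab
    have hxz : x ∉ Subgroup.zpowers z := fun h => hne
      ((Subgroup.mem_center_iff.mp (Subgroup.zpowers_le.mpr hS.hz h) b).symm)
    obtain ⟨y, hy, hxy⟩ := hS.exists_partner hK hx hxz
    obtain ⟨C, hCnd, hCK, hlt, hcard, hcx, hdec⟩ := hS.split hK hx hy hxy
    obtain ⟨n, a, b', hB⟩ := ih (Nat.card C) (hn ▸ lt_of_not_ge fun h =>
      hlt.ne (Subgroup.eq_of_le_of_card_ge hCK h)) C hCnd rfl
    have := hS.basis_cons hK hx hy hxy hCK hcard hcx hdec hB (c := 0)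
      (by rw [hexp, pow_zero]) (by rw [hexp, pow_zero])
    refine ⟨n + 1, _, _, (show (fun _ => 0 : Fin (n + 1) → ℕ) = Fin.cons 0 (fun _ => 0) from ?_) ▸ this⟩
    funext i; induction i using Fin.cases <;> simp

/-- The squares of the generators of the standard bases for `p = 2`. -/
def qType (b : Bool) (n : ℕ) : Fin n → ℕ := fun i => if b ∧ (i : ℕ) + 1 = n then 1 else 0

omit hp in
/-- Bases for extraspecial 2-groups: only the last pair may be quaternion. -/
theorem Setting.exists_basis_two [Fact (Nat.Prime 2)] (hS : Setting 2 E z)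
    (K : Subgroup E) (hK : Nondeg 2 z K) :
    ∃ (b : Bool) (n : ℕ) (x y : Fin n → E), Basis 2 z K x y (qType b n) := by
  induction hn : Nat.card K using Nat.strong_induction_on generalizing K with
  | _ m ih =>
    by_cases hab : ∀ a ∈ K, ∀ b ∈ K, Commute a b
    · exact ⟨false, 0, _, _, hS.basis_zero hK hab _⟩
    push Not at hab
    obtain ⟨x₀, hx₀, b₀, hb₀, hne⟩ := hab
    have hsq : ∀ a : E, a ^ 2 = 1 ∨ a ^ 2 = z := fun a => by
      obtain ⟨k, hk, hke⟩ := hS.exists_pow_eq (hS.hpow a)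
      interval_cases k
      · left; simpa using hke.symm
      · right; simpa using hke.symm
    have hzz : z ^ 2 = 1 := hS.ord ▸ pow_orderOf_eq_one z
    have hzinv : z⁻¹ = z := inv_eq_of_mul_eq_one_right (by rw [← sq]; exact hzz)
    have hnz : ∀ {a b : E}, ⁅a, b⁆ = z → a ∉ Subgroup.zpowers z := fun {a b} hab hm => by
      rw [commutatorElement_eq_one_iff_mul_comm.mpr
        (Subgroup.mem_center_iff.mp (Subgroup.zpowers_le.mpr hS.hz hm) b).symm] at hab
      exact absurd (hS.ord ▸ orderOf_eq_one_iff.mpr hab.symm) (by norm_num)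
    have hmulsq : ∀ u v : E, (u * v) ^ 2 = u ^ 2 * v ^ 2 * ⁅v, u⁆ := fun u v => by
      have hcm : ∀ g, g * ⁅v, u⁆ = ⁅v, u⁆ * g :=
        Subgroup.mem_center_iff.mp (commutatorElement_mem_center hS.hc v u)
      calc (u * v) ^ 2 = u * (v * u) * v := by rw [sq]; group
        _ = u * (⁅v, u⁆ * (u * v)) * v := by rw [commutatorElement_def]; group
        _ = ⁅v, u⁆ * (u * u * (v * v)) := by simp only [← mul_assoc]; rw [hcm u]
        _ = u ^ 2 * v ^ 2 * ⁅v, u⁆ := by rw [← hcm]; simp [sq, mul_assoc]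
    have hx₀z : x₀ ∉ Subgroup.zpowers z := fun h => hne
      ((Subgroup.mem_center_iff.mp (Subgroup.zpowers_le.mpr hS.hz h) b₀).symm)
    by_cases hinv : ∃ x ∈ K, x ∉ Subgroup.zpowers z ∧ x ^ 2 = 1
    · obtain ⟨x, hx, hxz, hx2⟩ := hinv
      obtain ⟨y₁, hy₁, hxy₁⟩ := hS.exists_partner hK hx hxz
      obtain ⟨y, hy, hxy, hy2⟩ : ∃ y ∈ K, ⁅x, y⁆ = z ∧ y ^ 2 = 1 := by
        rcases hsq y₁ with h | h
        · exact ⟨y₁, hy₁, hxy₁, h⟩
        · refine ⟨x * y₁, K.mul_mem hx hy₁, ?_, ?_⟩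
          · rw [commutatorElement_mul_right_of_center hS.hc, commutatorElement_self, one_mul, hxy₁]
          · rw [hmulsq, hx2, h, one_mul, ← commutatorElement_inv x y₁, hxy₁, mul_inv_cancel]
      obtain ⟨C, hCnd, hCK, hlt, hcard, hcx, hdec⟩ := hS.split hK hx hy hxy
      obtain ⟨b, n, a, b', hB⟩ := ih (Nat.card C) (hn ▸ lt_of_not_ge fun h =>
        hlt.ne (Subgroup.eq_of_le_of_card_ge hCK h)) C hCnd rfl
      have := hS.basis_cons hK hx hy hxy hCK hcard hcx hdec hB (c := 0)
        (by rw [hx2, pow_zero]) (by rw [hy2, pow_zero])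
      rcases n with _ | n
      · refine ⟨false, 1, _, _, (show qType false 1 = Fin.cons 0 (qType b 0) from ?_) ▸ this⟩
        funext i; induction i using Fin.cases <;> simp [qType]
      · refine ⟨b, n + 2, _, _, (show qType b (n + 2) = Fin.cons 0 (qType b (n + 1)) from ?_) ▸ this⟩
        funext i; induction i using Fin.cases <;> simp [qType]
    · push Not at hinv
      have hz' : ∀ a ∈ K, a ∉ Subgroup.zpowers z → a ^ 2 = z := fun a ha haz =>
        (hsq a).resolve_left (hinv a ha haz)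
      obtain ⟨y, hy, hxy⟩ := hS.exists_partner hK hx₀ hx₀z
      obtain ⟨C, hCnd, hCK, hlt, hcard, hcx, hdec⟩ := hS.split hK hx₀ hy hxy
      have hCz : C ≤ Subgroup.zpowers z := by
        intro u hu
        by_contra huz
        have h1 : (x₀ * u) ^ 2 = 1 := by
          rw [hmulsq, hz' x₀ hx₀ hx₀z, hz' u (hCK hu) huz, ← commutatorElement_inv x₀ u,
            (hcx u hu).1, inv_one, mul_one, ← sq, hzz]
        refine hinv _ (K.mul_mem hx₀ (hCK hu)) (hnz (b := y) ?_) h1
        rw [hS.comm_mul, hxy, ← commutatorElement_inv y u, (hcx u hu).2, inv_one, mul_one]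
      have hB := hS.basis_zero hCnd (fun a ha b _ => (Subgroup.mem_center_iff.mp
        (Subgroup.zpowers_le.mpr hS.hz (hCz ha)) b).symm) (qType true 0)
      have hy2 : y ^ 2 = z := hz' y hy (hnz (b := x₀) (by rw [← commutatorElement_inv x₀ y, hxy, hzinv]))
      have := hS.basis_cons hK hx₀ hy hxy hCK hcard hcx hdec hB (c := 1)
        (by rw [hz' x₀ hx₀ hx₀z, pow_one]) (by rw [hy2, pow_one])
      refine ⟨true, 1, _, _, (show qType true 1 = Fin.cons 1 (qType true 0) from ?_) ▸ this⟩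
      funext i; induction i using Fin.cases with
      | zero => simp [qType]
      | succ j => exact j.elim0

end Cfsg.Agent.Transfer.ESIso
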