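/-
A solvable group with a fixed-point-free automorphism σ, σ⁴ = 1, has nilpotent derived subgroup
(Kovács). The argument: σ² centralizes every σ-invariant p'-subgroup of a group acting faithfully,
which is forced by averaging the identity v·σv·σ²v·σ³v = 1 over a subgroup inverted by σ².
-/
import Cfsg.Agent.Core.ThompsonFPF
import Cfsg.Agent.Core.MinimalNormal
import Cfsg.Agent.Core.Fitting
import Cfsg.Agent.Core.Cores

set_option autoImplicit false
set_option linter.unusedSectionVars false
set_option linter.style.haveILetI false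

namespace Cfsg.Agent.Transfer.FPFFour

open Cfsg
open scoped commutatorElement

variable {G : Type*} [Group G] [Finite G]

theorem odd_card (σ : MulAut G) (hσ : σ ^ 4 = 1) (hfpf : ∀ g : G, σ g = g → g = 1) :
    Odd (Nat.card G) := by
  classical
  have hP : IsPGroup 2 (Subgroup.zpowers σ) := by
    intro x
    obtain ⟨k, hk⟩ := Subgroup.mem_zpowers_iff.mp x.2
    refine ⟨2, Subtype.ext ?_⟩
    rw [Subgroup.coe_pow, ← hk, ← zpow_natCast, zpow_comm, zpow_natCast]
    norm_num [hσ]
  haveI : Fact (Nat.Prime 2) := ⟨Nat.prime_two⟩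
  have h := hP.card_modEq_card_fixedPoints G
  have h1 : MulAction.fixedPoints (Subgroup.zpowers σ) G = {1} := by
    ext g
    simp only [MulAction.mem_fixedPoints, Set.mem_singleton_iff]
    constructor
    · intro hg
      exact hfpf g (hg ⟨σ, Subgroup.mem_zpowers σ⟩)
    · rintro rfl f
      exact map_one (f : MulAut G)
  rw [h1, Nat.card_coe_set_eq, Set.ncard_singleton] at h
  exact Nat.odd_iff.mpr h

theorem eq_one_of_inv_eq_self (hodd : Odd (Nat.card G)) {g : G} (h : g⁻¹ = g) : g = 1 := by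
  have h2 : g ^ 2 = 1 := by rw [pow_two]; nth_rw 1 [← h]; rw [inv_mul_cancel]
  rw [← orderOf_eq_one_iff]
  exact Nat.eq_one_of_dvd_coprimes (Nat.coprime_two_left.mpr hodd)
    (orderOf_dvd_of_pow_eq_one h2) (orderOf_dvd_natCard g)

/-- The averaging argument: a finite abelian-by-inversion piece acts trivially on a module. -/
theorem acts_trivially {V : Type*} [CommGroup V] [Finite V] {B : Type*} [CommGroup B] [Finite B]
    (ρ : B →* MulAut V) (s : MulAut V) (t : MulAut B) (hcop : (Nat.card B).Coprime (Nat.card V))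
    (hodd : Odd (Nat.card B))
    (hs : s ^ 4 = 1) (hfpf : ∀ v : V, s v = v → v = 1) (ht : ∀ b, t (t b) = b⁻¹)
    (hcomp : ∀ b v, s (ρ b v) = ρ (t b) (s v)) (b : B) (v : V) : ρ b v = v := by
  classical
  haveI := Fintype.ofFinite B
  have hs4 : ∀ v, s (s (s (s v))) = v := fun v => by
    have := congrArg (fun f : MulAut V => f v) hs
    simpa [pow_succ, MulAut.mul_apply] using this
  have horb : ∀ v, v * s v * s (s v) * s (s (s v)) = 1 := fun v => hfpf _ (by
    simp only [map_mul, hs4]
    ac_rfl)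
  let N : V → V := fun w => ∏ b : B, ρ b w
  have hN : ∀ b w, ρ b (N w) = N w := by
    intro b w
    simp only [N, map_prod, ← MulAut.mul_apply, ← map_mul]
    exact Equiv.prod_comp (Equiv.mulLeft b) (fun c => ρ c w)
  have hinv : ∀ b : B, b⁻¹ = b → b = 1 := fun b h => eq_one_of_inv_eq_self hodd h
  let f₁ : B →* B := MonoidHom.mk' (fun b => b⁻¹ * t b) (fun a c => by
    simp only [map_mul, mul_inv_rev]; ac_rfl)
  let f₂ : B →* B := MonoidHom.mk' (fun b => b⁻¹ * b⁻¹) (fun a c => by
    simp only [mul_inv_rev]; ac_rfl)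
  let f₃ : B →* B := MonoidHom.mk' (fun b => b⁻¹ * (t b)⁻¹) (fun a c => by
    simp only [map_mul, mul_inv_rev]; ac_rfl)
  have bij : ∀ f : B →* B, (∀ x, f x = 1 → x = 1) → Function.Bijective f := fun f hf =>
    Finite.injective_iff_bijective.mp ((injective_iff_map_eq_one f).mpr hf)
  have b₁ : Function.Bijective f₁ := bij f₁ fun x hx => by
    have h : t x = x := (inv_mul_eq_one.mp hx).symm
    have h2 := ht x
    rw [h, h] at h2
    exact hinv x h2.symm
  have b₂ : Function.Bijective f₂ := bij f₂ fun x hx => by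
    have h : x = x⁻¹ := inv_mul_eq_one.mp hx
    exact hinv x h.symm
  have b₃ : Function.Bijective f₃ := bij f₃ fun x hx => by
    have h : x = (t x)⁻¹ := inv_mul_eq_one.mp hx
    have h1 : t x = x⁻¹ := (inv_eq_iff_eq_inv.mpr h).symm
    have h2 := ht x
    rw [h1, map_inv, h1, inv_inv] at h2
    exact hinv x h2.symm
  have hsum : ∀ (f : B →* B), Function.Bijective f → ∀ w, ∏ b : B, ρ (f b) w = N w :=
    fun f hf w => hf.prod_comp (fun c => ρ c w)
  have key : ∀ c : B, v * ρ (f₁ c) (s v) * ρ (f₂ c) (s (s v)) * ρ (f₃ c) (s (s (s v))) = 1 := by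
    intro c
    have h := congrArg (ρ c⁻¹) (horb (ρ c v))
    simp only [hcomp, map_mul, map_one, ht] at h
    have h0 : ρ c⁻¹ (ρ c v) = v := by rw [← MulAut.mul_apply, ← map_mul]; simp
    rw [h0] at h
    simpa only [f₁, f₂, f₃, MonoidHom.mk'_apply, map_mul, MulAut.mul_apply, map_inv] using h
  have hprod : v ^ Fintype.card B * N (s v) * N (s (s v)) * N (s (s (s v))) = 1 := by
    have h := Finset.prod_eq_one (s := (Finset.univ : Finset B)) (fun c _ => key c)
    simpa only [Finset.prod_mul_distrib, Finset.prod_const, Finset.card_univ, hsum _ b₁,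
      hsum _ b₂, hsum _ b₃] using h
  have hfix : ρ b (v ^ Fintype.card B) = v ^ Fintype.card B := by
    have e : v ^ Fintype.card B = (N (s v) * N (s (s v)) * N (s (s (s v))))⁻¹ := by
      rw [eq_inv_iff_mul_eq_one, ← hprod]; ac_rfl
    rw [e, map_inv, map_mul, map_mul, hN, hN, hN]
  obtain ⟨k, hk⟩ : ∃ k, (v ^ Fintype.card B) ^ k = v :=
    exists_pow_eq_self_of_coprime (Nat.Coprime.coprime_dvd_right (orderOf_dvd_natCard v)
      (by rwa [← Nat.card_eq_fintype_card]))
  rw [← hk, map_pow, hfix]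

/-- If σ² centralizes (by hypothesis `hkey`) the inverted invariant abelian `p'`-subgroups and
`O_p(H) = 1`, then the solvable group `H` is abelian. -/
theorem abelian_of_key [Group.IsSolvable G] {p : ℕ} [Fact p.Prime] (σ : MulAut G) (hσ : σ ^ 4 = 1)
    (hfpf : ∀ g : G, σ g = g → g = 1) (hOp : pCore p G = ⊥)
    (hkey : ∀ B : Subgroup G, (∀ b ∈ B, σ b ∈ B) → IsMulCommutative B →
      (Nat.card B).Coprime p → (∀ b ∈ B, σ (σ b) = b⁻¹) → B = ⊥) :
    ∀ x y : G, x * y = y * x := by
  classical
  have hodd := odd_card σ hσ hfpf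
  have hσ4 : ∀ g, σ (σ (σ (σ g))) = g := fun g => by
    have := congrArg (fun f : MulAut G => f g) hσ
    simpa [pow_succ, MulAut.mul_apply] using this
  have habel : ∀ A : Subgroup G, (∀ a ∈ A, σ a ∈ A) → IsMulCommutative A →
      (Nat.card A).Coprime p → ∀ a ∈ A, σ (σ a) = a := by
    intro A hA hcomm hcop a ha
    haveI := hcomm
    let u : A →* G := MonoidHom.mk' (fun x => (x : G)⁻¹ * σ (σ (x : G))) (fun x y => by
      have h1 : (y : G)⁻¹ * ((x : G)⁻¹ * σ (σ (x : G))) = ((x : G)⁻¹ * σ (σ (x : G))) * (y : G)⁻¹ :=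
        setLike_mul_comm (A.inv_mem y.2) (A.mul_mem (A.inv_mem x.2) (hA _ (hA _ x.2)))
      simp only [Subgroup.coe_mul, map_mul, mul_inv_rev]
      rw [show (y : G)⁻¹ * (x : G)⁻¹ * (σ (σ (x : G)) * σ (σ (y : G))) =
        (y : G)⁻¹ * ((x : G)⁻¹ * σ (σ (x : G))) * σ (σ (y : G)) by group, h1]
      group)
    have hle : u.range ≤ A := by
      rintro _ ⟨x, rfl⟩
      exact A.mul_mem (A.inv_mem x.2) (hA _ (hA _ x.2))
    have hB : u.range = ⊥ := by
      refine hkey u.range ?_ ?_ ?_ ?_
      · rintro _ ⟨x, rfl⟩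
        exact ⟨⟨σ x, hA _ x.2⟩, by simp [u, map_mul]⟩
      · exact ⟨⟨fun x y => Subtype.ext (setLike_mul_comm (hle x.2) (hle y.2))⟩⟩
      · exact Nat.Coprime.coprime_dvd_left (Subgroup.card_dvd_of_le hle) hcop
      · rintro _ ⟨x, rfl⟩
        show σ (σ ((x : G)⁻¹ * σ (σ (x : G)))) = ((x : G)⁻¹ * σ (σ (x : G)))⁻¹
        simp only [map_mul, map_inv, hσ4, mul_inv_rev, inv_inv]
    have h := (Subgroup.eq_bot_iff_forall _).mp hB _ ⟨⟨a, ha⟩, rfl⟩
    exact (inv_mul_eq_one.mp h).symm
  have hsub : ∀ (n : ℕ) (N : Subgroup G), Nat.card N ≤ n → (∀ a ∈ N, σ a ∈ N) →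
      (Nat.card N).Coprime p → ∀ a ∈ N, σ (σ a) = a := by
    intro n
    induction n with
    | zero => intro N h; exact absurd h (by simp [Nat.card_pos.ne'])
    | succ n ih =>
    intro N hcard hN hcop
    have ih' : ∀ M : Subgroup G, M ≤ N → M ≠ N → (∀ a ∈ M, σ a ∈ M) → ∀ a ∈ M, σ (σ a) = a := by
      intro M hle hne hM
      refine ih M ?_ hM (Nat.Coprime.coprime_dvd_left (Subgroup.card_dvd_of_le hle) hcop)
      have : Nat.card M ≠ Nat.card N := fun e => hne (Subgroup.eq_of_le_of_card_ge hle e.ge)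
      have := Subgroup.card_le_of_le hle
      omega
    let D : Subgroup G := N ⊓ ((σ * σ : MulAut G) : G →* G).eqLocus (MonoidHom.id G)
    have hmemD : ∀ x, x ∈ D ↔ x ∈ N ∧ σ (σ x) = x := fun x => Iff.rfl
    have hDσ : ∀ a ∈ D, σ a ∈ D := fun a ha =>
      (hmemD _).mpr ⟨hN _ ha.1, by rw [((hmemD a).mp ha).2]⟩
    suffices hDN : N ≤ D from fun a ha => ((hmemD a).mp (hDN ha)).2
    by_cases hab : IsMulCommutative N
    · exact fun a ha => (hmemD a).mpr ⟨ha, habel N hN hab hcop a ha⟩
    have hsol : Group.IsSolvable N := inferInstance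
    have hcle : ⁅N, N⁆ ≤ N := Subgroup.commutator_le_self N
    have hcne : ⁅N, N⁆ ≠ N := fun h => by
      haveI : Nontrivial N := not_subsingleton_iff_nontrivial.mp fun hs =>
        hab ⟨⟨fun x y => Subsingleton.elim _ _⟩⟩
      refine (Group.IsSolvable.commutator_lt_top_of_nontrivial N).ne ?_
      refine Subgroup.map_injective N.subtype_injective ?_
      rw [Subgroup.map_subtype_commutator, h, ← MonoidHom.range_eq_map, Subgroup.range_subtype]
    have hcσ : ∀ a ∈ ⁅N, N⁆, σ a ∈ ⁅N, N⁆ := by
      have hmap : N.map (σ : G →* G) ≤ N := Subgroup.map_le_iff_le_comap.mpr hN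
      have : ⁅N, N⁆.map (σ : G →* G) ≤ ⁅N, N⁆ := by
        rw [Subgroup.map_commutator]; exact Subgroup.commutator_mono hmap hmap
      exact fun a ha => this ⟨a, ha, rfl⟩
    have hderD : ⁅N, N⁆ ≤ D := fun a ha => (hmemD a).mpr ⟨hcle ha, ih' _ hcle hcne hcσ a ha⟩
    have hconj : ∀ x ∈ N, ∀ d ∈ D, x * d * x⁻¹ ∈ D := fun x hx d hd => by
      rw [show x * d * x⁻¹ = ⁅x, d⁆ * d by rw [commutatorElement_def]; group]
      exact D.mul_mem (hderD (Subgroup.commutator_mem_commutator hx hd.1)) hd
    have hu : ∀ x ∈ N, x⁻¹ * σ (σ x) ∈ Subgroup.centralizer (D : Set G) := by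
      intro x hx
      rw [Subgroup.mem_centralizer_iff]
      intro d hd
      have h1 := ((hmemD _).mp (hconj x hx d hd)).2
      simp only [map_mul, map_inv, ((hmemD d).mp hd).2] at h1
      calc d * (x⁻¹ * σ (σ x)) = x⁻¹ * (x * d * x⁻¹) * σ (σ x) := by group
        _ = x⁻¹ * (σ (σ x) * d * (σ (σ x))⁻¹) * σ (σ x) := by rw [h1]
        _ = _ := by group
    have hufix : ∀ x ∈ N, σ (σ (x⁻¹ * σ (σ x))) = x⁻¹ * σ (σ x) → σ (σ x) = x := by
      intro x _ h
      rw [map_mul, map_mul, hσ4, map_inv, map_inv] at h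
      have hinv : (x⁻¹ * σ (σ x))⁻¹ = x⁻¹ * σ (σ x) := by rw [mul_inv_rev, inv_inv]; exact h
      exact (inv_mul_eq_one.mp (eq_one_of_inv_eq_self hodd hinv)).symm
    let M : Subgroup G := N ⊓ Subgroup.centralizer (D : Set G)
    by_cases hMN : M = N
    swap
    · intro x hx
      refine (hmemD x).mpr ⟨hx, hufix x hx (ih' M inf_le_left hMN ?_ _
        ⟨N.mul_mem (N.inv_mem hx) (hN _ (hN _ hx)), hu x hx⟩)⟩
      rintro a ⟨ha1, ha2⟩
      refine ⟨hN _ ha1, Subgroup.mem_centralizer_iff.mpr fun d hd => ?_⟩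
      have hd' : σ (σ (σ d)) ∈ D := hDσ _ (hDσ _ (hDσ _ hd))
      have := congrArg σ (Subgroup.mem_centralizer_iff.mp ha2 _ hd')
      simpa only [map_mul, hσ4] using this
    -- `D` is central in `N`
    have hcen : ∀ d ∈ D, ∀ x ∈ N, d * x = x * d := fun d hd x hx =>
      Subgroup.mem_centralizer_iff.mp (hMN.ge hx).2 d hd
    intro x hx
    -- `τ x * x` lies in `D`
    have hz : σ (σ x) * x ∈ D := by
      have hw : ⁅σ (σ x), x⁆ ∈ D :=
        hderD (Subgroup.commutator_mem_commutator (hN _ (hN _ hx)) hx)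
      refine (hmemD _).mpr ⟨N.mul_mem (hN _ (hN _ hx)) hx, ?_⟩
      simp only [map_mul, hσ4]
      have h1 : σ (σ ⁅σ (σ x), x⁆) = ⁅σ (σ x), x⁆ := ((hmemD _).mp hw).2
      simp only [map_commutatorElement, hσ4] at h1
      rw [← commutatorElement_inv] at h1
      have := eq_one_of_inv_eq_self hodd (by rw [h1] : (⁅σ (σ x), x⁆)⁻¹ = ⁅σ (σ x), x⁆)
      exact (commutatorElement_eq_one_iff_mul_comm.mp this).symm
    -- `x` and `σ x` commute
    have hcx : x * σ x = σ x * x := by
      set z := σ (σ x) * x with hzdef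
      have hτ : σ (σ x) = z * x⁻¹ := by rw [hzdef]; group
      set c := ⁅x, σ x⁆ with hc
      have hcD : c ∈ D := hderD (Subgroup.commutator_mem_commutator hx (hN _ hx))
      have h1 : σ c = σ x * x⁻¹ * (σ x)⁻¹ * x := by
        rw [hc, map_commutatorElement, hτ, commutatorElement_def, mul_inv_rev, inv_inv]
        have hz1 : z * x⁻¹ = x⁻¹ * z := hcen z hz _ (N.inv_mem hx)
        have hz2 : z * (σ x)⁻¹ = (σ x)⁻¹ * z := hcen z hz _ (N.inv_mem (hN _ hx))
        calc σ x * (z * x⁻¹) * (σ x)⁻¹ * (x * z⁻¹)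
            = σ x * x⁻¹ * (z * (σ x)⁻¹) * x * z⁻¹ := by rw [hz1]; group
          _ = σ x * x⁻¹ * (σ x)⁻¹ * (z * x) * z⁻¹ := by rw [hz2]; group
          _ = σ x * x⁻¹ * (σ x)⁻¹ * x := by rw [hcen z hz x hx]; group
      have h2 : σ c = c := by
        rw [h1, hc]
        have := hcen c hcD x hx
        rw [hc, commutatorElement_def] at this
        rw [commutatorElement_def]
        calc σ x * x⁻¹ * (σ x)⁻¹ * x = x⁻¹ * (x * σ x * x⁻¹ * (σ x)⁻¹ * x) := by group
          _ = x⁻¹ * (x * (x * σ x * x⁻¹ * (σ x)⁻¹)) := by rw [this]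
          _ = _ := by group
      exact commutatorElement_eq_one_iff_mul_comm.mp (hfpf c h2)
    let S : Set G := insert x (insert (σ x) (D : Set G))
    have hSN : S ⊆ N := by
      intro a ha
      rcases ha with rfl | rfl | ha
      exacts [hx, hN _ hx, ha.1]
    have hScomm : ∀ a ∈ S, ∀ b ∈ S, a * b = b * a := by
      intro a ha b hb
      have haN := hSN ha
      have hbN := hSN hb
      rcases ha with rfl | rfl | ha
      · rcases hb with rfl | rfl | hb
        exacts [rfl, hcx, (hcen _ hb _ haN).symm]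
      · rcases hb with rfl | rfl | hb
        exacts [hcx.symm, rfl, (hcen _ hb _ haN).symm]
      · exact hcen _ ha _ hbN
    have hA := Subgroup.isMulCommutative_closure hScomm
    have hAN : Subgroup.closure S ≤ N := (Subgroup.closure_le _).mpr hSN
    have hAσ : ∀ a ∈ Subgroup.closure S, σ a ∈ Subgroup.closure S := by
      have : Subgroup.closure S ≤ (Subgroup.closure S).comap (σ : G →* G) := by
        rw [Subgroup.closure_le]
        intro a ha
        show σ a ∈ Subgroup.closure S
        rcases ha with rfl | rfl | ha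
        · exact Subgroup.subset_closure (by simp [S])
        · have : σ (σ x) = (σ (σ x) * x) * x⁻¹ := by group
          rw [this]
          exact Subgroup.mul_mem _ (Subgroup.subset_closure (Or.inr (Or.inr hz)))
            (Subgroup.inv_mem _ (Subgroup.subset_closure (by simp [S])))
        · exact Subgroup.subset_closure (Or.inr (Or.inr (hDσ _ ha)))
      exact fun a ha => this ha
    exact (hmemD x).mpr ⟨hx, habel _ hAσ hA
      (Nat.Coprime.coprime_dvd_left (Subgroup.card_dvd_of_le hAN) hcop) x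
      (Subgroup.subset_closure (by simp [S]))⟩
  -- apply to the Fitting subgroup
  have hp : p.Prime := Fact.out
  set F := fittingSubgroup G with hF
  have hFσ : ∀ a ∈ F, σ a ∈ F := fun a ha => by
    have : F.map (σ : G →* G) ≤ F := (Core.fittingSubgroup_map_equiv (σ : G ≃* G)).le
    exact this ⟨a, ha, rfl⟩
  have hFp : (Nat.card F).Coprime p := by
    have h1 : F ≤ pCore p G ⊔ pPrimeCore p G := by
      rw [hF, Core.fittingSubgroup_eq_iSup]; exact Core.iSup_pCore_le_sup p G
    rw [hOp, bot_sup_eq] at h1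
    exact Nat.Coprime.coprime_dvd_left (Subgroup.card_dvd_of_le h1)
      (Core.card_pPrimeCore_coprime p G)
  have hτF := hsub _ F le_rfl hFσ hFp
  have hτ : ∀ g, σ (σ g) = g := by
    intro g
    have hmem : g⁻¹ * σ (σ g) ∈ Subgroup.centralizer (F : Set G) := by
      rw [Subgroup.mem_centralizer_iff]
      intro d hd
      have hd2 : g * d * g⁻¹ ∈ F := (inferInstance : F.Normal).conj_mem d hd g
      have h1 := hτF _ hd2
      simp only [map_mul, map_inv, hτF d hd] at h1
      calc d * (g⁻¹ * σ (σ g)) = g⁻¹ * (g * d * g⁻¹) * σ (σ g) := by group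
        _ = g⁻¹ * (σ (σ g) * d * (σ (σ g))⁻¹) * σ (σ g) := by rw [h1]
        _ = _ := by group
    have h2 := hτF _ (Core.centralizer_fittingSubgroup_le hmem)
    rw [map_mul, map_mul, hσ4, map_inv, map_inv] at h2
    have hinv : (g⁻¹ * σ (σ g))⁻¹ = g⁻¹ * σ (σ g) := by rw [mul_inv_rev, inv_inv]; exact h2
    exact (inv_mul_eq_one.mp (eq_one_of_inv_eq_self hodd hinv)).symm
  exact fun x y => (MonoidHom.FixedPointFree.commute_all_of_involutive (φ := σ) hfpf hτ x y).eq

universe u

theorem commutator_nilpotent_aux : ∀ (n : ℕ) {G : Type u} [Group G] [Finite G],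
    Nat.card G ≤ n → Group.IsSolvable G → ∀ σ : MulAut G, σ ^ 4 = 1 →
      (∀ g : G, σ g = g → g = 1) → Group.IsNilpotent (commutator G) := by
  intro n
  induction n with
  | zero => intro G _ _ h; exact absurd h (by simp [Nat.card_pos.ne'])
  | succ n ih =>
  intro G _ _ hcard hsol σ hσ hfpf
  classical
  rcases subsingleton_or_nontrivial G with hs | hnt
  · haveI : Subsingleton (commutator G) := inferInstance
    infer_instance
  haveI := hsol
  -- a minimal nontrivial σ-invariant normal subgroup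
  obtain ⟨V, ⟨hVn, hVσ, hV1⟩, hVmin⟩ := (Set.toFinite
    {V : Subgroup G | V.Normal ∧ V.map σ.toMonoidHom = V ∧ V ≠ ⊥}).exists_minimal
    ⟨⊤, inferInstance, Subgroup.map_top_of_surjective _ σ.surjective, top_ne_bot⟩
  haveI := hVn
  have hmin : ∀ W : Subgroup G, W.Normal → W.map σ.toMonoidHom ≤ W → W ≤ V → W ≠ ⊥ → W = V := by
    intro W hWn hWσ hWV hW1
    exact le_antisymm hWV (hVmin ⟨hWn, Core.ThompsonFPF.map_eq_of_le hWσ, hW1⟩ hWV)
  have hVc : IsMulCommutative V := by
    rw [← Subgroup.commutator_self_eq_bot_iff]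
    by_contra hne
    have heq : ⁅V, V⁆ = V := hmin _ inferInstance
      (by rw [Subgroup.map_commutator, hVσ]) (Subgroup.commutator_le_self V) hne
    haveI : Nontrivial V := (Subgroup.nontrivial_iff_ne_bot V).mpr hV1
    refine (Group.IsSolvable.commutator_lt_top_of_nontrivial V).ne ?_
    refine Subgroup.map_injective V.subtype_injective ?_
    rw [Subgroup.map_subtype_commutator, heq, ← MonoidHom.range_eq_map, Subgroup.range_subtype]
  obtain ⟨p, hp, hpV⟩ := Nat.exists_prime_and_dvd (mt Subgroup.card_eq_one.mp hV1)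
  haveI : Fact p.Prime := ⟨hp⟩
  -- `V` is a p-group
  have hVp : IsPGroup p V := by
    let W : Subgroup G := (pCore p V).map V.subtype
    have hW : W = V := by
      have hWn : W.Normal := Core.normal_map_subtype_of_characteristic _
      refine hmin W hWn ?_ (Subgroup.map_subtype_le _) ?_
      · have h := Core.pCore_map_equiv (p := p) (Core.ThompsonFPF.restrict σ V hVσ)
        rintro _ ⟨_, ⟨w, hw, rfl⟩, rfl⟩
        refine ⟨Core.ThompsonFPF.restrict σ V hVσ w, ?_, rfl⟩
        exact h.le ⟨w, hw, rfl⟩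
      · intro hbot
        have hb : pCore p V = ⊥ := (Subgroup.map_eq_bot_iff_of_injective _ V.subtype_injective).mp hbot
        obtain ⟨P⟩ := (inferInstance : Nonempty (Sylow p V))
        haveI := hVc
        have hP := Core.le_pCore (Subgroup.normal_of_isMulCommutative (P : Subgroup V)) P.2
        rw [hb, le_bot_iff] at hP
        exact P.ne_bot_of_dvd_card hpV hP
    refine (((Core.isPGroup_pCore p V).map V.subtype).to_le hW.ge).of_equiv (MulEquiv.refl _)
  -- induction
  have hfq := Core.ThompsonFPF.fpf_quotient (φ := σ) hfpf hVσ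
  have hq4 : (QuotientGroup.congr V V σ hVσ : MulAut (G ⧸ V)) ^ 4 = 1 := by
    refine MulEquiv.ext fun x => ?_
    obtain ⟨g, rfl⟩ := QuotientGroup.mk'_surjective V x
    have := congrArg (fun f : MulAut G => f g) hσ
    simp only [pow_succ, pow_zero, one_mul, MulAut.mul_apply, MulAut.one_apply] at this ⊢
    show QuotientGroup.mk' V _ = _
    exact congrArg _ this
  have hqlt : Nat.card (G ⧸ V) < Nat.card G := by
    rw [Subgroup.card_eq_card_quotient_mul_card_subgroup V]
    exact lt_mul_of_one_lt_right Nat.card_pos ((Subgroup.one_lt_card_iff_ne_bot V).mpr hV1)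
  have hIH := ih (by omega) inferInstance (QuotientGroup.congr V V σ hVσ) hq4 hfq
  -- the acting group
  set C := Subgroup.centralizer (V : Set G) with hC
  have hCσ : C.map σ.toMonoidHom = C := by
    refine Core.ThompsonFPF.map_eq_of_le ?_
    rintro _ ⟨c, hc, rfl⟩
    refine Subgroup.mem_centralizer_iff.mpr fun v hv => ?_
    rw [← hVσ] at hv
    obtain ⟨w, hw, rfl⟩ := hv
    have := congrArg σ (Subgroup.mem_centralizer_iff.mp hc w hw)
    simpa using this
  set σH : MulAut (G ⧸ C) := QuotientGroup.congr C C σ hCσ with hσH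
  have hσH_mk : ∀ g, σH (QuotientGroup.mk' C g) = QuotientGroup.mk' C (σ g) := fun g => rfl
  have hH4 : σH ^ 4 = 1 := by
    refine MulEquiv.ext fun x => ?_
    obtain ⟨g, rfl⟩ := QuotientGroup.mk'_surjective C x
    have := congrArg (fun f : MulAut G => f g) hσ
    simp only [pow_succ, pow_zero, one_mul, MulAut.mul_apply, MulAut.one_apply] at this ⊢
    show QuotientGroup.mk' C _ = _
    exact congrArg _ this
  have hHfpf := Core.ThompsonFPF.fpf_quotient (φ := σ) hfpf hCσ
  -- `O_p(G / C) = 1`
  have hOp : pCore p (G ⧸ C) = ⊥ := by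
    set K := (pCore p (G ⧸ C)).comap (QuotientGroup.mk' C) with hK
    have hfix : V ⊓ Subgroup.centralizer (K : Set G) = V := by
      haveI : K.Normal := Subgroup.Normal.comap inferInstance _
      refine hmin _ inferInstance ?_ inf_le_left ?_
      · rintro _ ⟨w, ⟨hw1, hw2⟩, rfl⟩
        refine ⟨hVσ.le ⟨w, hw1, rfl⟩, Subgroup.mem_centralizer_iff.mpr fun k hk => ?_⟩
        have hk' : σ.symm k ∈ K := by
          show QuotientGroup.mk' C (σ.symm k) ∈ pCore p (G ⧸ C)
          have h := (Core.pCore_map_equiv (p := p) σH).ge hk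
          obtain ⟨x, hx, hxe⟩ := h
          have : σH (QuotientGroup.mk' C (σ.symm k)) = σH x := by
            rw [hσH_mk, MulEquiv.apply_symm_apply]; exact hxe.symm
          rw [σH.injective this]; exact hx
        have := congrArg σ (Subgroup.mem_centralizer_iff.mp hw2 _ hk')
        simpa using this
      · -- a p-group acting on a p-group fixes a nontrivial element
        let ρ : (G ⧸ C) →* MulAut V := QuotientGroup.lift C (MulAut.conjNormal (H := V)) (by
          intro c hc
          refine MulEquiv.ext fun v => Subtype.ext ?_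
          rw [MulAut.conjNormal_apply, MulAut.one_apply,
            ← Subgroup.mem_centralizer_iff.mp hc v v.2, mul_inv_cancel_right])
        letI : MulAction (G ⧸ C) V := MulAction.compHom V ρ
        haveI : Finite V := inferInstance
        have h1 : (1 : V) ∈ MulAction.fixedPoints (pCore p (G ⧸ C)) V := fun x =>
          map_one (ρ (x : G ⧸ C))
        obtain ⟨v, hv, hv1⟩ := (Core.isPGroup_pCore p (G ⧸ C)).exists_fixed_point_of_prime_dvd_card_of_fixed_point
          V hpV h1
        refine fun hb => hv1 (Subtype.ext ((Subgroup.eq_bot_iff_forall _).mp hb (v : G)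
          ⟨v.2, Subgroup.mem_centralizer_iff.mpr fun k hk => ?_⟩)).symm
        have h2 := congrArg Subtype.val (hv ⟨QuotientGroup.mk' C k, hk⟩)
        exact mul_inv_eq_iff_eq_mul.mp h2
    rw [Subgroup.eq_bot_iff_forall]
    intro x hx
    obtain ⟨g, rfl⟩ := QuotientGroup.mk'_surjective C x
    exact (QuotientGroup.eq_one_iff g).mpr (Subgroup.mem_centralizer_iff.mpr fun v hv =>
      ((Subgroup.mem_centralizer_iff.mp (hfix.ge hv).2) g hx).symm)
  have hkey : ∀ B : Subgroup (G ⧸ C), (∀ b ∈ B, σH b ∈ B) → IsMulCommutative B →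
      (Nat.card B).Coprime p → (∀ b ∈ B, σH (σH b) = b⁻¹) → B = ⊥ := by
    intro B hB hBc hBp hinv
    letI : CommGroup V := { (inferInstance : Group V) with mul_comm := hVc.1.1 }
    letI : CommGroup B := { (inferInstance : Group B) with mul_comm := hBc.1.1 }
    let ρ : (G ⧸ C) →* MulAut V := QuotientGroup.lift C (MulAut.conjNormal (H := V)) (by
      intro c hc
      refine MulEquiv.ext fun v => Subtype.ext ?_
      rw [MulAut.conjNormal_apply, MulAut.one_apply,
        ← Subgroup.mem_centralizer_iff.mp hc v v.2, mul_inv_cancel_right])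
    have hBσ : B.map σH.toMonoidHom = B :=
      Core.ThompsonFPF.map_eq_of_le (Subgroup.map_le_iff_le_comap.mpr hB)
    obtain ⟨k, hk⟩ := IsPGroup.iff_card.mp hVp
    have htriv := acts_trivially (ρ.comp B.subtype) (Core.ThompsonFPF.restrict σ V hVσ)
      (Core.ThompsonFPF.restrict σH B hBσ)
      (by rw [hk]; exact hBp.pow_right k)
      (Odd.of_dvd_nat (odd_card σH hH4 hHfpf) (Subgroup.card_subgroup_dvd_card B))
      (by
        refine MulEquiv.ext fun v => Subtype.ext ?_
        have := congrArg (fun f : MulAut G => f (v : G)) hσ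
        simp only [pow_succ, pow_zero, one_mul, MulAut.mul_apply, MulAut.one_apply] at this ⊢
        exact this)
      (fun v hv => Subtype.ext (hfpf _ (congrArg Subtype.val hv)))
      (fun b => Subtype.ext (hinv b b.2))
      (fun b v => by
        obtain ⟨g, hg⟩ := QuotientGroup.mk'_surjective C (b : G ⧸ C)
        refine Subtype.ext ?_
        show σ ((ρ (b : G ⧸ C) v : V) : G) = ((ρ (σH (b : G ⧸ C)) _ : V) : G)
        rw [← hg, hσH_mk]
        show σ (g * v * g⁻¹) = σ g * σ v * (σ g)⁻¹
        simp)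
    rw [Subgroup.eq_bot_iff_forall]
    intro b hb
    obtain ⟨g, rfl⟩ := QuotientGroup.mk'_surjective C b
    refine (QuotientGroup.eq_one_iff g).mpr (Subgroup.mem_centralizer_iff.mpr fun v hv => ?_)
    have h2 := congrArg Subtype.val (htriv ⟨_, hb⟩ ⟨v, hv⟩)
    exact (mul_inv_eq_iff_eq_mul.mp h2).symm
  have hab := abelian_of_key σH hH4 hHfpf hOp hkey
  have hle : commutator G ≤ C := by
    rw [commutator_def, Subgroup.commutator_le]
    intro a _ b _
    exact (QuotientGroup.eq_one_iff _).mp (by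
      show QuotientGroup.mk' C ⁅a, b⁆ = 1
      rw [map_commutatorElement]
      exact commutatorElement_eq_one_iff_mul_comm.mpr (hab _ _))
  -- central extension
  let f : commutator G →* (commutator (G ⧸ V)) :=
    ((QuotientGroup.mk' V).comp (commutator G).subtype).codRestrict _ (fun x => by
      have h : (commutator G).map (QuotientGroup.mk' V) ≤ commutator (G ⧸ V) := by
        rw [commutator_def, commutator_def, Subgroup.map_commutator]
        exact Subgroup.commutator_mono le_top le_top
      exact h ⟨x, x.2, rfl⟩)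
  haveI := hIH
  refine Subgroup.isNilpotent_of_ker_le_center f (fun x hx => Subgroup.mem_center_iff.mpr fun y => ?_)
  have hxV : (x : G) ∈ V := (QuotientGroup.eq_one_iff _).mp (congrArg Subtype.val hx)
  exact Subtype.ext (Subgroup.mem_centralizer_iff.mp (hle y.2) x hxV).symm

theorem isNilpotent_commutator {G : Type u} [Group G] [Finite G] (hsol : Group.IsSolvable G)
    (σ : MulAut G) (hσ : σ ^ 4 = 1) (hfpf : ∀ g : G, σ g = g → g = 1) :
    Group.IsNilpotent (commutator G) :=
  commutator_nilpotent_aux _ le_rfl hsol σ hσ hfpf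

end Cfsg.Agent.Transfer.FPFFour
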