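/-
Transfer library: minimal normal subgroups normalize subnormal subgroups (Wielandt).
-/
import Mathlib.GroupTheory.IsSubnormal
import Cfsg.Agent.Core.MinimalNormal
import Cfsg.Agent.Transfer.Basic

namespace Cfsg.Agent.Transfer

open Cfsg.Agent.Core

/-- Wielandt: a minimal normal subgroup normalizes every subnormal subgroup. -/
theorem isMinNormal_le_normalizer.{u} : ∀ {G : Type u} [Group G] [Finite G] {K S : Subgroup G},
    IsMinNormal K → S.IsSubnormal → K ≤ Subgroup.normalizer (S : Set G) := by
  suffices h : ∀ (n : ℕ) (G : Type u) [Group G] [Finite G], Nat.card G = n → ∀ K S : Subgroup G,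
      IsMinNormal K → S.IsSubnormal → K ≤ Subgroup.normalizer (S : Set G) from
    fun {G} _ _ {K S} hK hS => h _ G rfl K S hK hS
  intro n
  induction n using Nat.strong_induction_on with
  | h n ih =>
    intro G _ _ hn K S hK hS
    subst hn
    rcases hS.lt_normal with rfl | ⟨L, hLn, hSL, hLt⟩
    · intro x _; exact Subgroup.le_normalizer (Subgroup.mem_top x)
    haveI := hK.1
    haveI := hLn
    rcases hK.2.2 (K ⊓ L) inferInstance inf_le_left with h0 | hKL
    · intro k hk
      have hc : ∀ s ∈ S, k * s * k⁻¹ = s := fun s hs => by
        have h1 := Subgroup.commute_of_normal_of_disjoint K L hK.1 hLn (disjoint_iff.mpr h0) k s hk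
          (hSL hs)
        rw [h1.eq, mul_inv_cancel_right]
      rw [Subgroup.mem_normalizer_iff]
      intro s
      refine ⟨fun hs => by rw [hc s hs]; exact hs, fun hs => ?_⟩
      have h2 := hc _ hs
      have h3 : k * s * k⁻¹ = s := by
        have := congrArg (fun t => k⁻¹ * t * k) h2
        simpa [mul_assoc] using this
      exact h3 ▸ hs
    · have hKleL : K ≤ L := inf_eq_left.mp hKL
      have hcard : Nat.card L < Nat.card G := by
        by_contra hc
        exact hLt.ne (Subgroup.eq_top_of_card_eq _ (le_antisymm
          (Subgroup.card_le_card_group L) (not_lt.mp hc)))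
      have hne : K.subgroupOf L ≠ ⊥ := by
        intro h
        apply hK.2.1
        rw [Subgroup.subgroupOf_eq_bot] at h
        exact h.eq_bot_of_le hKleL
      obtain ⟨M, hM, hMK⟩ := exists_isMinNormal_le (hK.1.subgroupOf L) hne
      -- the conjugates of `M` generate `K`
      let J : Subgroup G := ⨆ g : G, (M.map L.subtype).map (MulAut.conj g).toMonoidHom
      have hJK : J ≤ K := iSup_le fun g => by
        rintro _ ⟨x, ⟨y, hy, rfl⟩, rfl⟩
        exact hK.1.conj_mem _ (hMK hy) g
      have hJn : J.Normal := by
        refine Subgroup.normalizer_eq_top_iff.mp (eq_top_iff.mpr fun x _ => ?_)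
        rw [mem_normalizer_iff_map_conj, Subgroup.map_iSup]
        simp only [map_conj_mul]
        exact (Equiv.mulLeft x).iSup_comp (g := fun g => (M.map L.subtype).map (MulAut.conj g).toMonoidHom)
      rcases hK.2.2 J hJn hJK with h1 | h1
      · exfalso
        apply hM.2.1
        have : M.map L.subtype ≤ J := by
          have := le_iSup (fun g : G => (M.map L.subtype).map (MulAut.conj g).toMonoidHom) 1
          simpa only [map_conj_one] using this
        rw [h1, le_bot_iff, Subgroup.map_eq_bot_iff, L.ker_subtype, le_bot_iff] at this
        exact this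
      · rw [← h1]
        refine iSup_le fun g => ?_
        let e : L ≃* L := MulAut.conjNormal g
        have hMg : IsMinNormal (M.map e.toMonoidHom) := by
          refine ⟨hM.1.map _ e.surjective, fun h => hM.2.1 ((Subgroup.map_eq_bot_iff_of_injective _
            e.injective).mp h), fun N hN hle => ?_⟩
          rcases hM.2.2 (N.comap e.toMonoidHom) (hN.comap _)
            ((Subgroup.comap_mono hle).trans_eq (Subgroup.comap_map_eq_self_of_injective e.injective M))
            with h | h
          · left
            have h4 := congrArg (Subgroup.map e.toMonoidHom) h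
            rwa [Subgroup.map_comap_eq_self_of_surjective (f := e.toMonoidHom) e.surjective,
              Subgroup.map_bot] at h4
          · right
            have h4 := congrArg (Subgroup.map e.toMonoidHom) h
            rwa [Subgroup.map_comap_eq_self_of_surjective (f := e.toMonoidHom) e.surjective] at h4
        have h2 := ih _ hcard L rfl _ (S.subgroupOf L) hMg (hS.comap L.subtype)
        rintro _ ⟨_, ⟨y, hy, rfl⟩, rfl⟩
        have h3 := h2 (Subgroup.mem_map_of_mem _ hy)
        have hval : ((e y : L) : G) = g * (y : G) * g⁻¹ := MulAut.conjNormal_apply g y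
        show g * (y : G) * g⁻¹ ∈ _
        rw [← hval, Subgroup.mem_normalizer_iff]
        intro s
        rw [Subgroup.mem_normalizer_iff] at h3
        constructor
        · intro hs
          exact (h3 ⟨s, hSL hs⟩).mp hs
        · intro hs
          have hsL : s ∈ L := by
            have := L.mul_mem (L.mul_mem (L.inv_mem (e y).2) (hSL hs)) (e y).2
            simpa [mul_assoc] using this
          exact (h3 ⟨s, hsL⟩).mpr hs

end Cfsg.Agent.Transfer
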