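import Cfsg.Agent.Transfer.HHReduction

/-!
Odd groups of operators leaving invariant all subgroups of one order of a 2-group.
-/

set_option autoImplicit false

namespace Cfsg.Agent.Transfer.InvOrder

open scoped commutatorElement

variable {X : Type*} [Group X] [Finite X]

theorem coprime_two {P A : Subgroup X} (hP : IsPGroup 2 P) (hA : Odd (Nat.card A)) :
    (Nat.card A).Coprime (Nat.card P) :=
  Coprime.coprime_card_of_isPGroup hP (Nat.coprime_two_right.2 hA)

/-- If every subgroup of index two of a 2-group is invariant, the action is trivial. -/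
theorem eq_bot_of_index_two {V A : Subgroup X} (hV : IsPGroup 2 V) (hA : Odd (Nat.card A))
    (hAV : A ≤ Subgroup.normalizer (V : Set X))
    (hM : ∀ M : Subgroup X, M ≤ V → 2 * Nat.card M = Nat.card V →
      A ≤ Subgroup.normalizer (M : Set X)) : ⁅V, A⁆ = ⊥ := by
  have hcop := coprime_two hV hA
  have hle : ⁅V, A⁆ ≤ (frattini V).map V.subtype := by
    rw [Subgroup.commutator_le]
    intro v hv a ha
    have hb : a * v⁻¹ * a⁻¹ ∈ V := (Subgroup.mem_normalizer_iff.1 (hAV ha) _).1 (V.inv_mem hv)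
    refine ⟨⟨v, hv⟩ * ⟨a * v⁻¹ * a⁻¹, hb⟩, ?_, by simp [commutatorElement_def, mul_assoc]⟩
    simp only [frattini, Order.radical, SetLike.mem_coe, Subgroup.mem_iInf]
    intro M hMc
    have hidx : M.index = 2 := FGS3.index_of_coatom hV hMc
    rw [Subgroup.mul_mem_iff_of_index_two hidx]
    have hN : A ≤ Subgroup.normalizer ((M.map V.subtype : Subgroup X) : Set X) := by
      apply hM _ (Subgroup.map_subtype_le _)
      rw [Subgroup.card_map_of_injective V.subtype_injective, ← hidx, mul_comm, M.card_mul_index]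
    have h := Subgroup.mem_normalizer_iff.1 (hN ha) v⁻¹
    constructor
    · intro hvM
      obtain ⟨w, hw, hwe⟩ := h.1 ⟨(⟨v, hv⟩ : V)⁻¹, inv_mem hvM, rfl⟩
      have : w = ⟨a * v⁻¹ * a⁻¹, hb⟩ := Subtype.ext hwe
      exact this ▸ hw
    · intro hbM
      obtain ⟨w, hw, hwe⟩ := h.2 ⟨⟨a * v⁻¹ * a⁻¹, hb⟩, hbM, rfl⟩
      have : w = (⟨v, hv⟩ : V)⁻¹ := Subtype.ext hwe
      rw [this] at hw
      simpa using hw
  rw [eq_bot_iff, Subgroup.commutator_le]
  intro v hv a ha
  have hz : Subgroup.zpowers a ≤ A := Subgroup.zpowers_le.2 ha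
  have hzV := hz.trans hAV
  have hc : (Nat.card (Subgroup.zpowers a)).Coprime (Nat.card V) :=
    hcop.of_dvd_left (Subgroup.card_dvd_of_le hz)
  have h1 := Coprime.eq_commutator_sup_centralizer hzV hc
  have hCV : V ⊓ Subgroup.centralizer (Subgroup.zpowers a : Set X) ≤ V := inf_le_left
  generalize hC : V ⊓ Subgroup.centralizer (Subgroup.zpowers a : Set X) = C at h1 hCV
  have h3 : C.subgroupOf V ⊔ frattini V = ⊤ := by
    rw [eq_top_iff]
    intro w _
    have hw : (w : X) ∈ (frattini V).map V.subtype ⊔ C :=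
      sup_le_sup_right ((Subgroup.commutator_mono le_rfl hz).trans hle) C (h1 ▸ w.2)
    rw [← Subgroup.map_subgroupOf_eq_of_le hCV, ← Subgroup.map_sup, sup_comm] at hw
    obtain ⟨u, hu, hue⟩ := hw
    exact V.subtype_injective hue ▸ hu
  have hvC : v ∈ C := Subgroup.subgroupOf_eq_top.1 (frattini_nongenerating h3) hv
  rw [← hC] at hvC
  rw [Subgroup.mem_bot, commutatorElement_eq_one_iff_mul_comm]
  exact (Subgroup.mem_centralizer_iff.1 hvC.2 a (Subgroup.mem_zpowers a)).symm

theorem eq_bot_zpowers {x : X} {A : Subgroup X} (hx : IsPGroup 2 (Subgroup.zpowers x))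
    (hA : Odd (Nat.card A)) (hAx : A ≤ Subgroup.normalizer (Subgroup.zpowers x : Set X)) :
    ⁅Subgroup.zpowers x, A⁆ = ⊥ := by
  refine eq_bot_of_index_two hx hA hAx fun M hMx hcard => ?_
  rw [Nat.card_zpowers] at hcard
  have huniq : ∀ N : Subgroup X, N ≤ Subgroup.zpowers x → Nat.card N = Nat.card M →
      N = Subgroup.zpowers (x ^ 2) := by
    intro N hNx hN
    refine Subgroup.eq_of_le_of_card_ge (fun y hy => ?_) ?_
    · obtain ⟨i, rfl⟩ := Subgroup.mem_zpowers_iff.1 (hNx hy)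
      have h1 : (x ^ i) ^ Nat.card N = 1 := congrArg Subtype.val (pow_card_eq_one' (x := (⟨x ^ i, hy⟩ : N)))
      rw [← zpow_natCast, ← zpow_mul, ← orderOf_dvd_iff_zpow_eq_one, ← hcard, hN, Nat.cast_mul,
        mul_comm (i : ℤ)] at h1
      have hM0 : (Nat.card M : ℤ) ≠ 0 := by exact_mod_cast Nat.card_pos.ne'
      rw [mul_comm ((2 : ℕ) : ℤ), Int.mul_dvd_mul_iff_left hM0] at h1
      obtain ⟨j, rfl⟩ := h1
      exact Subgroup.mem_zpowers_iff.2 ⟨j, by rw [zpow_mul, zpow_natCast]⟩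
    · rw [Nat.card_zpowers, orderOf_pow' x two_ne_zero, hN,
        Nat.gcd_eq_right (Dvd.intro _ hcard), ← hcard]
      omega
  intro a ha
  rw [Subgroup.mem_normalizer_iff_map_conj_eq, huniq M hMx rfl]
  rw [← huniq M hMx rfl]
  refine (huniq _ ?_ (Coprime.card_map_conj M a)).trans (huniq M hMx rfl).symm
  exact (Subgroup.map_mono hMx).trans (Subgroup.mem_normalizer_iff_map_conj_eq.1 (hAx ha)).le

theorem centralizes_of_fix_four {P A : Subgroup X} (hP : IsPGroup 2 P) (hA : Odd (Nat.card A))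
    (hAP : A ≤ Subgroup.normalizer (P : Set X))
    (hfix : ∀ x ∈ P, x ^ 4 = 1 → ∀ a ∈ A, a * x = x * a) : ⁅P, A⁆ = ⊥ := by
  by_contra hne
  obtain ⟨U, ⟨hUP, hAU, hU⟩, hmin⟩ :=
    (Set.toFinite {U : Subgroup X | U ≤ P ∧ A ≤ Subgroup.normalizer (U : Set X) ∧ ⁅U, A⁆ ≠ ⊥}).exists_minimal
      ⟨P, le_rfl, hAP, hne⟩
  have hUp : IsPGroup 2 U := hP.to_le hUP
  obtain ⟨-, htype, -, -⟩ := HHRed.reduction A A U hUp hAU le_rfl Subgroup.le_normalizer
    (Nat.coprime_two_right.2 hA) hU (fun V hV hAV => by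
      by_contra h
      exact hV.not_ge (hmin ⟨hV.le.trans hUP, hAV, h⟩ hV.le))
  apply hU
  rw [Subgroup.commutator_eq_bot_iff_le_centralizer]
  intro x hx
  rw [Subgroup.mem_centralizer_iff]
  refine hfix x (hUP hx) ?_
  rcases htype with hel | ⟨-, hΦ, hder⟩
  · rw [show 4 = 2 * 2 from rfl, pow_mul, hel.2 x hx, one_pow]
  · have hc : commutator U ≤ Subgroup.center U := hder.le
    have hsq : ∀ y : U, y ^ 2 ∈ Subgroup.center U := fun y => hΦ ▸ FGS3.pow_mem_frattini hUp y
    let S : Subgroup U :=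
      { carrier := {y | y ∈ Subgroup.center U ∧ y ^ 2 = 1}
        mul_mem' := fun {y z} hy hz => ⟨mul_mem hy.1 hz.1, by
          rw [Commute.mul_pow ((Subgroup.mem_center_iff.1 hz.1 y)), hy.2, hz.2, one_mul]⟩
        one_mem' := ⟨one_mem _, one_pow _⟩
        inv_mem' := fun {y} hy => ⟨inv_mem hy.1, by rw [inv_pow, hy.2, inv_one]⟩ }
    have hS : commutator U ≤ S := by
      show ⁅(⊤ : Subgroup U), ⊤⁆ ≤ S
      rw [Subgroup.commutator_le]
      intro y _ z _
      refine ⟨hc (Subgroup.commutator_mem_commutator (Subgroup.mem_top _) (Subgroup.mem_top _)), ?_⟩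
      rw [← FGS3.commutatorElement_pow_left hc, commutatorElement_eq_one_iff_mul_comm]
      exact (Subgroup.mem_center_iff.1 (hsq y) z).symm
    have := (hS (hder.ge (hsq ⟨x, hx⟩))).2
    rw [← pow_mul] at this
    exact congrArg Subtype.val this

theorem centralizes {P A : Subgroup X} (hP : IsPGroup 2 P) (hA : Odd (Nat.card A))
    (hAP : A ≤ Subgroup.normalizer (P : Set X)) {d : ℕ} (hd1 : 1 < d) (hdP : d ∣ Nat.card P)
    (hd2 : d < Nat.card P)
    (hinv : ∀ E : Subgroup X, E ≤ P → (Nat.card E = d ∨ (d = 2 ∧ Nat.card E = 4)) →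
      A ≤ Subgroup.normalizer (E : Set X)) : ⁅P, A⁆ = ⊥ := by
  haveI : Fact (Nat.Prime 2) := ⟨Nat.prime_two⟩
  obtain ⟨n, hn⟩ := IsPGroup.iff_card.1 hP
  obtain ⟨k, hkn, hk⟩ := (Nat.dvd_prime_pow Nat.prime_two).1 (hn ▸ hdP)
  have hkn' : k + 1 ≤ n := by
    rcases lt_or_eq_of_le hkn with h | h
    · exact h
    · rw [hk, hn, h] at hd2; omega
  -- every subgroup of order `d` is centralised
  have hE : ∀ E : Subgroup X, E ≤ P → Nat.card E = d → ⁅E, A⁆ = ⊥ := by
    intro E hEP hEd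
    obtain ⟨V, hVc, hEV⟩ := Sylow.exists_subgroup_card_pow_succ (G := P) (p := 2) (n := k)
      (hn ▸ Nat.pow_dvd_pow 2 hkn') (H := E.subgroupOf P)
      (by rw [Nat.card_congr (Subgroup.subgroupOfEquivOfLe hEP).toEquiv, hEd, hk])
    set W := V.map P.subtype with hW
    have hWP : W ≤ P := Subgroup.map_subtype_le _
    have hWc : Nat.card W = 2 ^ (k + 1) := by
      rw [hW, Subgroup.card_map_of_injective P.subtype_injective, hVc]
    have hEW : E ≤ W := fun e he => ⟨⟨e, hEP he⟩, hEV he, rfl⟩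
    by_cases hcyc : IsCyclic W
    · haveI : IsCyclic E := isCyclic_of_injective (Subgroup.inclusion hEW) (Subgroup.inclusion_injective hEW)
      obtain ⟨x, hx⟩ := (Subgroup.isCyclic_iff_exists_zpowers_eq_top E).1 ‹_›
      subst hx
      exact eq_bot_zpowers (hP.to_le hEP) hA (hinv _ hEP (Or.inl hEd))
    · have hlt : E < W := lt_of_le_of_ne hEW fun h => by
        rw [h, hWc, hk, pow_succ] at hEd; have := Nat.one_le_two_pow (n := k); omega
      obtain ⟨y, hyW, hyE⟩ := SetLike.exists_of_lt hlt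
      have hne : Subgroup.zpowers (⟨y, hyW⟩ : W) ≠ ⊤ := fun h =>
        hcyc (isCyclic_iff_exists_zpowers_eq_top.2 ⟨_, h⟩)
      obtain h | ⟨M, hM, hle⟩ := eq_top_or_exists_le_coatom (Subgroup.zpowers (⟨y, hyW⟩ : W))
      · exact absurd h hne
      set M' := M.map W.subtype with hM'
      have hM'c : Nat.card M' = d := by
        have h := M.card_mul_index
        rw [FGS3.index_of_coatom (hP.to_le hWP) hM, hWc, pow_succ] at h
        rw [hM', Subgroup.card_map_of_injective W.subtype_injective, hk]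
        omega
      have hM'W : M' ≤ W := Subgroup.map_subtype_le _
      have hsup : E ⊔ M' = W := by
        refine Subgroup.eq_of_le_of_card_ge (sup_le hEW hM'W) ?_
        have h1 : E < E ⊔ M' := lt_of_le_of_ne le_sup_left fun h =>
          hyE (h.symm.le (Subgroup.mem_sup_right ⟨⟨y, hyW⟩, hle (Subgroup.mem_zpowers _), rfl⟩))
        obtain ⟨j, hj⟩ := Subgroup.card_dvd_of_le (h1.le)
        have hlt' : Nat.card E < Nat.card (E ⊔ M' : Subgroup X) := by
          rcases (Subgroup.card_le_of_le h1.le).lt_or_eq with h | h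
          · exact h
          · exact absurd (Subgroup.eq_of_le_of_card_ge h1.le h.ge) h1.ne
        rw [hWc, pow_succ, ← hk]
        rw [hEd] at hj hlt'
        rw [hj] at hlt' ⊢
        have : 2 ≤ j := by
          by_contra hj2
          interval_cases j <;> omega
        exact Nat.mul_le_mul_left d this
      have hAW : A ≤ Subgroup.normalizer (W : Set X) := fun a ha => by
        rw [Subgroup.mem_normalizer_iff_map_conj_eq, ← hsup, Subgroup.map_sup,
          Subgroup.mem_normalizer_iff_map_conj_eq.1 (hinv E hEP (Or.inl hEd) ha),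
          Subgroup.mem_normalizer_iff_map_conj_eq.1 (hinv M' (hM'W.trans hWP) (Or.inl hM'c) ha)]
      have h := eq_bot_of_index_two (hP.to_le hWP) hA hAW fun N hN hNc =>
        hinv N (hN.trans hWP) (Or.inl (by rw [hWc, pow_succ] at hNc; omega))
      exact le_bot_iff.1 ((Subgroup.commutator_mono hEW le_rfl).trans h.le)
  refine centralizes_of_fix_four hP hA hAP fun x hxP hx4 a ha => ?_
  have hxd : orderOf x ∣ 4 := orderOf_dvd_of_pow_eq_one hx4
  have hzc : ∀ {E : Subgroup X}, x ∈ E → ⁅E, A⁆ = ⊥ → a * x = x * a := fun hxE h =>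
    Subgroup.mem_centralizer_iff.1 (Subgroup.commutator_eq_bot_iff_le_centralizer.1 h hxE) a ha
  obtain ⟨j, hj, hjx⟩ := (Nat.dvd_prime_pow Nat.prime_two).1
    (show orderOf x ∣ 2 ^ 2 from hxd)
  by_cases hjk : j ≤ k
  · obtain ⟨K, hKc, hK⟩ := Sylow.exists_subgroup_card_pow_prime_le (G := P) 2 (n := j) (m := k)
      (hn ▸ Nat.pow_dvd_pow 2 (by omega)) (Subgroup.zpowers (⟨x, hxP⟩ : P))
      (by rw [Nat.card_zpowers, Subgroup.orderOf_mk, hjx]) hjk
    refine hzc (E := K.map P.subtype) ⟨⟨x, hxP⟩, hK (Subgroup.mem_zpowers _), rfl⟩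
      (hE _ (Subgroup.map_subtype_le _) ?_)
    rw [Subgroup.card_map_of_injective P.subtype_injective, hKc, hk]
  · have hk1 : k = 1 := by
      have : k ≠ 0 := by rintro rfl; simp [hk] at hd1
      omega
    have hj2 : j = 2 := by omega
    exact hzc (Subgroup.mem_zpowers x) (eq_bot_zpowers (hP.to_le (Subgroup.zpowers_le.2 hxP)) hA
      (hinv _ (Subgroup.zpowers_le.2 hxP) (Or.inr ⟨by rw [hk, hk1, pow_one],
        by rw [Nat.card_zpowers, hjx, hj2]; norm_num⟩)))

end Cfsg.Agent.Transfer.InvOrder
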