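import Cfsg.Agent.Core.Cores
import Cfsg.Agent.Core.PiSeparable
import Cfsg.Agent.Core.CoprimeAction
import Cfsg.Agent.Coprime.PxQ

/-!
Control of q'-cores of centralisers under a coprime operator group.
-/

set_option autoImplicit false

namespace Cfsg.Agent.Transfer.CoreControl

open scoped commutatorElement

variable {G : Type*} [Group G] [Finite G]

/-- Lifting a centraliser through a coprime normal subgroup. -/
theorem lift_centralizer (N : Subgroup G) [N.Normal] (z u : G)
    (hcop : (Nat.card (Subgroup.zpowers z)).Coprime (Nat.card N))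
    (h : u * z * u⁻¹ * z⁻¹ ∈ N) : ∃ m ∈ N, Commute (m⁻¹ * u) z := by
  set Z := Subgroup.zpowers z with hZ
  have hZN : Z ≤ Subgroup.normalizer (N : Set G) := (Subgroup.normalizer_eq_top (H := N)).symm ▸ le_top
  have huz : u * z * u⁻¹ = (u * z * u⁻¹ * z⁻¹) * z := by group
  have hle : Z.map (MulAut.conj u).toMonoidHom ≤ N ⊔ Z := by
    rw [hZ, MonoidHom.map_zpowers, Subgroup.zpowers_le]
    show u * z * u⁻¹ ∈ _
    rw [huz]
    exact Subgroup.mul_mem_sup h (Subgroup.mem_zpowers z)
  obtain ⟨m, hm, he⟩ := Core.exists_conj_complement_general N Z (Z.map (MulAut.conj u).toMonoidHom)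
    (Or.inl inferInstance) hZN hle (Coprime.card_map_conj Z u) hcop
  refine ⟨m, hm, ?_⟩
  obtain ⟨w, hw, hwe⟩ := he.le ⟨z, Subgroup.mem_zpowers z, rfl⟩
  have hwe' : m * w * m⁻¹ = u * z * u⁻¹ := hwe
  have hinf := Coprime.inf_eq_bot_of_coprime (N := N) (A := Z) hcop
  have h2 : z * w⁻¹ ∈ N ⊓ Z := by
    refine ⟨?_, Z.mul_mem (Subgroup.mem_zpowers z) (Z.inv_mem hw)⟩
    have h3 : w = m⁻¹ * (u * z * u⁻¹) * m := by rw [← hwe']; group
    rw [h3, show z * (m⁻¹ * (u * z * u⁻¹) * m)⁻¹ =
      (z * m⁻¹ * z⁻¹) * (u * z * u⁻¹ * z⁻¹)⁻¹ * (z * 1 * z⁻¹ * m) by group]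
    exact N.mul_mem (N.mul_mem ((inferInstance : N.Normal).conj_mem _ (N.inv_mem hm) z) (N.inv_mem h))
      (N.mul_mem (by simp) hm)
  rw [hinf, Subgroup.mem_bot, mul_inv_eq_one] at h2
  rw [← h2] at hwe'
  show m⁻¹ * u * z = z * (m⁻¹ * u)
  calc m⁻¹ * u * z = m⁻¹ * (u * z * u⁻¹) * u := by group
    _ = z * (m⁻¹ * u) := by rw [← hwe']; group

variable {q : ℕ} [Fact q.Prime]

theorem eq_one_of_coprime {R L : Subgroup G} (hR : IsPGroup q R) (hL : (Nat.card L).Coprime q) {x : G}
    (hxR : x ∈ R) (hxL : x ∈ L) : x = 1 := by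
  have : x ∈ R ⊓ L := ⟨hxR, hxL⟩
  rwa [Coprime.inf_eq_bot_of_coprime (Coprime.coprime_card_of_isPGroup hR hL), Subgroup.mem_bot] at this

theorem core_le {p : ℕ} (P H : Subgroup G) [H.Normal] (hPH : H ⊔ P = ⊤)
    (hHp : (Nat.card H).Coprime p) (hp : p.Prime) (hPp : IsPGroup p P)
    (hsol : Group.IsSolvable ↥⁅H, P⁆) (z : G) (hzP : z ∈ Subgroup.centralizer (P : Set G))
    (hz : ∃ k : ℕ, orderOf z = q ^ k) :
    ((Cfsg.pPrimeCore q ↥(H ⊓ Subgroup.centralizer ({z} : Set G))).map
        (H ⊓ Subgroup.centralizer ({z} : Set G)).subtype ⊓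
      (Cfsg.pPrimeCore q ↥(H ⊓ Subgroup.centralizer (P : Set G))).map
        (H ⊓ Subgroup.centralizer (P : Set G)).subtype) ⊔
    ⁅(Cfsg.pPrimeCore q ↥(H ⊓ Subgroup.centralizer ({z} : Set G))).map
        (H ⊓ Subgroup.centralizer ({z} : Set G)).subtype, P⁆ ≤
    (Cfsg.pPrimeCore q ↥H).map H.subtype := by
  classical
  haveI := Fact.mk hp
  set Cz := H ⊓ Subgroup.centralizer ({z} : Set G) with hCz
  set CP := H ⊓ Subgroup.centralizer (P : Set G) with hCP
  set Oz := (Cfsg.pPrimeCore q ↥Cz).map Cz.subtype with hOz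
  set OP := (Cfsg.pPrimeCore q ↥CP).map CP.subtype with hOP
  set N := (Cfsg.pPrimeCore q ↥H).map H.subtype with hN
  have hHn : H.Normal := inferInstance
  haveI hNn : N.Normal := by rw [hN]; infer_instance
  have hNH : N ≤ H := Subgroup.map_subtype_le _
  have hNcard : (Nat.card N).Coprime q := by
    rw [hN, Subgroup.card_map_of_injective H.subtype_injective]; exact Core.card_pPrimeCore_coprime q _
  have hOzcard : (Nat.card Oz).Coprime q := by
    rw [hOz, Subgroup.card_map_of_injective Cz.subtype_injective]; exact Core.card_pPrimeCore_coprime q _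
  have hOPcard : (Nat.card OP).Coprime q := by
    rw [hOP, Subgroup.card_map_of_injective CP.subtype_injective]; exact Core.card_pPrimeCore_coprime q _
  have hOzH : Oz ≤ H := (Subgroup.map_subtype_le _).trans inf_le_left
  have hPN : P ≤ Subgroup.normalizer (H : Set G) := (Subgroup.normalizer_eq_top (H := H)).symm ▸ le_top
  set K := ⁅H, P⁆ with hK
  have hKH : K ≤ H := Coprime.commutator_le_of_le_normalizer hPN
  haveI hKn : K.Normal := by
    rw [← Subgroup.normalizer_eq_top_iff, eq_top_iff, ← hPH]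
    exact sup_le (Subgroup.normalizer_commutator_ge_left H P) (Subgroup.normalizer_commutator_ge_right H P)
  set π := QuotientGroup.mk' N with hπ
  have hπs : Function.Surjective π := QuotientGroup.mk'_surjective N
  have hπ1 : ∀ {x : G}, π x = 1 → x ∈ N := fun {x} h => (QuotientGroup.eq_one_iff x).1 h
  set Hb := H.map π with hHb
  set Kb := K.map π with hKb
  haveI hHbn : Hb.Normal := hHn.map π hπs
  haveI hKbn : Kb.Normal := hKn.map π hπs
  -- no normal q'-subgroups
  have hA : ∀ L : Subgroup (G ⧸ N), L ≤ Hb → Hb ≤ Subgroup.normalizer (L : Set (G ⧸ N)) →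
      (Nat.card L).Coprime q → L = ⊥ := by
    intro L hLH hLn hLq
    set L' := L.comap π with hL'
    have hL'H : L' ≤ H := by
      intro x hx
      obtain ⟨h, hh, he⟩ := hLH hx
      have h1 : h⁻¹ * x ∈ N := hπ1 (by rw [map_mul, map_inv, he, inv_mul_cancel])
      have := mul_mem hh (hNH h1)
      rwa [mul_inv_cancel_left] at this
    have hn : (L'.subgroupOf H).Normal := by
      refine Subgroup.normal_subgroupOf_iff_le_normalizer hL'H |>.2 fun g hg => ?_
      refine Coprime.mem_normalizer_of_conj_mem fun x hx => ?_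
      show π (g * x * g⁻¹) ∈ L
      rw [map_mul, map_mul, map_inv]
      exact (Subgroup.mem_normalizer_iff.1 (hLn ⟨g, hg, rfl⟩) _).1 hx
    have hNL : N ≤ L' := fun x hx => by
      show π x ∈ L
      rw [show π x = 1 from (QuotientGroup.eq_one_iff x).2 hx]; exact one_mem _
    have hcard : (Nat.card (L'.subgroupOf H)).Coprime q := by
      rw [Nat.card_congr (Subgroup.subgroupOfEquivOfLe hL'H).toEquiv, ← (N.subgroupOf L').card_mul_index,
        Nat.card_congr (Subgroup.subgroupOfEquivOfLe hNL).toEquiv]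
      refine Nat.Coprime.mul_left hNcard ?_
      let f : L' →* G ⧸ N := π.comp L'.subtype
      have hker : f.ker = N.subgroupOf L' := by ext x; exact QuotientGroup.eq_one_iff _
      rw [← hker, Subgroup.index_ker, MonoidHom.range_comp, Subgroup.range_subtype, hL',
        Subgroup.map_comap_eq_self_of_surjective hπs]
      exact hLq
    have hle : L' ≤ N := fun x hx =>
      ⟨⟨x, hL'H hx⟩, Core.le_pPrimeCore hn hcard (show (⟨x, hL'H hx⟩ : H) ∈ L'.subgroupOf H from hx), rfl⟩
    rw [eq_bot_iff]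
    intro y hy
    obtain ⟨x, rfl⟩ := hπs y
    exact (QuotientGroup.eq_one_iff x).2 (hle hy)
  have hKbH : Kb ≤ Hb := Subgroup.map_mono hKH
  haveI : Group.IsSolvable K := hsol
  haveI : Group.IsSolvable Kb := Group.isSolvable_of_surjective (π.subgroupMap_surjective K)
  set R := (Cfsg.pCore q ↥Kb).map Kb.subtype with hR
  haveI hRn : R.Normal := by rw [hR]; infer_instance
  have hRq : IsPGroup q R := (Core.isPGroup_pCore q Kb).map _
  have hRK : R ≤ Kb := Subgroup.map_subtype_le _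
  have hKcore : Cfsg.pPrimeCore q ↥Kb = ⊥ := by
    have h1 := hA ((Cfsg.pPrimeCore q ↥Kb).map Kb.subtype) ((Subgroup.map_subtype_le _).trans hKbH)
      (by rw [Subgroup.normalizer_eq_top (H := (Cfsg.pPrimeCore q ↥Kb).map Kb.subtype)]; exact le_top)
      (by rw [Subgroup.card_map_of_injective Kb.subtype_injective]; exact Core.card_pPrimeCore_coprime q _)
    exact (Subgroup.map_eq_bot_iff_of_injective _ Kb.subtype_injective).1 h1
  have hcK : ∀ y ∈ Kb, y ∈ Subgroup.centralizer (R : Set (G ⧸ N)) → y ∈ R := by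
    intro y hy hyc
    have h := Core.centralizer_pCore_le (Core.isPSolvable_of_isSolvable (G := Kb) (p := q)) hKcore
      (x := (⟨y, hy⟩ : Kb)) (Subgroup.mem_centralizer_iff.2 fun r hr =>
        Subtype.ext (Subgroup.mem_centralizer_iff.1 hyc r ⟨r, hr, rfl⟩))
    exact ⟨⟨y, hy⟩, h, rfl⟩
  -- elements of `Oz` centralise `R`
  set Zb := Subgroup.zpowers (π z) with hZb
  have hzp : IsPGroup q (Subgroup.zpowers z) := by
    obtain ⟨k, hk⟩ := hz
    exact IsPGroup.of_card (n := k) (by rw [Nat.card_zpowers, hk])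
  have hZbp : IsPGroup q Zb := by rw [hZb, ← MonoidHom.map_zpowers]; exact hzp.map π
  have hzcop : (Nat.card (Subgroup.zpowers z)).Coprime (Nat.card N) :=
    (Coprime.coprime_card_of_isPGroup hzp hNcard).symm
  have hcR : ∀ x ∈ Oz, π x ∈ Subgroup.centralizer (R : Set (G ⧸ N)) := by
    intro x hx
    set Xb := Subgroup.zpowers (π x) with hXb
    have hXcop : (Nat.card Xb).Coprime q := by
      rw [hXb, Nat.card_zpowers]
      refine Nat.Coprime.of_dvd_left ((orderOf_map_dvd π x).trans ?_) hOzcard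
      have := orderOf_dvd_natCard (⟨x, hx⟩ : Oz)
      rwa [Subgroup.orderOf_mk] at this
    have hxz : Commute x z := Subgroup.mem_centralizer_singleton_iff.1 ((Subgroup.map_subtype_le _ hx).2)
    have hZX : ⁅Zb, Xb⁆ = ⊥ := by
      rw [Subgroup.commutator_eq_bot_iff_le_centralizer]
      intro a ha
      obtain ⟨i, rfl⟩ := Subgroup.mem_zpowers_iff.1 ha
      rw [Subgroup.mem_centralizer_iff]
      intro b hb
      obtain ⟨j, rfl⟩ := Subgroup.mem_zpowers_iff.1 hb
      exact ((hxz.map π).zpow_zpow j i).eq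
    have hfix : ⁅R ⊓ Subgroup.centralizer (Zb : Set (G ⧸ N)), Xb⁆ = ⊥ := by
      rw [Subgroup.commutator_eq_bot_iff_le_centralizer]
      intro r hr
      obtain ⟨u, hu, hur⟩ := hKbH (hRK hr.1)
      have h0 : u * z * u⁻¹ * z⁻¹ ∈ N := hπ1 (by
        have := Subgroup.mem_centralizer_iff.1 hr.2 (π z) (Subgroup.mem_zpowers _)
        rw [map_mul, map_mul, map_mul, map_inv, map_inv, hur, ← this]; group)
      obtain ⟨m, hm, hmu⟩ := lift_centralizer N z u hzcop h0
      have hm' : m⁻¹ * u ∈ Cz := ⟨H.mul_mem (H.inv_mem (hNH hm)) hu, Subgroup.mem_centralizer_singleton_iff.2 hmu.eq⟩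
      have hπm : π (m⁻¹ * u) = r := by
        rw [map_mul, map_inv, show π m = 1 from (QuotientGroup.eq_one_iff m).2 hm, inv_one, one_mul, hur]
      have hconj : (m⁻¹ * u) * x * (m⁻¹ * u)⁻¹ ∈ Oz := by
        obtain ⟨⟨x', hx'⟩, hxc, rfl⟩ := hx
        exact ⟨⟨m⁻¹ * u, hm'⟩ * ⟨x', hx'⟩ * (⟨m⁻¹ * u, hm'⟩ : Cz)⁻¹,
          (inferInstance : (Cfsg.pPrimeCore q ↥Cz).Normal).conj_mem _ hxc _, rfl⟩
      have h1 : ⁅r, π x⁆ ∈ Oz.map π := ⟨_, mul_mem hconj (inv_mem hx), by
        rw [← hπm, commutatorElement_def]; simp [mul_assoc]⟩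
      have h2 : ⁅r, π x⁆ ∈ R := by
        rw [commutatorElement_def, show r * π x * r⁻¹ * (π x)⁻¹ = r * (π x * r⁻¹ * (π x)⁻¹) by group]
        exact mul_mem hr.1 (hRn.conj_mem _ (inv_mem hr.1) _)
      have h3 := eq_one_of_coprime hRq (hOzcard.of_dvd_left (Subgroup.card_map_dvd Oz π)) h2 h1
      rw [commutatorElement_eq_one_iff_mul_comm] at h3
      rw [Subgroup.mem_centralizer_iff]
      intro b hb
      obtain ⟨j, rfl⟩ := Subgroup.mem_zpowers_iff.1 hb
      exact ((show Commute r (π x) from h3).zpow_right j).symm.eq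
    haveI : Group.IsSolvable Xb := inferInstance
    have h := Coprime.commutator_eq_bot_of_PxQ hZbp hXcop hZX _ R rfl hRq
      ((Subgroup.normalizer_eq_top (H := R)).symm ▸ le_top) ((Subgroup.normalizer_eq_top (H := R)).symm ▸ le_top) hfix
    rw [Subgroup.commutator_eq_bot_iff_le_centralizer] at h
    exact Subgroup.mem_centralizer_iff.2 fun r hr =>
      (Subgroup.mem_centralizer_iff.1 (h hr) (π x) (Subgroup.mem_zpowers _)).symm
  refine sup_le ?_ ?_
  · rintro x ⟨hxz, hxP⟩
    -- `H = C_H(P) K`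
    haveI : Group.IsSolvable P := Coprime.isSolvable_of_isPGroup hPp
    have hHdec := Coprime.eq_commutator_sup_centralizer hPN (Coprime.coprime_card_of_isPGroup hPp
      hHp).symm
    rw [← hK, ← hCP] at hHdec
    set Y := OP.map π with hY
    set Y' := Kb ⊔ Y with hY'
    have hYn : Hb ≤ Subgroup.normalizer (Y' : Set (G ⧸ N)) := by
      rw [hHb, hHdec, Subgroup.map_sup]
      refine sup_le ?_ ?_
      · exact (le_sup_left.trans Subgroup.le_normalizer)
      · rintro _ ⟨u, hu, rfl⟩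
        rw [Subgroup.mem_normalizer_iff_map_conj_eq, hY', Subgroup.map_sup]
        congr 1
        · exact Subgroup.mem_normalizer_iff_map_conj_eq.1 ((Subgroup.normalizer_eq_top (H := Kb)).symm ▸ Subgroup.mem_top _)
        · rw [← Subgroup.mem_normalizer_iff_map_conj_eq]
          refine Coprime.mem_normalizer_of_conj_mem ?_
          rintro _ ⟨y, hy, rfl⟩
          obtain ⟨⟨y', hy'⟩, hyc, rfl⟩ := hy
          exact ⟨u * y' * u⁻¹, ⟨⟨u, hu⟩ * ⟨y', hy'⟩ * (⟨u, hu⟩ : CP)⁻¹,
            (inferInstance : (Cfsg.pPrimeCore q ↥CP).Normal).conj_mem _ hyc _, rfl⟩, by simp⟩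
    set T := Hb ⊓ Subgroup.centralizer (R : Set (G ⧸ N)) ⊓ Y' with hT
    have hTn : Hb ≤ Subgroup.normalizer (T : Set (G ⧸ N)) := by
      intro g hg
      refine Coprime.mem_normalizer_of_conj_mem fun t ht => ⟨⟨hHbn.conj_mem t ht.1.1 g, ?_⟩,
        (Subgroup.mem_normalizer_iff.1 (hYn hg) t).1 ht.2⟩
      exact (inferInstance : (Subgroup.centralizer (R : Set (G ⧸ N))).Normal).conj_mem t ht.1.2 g
    have hT0 : ∀ t ∈ T, t ∈ Kb → t ∈ R := fun t ht htK => hcK t htK ht.1.2
    set T0 := Kb.subgroupOf T with hT0d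
    have hT0q : IsPGroup q T0 := by
      have : T0.map T.subtype ≤ R := by
        rintro _ ⟨t, ht, rfl⟩
        exact hT0 t t.2 ht
      exact (hRq.to_le this).of_equiv (T0.equivMapOfInjective T.subtype T.subtype_injective).symm
    haveI : T0.Normal := by rw [hT0d]; infer_instance
    have hidx : T0.index.Coprime q := by
      let ρ := QuotientGroup.mk' Kb
      let f : T →* (G ⧸ N) ⧸ Kb := ρ.comp T.subtype
      have hker : f.ker = T0 := by ext t; exact QuotientGroup.eq_one_iff _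
      rw [← hker, Subgroup.index_ker, MonoidHom.range_comp, Subgroup.range_subtype]
      refine Nat.Coprime.of_dvd_left (Subgroup.card_dvd_of_le (K := Y.map ρ) ?_) ?_
      · refine (Subgroup.map_mono inf_le_right).trans ?_
        rw [hY', Subgroup.map_sup, QuotientGroup.map_mk'_self, bot_sup_eq]
      · exact hOPcard.of_dvd_left ((Subgroup.card_map_dvd Y ρ).trans (Subgroup.card_map_dvd OP π))
    obtain ⟨L, hL⟩ := Subgroup.exists_right_complement'_of_coprime
      (N := T0) (by obtain ⟨k, hk⟩ := IsPGroup.iff_card.1 hT0q; rw [hk]; exact (hidx.pow_right k).symm)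
    have hLq : (Nat.card L).Coprime q := hL.symm.index_eq_card ▸ hidx
    have hcen0 : ∀ a ∈ T0, ∀ b : T, a * b = b * a := fun a ha b =>
      Subtype.ext (Subgroup.mem_centralizer_iff.1 b.2.1.2 (a : G ⧸ N) (hT0 a a.2 ha))
    have huniq : ∀ w : T, (orderOf w).Coprime q → w ∈ L := by
      intro w hw
      have hw' : w ∈ T0 ⊔ L := by rw [hL.sup_eq_top]; trivial
      obtain ⟨a, ha, l, hl, rfl⟩ := Subgroup.mem_sup_of_normal_left.1 hw'
      have hcomm : Commute a l := hcen0 a ha l
      have hlq : (orderOf l).Coprime q := by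
        refine hLq.of_dvd_left ?_
        have := orderOf_dvd_natCard (⟨l, hl⟩ : L)
        rwa [Subgroup.orderOf_mk] at this
      obtain ⟨k, hk⟩ := IsPGroup.iff_orderOf.1 hT0q ⟨a, ha⟩
      rw [Subgroup.orderOf_mk] at hk
      have ha1 : a = 1 := by
        rw [← orderOf_eq_one_iff]
        refine Nat.eq_one_of_dvd_coprimes (((hw.mul_left hlq).pow_right k)) ?_ hk.dvd
        refine orderOf_dvd_of_pow_eq_one ?_
        have e1 : (a * l) ^ (orderOf (a * l) * orderOf l) = 1 := by
          rw [pow_mul, pow_orderOf_eq_one, one_pow]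
        rw [hcomm.mul_pow] at e1
        have e2 : l ^ (orderOf (a * l) * orderOf l) = 1 := by
          rw [mul_comm, pow_mul, pow_orderOf_eq_one, one_pow]
        rwa [e2, mul_one] at e1
      rw [ha1, one_mul]; exact hl
    have hLb : L.map T.subtype = ⊥ := by
      refine hA _ ((Subgroup.map_subtype_le _).trans (inf_le_left.trans inf_le_left)) ?_
        (by rwa [Subgroup.card_map_of_injective T.subtype_injective])
      intro g hg
      refine Coprime.mem_normalizer_of_conj_mem ?_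
      rintro _ ⟨l, hl, rfl⟩
      refine ⟨⟨g * l * g⁻¹, (Subgroup.mem_normalizer_iff.1 (hTn hg) _).1 l.2⟩, huniq _ ?_, rfl⟩
      have h1 : orderOf (g * (l : G ⧸ N) * g⁻¹) = orderOf l := by
        rw [← Subgroup.orderOf_coe]; exact MulEquiv.orderOf_eq (MulAut.conj g) _
      rw [Subgroup.orderOf_mk, h1]
      refine hLq.of_dvd_left ?_
      have := orderOf_dvd_natCard (⟨l, hl⟩ : L)
      rwa [Subgroup.orderOf_mk] at this
    have hLbot : L = ⊥ := (Subgroup.map_eq_bot_iff_of_injective _ T.subtype_injective).1 hLb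
    have hxT : π x ∈ T := ⟨⟨⟨x, hOzH hxz, rfl⟩, hcR x hxz⟩, Subgroup.mem_sup_right ⟨x, hxP, rfl⟩⟩
    have hxT0 : (⟨π x, hxT⟩ : T) ∈ T0 := by
      have h1 : T0 = ⊤ := by
        have := hL.sup_eq_top
        rwa [hLbot, sup_bot_eq] at this
      rw [h1]; trivial
    exact hπ1 (eq_one_of_coprime hRq (hOzcard.of_dvd_left (Subgroup.card_map_dvd Oz π))
      (hT0 _ hxT hxT0) ⟨x, hxz, rfl⟩)
  · rw [Subgroup.commutator_le]
    intro x hx a ha
    have hxK : ⁅x, a⁆ ∈ K := Subgroup.commutator_mem_commutator (hOzH hx) ha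
    have haz : Commute a z := Subgroup.mem_centralizer_iff.1 hzP a ha
    have hn : a ∈ Subgroup.normalizer (Cz : Set G) := Coprime.mem_normalizer_of_conj_mem fun y hy => by
      refine ⟨hHn.conj_mem y hy.1 a, Subgroup.mem_centralizer_singleton_iff.2 ?_⟩
      have hyz : Commute y z := Subgroup.mem_centralizer_singleton_iff.1 hy.2
      exact ((haz.mul_left hyz).mul_left haz.inv_left).eq
    have hnO : a ∈ Subgroup.normalizer (Oz : Set G) := by
      refine Coprime.mem_normalizer_of_conj_mem ?_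
      rintro _ ⟨y, hy, rfl⟩
      let φ : Cz ≃* Cz := MulEquiv.subgroupMap (MulAut.conj a) Cz |>.trans
        (MulEquiv.subgroupCongr (Subgroup.mem_normalizer_iff_map_conj_eq.1 hn))
      have h := (Subgroup.Characteristic.fixed (H := Cfsg.pPrimeCore q ↥Cz) inferInstance φ).ge hy
      exact ⟨φ y, h, rfl⟩
    have hxO : ⁅x, a⁆ ∈ Oz := by
      rw [commutatorElement_def, show x * a * x⁻¹ * a⁻¹ = x * (a * x⁻¹ * a⁻¹) by group]
      exact Oz.mul_mem hx ((Subgroup.mem_normalizer_iff.1 hnO _).1 (Oz.inv_mem hx))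
    exact hπ1 (eq_one_of_coprime hRq (hOzcard.of_dvd_left (Subgroup.card_map_dvd Oz π))
      (hcK _ ⟨_, hxK, rfl⟩ (hcR _ hxO)) ⟨_, hxO, rfl⟩)

end Cfsg.Agent.Transfer.CoreControl
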