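import Mathlib
import Cfsg.Agent.PermGroups.JordanCycle

/-!
Basic facts on permutation groups generated by two elements of prime order.
-/

set_option autoImplicit false

namespace Cfsg.Agent.Transfer.AltGen

open Equiv MulAction

open scoped Pointwise

variable {α : Type*} [Fintype α] [DecidableEq α]

theorem cycleOf_card {x : Perm α} {p : ℕ} (hp : p.Prime) (hx : orderOf x = p) {z : α}
    (hz : z ∈ x.support) : (x.cycleOf z).support.card = p := by
  obtain ⟨n, hn⟩ := Perm.cycleType_prime_order (σ := x) (hx.symm ▸ hp)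
  have hmem : x.cycleOf z ∈ x.cycleFactorsFinset := Perm.cycleOf_mem_cycleFactorsFinset_iff.2 hz
  have : (x.cycleOf z).support.card ∈ x.cycleType := by
    rw [Perm.cycleType_def, Multiset.mem_map]
    exact ⟨x.cycleOf z, hmem, rfl⟩
  rw [hn, hx] at this
  exact Multiset.eq_of_mem_replicate this

theorem pretransitive_of_two {H : Subgroup (Perm α)} {x y : Perm α} (hxH : x ∈ H) (hyH : y ∈ H)
    {p : ℕ} (hp : p.Prime) (hx : orderOf x = p) (hy : y.IsCycle)
    (hcard : Fintype.card α < p + y.support.card)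
    (hD : ∀ z, z ∈ x.support ∨ z ∈ y.support) : IsPretransitive H α := by
  obtain ⟨a, ha, -⟩ := id hy
  have key : ∀ z, ∃ h : H, h • z = a := by
    have inY : ∀ w ∈ y.support, ∃ h : H, h • w = a := by
      intro w hw
      obtain ⟨i, hi⟩ := hy.exists_pow_eq (Perm.mem_support.1 hw) ha
      exact ⟨⟨y ^ i, pow_mem hyH i⟩, hi⟩
    intro z
    by_cases hz : z ∈ y.support
    · exact inY z hz
    · have hzx : z ∈ x.support := (hD z).resolve_right hz
      obtain ⟨w, hw1, hw2⟩ : ∃ w ∈ (x.cycleOf z).support, w ∈ y.support := by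
        by_contra hcon
        simp only [not_exists, not_and] at hcon
        have hle : (x.cycleOf z).support.card ≤ y.supportᶜ.card :=
          Finset.card_le_card fun w hw => Finset.mem_compl.2 (hcon w hw)
        rw [cycleOf_card hp hx hzx, Finset.card_compl] at hle
        have := Finset.card_le_univ y.support
        have := hp.pos
        omega
      have hsc : x.SameCycle z w := (Perm.mem_support_cycleOf_iff.1 hw1).1
      obtain ⟨i, hi⟩ := hsc.exists_nat_pow_eq
      obtain ⟨h, hh⟩ := inY w hw2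
      refine ⟨h * ⟨x ^ i, pow_mem hxH i⟩, ?_⟩
      rw [mul_smul]
      exact (congrArg (h • ·) hi).trans hh
  refine ⟨fun u v => ?_⟩
  obtain ⟨h, hh⟩ := key u
  obtain ⟨k, hk⟩ := key v
  exact ⟨k⁻¹ * h, by rw [mul_smul, hh, ← hk, inv_smul_smul]⟩

theorem mem_of_pow_mem {G : Type*} [Group G] (K : Subgroup G) {y : G} {q i : ℕ} (hq : q.Prime)
    (hy : y ^ q = 1) (hi : ¬ q ∣ i) (h : y ^ i ∈ K) : y ∈ K := by
  obtain ⟨l, -, hl⟩ := Nat.exists_mul_mod_eq_one_of_coprime
    ((hq.coprime_iff_not_dvd.2 hi).symm) hq.one_lt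
  have : y ^ (i * l) = y := by
    rw [← Nat.mod_add_div (i * l) q, hl, pow_add, pow_one, pow_mul, hy, one_pow, mul_one]
  rw [← this, pow_mul]
  exact pow_mem h l

theorem preprimitive_of_long_cycle {H : Subgroup (Perm α)} [IsPretransitive H α] {y : Perm α}
    (hyH : y ∈ H) (hy : y.IsCycle) (hq : y.support.card.Prime)
    (hcard : Fintype.card α < 2 * y.support.card) : IsPreprimitive H α := by
  refine ⟨fun {B} hB => ?_⟩
  by_cases hsub : B.Subsingleton
  · exact Or.inl hsub
  right
  obtain ⟨a, ha, hc⟩ := id hy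
  rw [Set.not_subsingleton_iff] at hsub
  obtain ⟨b0, hb0, b1, hb1, hne⟩ := hsub
  obtain ⟨g, hg⟩ := exists_smul_eq H b0 a
  set C := g • B with hC
  have hCb : IsBlock H C := hB.translate g
  have haC : a ∈ C := ⟨b0, hb0, hg⟩
  obtain ⟨w, hwC, hwa⟩ : ∃ w ∈ C, w ≠ a := by
    refine ⟨g • b1, ⟨b1, hb1, rfl⟩, fun e => hne ?_⟩
    exact (MulAction.injective g (e.trans hg.symm)).symm
  set yH : H := ⟨y, hyH⟩
  have hyq : y ^ y.support.card = 1 := by rw [← hy.orderOf]; exact pow_orderOf_eq_one y
  have hyC : yH • C = C := by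
    by_cases hwy : w ∈ y.support
    · obtain ⟨i, hi⟩ := hy.exists_pow_eq ha (Perm.mem_support.1 hwy)
      have hiC : yH ^ i • C = C :=
        hCb.smul_eq_of_mem haC (by show (yH ^ i) • a ∈ C; exact (show (y ^ i) a ∈ C by rw [hi]; exact hwC))
      have hid : ¬ y.support.card ∣ i := by
        rintro ⟨l, rfl⟩
        rw [pow_mul, hyq, one_pow, Perm.one_apply] at hi
        exact hwa hi.symm
      have : yH ∈ stabilizer H C :=
        mem_of_pow_mem _ hq (Subtype.ext (by simpa using hyq)) hid hiC
      exact this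
    · have hfix : yH • w = w := Perm.notMem_support.1 hwy
      exact hCb.smul_eq_of_mem hwC (by rw [hfix]; exact hwC)
  have hsupp : (y.support : Set α) ⊆ C := by
    intro z hz
    obtain ⟨i, hi⟩ := hy.exists_pow_eq ha (Perm.mem_support.1 hz)
    have hst : yH ^ i ∈ stabilizer H C := pow_mem hyC i
    have : yH ^ i • C = C := hst
    rw [← this]
    exact ⟨a, haC, hi⟩
  have hge : y.support.card ≤ C.ncard := by
    rw [← Set.ncard_coe_finset]; exact Set.ncard_le_ncard hsupp (Set.toFinite C)
  obtain ⟨t, ht⟩ := hCb.ncard_dvd_card ⟨a, haC⟩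
  rw [Nat.card_eq_fintype_card] at ht
  have ht1 : t = 1 := by
    rcases t with _ | _ | t
    · rw [mul_zero] at ht; exact absurd ht (Fintype.card_pos_iff.2 ⟨a⟩).ne'
    · rfl
    · have : C.ncard * 2 ≤ Fintype.card α := by rw [ht]; exact Nat.mul_le_mul_left _ (by omega)
      omega
  have hBC : B.ncard = C.ncard := (Set.ncard_image_of_injective B (MulAction.injective g)).symm
  apply Set.eq_of_subset_of_ncard_le (Set.subset_univ B) _ Set.finite_univ
  rw [Set.ncard_univ, Nat.card_eq_fintype_card, hBC, ht, ht1, mul_one]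

/-- A permutation commuting with a cycle and fixing one point of it, and all points outside,
is the identity. -/
theorem eq_pow_of_commute {c t : Perm α} (hc : c.IsCycle) (hct : Commute t c)
    (hout : ∀ z, z ∉ c.support → t z = z) : ∃ i : ℕ, t = c ^ i := by
  obtain ⟨a, ha, -⟩ := id hc
  have hta : t a ∈ c.support := by
    rw [Perm.mem_support]
    intro e
    apply ha
    apply t.injective
    have := Perm.ext_iff.1 hct.eq a
    rw [Perm.mul_apply, Perm.mul_apply] at this
    rw [this, e]
  obtain ⟨i, hi⟩ := hc.exists_pow_eq ha (Perm.mem_support.1 hta)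
  refine ⟨i, Perm.ext fun z => ?_⟩
  by_cases hz : z ∈ c.support
  · obtain ⟨j, hj⟩ := hc.exists_pow_eq ha (Perm.mem_support.1 hz)
    have h1 := Perm.ext_iff.1 (hct.pow_right j).eq a
    rw [Perm.mul_apply, Perm.mul_apply] at h1
    rw [← hj, h1, ← hi, ← Perm.mul_apply, ← Perm.mul_apply, ← pow_add, ← pow_add, add_comm]
  · rw [hout z hz]
    exact (Perm.pow_apply_eq_self_of_apply_eq_self (Perm.notMem_support.1 hz) i).symm

/-- An involution inverting a cycle of length `≡ 3 (mod 4)` and fixing all points outside is odd. -/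
theorem sign_of_invert {c t : Perm α} (hc : c.IsCycle) {r : ℕ} (hr : r.Prime)
    (hcr : c.support.card = r) (h4 : r % 4 = 3) (ht : t * c * t⁻¹ = c⁻¹) (ht2 : t * t = 1)
    (hout : ∀ z, z ∉ c.support → t z = z) : Perm.sign t = -1 := by
  obtain ⟨a, ha, -⟩ := id hc
  have hcr' : c ^ r = 1 := by rw [← hcr, ← hc.orderOf]; exact pow_orderOf_eq_one c
  have htk : ∀ i : ℕ, ∀ z, t ((c ^ i) z) = ((c⁻¹) ^ i) (t z) := by
    intro i z
    rw [← ht, conj_pow]
    simp only [Perm.mul_apply, Perm.inv_def, Equiv.symm_apply_apply]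
  have hts : ∀ z ∈ c.support, t z ∈ c.support := by
    intro z hz
    rw [Perm.mem_support] at hz ⊢
    intro e
    apply hz
    apply t.injective
    have h1 := htk 1 z
    rw [pow_one, pow_one] at h1
    rw [h1]
    nth_rewrite 1 [← e]
    simp
  have inv_t : ∀ z, t (t z) = z := fun z => by rw [← Perm.mul_apply, ht2, Perm.one_apply]
  have huniq : ∀ z ∈ c.support, ∀ w ∈ c.support, t z = z → t w = w → w = z := by
    intro z hz w hw htz htw
    obtain ⟨i, hi⟩ := hc.exists_pow_eq (Perm.mem_support.1 hz) (Perm.mem_support.1 hw)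
    have h1 := htk i z
    rw [hi, htw, htz] at h1
    have h2 : (c ^ (i + i)) z = z := by
      rw [pow_add, Perm.mul_apply, hi, h1, ← Perm.mul_apply, inv_pow, mul_inv_cancel,
        Perm.one_apply]
    have h3 : c ^ (i + i) = 1 := (hc.pow_eq_one_iff' (Perm.mem_support.1 hz)).2 h2
    have h4' : r ∣ i + i := by
      rw [← hcr, ← hc.orderOf]; exact orderOf_dvd_of_pow_eq_one h3
    have h5 : r ∣ i := by
      rcases hr.dvd_mul.1 (show r ∣ 2 * i by rwa [two_mul]) with h | h
      · have := Nat.le_of_dvd (by norm_num) h; omega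
      · exact h
    obtain ⟨l, rfl⟩ := h5
    rw [pow_mul, hcr', one_pow, Perm.one_apply] at hi
    exact hi.symm
  have hsupp : t.support ⊆ c.support := fun z hz => by
    by_contra h; exact Perm.mem_support.1 hz (hout z h)
  have hcases : ∀ n, t.cycleType = Multiset.replicate n 2 → Perm.sign t = (-1) ^ n := by
    intro n hn
    rw [Perm.sign_of_cycleType, hn, Multiset.sum_replicate, Multiset.card_replicate, smul_eq_mul,
      pow_add, mul_comm n 2, pow_mul]
    norm_num
  by_cases h1 : t = 1
  · exfalso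
    subst h1
    rw [one_mul, inv_one, mul_one] at ht
    have : c ^ 2 = 1 := by rw [sq]; nth_rewrite 1 [ht]; exact inv_mul_cancel c
    have := orderOf_dvd_of_pow_eq_one this
    rw [hc.orderOf, hcr] at this
    have := Nat.le_of_dvd (by norm_num) this
    omega
  have ho : orderOf t = 2 := orderOf_eq_prime (by rw [sq]; exact ht2) h1
  obtain ⟨n, hn⟩ := Perm.cycleType_prime_order (σ := t) (ho.symm ▸ Nat.prime_two)
  rw [ho] at hn
  have hcard : t.support.card = (n + 1) * 2 := by
    rw [← Perm.sum_cycleType, hn, Multiset.sum_replicate, smul_eq_mul]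
  have hfix : (c.support \ t.support).card ≤ 1 := by
    rw [Finset.card_le_one]
    intro u hu v hv
    rw [Finset.mem_sdiff, Perm.notMem_support] at hu hv
    exact huniq v hv.1 u hu.1 hv.2 hu.2
  rw [Finset.card_sdiff_of_subset hsupp, hcr] at hfix
  have hle := Finset.card_le_card hsupp
  rw [hcr, hcard] at hle
  rw [hcases _ hn]
  exact Odd.neg_one_pow (Nat.odd_iff.2 (by omega))

/-- Jordan: three-fold transitivity from a cycle fixing two points. -/
theorem three_trans {H : Subgroup (Perm α)} (hH : IsPreprimitive H α) {x : Perm α} (hxH : x ∈ H)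
    (hx : x.IsCycle) (hp : x.support.card.Prime) (hcard : Fintype.card α = x.support.card + 2) :
    IsMultiplyPretransitive H α 3 := by
  have : IsMultiplyPreprimitive H α 3 := by
    refine hH.isMultiplyPreprimitive (s := (x.supportᶜ : Finset α)) (n := 1) ?_ ?_ ?_
    · rw [Set.ncard_coe_finset, Finset.card_compl]; omega
    · rw [Nat.card_eq_fintype_card]; have := hp.two_le; omega
    · rw [Finset.coe_compl]
      have := Perm.isPretransitive_of_isCycle_mem hx hxH
      apply IsPreprimitive.of_prime_card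
      rw [show Nat.card (SubMulAction.ofFixingSubgroup H ((x.support : Set α)ᶜ)) = x.support.card by
        rw [← Set.ncard_coe_finset, ← Nat.card_coe_set_eq]
        refine Nat.card_congr (Equiv.subtypeEquivRight fun z => ?_)
        simp [SubMulAction.mem_ofFixingSubgroup_iff]]
      exact hp
  exact IsMultiplyPreprimitive.isMultiplyPretransitive ..

/-- If `x` of prime order `r` normalises `M` and `M` has an element of prime order `s` but fewer
than `r` of them, then `x` commutes with one of them. -/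
theorem exists_commute_of_few {G : Type*} [Group G] [Finite G] (M : Subgroup G) [M.Normal]
    {x : G} {r s : ℕ} [hr : Fact r.Prime] (hx : orderOf x = r) (hs : s.Prime)
    (hdvd : s ∣ Nat.card M) (hfew : {m : G | m ∈ M ∧ orderOf m = s}.ncard < r) :
    ∃ m ∈ M, orderOf m = s ∧ Commute x m := by
  haveI : Fact s.Prime := ⟨hs⟩
  set E : Set G := {m : G | m ∈ M ∧ orderOf m = s}
  obtain ⟨m0, hm0⟩ := exists_prime_orderOf_dvd_card' (G := M) s hdvd
  have hne : E.Nonempty := ⟨m0, m0.2, by rwa [Subgroup.orderOf_coe]⟩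
  have hinv : ∀ g : G, ∀ m ∈ E, g * m * g⁻¹ ∈ E := fun g m hm =>
    ⟨Subgroup.Normal.conj_mem inferInstance m hm.1 g, by
      rw [← MulAut.conj_apply, MulEquiv.orderOf_eq]; exact hm.2⟩
  let e : E → Subgroup.zpowers x → E := fun m g => ⟨(g : G) * m * (g : G)⁻¹, hinv g m m.2⟩
  letI : MulAction (Subgroup.zpowers x) E :=
    { smul := fun g m => e m g
      one_smul := fun m => Subtype.ext (show ((1 : Subgroup.zpowers x) : G) * m * _ = _ by simp)
      mul_smul := fun g h m => Subtype.ext (show ((g * h : Subgroup.zpowers x) : G) * m * _ =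
          (g : G) * ((h : G) * m * (h : G)⁻¹) * (g : G)⁻¹ by
        rw [Subgroup.coe_mul, mul_inv_rev]; group) }
  have hP : IsPGroup r (Subgroup.zpowers x) :=
    IsPGroup.of_card (n := 1) (by rw [Nat.card_zpowers, hx, pow_one])
  have hmod := hP.card_modEq_card_fixedPoints E
  by_contra hcon
  have hempty : IsEmpty (fixedPoints (Subgroup.zpowers x) E) := by
    constructor
    rintro ⟨m, hm⟩
    apply hcon
    refine ⟨m.1, m.2.1, m.2.2, ?_⟩
    have h1 : x * m.1 * x⁻¹ = m.1 := congrArg Subtype.val (hm ⟨x, Subgroup.mem_zpowers x⟩)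
    exact mul_inv_eq_iff_eq_mul.1 h1
  rw [Nat.card_of_isEmpty (α := fixedPoints (Subgroup.zpowers x) E), Nat.modEq_zero_iff_dvd,
    Nat.card_coe_set_eq] at hmod
  have := Nat.le_of_dvd ((Set.ncard_pos (Set.toFinite E)).2 hne) hmod
  omega

end Cfsg.Agent.Transfer.AltGen
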