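import Mathlib
import Cfsg.Agent.Transfer.AltGenBase

/-!
Transitive even groups of degree 7 with a 5-cycle, and of degree 6 with elements of order 3 and 5.
-/

set_option autoImplicit false

namespace Cfsg.Agent.Transfer.AltGen

open Equiv MulAction

theorem triple_dvd {α : Type*} [Fintype α] [DecidableEq α] {H : Subgroup (Perm α)}
    (h3 : IsMultiplyPretransitive H α 3) (hd : 3 ≤ Fintype.card α) :
    Fintype.card α * (Fintype.card α - 1) * (Fintype.card α - 2) ∣ Nat.card H := by
  obtain ⟨s, -, hs⟩ := Finset.exists_subset_card_eq (s := (Finset.univ : Finset α)) (n := 3)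
    (by rw [Finset.card_univ]; exact hd)
  have hns : (s : Set α).ncard = 3 := by rw [Set.ncard_coe_finset]; exact hs
  have h := h3.index_of_fixingSubgroup_mul (s := (s : Set α)) hns
  rw [Nat.card_eq_fintype_card] at h
  obtain ⟨k, hk⟩ : ∃ k, Fintype.card α = k + 3 := ⟨Fintype.card α - 3, by omega⟩
  rw [hk] at h ⊢
  rw [Nat.add_sub_cancel, show k + 3 = k + 1 + 1 + 1 from rfl, Nat.factorial_succ,
    Nat.factorial_succ, Nat.factorial_succ, ← mul_assoc, ← mul_assoc] at h
  rw [show (k + 3) * (k + 3 - 1) * (k + 3 - 2) = (k + 1 + 1 + 1) * (k + 1 + 1) * (k + 1) by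
    rw [show k + 3 - 1 = k + 1 + 1 by omega, show k + 3 - 2 = k + 1 by omega]]
  rw [← Nat.eq_of_mul_eq_mul_right (Nat.factorial_pos k) h]
  exact Subgroup.index_dvd_card _

/-- In a simple group, the order is bounded by the factorial of the index of a proper subgroup. -/
theorem card_le_factorial_index {G : Type*} [Group G] [Finite G] [IsSimpleGroup G] {K : Subgroup G}
    (hK : K ≠ ⊤) : Nat.card G ≤ K.index.factorial := by
  have hcore : K.normalCore = ⊥ := by
    rcases (Subgroup.normalCore_normal K).eq_bot_or_eq_top with h | h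
    · exact h
    · exact absurd (eq_top_iff.2 (h ▸ K.normalCore_le)) hK
  have hinj : Function.Injective (toPermHom G (G ⧸ K)) := by
    rw [← MonoidHom.ker_eq_bot_iff, ← Subgroup.normalCore_eq_ker, hcore]
  rw [Subgroup.index, ← Nat.card_perm]
  exact Nat.card_le_card_of_injective _ hinj

theorem alt_index_bound {α : Type*} [Fintype α] [DecidableEq α] (h5 : 5 ≤ Fintype.card α)
    {H : Subgroup (Perm α)} (hH : H ≤ alternatingGroup α) (hne : ¬ alternatingGroup α ≤ H) :
    Nat.card (alternatingGroup α) ≤ (Nat.card (alternatingGroup α) / Nat.card H).factorial ∧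
    Nat.card H ∣ Nat.card (alternatingGroup α) := by
  have := alternatingGroup.isSimpleGroup (α := α) (by rw [Nat.card_eq_fintype_card]; exact h5)
  set K := H.subgroupOf (alternatingGroup α)
  have hK : K ≠ ⊤ := fun h => hne (Subgroup.subgroupOf_eq_top.1 h)
  have hc : Nat.card K = Nat.card H := Nat.card_congr (Subgroup.subgroupOfEquivOfLe hH).toEquiv
  refine ⟨?_, Subgroup.card_dvd_of_le hH⟩
  have h1 : Nat.card H * K.index = Nat.card (alternatingGroup α) := by
    rw [← hc, Subgroup.card_mul_index]
  rw [← h1, Nat.mul_div_cancel_left _ Nat.card_pos, h1]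
  exact card_le_factorial_index hK

theorem dvd_twelve {k : ℕ} (h : k ∣ 12) : k = 1 ∨ k = 2 ∨ k = 3 ∨ k = 4 ∨ k = 6 ∨ k = 12 := by
  have hle := Nat.le_of_dvd (by norm_num) h
  interval_cases k <;> norm_num at h <;> norm_num

/-- A transitive even group of degree 7 with a five cycle and a seven cycle is alternating. -/
theorem seven {α : Type*} [Fintype α] [DecidableEq α] (hα : Fintype.card α = 7)
    {H : Subgroup (Perm α)} (hH : H ≤ alternatingGroup α) (hprim : IsPreprimitive H α)
    {x y : Perm α} (hxH : x ∈ H) (hyH : y ∈ H) (hx : x.IsCycle) (hxc : x.support.card = 5)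
    (hy : y.IsCycle) (hyc : y.support.card = 7) : alternatingGroup α ≤ H := by
  by_contra hne
  haveI : Nontrivial α := Fintype.one_lt_card_iff_nontrivial.1 (by omega)
  have hA : Nat.card (alternatingGroup α) = 2520 := by
    have := two_mul_nat_card_alternatingGroup (α := α)
    rw [Nat.card_perm, Nat.card_eq_fintype_card (α := α), hα,
      show Nat.factorial 7 = 2 * 2520 by decide] at this
    omega
  obtain ⟨hb, hd⟩ := alt_index_bound (by omega) hH hne
  have h3 := three_trans hprim hxH hx (by rw [hxc]; norm_num) (by omega)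
  have h210 := triple_dvd h3 (by omega)
  rw [hα] at h210
  obtain ⟨c, hc⟩ := h210
  norm_num at hc
  rw [hA, hc] at hd hb
  have hc12 : c ∣ 12 := by
    rw [show (2520 : ℕ) = 210 * 12 by norm_num] at hd
    exact Nat.dvd_of_mul_dvd_mul_left (by norm_num) hd
  have hc1 : c = 1 := by
    rcases dvd_twelve hc12 with rfl | rfl | rfl | rfl | rfl | rfl
    · rfl
    all_goals (norm_num [Nat.factorial] at hb)
  subst hc1
  norm_num at hc
  -- Sylow 7-subgroups
  haveI : Fact (Nat.Prime 7) := ⟨by norm_num⟩
  set yH : H := ⟨y, hyH⟩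
  set xH : H := ⟨x, hxH⟩
  have hyo : orderOf y = 7 := by rw [hy.orderOf, hyc]
  have hxo : orderOf x = 5 := by rw [hx.orderOf, hxc]
  set Y : Subgroup H := Subgroup.zpowers yH
  have hYc : Nat.card Y = 7 := by rw [Nat.card_zpowers, Subgroup.orderOf_mk, hyo]
  have hfac : (Nat.card H).factorization 7 = 1 := by
    rw [hc, show (210 : ℕ) = 7 * 30 by norm_num, Nat.factorization_mul (by norm_num) (by norm_num)]
    simp [Nat.factorization_eq_zero_of_not_dvd (show ¬ 7 ∣ 30 by norm_num),
      Nat.Prime.factorization_self (show Nat.Prime 7 by norm_num)]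
  have hall : ∀ z, z ∈ y.support := fun z => by
    rw [Finset.eq_univ_of_card y.support (by omega)]; exact Finset.mem_univ z
  have hconj : ∀ t : H, t * yH * t⁻¹ ∈ Y → ∃ i : ℕ, (t : Perm α) * y * (t : Perm α)⁻¹ = y ^ i := by
    intro t ht
    rw [Subgroup.mem_zpowers_iff] at ht
    obtain ⟨i, hi⟩ := ht
    have hi' := congrArg Subtype.val hi
    simp only [SubgroupClass.coe_zpow, Subgroup.coe_mul, Subgroup.coe_inv] at hi'
    refine ⟨(i % 7).toNat, ?_⟩
    rw [← hi', ← zpow_natCast, Int.toNat_of_nonneg (Int.emod_nonneg _ (by norm_num))]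
    conv_lhs => rw [← zpow_mod_orderOf, hyo]
    rfl
  let P : Sylow 7 H := Sylow.ofCard Y (by rw [hYc, hfac, pow_one])
  have hPY : (P : Subgroup H) = Y := rfl
  have hn7 := card_sylow_modEq_one 7 H
  have hdvd7 := P.card_dvd_index
  have hidx : (P : Subgroup H).index = 30 := by
    have := Subgroup.card_mul_index (P : Subgroup H)
    rw [hPY, hYc, hc] at this
    rw [hPY]; omega
  rw [hidx] at hdvd7
  have hNidx := P.card_eq_index_normalizer
  have hcases : Nat.card (Sylow 7 H) = 1 ∨ Nat.card (Sylow 7 H) = 15 := by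
    have hle := Nat.le_of_dvd (by norm_num) hdvd7
    unfold Nat.ModEq at hn7
    interval_cases Nat.card (Sylow 7 H) <;> omega
  rcases hcases with h1 | h15
  · haveI : Subsingleton (Sylow 7 H) := (Nat.card_eq_one_iff_unique.1 h1).1
    have hYn : Y.Normal := hPY ▸ Sylow.normal_of_subsingleton P
    obtain ⟨i, hi⟩ := hconj xH (hYn.conj_mem _ (Subgroup.mem_zpowers yH) xH)
    have hit : ∀ k : ℕ, x ^ k * y * (x ^ k)⁻¹ = y ^ (i ^ k) := by
      intro k
      induction k with
      | zero => simp
      | succ k ih =>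
        rw [pow_succ' x, mul_inv_rev,
          show x * x ^ k * y * ((x ^ k)⁻¹ * x⁻¹) = x * (x ^ k * y * (x ^ k)⁻¹) * x⁻¹ by group,
          ih, ← conj_pow, hi, ← pow_mul, ← pow_succ']
    have h5 := hit 5
    rw [← hxo, pow_orderOf_eq_one, hxo, one_mul, inv_one, mul_one] at h5
    have hi5 : i ^ 5 ≡ 1 [MOD 7] := by
      have := (pow_eq_pow_iff_modEq (x := y) (n := i ^ 5) (m := 1)).1 (by rw [pow_one]; exact h5.symm)
      rwa [hyo] at this
    have hi1 : i % 7 = 1 := by
      have h' : (i % 7) ^ 5 % 7 = 1 := by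
        rw [← Nat.pow_mod]; exact hi5
      have := Nat.mod_lt i (show 7 > 0 by norm_num)
      interval_cases i % 7 <;> omega
    have hcomm : Commute x y := by
      have : y ^ i = y := by
        conv_lhs => rw [← Nat.mod_add_div i 7, hi1, pow_add, pow_one, pow_mul, ← hyo,
          pow_orderOf_eq_one, one_pow, mul_one]
      rw [this] at hi
      exact mul_inv_eq_iff_eq_mul.1 hi
    obtain ⟨j, hj⟩ := eq_pow_of_commute hy hcomm (fun z hz => absurd (hall z) hz)
    have hdd : orderOf x ∣ orderOf y := hj ▸ orderOf_pow_dvd j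
    rw [hxo, hyo] at hdd
    norm_num at hdd
  · have hN : Nat.card (Subgroup.normalizer (Y : Set H)) = 14 := by
      have := Subgroup.card_mul_index (Subgroup.normalizer (Y : Set H))
      replace hNidx : Nat.card (Sylow 7 H) = (Subgroup.normalizer (Y : Set H)).index := hNidx
      rw [← hNidx, h15, hc] at this
      omega
    haveI : Fact (Nat.Prime 2) := ⟨Nat.prime_two⟩
    obtain ⟨t, ht⟩ := exists_prime_orderOf_dvd_card' (G := Subgroup.normalizer (Y : Set H)) 2
      (by rw [hN]; norm_num)
    have htH : orderOf ((t : H) : Perm α) = 2 := by rw [Subgroup.orderOf_coe, Subgroup.orderOf_coe, ht]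
    obtain ⟨i, hi⟩ := hconj t (((Subgroup.mem_normalizer_iff.1 t.2) yH).1 (Subgroup.mem_zpowers yH))
    set T : Perm α := ((t : H) : Perm α) with hT
    have hT2 : T * T = 1 := by rw [← sq, ← htH, pow_orderOf_eq_one]
    have h2 : y ^ (i * i) = y := by
      have hTinv : T⁻¹ = T := inv_eq_of_mul_eq_one_right hT2
      rw [pow_mul, ← hi, conj_pow, ← hi, hTinv,
        show T * (T * y * T) * T = (T * T) * y * (T * T) by group, hT2, one_mul, mul_one]
    have hi2 : (i % 7) * (i % 7) % 7 = 1 := by
      have := (pow_eq_pow_iff_modEq (x := y) (n := i * i) (m := 1)).1 (by rw [pow_one]; exact h2)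
      rw [hyo] at this
      rw [← Nat.mul_mod]; exact this
    have hor : i % 7 = 1 ∨ i % 7 = 6 := by
      have := Nat.mod_lt i (show 7 > 0 by norm_num)
      interval_cases i % 7 <;> omega
    have hyi : y ^ i = y ^ (i % 7) := by rw [← hyo, pow_mod_orderOf]
    rw [hyi] at hi
    rcases hor with h | h
    · rw [h, pow_one] at hi
      obtain ⟨j, hj⟩ := eq_pow_of_commute hy (mul_inv_eq_iff_eq_mul.1 hi)
        (fun z hz => absurd (hall z) hz)
      have hdd : orderOf T ∣ orderOf y := hj ▸ orderOf_pow_dvd j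
      rw [htH, hyo] at hdd
      norm_num at hdd
    · have hy6 : y ^ 6 = y⁻¹ := by
        apply eq_inv_of_mul_eq_one_left
        rw [← pow_succ, show 6 + 1 = orderOf y by omega, pow_orderOf_eq_one]
      rw [h, hy6] at hi
      have hs := sign_of_invert hy (by norm_num : Nat.Prime 7) hyc (by norm_num) hi hT2
        (fun z hz => absurd (hall z) hz)
      have he : Perm.sign T = 1 := Perm.mem_alternatingGroup.1 (hH (t : H).2)
      rw [he] at hs
      norm_num at hs

end Cfsg.Agent.Transfer.AltGen
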