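import Mathlib
import Cfsg.Agent.Transfer.AltGenSeven

/-!
Transitive even groups of degree 6 with a 5-cycle and an element of order 3.
-/

set_option autoImplicit false

namespace Cfsg.Agent.Transfer.AltGen

open Equiv MulAction

/-- An order 60 subgroup of the alternating group of degree 6 is alternating of degree 5. -/
theorem iso_five_of_index_six {α : Type*} [Fintype α] [DecidableEq α] (hα : Fintype.card α = 6)
    {H : Subgroup (Perm α)} (hH : H ≤ alternatingGroup α) (h60 : Nat.card H = 60) :
    Nonempty (H ≃* alternatingGroup (Fin 5)) := by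
  classical
  haveI : Nontrivial α := Fintype.one_lt_card_iff_nontrivial.1 (by omega)
  have hA : Nat.card (alternatingGroup α) = 360 := by
    have := two_mul_nat_card_alternatingGroup (α := α)
    rw [Nat.card_perm, Nat.card_eq_fintype_card (α := α), hα,
      show Nat.factorial 6 = 2 * 360 by decide] at this
    omega
  haveI := alternatingGroup.isSimpleGroup (α := α) (by rw [Nat.card_eq_fintype_card, hα]; norm_num)
  set A := alternatingGroup α
  set K := H.subgroupOf A
  have hKc : Nat.card K = 60 := by rw [Nat.card_congr (Subgroup.subgroupOfEquivOfLe hH).toEquiv, h60]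
  have hidx : K.index = 6 := by
    have := Subgroup.card_mul_index K
    rw [hKc, hA] at this
    omega
  have hKne : K ≠ ⊤ := fun h => by rw [h, Subgroup.index_top] at hidx; omega
  have hinj : Function.Injective (toPermHom A (A ⧸ K)) := by
    rw [← MonoidHom.ker_eq_bot_iff, ← Subgroup.normalCore_eq_ker]
    rcases (Subgroup.normalCore_normal K).eq_bot_or_eq_top with h | h
    · exact h
    · exact absurd (eq_top_iff.2 (h ▸ K.normalCore_le)) hKne
  set b : A ⧸ K := QuotientGroup.mk 1
  have hfix : ∀ k : K, ((k : A) • b) = b := fun k => by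
    show QuotientGroup.mk ((k : A) * 1) = b
    rw [mul_one]
    exact QuotientGroup.eq.2 (by rw [mul_one]; exact inv_mem k.2)
  let f : K →* Perm {c : A ⧸ K // c ≠ b} := MonoidHom.mk'
    (fun k => (toPerm (k : A)).subtypePerm (p := fun c => c ≠ b) (fun c => by
      simp only [toPerm_apply, ne_eq]
      constructor
      · intro hc e; exact hc (by rw [e]; exact hfix k)
      · intro hc e
        apply hc
        exact MulAction.injective (k : A) (e.trans (hfix k).symm)))
    (fun k l => Perm.ext fun c => Subtype.ext (mul_smul (k : A) (l : A) c.1))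
  have hf : Function.Injective f := by
    intro k l h
    apply Subtype.ext
    apply hinj
    apply Perm.ext
    intro c
    show (k : A) • c = (l : A) • c
    by_cases hc : c = b
    · rw [hc, hfix, hfix]
    · exact congrArg Subtype.val (Perm.ext_iff.1 h ⟨c, hc⟩)
  haveI : Fintype (A ⧸ K) := Fintype.ofFinite _
  have hc5 : Fintype.card {c : A ⧸ K // c ≠ b} = Fintype.card (Fin 5) := by
    rw [Fintype.card_subtype_compl, Fintype.card_subtype_eq, ← Nat.card_eq_fintype_card,
      ← Subgroup.index, hidx, Fintype.card_fin]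
  have hrange : f.range = alternatingGroup {c : A ⧸ K // c ≠ b} := by
    apply Perm.eq_alternatingGroup_of_index_eq_two
    have h1 := Subgroup.card_mul_index f.range
    rw [← Nat.card_congr (MonoidHom.ofInjective hf).toEquiv, hKc, Nat.card_perm,
      Nat.card_eq_fintype_card, hc5, Fintype.card_fin, show Nat.factorial 5 = 60 * 2 by decide] at h1
    omega
  exact ⟨(Subgroup.subgroupOfEquivOfLe hH).symm.trans ((MonoidHom.ofInjective hf).trans
    ((MulEquiv.subgroupCongr hrange).trans (Equiv.altCongrHom (Fintype.equivOfCardEq hc5))))⟩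

theorem six {α : Type*} [Fintype α] [DecidableEq α] (hα : Fintype.card α = 6)
    {H : Subgroup (Perm α)} (hH : H ≤ alternatingGroup α) [IsPretransitive H α]
    {x y : Perm α} (hxH : x ∈ H) (hyH : y ∈ H) (hxo : orderOf x = 3) (hy : y.IsCycle)
    (hyc : y.support.card = 5) :
    alternatingGroup α ≤ H ∨ Nonempty (H ≃* alternatingGroup (Fin 5)) := by
  classical
  by_cases hle : alternatingGroup α ≤ H
  · exact Or.inl hle
  right
  apply iso_five_of_index_six hα hH
  haveI : Nontrivial α := Fintype.one_lt_card_iff_nontrivial.1 (by omega)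
  have hA : Nat.card (alternatingGroup α) = 360 := by
    have := two_mul_nat_card_alternatingGroup (α := α)
    rw [Nat.card_perm, Nat.card_eq_fintype_card (α := α), hα,
      show Nat.factorial 6 = 2 * 360 by decide] at this
    omega
  obtain ⟨hb, hd⟩ := alt_index_bound (by omega) hH hle
  obtain ⟨a, -⟩ := id hy
  have h6 : 6 ∣ Nat.card H := by
    have := Subgroup.index_dvd_card (stabilizer H a)
    rwa [index_stabilizer_of_transitive, Nat.card_eq_fintype_card (α := α), hα] at this
  have hyo : orderOf y = 5 := by rw [hy.orderOf, hyc]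
  have h5 : 5 ∣ Nat.card H := by
    rw [← hyo]; exact Subgroup.orderOf_dvd_natCard _ hyH
  obtain ⟨c, hc⟩ := Nat.Coprime.mul_dvd_of_dvd_of_dvd (by norm_num : Nat.Coprime 6 5) h6 h5
  rw [show 6 * 5 = 30 from rfl] at hc
  rw [hA, hc] at hd hb
  have hc12 : c ∣ 12 := by
    rw [show (360 : ℕ) = 30 * 12 by norm_num] at hd
    exact Nat.dvd_of_mul_dvd_mul_left (by norm_num) hd
  rcases dvd_twelve hc12 with rfl | rfl | rfl | rfl | rfl | rfl
  swap
  · rw [hc]
  swap
  · norm_num [Nat.factorial] at hb
  swap
  · norm_num [Nat.factorial] at hb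
  swap
  · norm_num [Nat.factorial] at hb
  swap
  · norm_num [Nat.factorial] at hb
  exfalso
  rw [Nat.mul_one] at hc
  haveI : Fact (Nat.Prime 5) := ⟨by norm_num⟩
  set yH : H := ⟨y, hyH⟩
  have hyHo : orderOf yH = 5 := by rw [Subgroup.orderOf_mk, hyo]
  set Y : Subgroup H := Subgroup.zpowers yH
  have hYc : Nat.card Y = 5 := by rw [Nat.card_zpowers, hyHo]
  have hfac : (Nat.card H).factorization 5 = 1 := by
    rw [hc, show (30 : ℕ) = 5 * 6 by norm_num, Nat.factorization_mul (by norm_num) (by norm_num)]
    simp [Nat.factorization_eq_zero_of_not_dvd (show ¬ 5 ∣ 6 by norm_num),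
      Nat.Prime.factorization_self (show Nat.Prime 5 by norm_num)]
  let P : Sylow 5 H := Sylow.ofCard Y (by rw [hYc, hfac, pow_one])
  obtain ⟨o, ho⟩ : ∃ o, y.supportᶜ = {o} :=
    Finset.card_eq_one.1 (by rw [Finset.card_compl]; omega)
  have hyo' : y o = o := by
    have : o ∈ y.supportᶜ := by rw [ho]; exact Finset.mem_singleton_self o
    rwa [Finset.mem_compl, Perm.notMem_support] at this
  have hfixy : ∀ z, z ∉ y.support → z = o := fun z hz => by
    have : z ∈ y.supportᶜ := Finset.mem_compl.2 hz
    rw [ho] at this; exact Finset.mem_singleton.1 this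
  have hnorm : ∀ h ∈ Subgroup.normalizer (Y : Set H), (h : Perm α) o = o := by
    intro h hh
    apply hfixy
    rw [Perm.notMem_support]
    obtain ⟨i, hi⟩ := Subgroup.mem_zpowers_iff.1
      (((Subgroup.mem_normalizer_iff'').1 hh yH).1 (Subgroup.mem_zpowers yH))
    have hi' := congrArg Subtype.val hi
    simp only [SubgroupClass.coe_zpow, Subgroup.coe_mul, Subgroup.coe_inv] at hi'
    have h1 := Perm.ext_iff.1 hi' o
    rw [Perm.zpow_apply_eq_self_of_apply_eq_self hyo' i, Perm.mul_apply, Perm.mul_apply,
      Perm.eq_inv_iff_eq] at h1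
    exact h1.symm
  have hYN : Y ≤ Subgroup.normalizer (Y : Set H) := Subgroup.le_normalizer
  have hNidx : Nat.card (Sylow 5 H) = (Subgroup.normalizer (Y : Set H)).index :=
    P.card_eq_index_normalizer
  have hN : Nat.card (Subgroup.normalizer (Y : Set H)) = 5 := by
    have hstab : Subgroup.normalizer (Y : Set H) ≤ stabilizer H o := fun h hh => hnorm h hh
    have h1 := Subgroup.card_dvd_of_le hstab
    have h2 := Subgroup.card_dvd_of_le hYN
    rw [hYc] at h2
    have h3 := Subgroup.card_mul_index (stabilizer H o)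
    rw [index_stabilizer_of_transitive, Nat.card_eq_fintype_card (α := α), hα, hc] at h3
    have h4 : Nat.card (stabilizer H o) = 5 := by omega
    rw [h4] at h1
    exact Nat.dvd_antisymm h1 h2
  have hle' : Subgroup.normalizer (Y : Set H) = Y :=
    (Subgroup.eq_of_le_of_card_ge hYN (by rw [hN, hYc])).symm
  have hPC : Subgroup.normalizer ((P : Subgroup H) : Set H) ≤
      Subgroup.centralizer ((P : Subgroup H) : Set H) := by
    show Subgroup.normalizer (Y : Set H) ≤ Subgroup.centralizer (Y : Set H)
    rw [hle']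
    exact Subgroup.le_centralizer Y
  set M := (MonoidHom.transferSylow P hPC).ker
  have hcomp : Subgroup.IsComplement' M Y :=
    MonoidHom.ker_transferSylow_isComplement' (P := P) (hP := hPC)
  have hMc : Nat.card M = 6 := by
    have := hcomp.card_mul
    rw [hYc, hc] at this
    omega
  haveI : Fact (Nat.Prime 3) := ⟨by norm_num⟩
  obtain ⟨m, hmM, hmo, hcomm⟩ := exists_commute_of_few M hyHo (by norm_num : Nat.Prime 3)
    (by rw [hMc]; norm_num) (by
      obtain ⟨i, hi⟩ := exists_prime_orderOf_dvd_card' (G := M) (hp := ⟨Nat.prime_two⟩) 2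
        (by rw [hMc]; norm_num)
      have hsub : {m : H | m ∈ M ∧ orderOf m = 3} ⊆ ((M : Set H) \ {1}) \ {(i : H)} := by
        rintro z ⟨hz, hz3⟩
        refine ⟨⟨hz, ?_⟩, ?_⟩
        · rintro rfl; rw [orderOf_one] at hz3; omega
        · rintro rfl; rw [Subgroup.orderOf_coe, hi] at hz3; omega
      have h1 := Set.ncard_le_ncard hsub (Set.toFinite _)
      rw [Set.ncard_diff_singleton_of_mem (a := (i : H)) (show (i : H) ∈ (M : Set H) \ {1} from ⟨i.2, fun e => by
          have : orderOf (i : H) = 2 := by rw [Subgroup.orderOf_coe, hi]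
          rw [Set.mem_singleton_iff.1 e, orderOf_one] at this
          omega⟩),
        Set.ncard_diff_singleton_of_mem (a := (1 : H)) (one_mem M),
        show (M : Set H).ncard = 6 from (Nat.card_coe_set_eq _).symm.trans hMc] at h1
      omega)
  have hcomm' : Commute (m : Perm α) y := (congrArg Subtype.val hcomm.eq).symm
  have hmo' : (m : Perm α) o = o := hnorm m (by
    refine Subgroup.mem_normalizer_iff''.2 fun z => ?_
    have hcz : ∀ w ∈ Y, m⁻¹ * w * m = w := fun w hw => by
      obtain ⟨k, rfl⟩ := Subgroup.mem_zpowers_iff.1 hw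
      rw [mul_assoc, (hcomm.zpow_left k).eq, ← mul_assoc, inv_mul_cancel, one_mul]
    constructor
    · intro hz; rw [hcz z hz]; exact hz
    · intro hz
      have h2 := hcz _ hz
      have h3 : m⁻¹ * z * m = z := mul_left_cancel (a := m⁻¹) (mul_right_cancel (b := m) h2)
      rwa [h3] at hz)
  obtain ⟨j, hj⟩ := eq_pow_of_commute hy hcomm' (fun z hz => by rw [hfixy z hz]; exact hmo')
  have hdd : orderOf (m : Perm α) ∣ orderOf y := hj ▸ orderOf_pow_dvd j
  rw [Subgroup.orderOf_coe, hmo, hyo] at hdd
  norm_num at hdd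

end Cfsg.Agent.Transfer.AltGen
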