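import Mathlib
import Cfsg.Agent.Transfer.AltGenSeven

/-!
Primitive even groups of degree 13 with an 11-cycle.
-/

set_option autoImplicit false

namespace Cfsg.Agent.Transfer.AltGen

open Equiv MulAction

variable {α : Type*} [Fintype α] [DecidableEq α]

theorem sameCycle_conj {g n : Perm α} (hng : Commute n g) {z w : α} (h : g.SameCycle z w) :
    g.SameCycle (n z) (n w) := by
  obtain ⟨k, hk⟩ := h
  refine ⟨k, ?_⟩
  rw [← hk, ← Perm.mul_apply, ← Perm.mul_apply, (hng.zpow_right k).eq]

theorem exists_map_triple {H : Subgroup (Perm α)} (h3 : IsMultiplyPretransitive H α 3)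
    {a b c a' b' c' : α} (hab : a ≠ b) (hbc : b ≠ c) (hac : a ≠ c)
    (hab' : a' ≠ b') (hbc' : b' ≠ c') (hac' : a' ≠ c') :
    ∃ h : H, (h : Perm α) a = a' ∧ (h : Perm α) b = b' ∧ (h : Perm α) c = c' := by
  have hinj : ∀ {u v w : α}, u ≠ v → v ≠ w → u ≠ w → Function.Injective ![u, v, w] := by
    intro u v w h1 h2 h3 i j
    fin_cases i <;> fin_cases j <;> simp [h1, h2, h3, h1.symm, h2.symm, h3.symm]
  obtain ⟨h, hh⟩ := h3.exists_smul_eq (⟨![a, b, c], hinj hab hbc hac⟩ : Fin 3 ↪ α)
    ⟨![a', b', c'], hinj hab' hbc' hac'⟩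
  refine ⟨h, ?_, ?_, ?_⟩
  · exact congrFun (congrArg DFunLike.coe hh) 0
  · exact congrFun (congrArg DFunLike.coe hh) 1
  · exact congrFun (congrArg DFunLike.coe hh) 2

theorem thirteen_five (hα : Fintype.card α = 13) {H : Subgroup (Perm α)}
    (hprim : IsPreprimitive H α) (h3 : IsMultiplyPretransitive H α 3)
    (h5 : 5 ∣ Nat.card H) : alternatingGroup α ≤ H := by
  haveI : Fact (Nat.Prime 5) := ⟨by norm_num⟩
  obtain ⟨gH, hgo⟩ := exists_prime_orderOf_dvd_card' (G := H) 5 h5
  obtain ⟨g, hgH⟩ := gH
  rw [Subgroup.orderOf_mk] at hgo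
  obtain ⟨k, hk⟩ := Perm.cycleType_prime_order (σ := g) (hgo.symm ▸ (by norm_num))
  rw [hgo] at hk
  have hsum : g.support.card = (k + 1) * 5 := by
    rw [← Perm.sum_cycleType, hk, Multiset.sum_replicate, smul_eq_mul]
  have hle := Finset.card_le_univ g.support
  rw [hsum, hα] at hle
  have jordan : ∀ c : Perm α, c ∈ H → orderOf c = 5 → c.support.card = 5 → alternatingGroup α ≤ H :=
    fun c hcH hco hcc => PermGroups.alternating_le_of_prime_cycle H hprim (by norm_num : Nat.Prime 5)
      (by omega) (Perm.isCycle_of_prime_order (by rw [hco]; norm_num) (by rw [hco, hcc]; norm_num)) hcc hcH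
  rcases Nat.lt_or_ge k 1 with hk0 | hk1
  · exact jordan g hgH hgo (by omega)
  have hsupp : g.support.card = 10 := by omega
  by_cases h25 : 25 ∣ Nat.card H
  · -- a full Sylow subgroup
    obtain ⟨z, hz⟩ : ∃ z, z ∈ g.support := Finset.card_pos.1 (by omega)
    set c := g.cycleOf z
    have hcc : c.support.card = 5 := cycleOf_card (by norm_num) hgo hz
    have hco : orderOf c = 5 := by
      rw [(Perm.isCycle_cycleOf g (Perm.mem_support.1 hz)).orderOf, hcc]
    obtain ⟨Q⟩ : Nonempty (Sylow 5 H) := inferInstance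
    have h13 : (Nat.card (Perm α)).factorization 5 = 2 := by
      rw [Nat.card_perm, Nat.card_eq_fintype_card, hα]
      rw [show Nat.factorial 13 = 5 ^ 2 * 249080832 by decide, Nat.factorization_mul (by norm_num) (by norm_num),
        Nat.factorization_pow]
      simp [Nat.factorization_eq_zero_of_not_dvd (show ¬ 5 ∣ 249080832 by norm_num),
        Nat.Prime.factorization_self (show Nat.Prime 5 by norm_num)]
    have hHf : (Nat.card H).factorization 5 = 2 := by
      apply le_antisymm
      · rw [← h13]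
        exact (Nat.factorization_le_iff_dvd Nat.card_pos.ne' Nat.card_pos.ne').2
          (Subgroup.card_subgroup_dvd_card H) 5
      · exact ((by norm_num : Nat.Prime 5).pow_dvd_iff_le_factorization Nat.card_pos.ne').1
          (by norm_num; exact h25)
    let Q' : Sylow 5 (Perm α) := Sylow.ofCard ((Q : Subgroup H).map H.subtype) (by
      rw [Subgroup.card_map_of_injective H.subtype_injective, Q.card_eq_multiplicity, hHf, h13])
    obtain ⟨R, hR⟩ := (IsPGroup.of_card (n := 1) (show Nat.card (Subgroup.zpowers c) = 5 ^ 1 by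
      rw [Nat.card_zpowers, hco, pow_one])).exists_le_sylow
    obtain ⟨s, hs⟩ := exists_smul_eq (Perm α) R Q'
    have hcH : s * c * s⁻¹ ∈ H := by
      have h1 : s * c * s⁻¹ ∈ ((s • R : Sylow 5 (Perm α)) : Subgroup (Perm α)) := by
        rw [Sylow.coe_subgroup_smul]
        exact Subgroup.smul_mem_pointwise_smul c (MulAut.conj s) _ (hR (Subgroup.mem_zpowers c))
      rw [hs] at h1
      exact Subgroup.map_subtype_le _ h1
    exact jordan _ hcH (by rw [← MulAut.conj_apply, MulEquiv.orderOf_eq, hco])
      (by rw [Perm.support_conj, Finset.card_map, hcc])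
  · -- three fixed points
    obtain ⟨a, b, c, hab, hac, hbc, hF⟩ : ∃ a b c, a ≠ b ∧ a ≠ c ∧ b ≠ c ∧ g.supportᶜ = {a, b, c} :=
      Finset.card_eq_three.1 (by rw [Finset.card_compl]; omega)
    have hfix : ∀ z, g z = z ↔ z = a ∨ z = b ∨ z = c := by
      intro z
      rw [← Perm.notMem_support, ← Finset.mem_compl, hF]
      simp
    let K : Subgroup H := stabilizer H a ⊓ stabilizer H b ⊓ stabilizer H c
    have hK5 : (Nat.card K).factorization 5 ≤ 1 := by
      by_contra hc'
      rw [not_le] at hc'
      exact h25 (dvd_trans (((by norm_num : Nat.Prime 5).pow_dvd_iff_le_factorization (k := 2)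
        Nat.card_pos.ne').2 hc') (Subgroup.card_subgroup_dvd_card K))
    -- normalising elements
    have key : ∀ a' b' c', a' ≠ b' → b' ≠ c' → a' ≠ c' → g a' = a' → g b' = b' → g c' = c' →
        ∃ n : H, (∃ i : ℤ, (n : Perm α) * g * (n : Perm α)⁻¹ = g ^ i) ∧
          (n : Perm α) a' = a ∧ (n : Perm α) b' = b ∧ (n : Perm α) c' = c := by
      intro a' b' c' h1 h2 h4 fa fb fc
      obtain ⟨h, ha, hb, hc⟩ := exists_map_triple h3 h1 h2 h4 hab hbc hac
      have hgK : (⟨g, hgH⟩ : H) ∈ K :=
        ⟨⟨(hfix a).2 (Or.inl rfl), (hfix b).2 (Or.inr (Or.inl rfl))⟩, (hfix c).2 (Or.inr (Or.inr rfl))⟩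
      set g1 : H := h * ⟨g, hgH⟩ * h⁻¹
      have conjfix : ∀ u v, (h : Perm α) u = v → g u = u → (g1 : Perm α) v = v := by
        intro u v huv hu
        rw [← huv]
        simp only [g1, Subgroup.coe_mul, Subgroup.coe_inv, Perm.mul_apply, Perm.inv_def,
          Equiv.symm_apply_apply]
        rw [hu]
      have hg1K : g1 ∈ K := ⟨⟨conjfix a' a ha fa, conjfix b' b hb fb⟩, conjfix c' c hc fc⟩
      have ho : orderOf (⟨⟨g, hgH⟩, hgK⟩ : K) = 5 := by
        rw [Subgroup.orderOf_mk, Subgroup.orderOf_mk, hgo]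
      have ho1 : orderOf (⟨g1, hg1K⟩ : K) = 5 := by
        rw [Subgroup.orderOf_mk, show g1 = MulAut.conj h ⟨g, hgH⟩ from rfl, MulEquiv.orderOf_eq,
          Subgroup.orderOf_mk, hgo]
      have hK5' : (Nat.card K).factorization 5 = 1 := by
        refine le_antisymm hK5 (((by norm_num : Nat.Prime 5).pow_dvd_iff_le_factorization
          Nat.card_pos.ne').1 ?_)
        rw [pow_one, ← ho]; exact orderOf_dvd_natCard _
      let P : Sylow 5 K := Sylow.ofCard (Subgroup.zpowers ⟨⟨g, hgH⟩, hgK⟩)
        (by rw [Nat.card_zpowers, ho, hK5', pow_one])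
      let P1 : Sylow 5 K := Sylow.ofCard (Subgroup.zpowers ⟨g1, hg1K⟩)
        (by rw [Nat.card_zpowers, ho1, hK5', pow_one])
      obtain ⟨t, ht⟩ := exists_smul_eq K P1 P
      have hmem : t * ⟨g1, hg1K⟩ * t⁻¹ ∈ (P : Subgroup K) := by
        rw [← ht, Sylow.coe_subgroup_smul]
        exact Subgroup.smul_mem_pointwise_smul _ (MulAut.conj t) _ (Subgroup.mem_zpowers _)
      obtain ⟨i, hi⟩ := Subgroup.mem_zpowers_iff.1
        (show t * ⟨g1, hg1K⟩ * t⁻¹ ∈ Subgroup.zpowers (⟨⟨g, hgH⟩, hgK⟩ : K) from hmem)
      have hi' := congrArg (fun z : K => ((z : H) : Perm α)) hi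
      simp only [SubgroupClass.coe_zpow, Subgroup.coe_mul, Subgroup.coe_inv, g1] at hi'
      obtain ⟨⟨ta, tb⟩, tc⟩ := t.2
      refine ⟨(t : H) * h, ⟨i, ?_⟩, ?_, ?_, ?_⟩
      · rw [hi', Subgroup.coe_mul, mul_inv_rev]; group
      · rw [Subgroup.coe_mul, Perm.mul_apply, ha]; exact ta
      · rw [Subgroup.coe_mul, Perm.mul_apply, hb]; exact tb
      · rw [Subgroup.coe_mul, Perm.mul_apply, hc]; exact tc
    have fa := (hfix a).2 (Or.inl rfl)
    have fb := (hfix b).2 (Or.inr (Or.inl rfl))
    have fc := (hfix c).2 (Or.inr (Or.inr rfl))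
    obtain ⟨n1, ⟨i, hi⟩, n1b, n1a, n1c⟩ := key b a c hab.symm hac hbc fb fa fc
    obtain ⟨n2, ⟨j, hj⟩, n2a, n2c, n2b⟩ := key a c b hac hbc.symm hab fa fc fb
    set u : Perm α := (n1 : Perm α) * n2
    set v : Perm α := (n2 : Perm α) * n1
    have hu : u * g * u⁻¹ = g ^ (i * j) := by
      rw [show u * g * u⁻¹ = (n1 : Perm α) * ((n2 : Perm α) * g * (n2 : Perm α)⁻¹) * (n1 : Perm α)⁻¹ by
        simp only [u, mul_inv_rev]; group, hj, ← conj_zpow, hi, ← zpow_mul]
    have hv : v * g * v⁻¹ = g ^ (i * j) := by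
      rw [show v * g * v⁻¹ = (n2 : Perm α) * ((n1 : Perm α) * g * (n1 : Perm α)⁻¹) * (n2 : Perm α)⁻¹ by
        simp only [v, mul_inv_rev]; group, hi, ← conj_zpow, hj, ← zpow_mul, mul_comm j i]
    set m : Perm α := v⁻¹ * u with hm
    have hmH : m ∈ H := mul_mem (inv_mem (mul_mem n2.2 n1.2)) (mul_mem n1.2 n2.2)
    have hmg : Commute m g := by
      have : m * g * m⁻¹ = g := by
        rw [show m * g * m⁻¹ = v⁻¹ * (u * g * u⁻¹) * v by rw [hm]; group,
          hu, ← hv]
        group
      exact mul_inv_eq_iff_eq_mul.1 this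
    have happ : ∀ z w, v w = u z → m z = w := fun z w h => by
      rw [hm, Perm.mul_apply, ← h, Perm.inv_def, Equiv.symm_apply_apply]
    have ma : m a = c := happ a c (by simp only [u, v, Perm.mul_apply, n1c, n2a, n2c, n1a])
    have mb : m b = a := happ b a (by simp only [u, v, Perm.mul_apply, n1a, n2b, n2b, n1c])
    have mc : m c = b := happ c b (by simp only [u, v, Perm.mul_apply, n1b, n2a, n2c, n1a])
    have hten : ∀ z ∈ g.support, (m ^ 10) z = z := by
      intro z hz
      have hsc : g.SameCycle z ((m * m) z) := by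
        rw [Perm.mul_apply]
        have hmem : ∀ w ∈ g.support, m w ∈ g.support := fun w hw => by
          rw [Perm.mem_support] at hw ⊢
          intro e; apply hw; apply m.injective
          rw [← Perm.mul_apply, hmg.eq, Perm.mul_apply, e]
        have hcard : g.cycleFactorsFinset.card = 2 := by
          have := congrArg Multiset.card hk
          rw [Perm.cycleType_def, Multiset.card_map, Multiset.card_replicate] at this
          have h2 : g.cycleFactorsFinset.card = k + 1 := this
          omega
        have hsame : ∀ w w', w ∈ g.support → g.cycleOf w = g.cycleOf w' → g.SameCycle w' w := by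
          intro w w' hw e
          have : w ∈ (g.cycleOf w').support := by
            rw [← e]; exact Perm.mem_support_cycleOf_iff.2 ⟨Perm.SameCycle.refl _ _, hw⟩
          exact (Perm.mem_support_cycleOf_iff.1 this).1
        have h1 := hmem z hz
        have h2 := hmem _ h1
        have hor : g.cycleOf z = g.cycleOf (m z) ∨ g.cycleOf z = g.cycleOf (m (m z)) ∨
            g.cycleOf (m z) = g.cycleOf (m (m z)) := by
          by_contra hne
          simp only [not_or] at hne
          have hsub : ({g.cycleOf z, g.cycleOf (m z), g.cycleOf (m (m z))} : Finset (Perm α)) ⊆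
              g.cycleFactorsFinset := by
            intro w hw
            simp only [Finset.mem_insert, Finset.mem_singleton] at hw
            rcases hw with rfl | rfl | rfl <;> rw [Perm.cycleOf_mem_cycleFactorsFinset_iff] <;> assumption
          have := Finset.card_le_card hsub
          rw [Finset.card_insert_of_notMem (by simp [hne.1, hne.2.1]),
            Finset.card_insert_of_notMem (by simp [hne.2.2]), Finset.card_singleton] at this
          omega
        rcases hor with h | h | h
        · have h' := hsame _ _ hz h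
          exact h'.symm.trans (sameCycle_conj hmg h'.symm)
        · exact (hsame _ _ hz h).symm
        · have h' := (hsame _ _ h1 h).symm
          have h'' : g.SameCycle z (m z) := by
            have := sameCycle_conj (g := g) hmg.inv_left h'
            simpa [Perm.inv_def] using this
          exact h''.trans h'
      obtain ⟨l, hl⟩ := hsc.exists_nat_pow_eq
      have hiter : ∀ r : ℕ, ((m * m) ^ r) z = (g ^ (l * r)) z := by
        intro r
        induction r with
        | zero => simp
        | succ r ih =>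
          rw [pow_succ, Perm.mul_apply, ← hl, ← Perm.mul_apply,
            (((hmg.mul_left hmg).pow_left r).pow_right l).eq, Perm.mul_apply, ih, ← Perm.mul_apply,
            ← pow_add, Nat.mul_succ, add_comm]
      rw [show m ^ 10 = (m * m) ^ 5 by rw [← sq, ← pow_mul], hiter 5, mul_comm, pow_mul, ← hgo,
        pow_orderOf_eq_one, one_pow, Perm.one_apply]
    have e10 : ∀ z, (m ^ 10) z = m (m (m (m (m (m (m (m (m (m z))))))))) := fun z => rfl
    have t1 : (m ^ 10) a = c := by simp only [e10, ma, mb, mc]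
    have t2 : (m ^ 10) b = a := by simp only [e10, ma, mb, mc]
    have t3 : (m ^ 10) c = b := by simp only [e10, ma, mb, mc]
    have hthree : (m ^ 10).support.card = 3 := by
      have : (m ^ 10).support = {a, b, c} := by
        ext z
        rw [Perm.mem_support]
        constructor
        · intro hne
          by_contra hz
          apply hne
          apply hten
          rw [← hF, Finset.mem_compl, not_not] at hz
          exact hz
        · intro hz
          simp only [Finset.mem_insert, Finset.mem_singleton] at hz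
          rcases hz with rfl | rfl | rfl
          · rw [t1]; exact hac.symm
          · rw [t2]; exact hab
          · rw [t3]; exact hbc
      rw [this, Finset.card_eq_three]
      exact ⟨a, b, c, hab, hac, hbc, rfl⟩
    exact Perm.alternatingGroup_le_of_isPreprimitive_of_isThreeCycle_mem hprim
      (card_support_eq_three_iff.1 hthree) (pow_mem hmH 10)

theorem thirteen (hα : Fintype.card α = 13) {H : Subgroup (Perm α)}
    (hH : H ≤ alternatingGroup α) (hprim : IsPreprimitive H α)
    {x : Perm α} (hxH : x ∈ H) (hx : x.IsCycle) (hxc : x.support.card = 11) :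
    alternatingGroup α ≤ H := by
  classical
  have h3 := three_trans hprim hxH hx (by rw [hxc]; norm_num) (by omega)
  by_cases h5 : 5 ∣ Nat.card H
  · exact thirteen_five hα hprim h3 h5
  exfalso
  haveI : Fact (Nat.Prime 11) := ⟨by norm_num⟩
  haveI : Fact (Nat.Prime 3) := ⟨by norm_num⟩
  obtain ⟨a, b, hab, hF⟩ : ∃ a b, a ≠ b ∧ x.supportᶜ = {a, b} :=
    Finset.card_eq_two.1 (by rw [Finset.card_compl]; omega)
  have hfix : ∀ z, x z = z ↔ z = a ∨ z = b := by
    intro z
    rw [← Perm.notMem_support, ← Finset.mem_compl, hF]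
    simp
  have hxo : orderOf x = 11 := by rw [hx.orderOf, hxc]
  set xH : H := ⟨x, hxH⟩
  have hxHo : orderOf xH = 11 := by rw [Subgroup.orderOf_mk, hxo]
  set s : Set α := (x.support : Set α)ᶜ with hs
  set K : Subgroup H := fixingSubgroup H s
  have hmemK : ∀ k : H, k ∈ K ↔ (k : Perm α) a = a ∧ (k : Perm α) b = b := by
    intro k
    constructor
    · intro hk
      exact ⟨(mem_fixingSubgroup_iff H).1 hk a (by simp [hs, (hfix a).2 (Or.inl rfl)]),
        (mem_fixingSubgroup_iff H).1 hk b (by simp [hs, (hfix b).2 (Or.inr rfl)])⟩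
    · rintro ⟨h1, h2⟩
      refine (mem_fixingSubgroup_iff H).2 fun z hz => ?_
      have : x z = z := by simpa [hs] using hz
      rcases (hfix z).1 this with rfl | rfl
      · exact h1
      · exact h2
  have hxK : xH ∈ K := (hmemK _).2 ⟨(hfix a).2 (Or.inl rfl), (hfix b).2 (Or.inr rfl)⟩
  have hKout : ∀ k ∈ K, ∀ z, z ∉ x.support → (k : Perm α) z = z := by
    intro k hk z hz
    exact (mem_fixingSubgroup_iff H).1 hk z (by simpa [hs] using hz)
  -- `11 ^ 2` does not divide the order
  have h121 : ∀ L : Subgroup H, ¬ 11 ^ 2 ∣ Nat.card L := by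
    intro L hL
    have h1 := (hL.trans (Subgroup.card_subgroup_dvd_card L)).trans
      (Subgroup.card_subgroup_dvd_card H)
    rw [Nat.card_perm, Nat.card_eq_fintype_card, hα] at h1
    revert h1
    decide
  -- normalising elements of `K` centralise `x`
  have hNK : ∀ t : H, t ∈ K → (∃ i : ℤ, (t : Perm α) * x * (t : Perm α)⁻¹ = x ^ i) →
      Commute (t : Perm α) x := by
    intro t ht ⟨i, hi⟩
    set T : Perm α := (t : Perm α)
    have hit : ∀ k : ℕ, T ^ k * x * (T ^ k)⁻¹ = x ^ (i ^ k) := by
      intro k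
      induction k with
      | zero => simp
      | succ k ih =>
        rw [pow_succ' T, mul_inv_rev,
          show T * T ^ k * x * ((T ^ k)⁻¹ * T⁻¹) = T * (T ^ k * x * (T ^ k)⁻¹) * T⁻¹ by group,
          ih, ← conj_zpow, hi, ← zpow_mul, ← pow_succ']
    have hit' := hit (orderOf T)
    rw [pow_orderOf_eq_one, one_mul, inv_one, mul_one] at hit'
    have hz1 : ((i : ℤ) : ZMod 11) ^ orderOf T = 1 := by
      have h1 : i ^ orderOf T ≡ 1 [ZMOD (orderOf x : ℤ)] :=
        (zpow_eq_zpow_iff_modEq (x := x)).1 (by rw [zpow_one]; exact hit'.symm)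
      rw [hxo, ← ZMod.intCast_eq_intCast_iff] at h1
      push_cast at h1
      exact h1
    have hine : ((i : ℤ) : ZMod 11) ≠ 0 := by
      intro h0
      rw [h0, zero_pow (orderOf_pos T).ne'] at hz1
      exact zero_ne_one hz1
    have hz10 : ((i : ℤ) : ZMod 11) ^ 10 = 1 := ZMod.pow_card_sub_one_eq_one hine
    have hT5 : ¬ 5 ∣ orderOf T := fun h => h5 (h.trans (Subgroup.orderOf_dvd_natCard H t.2))
    have hgcd : Nat.gcd (orderOf T) 10 ∣ 2 := by
      have h1 := Nat.gcd_dvd_right (orderOf T) 10
      have h2 : ¬ 5 ∣ Nat.gcd (orderOf T) 10 := fun h => hT5 (h.trans (Nat.gcd_dvd_left _ _))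
      have h3' := Nat.le_of_dvd (by norm_num) h1
      interval_cases Nat.gcd (orderOf T) 10 <;> omega
    have hz2 : ((i : ℤ) : ZMod 11) ^ 2 = 1 := by
      obtain ⟨l, hl⟩ := hgcd
      rw [hl, pow_mul, (pow_gcd_eq_one).2 ⟨hz1, hz10⟩, one_pow]
    have hxi : ∀ e : ℤ, ((i : ℤ) : ZMod 11) = ((e : ℤ) : ZMod 11) → x ^ i = x ^ e := by
      intro e he
      rw [zpow_eq_zpow_iff_modEq, hxo]
      exact (ZMod.intCast_eq_intCast_iff i e 11).1 he
    rcases sq_eq_one_iff.1 hz2 with h | h
    · rw [hxi 1 (by rw [h]; simp), zpow_one] at hi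
      exact mul_inv_eq_iff_eq_mul.1 hi
    · exfalso
      rw [hxi (-1) (by rw [h]; simp), zpow_neg_one] at hi
      have hout : ∀ z, z ∉ x.support → T z = z := hKout t ht
      have hTT : Commute (T * T) x := by
        apply mul_inv_eq_iff_eq_mul.1
        rw [mul_inv_rev, show T * T * x * (T⁻¹ * T⁻¹) = T * (T * x * T⁻¹) * T⁻¹ by group, hi,
          ← conj_inv, hi, inv_inv]
      obtain ⟨l, hl⟩ := eq_pow_of_commute hx hTT (fun z hz => by
        rw [Perm.mul_apply, hout z hz, hout z hz])
      have h2 : (x ^ l) = (x ^ l)⁻¹ := by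
        rw [← inv_pow, ← hi, conj_pow, ← hl]; group
      have h3' : x ^ (l + l) = 1 := by rw [pow_add]; nth_rewrite 2 [h2]; exact mul_inv_cancel _
      have h4 := orderOf_dvd_of_pow_eq_one h3'
      rw [hxo] at h4
      have hTT1 : T * T = 1 := by
        rw [hl]
        obtain ⟨e, rfl⟩ : 11 ∣ l := by omega
        rw [pow_mul, ← hxo, pow_orderOf_eq_one, one_pow]
      have hs' := sign_of_invert hx (by norm_num : Nat.Prime 11) hxc (by norm_num) hi hTT1 hout
      rw [show Perm.sign T = 1 from Perm.mem_alternatingGroup.1 (hH t.2)] at hs'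
      norm_num at hs'
  -- generic Burnside step
  have burnside : ∀ L : Subgroup H, xH ∈ L →
      (∀ t ∈ L, (∃ i : ℤ, (t : Perm α) * x * (t : Perm α)⁻¹ = x ^ i) → Commute (t : Perm α) x) →
      ∃ M : Subgroup L, M.Normal ∧ Nat.card M * 11 = Nat.card L := by
    intro L hL hcen
    set xL : L := ⟨xH, hL⟩
    have hxLo : orderOf xL = 11 := by rw [Subgroup.orderOf_mk, hxHo]
    have hfac : (Nat.card L).factorization 11 = 1 := by
      apply le_antisymm
      · by_contra hc
        exact h121 L (((by norm_num : Nat.Prime 11).pow_dvd_iff_le_factorization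
          Nat.card_pos.ne').2 (by omega))
      · refine ((by norm_num : Nat.Prime 11).pow_dvd_iff_le_factorization Nat.card_pos.ne').1 ?_
        rw [pow_one, ← hxLo]; exact orderOf_dvd_natCard _
    let P : Sylow 11 L := Sylow.ofCard (Subgroup.zpowers xL) (by rw [Nat.card_zpowers, hxLo, hfac, pow_one])
    have hPC : Subgroup.normalizer ((P : Subgroup L) : Set L) ≤
        Subgroup.centralizer ((P : Subgroup L) : Set L) := by
      show Subgroup.normalizer (Subgroup.zpowers xL : Set L) ≤
        Subgroup.centralizer (Subgroup.zpowers xL : Set L)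
      intro t ht
      obtain ⟨i, hi⟩ := Subgroup.mem_zpowers_iff.1
        ((Subgroup.mem_normalizer_iff.1 ht xL).1 (Subgroup.mem_zpowers _))
      have hi' := congrArg (fun z : L => ((z : H) : Perm α)) hi
      simp only [SubgroupClass.coe_zpow, Subgroup.coe_mul, Subgroup.coe_inv] at hi'
      have hc := hcen t t.2 ⟨i, hi'.symm⟩
      rw [Subgroup.mem_centralizer_iff]
      intro w hw
      obtain ⟨e, rfl⟩ := Subgroup.mem_zpowers_iff.1 hw
      have hcL : Commute t xL := Subtype.ext (Subtype.ext hc.eq)
      exact (hcL.zpow_right e).eq.symm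
    have hcomp : Subgroup.IsComplement' (MonoidHom.transferSylow P hPC).ker (P : Subgroup L) :=
      MonoidHom.ker_transferSylow_isComplement' (P := P) (hP := hPC)
    refine ⟨(MonoidHom.transferSylow P hPC).ker, inferInstance, ?_⟩
    have := hcomp.card_mul
    rwa [show Nat.card (P : Subgroup L) = 11 from (Nat.card_zpowers xL).trans hxLo] at this
  -- the two point stabiliser is cyclic
  have hKcard : Nat.card K = 11 := by
    obtain ⟨M, hMn, hMc⟩ := burnside K hxK (fun t ht h => hNK t ht h)
    suffices hM : M = ⊥ by rw [← hMc, hM, Subgroup.card_bot, one_mul]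
    have hsc : Nat.card (SubMulAction.ofFixingSubgroup H s) = 11 := by
      rw [← hxc, ← Set.ncard_coe_finset, ← Nat.card_coe_set_eq]
      refine Nat.card_congr (Equiv.subtypeEquivRight fun z => ?_)
      simp [hs, SubMulAction.mem_ofFixingSubgroup_iff]
    haveI : IsPretransitive K (SubMulAction.ofFixingSubgroup H s) := by
      have := Perm.isPretransitive_of_isCycle_mem hx hxH
      exact this
    haveI : IsPreprimitive K (SubMulAction.ofFixingSubgroup H s) :=
      IsPreprimitive.of_prime_card (by rw [hsc]; norm_num)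
    by_contra hM
    by_cases hfx : fixedPoints M (SubMulAction.ofFixingSubgroup H s) = Set.univ
    · apply hM
      rw [eq_bot_iff]
      intro m hm
      rw [Subgroup.mem_bot]
      apply Subtype.ext; apply Subtype.ext
      refine Perm.ext fun z => ?_
      rw [OneMemClass.coe_one, OneMemClass.coe_one, Perm.one_apply]
      by_cases hz : z ∈ x.support
      · have hzs : z ∈ SubMulAction.ofFixingSubgroup H s := by
          simp [hs, SubMulAction.mem_ofFixingSubgroup_iff, Perm.mem_support.1 hz]
        have hzf : (⟨z, hzs⟩ : SubMulAction.ofFixingSubgroup H s) ∈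
            fixedPoints M (SubMulAction.ofFixingSubgroup H s) := hfx ▸ Set.mem_univ _
        exact congrArg Subtype.val (hzf ⟨m, hm⟩)
      · exact hKout m.1 m.2 z hz
    · haveI := hMn
      have htr : IsPretransitive M (SubMulAction.ofFixingSubgroup H s) :=
        IsQuasiPreprimitive.isPretransitive_of_normal hfx
      obtain ⟨z0⟩ : Nonempty (SubMulAction.ofFixingSubgroup H s) :=
        (Nat.card_pos_iff.1 (by rw [hsc]; norm_num)).1
      have h11 : 11 ∣ Nat.card M := by
        rw [← hsc, ← index_stabilizer_of_transitive M z0]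
        exact Subgroup.index_dvd_card _
      exact h121 K (by rw [← hMc, sq]; exact mul_dvd_mul h11 dvd_rfl)
  -- the orders
  haveI : IsPretransitive H α := by
    have := hprim
    infer_instance
  have hns : s.ncard = 2 := by
    rw [hs, Set.ncard_compl, Set.ncard_coe_finset, hxc, Nat.card_eq_fintype_card, hα]
  have hmt2 : IsMultiplyPretransitive H α 2 := by
    have := h3
    exact isMultiplyPretransitive_of_le' (by norm_num : 2 ≤ 3) (by
      rw [ENat.card_eq_coe_fintype_card, hα]; norm_num)
  have hidx := hmt2.index_of_fixingSubgroup_mul hns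
  rw [Nat.card_eq_fintype_card, hα] at hidx
  have hidx' : K.index = 156 := by
    rw [show (13 - 2 : ℕ).factorial = 39916800 by decide,
      show Nat.factorial 13 = 156 * 39916800 by decide] at hidx
    exact Nat.eq_of_mul_eq_mul_right (by norm_num) hidx
  have hHc : Nat.card H = 1716 := by
    rw [← Subgroup.card_mul_index K, hKcard, hidx']
  set L : Subgroup H := stabilizer H a
  have hLc : Nat.card L = 132 := by
    have := Subgroup.card_mul_index L
    rw [index_stabilizer_of_transitive, Nat.card_eq_fintype_card (α := α), hα, hHc] at this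
    omega
  have hKgen : ∀ k ∈ K, ∃ e : ℤ, k = xH ^ e := by
    intro k hk
    have : Subgroup.zpowers xH = K := Subgroup.eq_of_le_of_card_ge
      (Subgroup.zpowers_le.2 hxK) (by rw [hKcard, Nat.card_zpowers, hxHo])
    rw [← this] at hk
    obtain ⟨e, he⟩ := Subgroup.mem_zpowers_iff.1 hk
    exact ⟨e, he.symm⟩
  have hLK : ∀ t ∈ L, (∃ i : ℤ, (t : Perm α) * x * (t : Perm α)⁻¹ = x ^ i) → t ∈ K := by
    intro t ht ⟨i, hi⟩
    have hta : (t : Perm α) a = a := ht
    refine (hmemK t).2 ⟨hta, ?_⟩
    set w := (t : Perm α)⁻¹ b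
    have hw : x w = w := by
      have h1 := Perm.ext_iff.1 hi b
      rw [Perm.zpow_apply_eq_self_of_apply_eq_self ((hfix b).2 (Or.inr rfl)) i, Perm.mul_apply,
        Perm.mul_apply] at h1
      exact ((Perm.eq_inv_iff_eq).2 h1)
    have hw' : (t : Perm α) w = b := by simp [w, Perm.inv_def]
    rcases (hfix w).1 hw with h | h
    · rw [h, hta] at hw'; exact absurd hw' hab
    · rw [h] at hw'; exact hw'
  obtain ⟨M, hMn, hMc⟩ := burnside L (show xH • a = a from (hfix a).2 (Or.inl rfl)) (fun t ht h => by
    obtain ⟨e, he⟩ := hKgen t (hLK t ht h)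
    rw [he, SubgroupClass.coe_zpow]
    exact (Commute.refl x).zpow_left e)
  have hMc' : Nat.card M = 12 := by omega
  haveI := hMn
  set xL : L := ⟨xH, (hfix a).2 (Or.inl rfl)⟩
  have hxLo : orderOf xL = 11 := (Subgroup.orderOf_mk _ _).trans hxHo
  obtain ⟨m, hmM, hmo, hcomm⟩ := exists_commute_of_few M hxLo (by norm_num : Nat.Prime 3)
    (by rw [hMc']; norm_num) (by
      obtain ⟨i, hi⟩ := exists_prime_orderOf_dvd_card' (G := M) (hp := ⟨Nat.prime_two⟩) 2
        (by rw [hMc']; norm_num)
      have hsub : {m : L | m ∈ M ∧ orderOf m = 3} ⊆ ((M : Set L) \ {1}) \ {(i : L)} := by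
        rintro z ⟨hz, hz3⟩
        refine ⟨⟨hz, ?_⟩, ?_⟩
        · rintro rfl; rw [orderOf_one] at hz3; omega
        · rintro rfl; rw [Subgroup.orderOf_coe, hi] at hz3; omega
      have h1 := Set.ncard_le_ncard hsub (Set.toFinite _)
      rw [Set.ncard_diff_singleton_of_mem (a := (i : L)) (show (i : L) ∈ (M : Set L) \ {1} from
          ⟨i.2, fun e => by
          have : orderOf (i : L) = 2 := by rw [Subgroup.orderOf_coe, hi]
          rw [Set.mem_singleton_iff.1 e, orderOf_one] at this
          omega⟩),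
        Set.ncard_diff_singleton_of_mem (a := (1 : L)) (one_mem M),
        show (M : Set L).ncard = 12 from (Nat.card_coe_set_eq _).symm.trans hMc'] at h1
      omega)
  have hc' : Commute x ((m : H) : Perm α) := congrArg (fun z : L => ((z : H) : Perm α)) hcomm.eq
  have hmK := hLK m m.2 ⟨1, by rw [zpow_one]; exact mul_inv_eq_iff_eq_mul.2 hc'.eq.symm⟩
  obtain ⟨e, he⟩ := hKgen _ hmK
  have hdd : orderOf (m : H) ∣ orderOf xH :=
    orderOf_dvd_of_mem_zpowers (Subgroup.mem_zpowers_iff.2 ⟨e, he.symm⟩)
  rw [Subgroup.orderOf_coe, hmo, hxHo] at hdd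
  norm_num at hdd

end Cfsg.Agent.Transfer.AltGen
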