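import Mathlib
import Cfsg.Agent.Transfer.AltGenPrimes
import Cfsg.Agent.Transfer.AltGenSix
import Cfsg.Agent.Transfer.AltGenThirteen

/-!
Two primes forcing alternating generation.
-/

set_option autoImplicit false

namespace Cfsg.Agent.Transfer.AltGen

open Equiv MulAction

/-- The choice of the two primes. -/
theorem choose_primes (m : ℕ) (hm : 5 ≤ m) :
    ∃ p q : ℕ, p.Prime ∧ q.Prime ∧ m ≤ 2 * p ∧ p < q ∧ q ≤ m ∧ m < 3 * p ∧ m < p + q ∧
      (p = 3 ∧ q = 5 ∨ p = 5 ∧ q = 7 ∨ p = 11 ∧ q = 13 ∨ p + 3 ≤ q) ∧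
      (m = 2 * p → q + 3 ≤ 2 * p ∨ p = 3 ∧ q = 5) := by
  rcases lt_or_ge m 17 with h | h
  · by_cases h6 : m ≤ 6
    · exact ⟨3, 5, by norm_num, by norm_num, by omega, by omega, by omega, by omega, by omega,
        Or.inl ⟨rfl, rfl⟩, fun _ => Or.inr ⟨rfl, rfl⟩⟩
    by_cases h10 : m ≤ 10
    · exact ⟨5, 7, by norm_num, by norm_num, by omega, by omega, by omega, by omega, by omega,
        Or.inr (Or.inl ⟨rfl, rfl⟩), fun _ => Or.inl (by omega)⟩
    by_cases h14 : m ≤ 14
    · exact ⟨7, 11, by norm_num, by norm_num, by omega, by omega, by omega, by omega, by omega,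
        Or.inr (Or.inr (Or.inr (by omega))), fun _ => Or.inl (by omega)⟩
    exact ⟨11, 13, by norm_num, by norm_num, by omega, by omega, by omega, by omega, by omega,
      Or.inr (Or.inr (Or.inl ⟨rfl, rfl⟩)), fun h22 => absurd h22 (by omega)⟩
  · obtain ⟨p, q, hp, hq, h1, h2, h3⟩ := exists_far_primes m h
    exact ⟨p, q, hp, hq, by omega, by omega, h3, by omega, by omega,
      Or.inr (Or.inr (Or.inr h2)), fun he => absurd he (by omega)⟩

variable {α : Type*} [Fintype α] [DecidableEq α]

theorem support_card_of_prime {x : Perm α} {p : ℕ} (hp : p.Prime) (hx : orderOf x = p) :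
    ∃ k, 0 < k ∧ x.support.card = k * p := by
  obtain ⟨n, hn⟩ := Perm.cycleType_prime_order (σ := x) (hx.symm ▸ hp)
  exact ⟨n + 1, Nat.succ_pos n, by
    rw [← Perm.sum_cycleType, hn, Multiset.sum_replicate, smul_eq_mul, hx]⟩

/-- Generation on the union of the supports. -/
theorem core {x y : Perm α} {p q : ℕ} (hp : p.Prime) (hq : q.Prime) (hpq : p < q)
    (hxo : orderOf x = p) (hy : y.IsCycle) (hyc : y.support.card = q)
    (hD : ∀ z, z ∈ x.support ∨ z ∈ y.support) (hcard : Fintype.card α < p + q)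
    (hsx : Perm.sign x = 1) (hsy : Perm.sign y = 1)
    (hcases : p = 3 ∧ q = 5 ∨ p = 5 ∧ q = 7 ∨ p = 11 ∧ q = 13 ∨ p + 3 ≤ q)
    (hxc : x.support.card = p ∨
      (x.support.card = 2 * p ∧ Fintype.card α = 2 * p ∧ (q + 3 ≤ 2 * p ∨ p = 3 ∧ q = 5))) :
    5 ≤ Fintype.card α ∧ (Subgroup.closure ({x, y} : Set (Perm α)) = alternatingGroup α ∨
      Nonempty (Subgroup.closure ({x, y} : Set (Perm α)) ≃* alternatingGroup (Fin 5))) := by
  set H := Subgroup.closure ({x, y} : Set (Perm α))
  have hxH : x ∈ H := Subgroup.subset_closure (by simp)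
  have hyH : y ∈ H := Subgroup.subset_closure (by simp)
  have hH : H ≤ alternatingGroup α := by
    rw [Subgroup.closure_le]
    rintro z (rfl | rfl)
    · exact hsx
    · exact hsy
  have hdq : q ≤ Fintype.card α := hyc ▸ Finset.card_le_univ y.support
  have hp2 := hp.two_le
  have hq5 : 5 ≤ q := by omega
  haveI : IsPretransitive H α := pretransitive_of_two hxH hyH hp hxo hy (by omega) hD
  have hprim : IsPreprimitive H α := preprimitive_of_long_cycle hyH hy (hyc ▸ hq) (by omega)
  refine ⟨by omega, ?_⟩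
  suffices alternatingGroup α ≤ H ∨ Nonempty (H ≃* alternatingGroup (Fin 5)) by
    rcases this with h | h
    · exact Or.inl (le_antisymm hH h)
    · exact Or.inr h
  rcases hxc with hxc | ⟨hxc, hd2, h2⟩
  · have hxcyc : x.IsCycle := Perm.isCycle_of_prime_order (hxo.symm ▸ hp) (by omega)
    left
    by_cases hd : p + 3 ≤ Fintype.card α
    · exact PermGroups.alternating_le_of_prime_cycle H hprim hp hd hxcyc hxc hxH
    by_cases hp3 : p = 3
    · exact Perm.alternatingGroup_le_of_isPreprimitive_of_isThreeCycle_mem hprim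
        (card_support_eq_three_iff.1 (by omega)) hxH
    rcases hcases with ⟨h, -⟩ | ⟨rfl, rfl⟩ | ⟨rfl, rfl⟩ | h
    · exact absurd h hp3
    · exact seven (by omega) hH hprim hxH hyH hxcyc hxc hy hyc
    · exact thirteen (by omega) hH hprim hxH hxcyc hxc
    · omega
  · rcases h2 with h2 | ⟨rfl, rfl⟩
    · exact Or.inl (PermGroups.alternating_le_of_prime_cycle H hprim hq (by omega) hy hyc hyH)
    · exact six (by omega) hH hxH hyH hxo hy hyc

theorem closure_equiv {G G' : Type*} [Group G] [Group G'] (f : G →* G') (hf : Function.Injective f)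
    (x y : G) {x' y' : G'} (hx : f x = x') (hy : f y = y') :
    Nonempty (Subgroup.closure ({x, y} : Set G) ≃* Subgroup.closure ({x', y'} : Set G')) := by
  have h : (Subgroup.closure ({x, y} : Set G)).map f = Subgroup.closure ({x', y'} : Set G') := by
    rw [MonoidHom.map_closure, Set.image_pair, hx, hy]
  exact ⟨((Subgroup.closure ({x, y} : Set G)).equivMapOfInjective f hf).trans (MulEquiv.subgroupCongr h)⟩

theorem main (m p q : ℕ) (hp : p.Prime) (hq : q.Prime) (hpq : p < q) (hqm : q ≤ m)
    (hm2 : m ≤ 2 * p) (hm3 : m < 3 * p) (hmpq : m < p + q)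
    (hcases : p = 3 ∧ q = 5 ∨ p = 5 ∧ q = 7 ∨ p = 11 ∧ q = 13 ∨ p + 3 ≤ q)
    (hdouble : m = 2 * p → q + 3 ≤ 2 * p ∨ p = 3 ∧ q = 5)
    (x y : alternatingGroup (Fin m)) (hx : orderOf x = p) (hy : orderOf y = q) :
    ∃ d : ℕ, 5 ≤ d ∧ Nonempty (Subgroup.closure ({x, y} : Set (alternatingGroup (Fin m))) ≃*
      alternatingGroup (Fin d)) := by
  set X : Perm (Fin m) := x.1
  set Y : Perm (Fin m) := y.1
  have hXo : orderOf X = p := by rw [← hx]; exact Subgroup.orderOf_coe x
  have hYo : orderOf Y = q := by rw [← hy]; exact Subgroup.orderOf_coe y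
  obtain ⟨k, hk, hkc⟩ := support_card_of_prime hp hXo
  obtain ⟨l, hl, hlc⟩ := support_card_of_prime hq hYo
  have hXle : X.support.card ≤ m := by simpa using Finset.card_le_univ X.support
  have hYle : Y.support.card ≤ m := by simpa using Finset.card_le_univ Y.support
  have hk2 : k ≤ 2 := by
    by_contra hc
    have := Nat.mul_le_mul_right p (show 3 ≤ k by omega)
    omega
  have hl1 : l = 1 := by
    by_contra hc
    have := Nat.mul_le_mul_right q (show 2 ≤ l by omega)
    omega
  subst hl1
  rw [one_mul] at hlc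
  set D : Finset (Fin m) := X.support ∪ Y.support
  have hXD : ∀ z, X z ∈ D ↔ z ∈ D := fun z => by
    by_cases hz : X z = z
    · rw [hz]
    · have h1 : z ∈ D := Finset.mem_union_left _ (Perm.mem_support.2 hz)
      have h2 : X z ∈ D := Finset.mem_union_left _ (Perm.apply_mem_support.2 (Perm.mem_support.2 hz))
      exact iff_of_true h2 h1
  have hYD : ∀ z, Y z ∈ D ↔ z ∈ D := fun z => by
    by_cases hz : Y z = z
    · rw [hz]
    · have h1 : z ∈ D := Finset.mem_union_right _ (Perm.mem_support.2 hz)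
      have h2 : Y z ∈ D := Finset.mem_union_right _ (Perm.apply_mem_support.2 (Perm.mem_support.2 hz))
      exact iff_of_true h2 h1
  set X' : Perm {z // z ∈ D} := X.subtypePerm hXD
  set Y' : Perm {z // z ∈ D} := Y.subtypePerm hYD
  have hX : Perm.ofSubtype X' = X :=
    Perm.ofSubtype_subtypePerm hXD (fun z hz => Finset.mem_union_left _ (Perm.mem_support.2 hz))
  have hY : Perm.ofSubtype Y' = Y :=
    Perm.ofSubtype_subtypePerm hYD (fun z hz => Finset.mem_union_right _ (Perm.mem_support.2 hz))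
  have hinj := Perm.ofSubtype_injective (p := fun z => z ∈ D)
  have hX'o : orderOf X' = p := by rw [← orderOf_injective _ hinj X', hX, hXo]
  have hY'o : orderOf Y' = q := by rw [← orderOf_injective _ hinj Y', hY, hYo]
  have hX's : X'.support.card = X.support.card := by
    have h0 : (Perm.ofSubtype X').support.card = X.support.card := by rw [hX]
    rw [Perm.support_ofSubtype, Finset.card_map] at h0
    convert h0
  have hY's : Y'.support.card = Y.support.card := by
    have h0 : (Perm.ofSubtype Y').support.card = Y.support.card := by rw [hY]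
    rw [Perm.support_ofSubtype, Finset.card_map] at h0
    convert h0
  have hD : ∀ z, z ∈ X'.support ∨ z ∈ Y'.support := by
    rintro ⟨z, hz⟩
    rcases Finset.mem_union.1 hz with h | h
    · left
      rw [Perm.mem_support] at h ⊢
      exact fun e => h (congrArg Subtype.val e)
    · right
      rw [Perm.mem_support] at h ⊢
      exact fun e => h (congrArg Subtype.val e)
  have hcardD : Fintype.card {z // z ∈ D} = D.card := Fintype.card_coe D
  have hDm : D.card ≤ m := by simpa using Finset.card_le_univ D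
  have hXD' : X.support.card ≤ D.card := Finset.card_le_card Finset.subset_union_left
  have hsX : Perm.sign X' = 1 := by
    rw [← Perm.sign_ofSubtype, hX]; exact Perm.mem_alternatingGroup.1 x.2
  have hsY : Perm.sign Y' = 1 := by
    rw [← Perm.sign_ofSubtype, hY]; exact Perm.mem_alternatingGroup.1 y.2
  have hYcyc : Y'.IsCycle := Perm.isCycle_of_prime_order (hY'o.symm ▸ hq) (by
    have := hq.pos; omega)
  have hxc : X'.support.card = p ∨ (X'.support.card = 2 * p ∧
      Fintype.card {z // z ∈ D} = 2 * p ∧ (q + 3 ≤ 2 * p ∨ p = 3 ∧ q = 5)) := by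
    rcases (show k = 1 ∨ k = 2 by omega) with rfl | rfl
    · left; rw [hX's, hkc, one_mul]
    · right
      exact ⟨by rw [hX's, hkc], by omega, hdouble (by omega)⟩
  obtain ⟨h5, hres⟩ := core hp hq hpq hX'o hYcyc (by rw [hY's, hlc]) hD (by omega) hsX hsY hcases hxc
  obtain ⟨e1⟩ := closure_equiv (alternatingGroup (Fin m)).subtype Subtype.val_injective x y
    (x' := X) (y' := Y) rfl rfl
  obtain ⟨e2⟩ := closure_equiv (Perm.ofSubtype (p := fun z => z ∈ D)) hinj X' Y' hX hY
  rcases hres with h | ⟨⟨e⟩⟩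
  · exact ⟨_, h5, ⟨e1.trans (e2.symm.trans ((MulEquiv.subgroupCongr h).trans
      (Equiv.altCongrHom (Fintype.equivFin _))))⟩⟩
  · exact ⟨5, le_rfl, ⟨e1.trans (e2.symm.trans e)⟩⟩

end Cfsg.Agent.Transfer.AltGen
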