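import Mathlib

/-! Maschke's theorem for coprime automorphism groups of finite abelian `p`-groups. -/

set_option autoImplicit false

namespace Cfsg.Agent.Transfer.AbMaschke

variable {A : Type*} [CommGroup A]

/-- Invariance under a group of automorphisms. -/
def Inv (X : Subgroup (MulAut A)) (B : Subgroup A) : Prop := ∀ x ∈ X, ∀ b ∈ B, x b ∈ B

theorem inv_iff_map [Finite A] {X : Subgroup (MulAut A)} {B : Subgroup A} :
    Inv X B ↔ ∀ x ∈ X, B.map x.toMonoidHom = B := by
  constructor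
  · intro h x hx
    refine Subgroup.eq_of_le_of_card_ge ?_ (Subgroup.card_map_of_injective x.injective).ge
    rintro _ ⟨b, hb, rfl⟩
    exact h x hx b hb
  · intro h x hx b hb
    exact (h x hx).le ⟨b, hb, rfl⟩

theorem cancel_aux (a b u s t : A) :
    u⁻¹ * (s * t) = a * b * u⁻¹ * (a * s⁻¹ * (b * t⁻¹))⁻¹ := by
  apply Additive.ofMul.injective
  simp only [ofMul_mul, ofMul_inv]
  abel

theorem cancel_aux' (a u n : A) : u⁻¹ * n = a * u⁻¹ * (a * n⁻¹)⁻¹ := by
  apply Additive.ofMul.injective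
  simp only [ofMul_mul, ofMul_inv]
  abel

/-- Averaging a complement. -/
theorem exists_inv_complement [Finite A] (X : Subgroup (MulAut A))
    (hX : (Nat.card X).Coprime (Nat.card A)) {P N M₀ : Subgroup A} (hP : Inv X P) (hN : Inv X N)
    (hMN : M₀ ⊓ N = P) (hsup : M₀ ⊔ N = ⊤) :
    ∃ M : Subgroup A, Inv X M ∧ M ⊓ N = P ∧ M ⊔ N = ⊤ := by
  classical
  haveI : Fintype X := Fintype.ofFinite X
  have hdec : ∀ a : A, ∃ n : A, n ∈ N ∧ a * n⁻¹ ∈ M₀ := fun a => by
    obtain ⟨m, hm, n, hn, rfl⟩ := Subgroup.mem_sup.mp (hsup ▸ Subgroup.mem_top a : a ∈ M₀ ⊔ N)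
    exact ⟨n, hn, by simpa⟩
  choose ψ hψN hψM using hdec
  have hψadd : ∀ a b, (ψ (a * b))⁻¹ * (ψ a * ψ b) ∈ P := fun a b => by
    rw [← hMN]
    refine ⟨?_, N.mul_mem (N.inv_mem (hψN _)) (N.mul_mem (hψN a) (hψN b))⟩
    have := M₀.mul_mem (hψM (a * b)) (M₀.inv_mem (M₀.mul_mem (hψM a) (hψM b)))
    rwa [← cancel_aux] at this
  have hψN' : ∀ n ∈ N, (ψ n)⁻¹ * n ∈ P := fun n hn => by
    rw [← hMN]
    exact ⟨by simpa [mul_comm] using hψM n, N.mul_mem (N.inv_mem (hψN n)) hn⟩
  let mk : A →* A ⧸ P := QuotientGroup.mk' P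
  have hmk : ∀ {u v : A}, u⁻¹ * v ∈ P → mk u = mk v := fun h => QuotientGroup.eq.mpr h
  have hxmk : ∀ (x : X) {u v : A}, u⁻¹ * v ∈ P → mk ((x : MulAut A) u) = mk ((x : MulAut A) v) :=
    fun x u v h => hmk (by simpa using hP x x.2 _ h)
  let θ : A →* A ⧸ P := MonoidHom.mk' (fun a => ∏ x : X, mk ((x : MulAut A) (ψ ((x : MulAut A)⁻¹ a))))
    (fun a b => by
      rw [← Finset.prod_mul_distrib]
      refine Finset.prod_congr rfl fun x _ => ?_
      rw [← map_mul, ← map_mul, map_mul ((x : MulAut A)⁻¹)]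
      exact hxmk x (hψadd _ _))
  have hθN : ∀ n ∈ N, θ n = mk (n ^ Nat.card X) := fun n hn => by
    rw [map_pow, Nat.card_eq_fintype_card, ← Finset.card_univ, ← Finset.prod_const]
    refine Finset.prod_congr rfl fun x _ => ?_
    have h1 : ((x : MulAut A)⁻¹) n ∈ N := hN _ (X.inv_mem x.2) n hn
    rw [hxmk x (hψN' _ h1), MulAut.apply_inv_self]
  have hθinv : ∀ (y : X) (a : A) (n : A), θ a = mk n → θ ((y : MulAut A) a) = mk ((y : MulAut A) n) := by
    intro y a n h
    let ybar : A ⧸ P →* A ⧸ P := QuotientGroup.map P P (y : MulAut A).toMonoidHom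
      (fun u hu => hP y y.2 u hu)
    have h2 : ybar (θ a) = mk ((y : MulAut A) n) := by rw [h]; rfl
    rw [← h2]
    show (∏ x : X, mk ((x : MulAut A) (ψ ((x : MulAut A)⁻¹ ((y : MulAut A) a))))) =
      ybar (∏ x : X, mk ((x : MulAut A) (ψ ((x : MulAut A)⁻¹ a))))
    rw [map_prod]
    refine (Fintype.prod_equiv (Equiv.mulLeft y) _ _ fun x => ?_).symm
    have e : (((y * x : X) : MulAut A)⁻¹) ((y : MulAut A) a) = ((x : MulAut A)⁻¹) a := by
      simp [mul_inv_rev, MulAut.mul_apply]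
    simp only [Equiv.coe_mulLeft]
    rw [e]
    rfl
  refine ⟨θ.ker, fun x hx a ha => ?_, ?_, ?_⟩
  · rw [MonoidHom.mem_ker] at ha ⊢
    rw [hθinv ⟨x, hx⟩ a 1 (by rw [ha, map_one]), map_one, map_one]
  · apply le_antisymm
    · rintro n ⟨hn1, hn2⟩
      have hn1' : mk (n ^ Nat.card X) = 1 := (hθN n hn2).symm.trans hn1
      have hnP : n ^ Nat.card X ∈ P := (QuotientGroup.eq_one_iff _).mp hn1'
      exact (powCoprime (G := P) (hX.symm.coprime_dvd_left (Subgroup.card_subgroup_dvd_card P))).surjective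
        ⟨_, hnP⟩ |>.elim fun m hm => by
          have hm' : (m : A) ^ Nat.card X = n ^ Nat.card X := congrArg Subtype.val hm
          have := (powCoprime (G := A) hX.symm).injective hm'
          exact this ▸ m.2
    · intro n hn
      have hnN : n ∈ N := hMN.symm.le hn |>.2
      refine ⟨?_, hnN⟩
      show θ n = 1
      rw [hθN n hnN]
      exact (QuotientGroup.eq_one_iff _).mpr (P.pow_mem hn _)
  · rw [eq_top_iff]
    intro a _
    have hrange : ∃ n ∈ N, θ a = mk n := by
      refine ⟨∏ x : X, (x : MulAut A) (ψ ((x : MulAut A)⁻¹ a)),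
        Subgroup.prod_mem _ fun x _ => hN x x.2 _ (hψN _), ?_⟩
      rw [map_prod]; rfl
    obtain ⟨n, hn, hne⟩ := hrange
    obtain ⟨⟨m, hm⟩, hme⟩ := (powCoprime (G := N)
      (hX.symm.coprime_dvd_left (Subgroup.card_subgroup_dvd_card N))).surjective ⟨n, hn⟩
    have hm' : m ^ Nat.card X = n := congrArg Subtype.val hme
    have hk : a * m⁻¹ ∈ θ.ker := by
      rw [MonoidHom.mem_ker, map_mul, hne, hθN _ (N.inv_mem hm), ← map_mul, inv_pow, hm',
        mul_inv_cancel, map_one]
    simpa using Subgroup.mul_mem_sup hk hm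

/-- The `p^i`-torsion of a subgroup is inside any invariant subgroup of large exponent when the
elements of order `p` form an irreducible subgroup. -/
theorem omega_le [Finite A] {p : ℕ} [hp : Fact p.Prime] (X : Subgroup (MulAut A))
    (hirr : ∀ U : Subgroup A, Inv X U → (∀ u ∈ U, u ^ p = 1) → U ≠ ⊥ → ∀ a : A, a ^ p = 1 → a ∈ U)
    {B : Subgroup A} (hB : Inv X B) {e : ℕ} (hle : ∀ b ∈ B, b ^ p ^ (e + 1) = 1)
    (hne : ∃ b ∈ B, b ^ p ^ e ≠ 1) : ∀ j ≤ e + 1, ∀ a : A, a ^ p ^ j = 1 → a ∈ B := by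
  have hU : ∀ a : A, a ^ p = 1 → ∃ b ∈ B, b ^ p ^ e = a := by
    intro a ha
    have h := hirr (B.map (powMonoidHom (p ^ e))) ?_ ?_ ?_ a ha
    · obtain ⟨b, hb, rfl⟩ := h; exact ⟨b, hb, rfl⟩
    · rintro x hx _ ⟨b, hb, rfl⟩
      exact ⟨x b, hB x hx b hb, by simp⟩
    · rintro _ ⟨b, hb, rfl⟩
      simp only [powMonoidHom_apply]
      rw [← pow_mul, ← pow_succ]
      exact hle b hb
    · obtain ⟨b, hb, hb'⟩ := hne
      intro h0
      have : b ^ p ^ e ∈ B.map (powMonoidHom (p ^ e)) := ⟨b, hb, rfl⟩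
      rw [h0, Subgroup.mem_bot] at this
      exact hb' this
  intro j
  induction j with
  | zero => intro _ a ha; rw [pow_zero, pow_one] at ha; exact ha ▸ B.one_mem
  | succ j ih =>
    intro hj a ha
    obtain ⟨b, hb, hba⟩ := hU (a ^ p ^ j) (by rw [← pow_mul, ← pow_succ]; exact ha)
    have h1 : (a * (b ^ p ^ (e - j))⁻¹) ^ p ^ j = 1 := by
      rw [mul_pow, inv_pow, ← pow_mul, ← pow_add, Nat.sub_add_cancel (by omega), hba, mul_inv_cancel]
    have h2 := B.mul_mem (ih (by omega) _ h1) (B.pow_mem hb (p ^ (e - j)))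
    simpa using h2

theorem exists_exponent [Finite A] {p : ℕ} [hp : Fact p.Prime] (hA : IsPGroup p A)
    {B : Subgroup A} (hB : B ≠ ⊥) :
    ∃ e : ℕ, (∀ b ∈ B, b ^ p ^ (e + 1) = 1) ∧ ∃ b ∈ B, b ^ p ^ e ≠ 1 := by
  classical
  have hex : ∃ e : ℕ, ∀ b ∈ B, b ^ p ^ e = 1 := by
    obtain ⟨n, hn⟩ := IsPGroup.iff_card.mp hA
    exact ⟨n, fun b _ => hn ▸ pow_card_eq_one'⟩
  have h0 : Nat.find hex ≠ 0 := fun h => hB (by
    rw [eq_bot_iff]
    intro b hb
    have h1 := Nat.find_spec hex b hb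
    rw [h, pow_zero, pow_one] at h1
    exact h1)
  obtain ⟨e, he⟩ := Nat.exists_eq_succ_of_ne_zero h0
  have h2 := Nat.find_min hex (show e < Nat.find hex by omega)
  push Not at h2
  exact ⟨e, (show Nat.find hex = e + 1 from he) ▸ Nat.find_spec hex, h2⟩

/-- A maximal subgroup meeting `N` in `P` supplements `N`, when `p`-th roots can be corrected. -/
theorem exists_complement_over [Finite A] {p : ℕ} [hp : Fact p.Prime] (hA : IsPGroup p A)
    {P N : Subgroup A} (hPN : P ≤ N)
    (hroot : ∀ C : Subgroup A, C ⊓ N = P → ∀ a : A, a ^ p ∈ C ⊔ N → ∃ n ∈ N, (a * n) ^ p ∈ C) :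
    ∃ M : Subgroup A, M ⊓ N = P ∧ M ⊔ N = ⊤ := by
  obtain ⟨C, hC, hmax⟩ := (Set.toFinite {C : Subgroup A | C ⊓ N = P}).exists_maximal
    ⟨P, inf_eq_left.mpr hPN⟩
  refine ⟨C, hC, ?_⟩
  by_contra hne
  obtain ⟨a, haW, hap⟩ : ∃ a, a ∉ C ⊔ N ∧ a ^ p ∈ C ⊔ N := by
    obtain ⟨a, ha⟩ : ∃ a, a ∉ C ⊔ N := by
      by_contra hcon
      push Not at hcon
      exact hne (eq_top_iff.mpr fun x _ => hcon x)
    classical
    obtain ⟨k, hk⟩ := hA a
    have hex : ∃ j, a ^ p ^ j ∈ C ⊔ N := ⟨k, hk ▸ Subgroup.one_mem _⟩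
    have h0 : Nat.find hex ≠ 0 := fun h => ha (by simpa [h] using Nat.find_spec hex)
    obtain ⟨j, hj⟩ := Nat.exists_eq_succ_of_ne_zero h0
    refine ⟨a ^ p ^ j, Nat.find_min hex (by omega), ?_⟩
    rw [← pow_mul, ← pow_succ]
    exact (show Nat.find hex = j + 1 from hj) ▸ Nat.find_spec hex
  obtain ⟨n, hn, hnc⟩ := hroot C hC a hap
  set a' := a * n with ha'
  have ha'W : a' ∉ C ⊔ N := fun h => haW (by
    simpa [ha'] using Subgroup.mul_mem _ h (Subgroup.mem_sup_right (N.inv_mem hn)))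
  have ha'C : a' ∉ C := fun h => ha'W (Subgroup.mem_sup_left h)
  refine ha'C (hmax (y := C ⊔ Subgroup.zpowers a') ?_ le_sup_left
    (Subgroup.mem_sup_right (Subgroup.mem_zpowers a')))
  refine le_antisymm ?_ (hC ▸ inf_le_inf le_sup_left le_rfl)
  rintro x ⟨hx, hxN⟩
  obtain ⟨c, hc, w, ⟨k, rfl⟩, rfl⟩ := Subgroup.mem_sup.mp hx
  have hk : a' ^ k ∈ C ⊔ N := by
    simpa using Subgroup.mul_mem _ (Subgroup.mem_sup_left (C.inv_mem hc) : c⁻¹ ∈ C ⊔ N)
      (Subgroup.mem_sup_right hxN)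
  by_cases hpk : (p : ℤ) ∣ k
  · obtain ⟨l, rfl⟩ := hpk
    rw [← hC]
    refine ⟨C.mul_mem hc ?_, hxN⟩
    show a' ^ ((p : ℤ) * l) ∈ C
    rw [zpow_mul, zpow_natCast]
    exact C.zpow_mem hnc l
  · exfalso
    apply ha'W
    obtain ⟨u, v, huv⟩ := ((Nat.prime_iff_prime_int.mp hp.out).coprime_iff_not_dvd.mpr hpk)
    have : a' = (a' ^ p) ^ u * (a' ^ k) ^ v := by
      rw [← zpow_natCast, ← zpow_mul, ← zpow_mul, ← zpow_add, mul_comm (p : ℤ), mul_comm k,
        huv, zpow_one]
    rw [this]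
    exact Subgroup.mul_mem _ (Subgroup.zpow_mem _ (Subgroup.mem_sup_left hnc) u)
      (Subgroup.zpow_mem _ hk v)

theorem irreducible_of_indecomposable [Finite A] {p : ℕ} [hp : Fact p.Prime] (hA : IsPGroup p A)
    (X : Subgroup (MulAut A)) (hX : (Nat.card X).Coprime (Nat.card A)) :
    ∀ B₀ : Subgroup A, Inv X B₀ →
      (∀ C D : Subgroup A, Inv X C → Inv X D → C ⊓ D = ⊥ → C ⊔ D = B₀ → C = ⊥ ∨ D = ⊥) →
      ∀ U : Subgroup A, Inv X U → U ≤ B₀ → (∀ u ∈ U, u ^ p = 1) → U ≠ ⊥ →
        ∀ a ∈ B₀, a ^ p = 1 → a ∈ U := by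
  intro B₀
  induction hn : Nat.card B₀ using Nat.strong_induction_on generalizing B₀ with
  | _ n ih =>
    intro hB₀ hind U hU hUB hUp hUne
    have hB₀ne : B₀ ≠ ⊥ := fun h => hUne (le_bot_iff.mp (h ▸ hUB))
    obtain ⟨e, he, hne⟩ := exists_exponent hA hB₀ne
    obtain ⟨B, ⟨hB, hBB, b, hb, hb'⟩, hBmin⟩ := (Set.toFinite {B : Subgroup A | Inv X B ∧ B ≤ B₀ ∧
      ∃ b ∈ B, b ^ p ^ e ≠ 1}).exists_minimal ⟨B₀, hB₀, le_rfl, hne⟩
    have hBne : B ≠ ⊥ := fun h => hb' (by
      rw [h, Subgroup.mem_bot] at hb; simp [hb])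
    have hBind : ∀ C D : Subgroup A, Inv X C → Inv X D → C ⊓ D = ⊥ → C ⊔ D = B → C = ⊥ ∨ D = ⊥ := by
      intro C D hC hD hCD hsup
      by_contra hcon
      push Not at hcon
      obtain ⟨c, hc, d, hd, rfl⟩ := Subgroup.mem_sup.mp (hsup.symm ▸ hb : b ∈ C ⊔ D)
      have key : ∀ C D : Subgroup A, Inv X C → C ⊓ D = ⊥ → C ⊔ D = B → D ≠ ⊥ →
          ∀ c ∈ C, c ^ p ^ e = 1 := by
        intro C D hC hCD hsup hD c hc
        by_contra hce
        have hle : B ≤ C := hBmin ⟨hC, (hsup ▸ le_sup_left).trans hBB, c, hc, hce⟩ (hsup ▸ le_sup_left)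
        exact hD (le_bot_iff.mp (hCD ▸ le_inf ((hsup ▸ le_sup_right : D ≤ B).trans hle) le_rfl))
      exact hb' (by rw [mul_pow, key C D hC hCD hsup hcon.2 c hc,
        key D C hD (by rw [inf_comm, hCD]) (by rw [sup_comm, hsup]) hcon.1 d hd, one_mul])
    by_cases hlt : B = B₀
    swap
    · -- `B` is homocyclic of the top exponent, hence a direct summand
      exfalso
      have hBirr := ih _ (hn ▸ lt_of_not_ge fun h => hlt (Subgroup.eq_of_le_of_card_ge hBB h)) B rfl hB hBind
      let B₀p : Subgroup A := B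
      have hroot' : ∀ c ∈ B, c ^ p ^ e = 1 → ∃ d ∈ B, d ^ p = c := by
        intro c hc hce
        have hmem : ∀ j ≤ e, ∀ a ∈ B, a ^ p ^ j = 1 → a ∈ B.map (powMonoidHom p) := by
          intro j
          induction j with
          | zero => intro _ a _ ha; rw [pow_zero, pow_one] at ha; exact ha ▸ Subgroup.one_mem _
          | succ j ihj =>
            intro hj a haB ha
            have hU1 : a ^ p ^ j ∈ B.map (powMonoidHom (p ^ e)) := by
              refine hBirr _ ?_ ?_ ?_ ?_ _ (B.pow_mem haB _) (by rw [← pow_mul, ← pow_succ]; exact ha)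
              · rintro x hx _ ⟨y, hy, rfl⟩
                exact ⟨x y, hB x hx y hy, by simp⟩
              · rintro _ ⟨y, hy, rfl⟩
                exact B.pow_mem hy _
              · rintro _ ⟨y, hy, rfl⟩
                simp only [powMonoidHom_apply]
                rw [← pow_mul, ← pow_succ]
                exact he y (hBB hy)
              · intro h0
                have : b ^ p ^ e ∈ B.map (powMonoidHom (p ^ e)) := ⟨b, hb, rfl⟩
                rw [h0, Subgroup.mem_bot] at this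
                exact hb' this
            obtain ⟨y, hy, hye⟩ := hU1
            simp only [powMonoidHom_apply] at hye
            have h1 : (a * (y ^ p ^ (e - j))⁻¹) ^ p ^ j = 1 := by
              rw [mul_pow, inv_pow, ← pow_mul, ← pow_add, Nat.sub_add_cancel (by omega), hye, mul_inv_cancel]
            have h2 := ihj (by omega) _ (B.mul_mem haB (B.inv_mem (B.pow_mem hy _))) h1
            have h3 : y ^ p ^ (e - j) ∈ B.map (powMonoidHom p) := by
              refine ⟨y ^ p ^ (e - j - 1), B.pow_mem hy _, ?_⟩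
              simp only [powMonoidHom_apply]
              rw [← pow_mul, ← pow_succ, Nat.sub_add_cancel (by omega)]
            simpa using Subgroup.mul_mem _ h2 h3
        obtain ⟨d, hd, hde⟩ := hmem e le_rfl c hc hce
        exact ⟨d, hd, hde⟩
      -- work inside `B₀`
      obtain ⟨C, ⟨hCle, hCB⟩, hCmax⟩ := (Set.toFinite {C : Subgroup A | C ≤ B₀ ∧ C ⊓ B = ⊥}).exists_maximal
        ⟨⊥, bot_le, bot_inf_eq _⟩
      have hCsup : C ⊔ B = B₀ := by
        refine le_antisymm (sup_le hCle hBB) fun a₀ ha₀ => ?_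
        by_contra hanot
        classical
        obtain ⟨k, hk⟩ := hA a₀
        have hex : ∃ j, a₀ ^ p ^ j ∈ C ⊔ B := ⟨k, hk ▸ Subgroup.one_mem _⟩
        have h0 : Nat.find hex ≠ 0 := fun h => hanot (by simpa [h] using Nat.find_spec hex)
        obtain ⟨j, hj⟩ := Nat.exists_eq_succ_of_ne_zero h0
        set a := a₀ ^ p ^ j with hadef
        have haW : a ∉ C ⊔ B := Nat.find_min hex (by omega)
        have haB₀ : a ∈ B₀ := B₀.pow_mem ha₀ _
        obtain ⟨c, hc, y, hy, hcy⟩ := Subgroup.mem_sup.mp (show a ^ p ∈ C ⊔ B by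
          rw [hadef, ← pow_mul, ← pow_succ]; exact (show Nat.find hex = j + 1 from hj) ▸ Nat.find_spec hex)
        have hye : y ^ p ^ e = 1 := by
          have h1 : c ^ p ^ e * y ^ p ^ e = 1 := by
            rw [← mul_pow, hcy, ← pow_mul, ← pow_succ']; exact he a haB₀
          have h2 : y ^ p ^ e ∈ C ⊓ B := ⟨by
            rw [eq_inv_of_mul_eq_one_right h1]; exact C.inv_mem (C.pow_mem hc _), B.pow_mem hy _⟩
          rw [hCB, Subgroup.mem_bot] at h2; exact h2
        obtain ⟨d, hd, hdy⟩ := hroot' y hy hye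
        set a' := a * d⁻¹ with ha'
        have ha'p : a' ^ p ∈ C := by
          rw [ha', mul_pow, inv_pow, hdy, ← hcy, mul_inv_cancel_right]; exact hc
        have ha'W : a' ∉ C ⊔ B := fun h => haW (by
          simpa [ha'] using Subgroup.mul_mem _ h (Subgroup.mem_sup_right hd))
        refine ha'W (Subgroup.mem_sup_left (hCmax (y := C ⊔ Subgroup.zpowers a')
          ⟨sup_le hCle (Subgroup.zpowers_le.mpr (B₀.mul_mem haB₀ (B₀.inv_mem (hBB hd)))), ?_⟩
          le_sup_left (Subgroup.mem_sup_right (Subgroup.mem_zpowers a'))))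
        rw [eq_bot_iff]
        rintro x ⟨hx, hxB⟩
        obtain ⟨c', hc', w, ⟨m, rfl⟩, rfl⟩ := Subgroup.mem_sup.mp hx
        have hm : a' ^ m ∈ C ⊔ B := by
          simpa using Subgroup.mul_mem _ (Subgroup.mem_sup_left (C.inv_mem hc') : c'⁻¹ ∈ C ⊔ B)
            (Subgroup.mem_sup_right hxB)
        by_cases hpm : (p : ℤ) ∣ m
        · obtain ⟨l, rfl⟩ := hpm
          rw [← hCB]
          refine ⟨C.mul_mem hc' ?_, hxB⟩
          show a' ^ ((p : ℤ) * l) ∈ C
          rw [zpow_mul, zpow_natCast]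
          exact C.zpow_mem ha'p l
        · exfalso
          apply ha'W
          obtain ⟨u, v, huv⟩ := ((Nat.prime_iff_prime_int.mp hp.out).coprime_iff_not_dvd.mpr hpm)
          have : a' = (a' ^ p) ^ u * (a' ^ m) ^ v := by
            rw [← zpow_natCast, ← zpow_mul, ← zpow_mul, ← zpow_add, mul_comm (p : ℤ), mul_comm m,
              huv, zpow_one]
          rw [this]
          exact Subgroup.mul_mem _ (Subgroup.zpow_mem _ (Subgroup.mem_sup_left ha'p) u)
            (Subgroup.zpow_mem _ hm v)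
      -- extend `C` to a complement of `B` in `A`, then average
      have hext : ∃ M : Subgroup A, Inv X M ∧ M ⊓ B = ⊥ ∧ M ⊔ B = B₀ := by
        classical
        haveI : Fintype X := Fintype.ofFinite X
        have hdec : ∀ a : A, ∃ n : A, a ∈ B₀ → n ∈ B ∧ a * n⁻¹ ∈ C := fun a => by
          by_cases ha : a ∈ B₀
          · obtain ⟨m, hm, n, hn, rfl⟩ := Subgroup.mem_sup.mp (hCsup.symm ▸ ha : a ∈ C ⊔ B)
            exact ⟨n, fun _ => ⟨hn, by simpa⟩⟩
          · exact ⟨1, fun h => absurd h ha⟩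
        choose ψ hψ using hdec
        have huniq : ∀ a ∈ B₀, ∀ n ∈ B, a * n⁻¹ ∈ C → ψ a = n := by
          intro a ha n hn hnC
          have h1 : (ψ a)⁻¹ * n ∈ C ⊓ B := ⟨by
            have := C.mul_mem (hψ a ha).2 (C.inv_mem hnC)
            rwa [← cancel_aux'] at this,
            B.mul_mem (B.inv_mem (hψ a ha).1) hn⟩
          rw [hCB, Subgroup.mem_bot, inv_mul_eq_one] at h1
          exact h1
        let θ : B₀ →* A := MonoidHom.mk' (fun a => ∏ x : X, (x : MulAut A) (ψ ((x : MulAut A)⁻¹ a)))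
          (fun a a' => by
            rw [← Finset.prod_mul_distrib]
            refine Finset.prod_congr rfl fun x _ => ?_
            have h1 := hB₀ _ (X.inv_mem x.2) _ a.2
            have h2 := hB₀ _ (X.inv_mem x.2) _ a'.2
            rw [← map_mul, Subgroup.coe_mul, map_mul ((x : MulAut A)⁻¹)]
            congr 1
            refine huniq _ (B₀.mul_mem h1 h2) _ (B.mul_mem (hψ _ h1).1 (hψ _ h2).1) ?_
            have := C.mul_mem (hψ _ h1).2 (hψ _ h2).2
            rwa [mul_mul_mul_comm, ← mul_inv] at this)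
        have hθB : ∀ y : B₀, (y : A) ∈ B → θ y = (y : A) ^ Nat.card X := fun y hy => by
          rw [Nat.card_eq_fintype_card, ← Finset.card_univ, ← Finset.prod_const]
          refine Finset.prod_congr rfl fun x _ => ?_
          have h1 := hB _ (X.inv_mem x.2) _ hy
          rw [huniq _ (hBB h1) _ h1 (by rw [mul_inv_cancel]; exact C.one_mem), MulAut.apply_inv_self]
        have hθmem : ∀ y, θ y ∈ B := fun y =>
          Subgroup.prod_mem _ fun x _ => hB x x.2 _ (hψ _ (hB₀ _ (X.inv_mem x.2) _ y.2)).1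
        refine ⟨θ.ker.map B₀.subtype, ?_, ?_, ?_⟩
        · rintro x hx _ ⟨a, ha, rfl⟩
          refine ⟨⟨x a, hB₀ x hx _ a.2⟩, ?_, rfl⟩
          show θ _ = 1
          have ha' : θ a = 1 := ha
          have : θ ⟨x a, hB₀ x hx _ a.2⟩ = x (θ a) := by
            show (∏ z : X, (z : MulAut A) (ψ ((z : MulAut A)⁻¹ (x (a : A))))) =
              x (∏ z : X, (z : MulAut A) (ψ ((z : MulAut A)⁻¹ (a : A))))
            rw [map_prod]
            refine (Fintype.prod_equiv (Equiv.mulLeft (⟨x, hx⟩ : X)) _ _ fun z => ?_).symm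
            have e : (((⟨x, hx⟩ * z : X) : MulAut A)⁻¹) (x (a : A)) = ((z : MulAut A)⁻¹) (a : A) := by
              simp [mul_inv_rev, MulAut.mul_apply]
            simp only [Equiv.coe_mulLeft]
            rw [e]
            rfl
          rw [this, ha', map_one]
        · rw [eq_bot_iff]
          rintro _ ⟨⟨a, ha, rfl⟩, haB⟩
          have h1 : (a : A) ^ Nat.card X = 1 := (hθB a haB).symm.trans ha
          exact Subgroup.mem_bot.mpr ((powCoprime (G := A) hX.symm).injective (h1.trans (one_pow _).symm))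
        · refine le_antisymm (sup_le (Subgroup.map_subtype_le _) hBB) fun a ha => ?_
          obtain ⟨⟨m, hm⟩, hme⟩ := (powCoprime (G := B)
            (hX.symm.coprime_dvd_left (Subgroup.card_subgroup_dvd_card B))).surjective
              ⟨θ ⟨a, ha⟩, hθmem _⟩
          have hm' : m ^ Nat.card X = θ ⟨a, ha⟩ := congrArg Subtype.val hme
          have hk : (⟨a, ha⟩ * ⟨m, hBB hm⟩⁻¹ : B₀) ∈ θ.ker := by
            rw [MonoidHom.mem_ker, map_mul, map_inv, hθB ⟨m, hBB hm⟩ hm]
            show θ ⟨a, ha⟩ * (m ^ Nat.card X)⁻¹ = 1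
            rw [hm', mul_inv_cancel]
          have := Subgroup.mul_mem_sup (Subgroup.mem_map_of_mem B₀.subtype hk) hm
          simpa using this
      obtain ⟨M, hM, hMB, hMsup⟩ := hext
      rcases hind M B hM hB hMB hMsup with h | h
      · exact hlt (by rw [← hMsup, h, bot_sup_eq])
      · exact hBne h
    subst hlt
    -- every proper invariant subgroup is killed by `p ^ e`
    have hsmall : ∀ M : Subgroup A, Inv X M → M ≤ B → M ≠ B → ∀ m ∈ M, m ^ p ^ e = 1 := by
      intro M hM hMB hMne m hm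
      by_contra hme
      exact hMne (le_antisymm hMB (hBmin ⟨hM, hMB, m, hm, hme⟩ hMB))
    let π : B →* A := (powMonoidHom (p ^ e)).comp B.subtype
    set N : Subgroup B := π.ker with hN
    set P : Subgroup B := (powMonoidHom p : B →* B).range with hP
    let res : X →* MulAut B :=
      { toFun := fun x =>
          { toFun := fun c => ⟨(x : MulAut A) c, hB x x.2 c c.2⟩
            invFun := fun c => ⟨(x : MulAut A)⁻¹ c, hB _ (X.inv_mem x.2) c c.2⟩
            left_inv := fun c => Subtype.ext (by simp)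
            right_inv := fun c => Subtype.ext (by simp)
            map_mul' := fun c d => Subtype.ext (by simp) }
        map_one' := rfl
        map_mul' := fun x y => rfl }
    have hXB : (Nat.card res.range).Coprime (Nat.card B) :=
      (hX.coprime_dvd_left (Subgroup.card_range_dvd res)).coprime_dvd_right
        (Subgroup.card_subgroup_dvd_card B)
    have hNinv : Inv res.range N := by
      rintro _ ⟨x, rfl⟩ c hc
      have hc' : (c : A) ^ p ^ e = 1 := hc
      show ((x : MulAut A) (c : A)) ^ p ^ e = 1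
      rw [← map_pow, hc', map_one]
    have hPinv : Inv res.range P := by
      rintro _ ⟨x, rfl⟩ _ ⟨c, rfl⟩
      exact ⟨res x c, by simp⟩
    have hPN : P ≤ N := by
      rintro _ ⟨c, rfl⟩
      show ((c : A) ^ p) ^ p ^ e = 1
      rw [← pow_mul, ← pow_succ']
      exact he c c.2
    obtain ⟨M₀, hM₀, hM₀s⟩ := exists_complement_over (hA.to_subgroup B) hPN (fun C hC c _ =>
      ⟨1, N.one_mem, (hC.symm.le (show (c * 1) ^ p ∈ P from ⟨c * 1, rfl⟩)).1⟩)
    obtain ⟨M, hM, hMN, hMs⟩ := exists_inv_complement res.range hXB hPinv hNinv hM₀ hM₀s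
    have hNtop : N ≠ ⊤ := fun h => by
      have : (⟨b, hb⟩ : B) ∈ N := h ▸ Subgroup.mem_top _
      exact hb' this
    have hNP : N = P := by
      have hMtop : M = ⊤ := by
        by_contra hMne
        refine hNtop (top_le_iff.mp (hMs ▸ sup_le ?_ le_rfl))
        intro c hc
        refine hsmall (M.map B.subtype) ?_ (Subgroup.map_subtype_le _) ?_ c ⟨c, hc, rfl⟩
        · rintro x hx _ ⟨d, hd, rfl⟩
          exact ⟨_, hM _ ⟨⟨x, hx⟩, rfl⟩ d hd, rfl⟩
        · intro hMe
          apply hMne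
          apply Subgroup.map_injective B.subtype_injective
          rw [hMe, ← MonoidHom.range_eq_map, Subgroup.range_subtype]
      rw [hMtop, top_inf_eq] at hMN
      exact hMN
    -- the `p ^ e`-th powers are all the elements of order `p`
    let τ : B →* B := powMonoidHom p
    have hDeq : ∀ a ∈ B, a ^ p = 1 → a ∈ π.range := by
      have hcard : Nat.card π.range = Nat.card τ.ker := by
        have h1 := π.ker.card_mul_index
        have h2 := τ.ker.card_mul_index
        rw [Subgroup.index_ker] at h1 h2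
        rw [show Nat.card π.ker = Nat.card τ.range by rw [← hN, hNP]] at h1
        rw [← h1, mul_comm] at h2
        exact (Nat.eq_of_mul_eq_mul_left Nat.card_pos h2).symm
      have hle : π.range ≤ τ.ker.map B.subtype := by
        rintro _ ⟨c, rfl⟩
        refine ⟨⟨_, B.pow_mem c.2 (p ^ e)⟩, Subtype.ext ?_, rfl⟩
        show ((c : A) ^ p ^ e) ^ p = 1
        rw [← pow_mul, ← pow_succ]
        exact he c c.2
      intro a ha hap
      rw [Subgroup.eq_of_le_of_card_ge hle
        (by rw [Subgroup.card_map_of_injective B.subtype_injective, hcard])]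
      exact ⟨⟨a, ha⟩, Subtype.ext hap, rfl⟩
    intro a ha hap
    -- the preimage of `U` is an invariant subgroup containing `N`
    set M' : Subgroup A := (U.comap π).map B.subtype with hM'
    by_cases hM'e : M' = B
    · obtain ⟨c, hc⟩ := hDeq a ha hap
      have : (c : A) ∈ M' := hM'e.symm ▸ c.2
      obtain ⟨d, hd, hdc⟩ := this
      rw [← hc, ← (Subtype.ext hdc : d = c)]
      exact hd
    · exfalso
      apply hUne
      rw [eq_bot_iff]
      intro u hu
      obtain ⟨c, hc⟩ := hDeq u (hUB hu) (hUp u hu)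
      have h1 := hsmall M' (by
        rintro x hx _ ⟨d, hd, rfl⟩
        refine ⟨⟨x d, hB x hx d d.2⟩, ?_, rfl⟩
        show (x (d : A)) ^ p ^ e ∈ U
        rw [← map_pow]
        exact hU x hx _ hd) (Subgroup.map_subtype_le _) hM'e c ⟨c, (show π c ∈ U from hc ▸ hu), rfl⟩
      rw [Subgroup.mem_bot, ← hc]
      exact h1

end Cfsg.Agent.Transfer.AbMaschke
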