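import Cfsg.Agent.Transfer.ZJFusion

/-! The Glauberman–Thompson normal p-complement theorem and the Thompson factorization. -/

set_option autoImplicit false
set_option linter.style.haveILetI false
set_option linter.unusedSectionVars false

namespace Cfsg.Agent.Transfer.ZJ

open Cfsg
open Cfsg.Agent.Core.ThompsonComplement (npc_map npc_of_map_le exists_mul_normalizes eq_one_of_mem
  isPGroup_of_hasNPC)
open scoped commutatorElement

universe u

theorem glauberman_thompson_aux {p : ℕ} [hp : Fact p.Prime] (hp2 : p ≠ 2) :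
    ∀ (n : ℕ) {G : Type u} [Group G] [Finite G], Nat.card G ≤ n → ∀ P : Sylow p G,
      HasNormalPComplement p (Subgroup.normalizer (centerThompsonOf p (P : Subgroup G) : Set G)) →
      HasNormalPComplement p G := by
  intro n
  induction n with
  | zero => intro G _ _ h; exact absurd h (by simp [Nat.card_pos.ne'])
  | succ n ih =>
  intro G _ _ hcard P hN
  by_contra hno
  have sub : ∀ H : Subgroup G, H ≠ ⊤ → ∀ T : Subgroup G, T ≤ H → IsPGroup p T →
      (∀ U : Subgroup G, IsPGroup p U → U ≤ H → Nat.card U ≤ Nat.card T) →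
      HasNormalPComplement p (H ⊓ Subgroup.normalizer (centerThompsonOf p T : Set G) : Subgroup G) →
      HasNormalPComplement p H := by
    intro H hH T hTH hT hmax h1
    obtain ⟨S, hS⟩ := (hT.comap_subtype (K := H)).exists_le_sylow
    have hST : (S : Subgroup H).map H.subtype = T := by
      refine (Subgroup.eq_of_le_of_card_ge ?_ (hmax _ (S.2.map _) (Subgroup.map_subtype_le _))).symm
      intro t ht
      exact ⟨⟨t, hTH ht⟩, hS ht, rfl⟩
    have hlt : Nat.card H < Nat.card G :=
      lt_of_le_of_ne (Subgroup.card_le_card_group H) fun e => hH (Subgroup.eq_top_of_card_eq H e)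
    refine ih (by omega) S (npc_of_map_le H.subtype H.subtype_injective ?_ h1)
    refine le_inf (Subgroup.map_subtype_le _) ?_
    refine (Subgroup.le_normalizer_map H.subtype).trans_eq ?_
    rw [ctMap _ H.subtype_injective.injOn, hST]
  have maxSylow : ∀ (P' : Sylow p G) (U : Subgroup G), IsPGroup p U →
      Nat.card U ≤ Nat.card (P' : Subgroup G) := by
    intro P' U hU
    obtain ⟨Q, hQ⟩ := hU.exists_le_sylow
    exact (Subgroup.card_le_of_le hQ).trans (Nat.card_congr (Sylow.equiv Q P').toEquiv).le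
  have hall : ∀ P' : Sylow p G,
      HasNormalPComplement p (Subgroup.normalizer (centerThompsonOf p (P' : Subgroup G) : Set G)) := by
    intro P'
    obtain ⟨g, hg⟩ := MulAction.exists_smul_eq G P' P
    have hmap : (P' : Subgroup G).map (MulAut.conj g).toMonoidHom = (P : Subgroup G) := by
      rw [← hg, Sylow.coe_subgroup_smul]; rfl
    refine npc_of_map_le (MulAut.conj g).toMonoidHom (MulAut.conj g).injective ?_ hN
    refine (Subgroup.le_normalizer_map _).trans_eq ?_
    rw [ctMap _ (MulAut.conj g).injective.injOn, hmap]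
  obtain ⟨R₀, hR₀n, hR₀p, hR₀⟩ : ∃ R : Subgroup G, R.Normal ∧ IsPGroup p R ∧ R ≠ ⊥ := by
    by_contra hnone
    push Not at hnone
    obtain ⟨Q₀, hQ₀, hQ₀ne, hQ₀bad⟩ : ∃ Q : Subgroup G, IsPGroup p Q ∧ Q ≠ ⊥ ∧
        ¬ HasNormalPComplement p (Subgroup.normalizer (Q : Set G)) := by
      by_contra hcon
      push Not at hcon
      exact hno (Transfer.hasNormalPComplement_of_local hcon)
    obtain ⟨⟨Q, T⟩, ⟨hQ, hQne, hbad, hT, hTN⟩, hmax⟩ :=
      (Set.toFinite {QT : Subgroup G × Subgroup G | IsPGroup p QT.1 ∧ QT.1 ≠ ⊥ ∧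
        ¬ HasNormalPComplement p (Subgroup.normalizer (QT.1 : Set G)) ∧
        IsPGroup p QT.2 ∧ QT.2 ≤ Subgroup.normalizer (QT.1 : Set G)}).exists_maximalFor
      (fun QT => Nat.card QT.2) _ ⟨(Q₀, ⊥), hQ₀, hQ₀ne, hQ₀bad, IsPGroup.of_bot, bot_le⟩
    have hmax' : ∀ Q' T' : Subgroup G, IsPGroup p Q' → Q' ≠ ⊥ →
        ¬ HasNormalPComplement p (Subgroup.normalizer (Q' : Set G)) → IsPGroup p T' →
        T' ≤ Subgroup.normalizer (Q' : Set G) → Nat.card T' ≤ Nat.card T := by
      intro Q' T' h1 h2 h3 h4 h5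
      rcases le_total (Nat.card T') (Nat.card T) with h | h
      · exact h
      · exact hmax (show (Q', T') ∈ _ from ⟨h1, h2, h3, h4, h5⟩) h
    set H := Subgroup.normalizer (Q : Set G) with hH
    have hHT : H ≠ ⊤ := fun e => hQne (hnone Q (Subgroup.normalizer_eq_top_iff.mp e) hQ)
    have hTmax : ∀ U : Subgroup G, IsPGroup p U → U ≤ H → Nat.card U ≤ Nat.card T :=
      fun U hU hUH => hmax' Q U hQ hQne hbad hU hUH
    have hQT : Q ≤ T := by
      have h1 : IsPGroup p (Q ⊔ T : Subgroup G) := hQ.to_sup_of_normal_left' hT hTN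
      have h2 : (Q ⊔ T : Subgroup G) ≤ H := sup_le Subgroup.le_normalizer hTN
      rw [Subgroup.eq_of_le_of_card_ge (le_sup_right : T ≤ Q ⊔ T) (hTmax _ h1 h2)]
      exact le_sup_left
    obtain ⟨P', hP'⟩ := hT.exists_le_sylow
    refine hbad (sub H hHT T hTN hT hTmax ?_)
    rcases eq_or_lt_of_le hP' with e | hlt
    · simp only at e
      rw [e]; exact Transfer.hasNormalPComplement_of_le inf_le_right (hall P')
    · have hlt' := Transfer.lt_inf_normalizer P'.2 hlt
      refine Transfer.hasNormalPComplement_of_le inf_le_right ?_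
      by_contra hb
      have hTne : T ≠ ⊥ := fun e => hQne (le_bot_iff.mp (e ▸ hQT))
      have h1 := hmax' _ ((P' : Subgroup G) ⊓ Subgroup.normalizer (T : Set G))
        (hT.to_le (ct_le p T)) (ct_ne_bot hT hTne) hb
        (P'.2.to_le inf_le_left) (inf_le_right.trans (normalizer_le_ct p T))
      exact hlt'.ne (Subgroup.eq_of_le_of_card_ge hlt'.le h1)
  have hpprime : ∀ K : Subgroup G, K.Normal → (Nat.card K).Coprime p → K = ⊥ := by
    intro K hKn hK
    haveI := hKn
    by_contra hKne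
    set f := QuotientGroup.mk' K with hf
    have hfs : Function.Surjective f := QuotientGroup.mk'_surjective K
    have hlt : Nat.card (G ⧸ K) < Nat.card G := by
      rw [Subgroup.card_eq_card_quotient_mul_card_subgroup K]
      exact lt_mul_of_one_lt_right Nat.card_pos ((Subgroup.one_lt_card_iff_ne_bot K).mpr hKne)
    refine hno (Transfer.hasNormalPComplement_of_quotient hK (ih (by omega) (P.mapSurjective hfs) ?_))
    refine npc_map f ?_ hN
    rw [Sylow.coe_mapSurjective, ← ctMap f (injOn_of_coprime hK P.2)]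
    intro y hy
    obtain ⟨g, rfl⟩ := hfs y
    obtain ⟨k, hk, hkn⟩ := exists_mul_normalizes (P.2.to_le (ct_le p _)) hK
      (T := centerThompsonOf p (P : Subgroup G)) (g := g) (K := K) (by
        intro t ht
        have h1 := (Subgroup.mem_normalizer_iff.mp hy (f t)).mp (Subgroup.mem_map_of_mem f ht)
        rw [← map_inv, ← map_mul, ← map_mul] at h1
        have h2 : g * t * g⁻¹ ∈ ((centerThompsonOf p (P : Subgroup G)).map f).comap f := h1
        rwa [Subgroup.comap_map_eq, QuotientGroup.ker_mk'] at h2)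
    refine ⟨k * g, hkn, ?_⟩
    rw [map_mul, show f k = 1 from (QuotientGroup.eq_one_iff k).mpr hk, one_mul]
  set R := pCore p G with hR
  have hRP : R ≤ (P : Subgroup G) := Core.pCore_le_sylow P
  have hRne : R ≠ ⊥ := fun e => hR₀ (le_bot_iff.mp (e ▸ Core.le_pCore hR₀n hR₀p))
  have hPR : ¬ (P : Subgroup G) ≤ R := by
    intro h
    have hPn : (P : Subgroup G).Normal := by
      rw [le_antisymm h hRP]; infer_instance
    have htop : Subgroup.normalizer (centerThompsonOf p (P : Subgroup G) : Set G) = ⊤ :=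
      top_le_iff.mp ((Subgroup.normalizer_eq_top_iff.mpr hPn).ge.trans (normalizer_le_ct p _))
    rw [htop] at hN
    exact hno (Transfer.hasNormalPComplement_equiv Subgroup.topEquiv hN)
  set f := QuotientGroup.mk' R with hf
  have hfs : Function.Surjective f := QuotientGroup.mk'_surjective R
  have hfR : ∀ {g : G}, f g = 1 ↔ g ∈ R := fun {g} => QuotientGroup.eq_one_iff g
  have hcore : pCore p (G ⧸ R) = ⊥ := Core.pCore_quotient_pCore p G
  set P₁ : Sylow p (G ⧸ R) := P.mapSurjective hfs with hP₁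
  have hP₁c : (P₁ : Subgroup (G ⧸ R)) = (P : Subgroup G).map f := Sylow.coe_mapSurjective _ _
  have hP₁ne : (P₁ : Subgroup (G ⧸ R)) ≠ ⊥ := by
    rw [hP₁c, ne_eq, Subgroup.map_eq_bot_iff, QuotientGroup.ker_mk']
    exact hPR
  have hltR : Nat.card (G ⧸ R) < Nat.card G := by
    rw [Subgroup.card_eq_card_quotient_mul_card_subgroup R]
    exact lt_mul_of_one_lt_right Nat.card_pos ((Subgroup.one_lt_card_iff_ne_bot R).mpr hRne)
  have subP : ∀ H : Subgroup G, H ≠ ⊤ → (P : Subgroup G) ≤ H → HasNormalPComplement p H :=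
    fun H hH hPH => sub H hH P hPH P.2 (fun U hU _ => maxSylow P U hU)
      (Transfer.hasNormalPComplement_of_le inf_le_right hN)
  have quotNPC : ∀ L : Subgroup (G ⧸ R), L ≠ ⊤ → (P₁ : Subgroup (G ⧸ R)) ≤ L →
      HasNormalPComplement p L := by
    intro L hL hPL
    refine npc_map f (Subgroup.map_comap_eq_self_of_surjective hfs L).ge (subP _ ?_ ?_)
    · intro e
      exact hL (by rw [← Subgroup.map_comap_eq_self_of_surjective hfs L, e,
        Subgroup.map_top_of_surjective _ hfs])
    · exact Subgroup.map_le_iff_le_comap.mp (hP₁c ▸ hPL)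
  have hQ : HasNormalPComplement p (G ⧸ R) := by
    refine ih (by omega) P₁ (quotNPC _ ?_ ?_)
    · intro e
      have := Core.le_pCore (Subgroup.normalizer_eq_top_iff.mp e) (P₁.2.to_le (ct_le p _))
      rw [hcore, le_bot_iff] at this
      exact ct_ne_bot P₁.2 hP₁ne this
    · exact Subgroup.le_normalizer.trans (normalizer_le_ct p _)
  set N := pResidual p (G ⧸ R) with hNdef
  haveI : N.Normal := Transfer.pResidual_normal
  have hNc : (Nat.card N).Coprime p := Transfer.hasNormalPComplement_iff_coprime_pResidual.mp hQ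
  have hNP : (P₁ : Subgroup (G ⧸ R)) ⊓ N = ⊥ := (Transfer.inf_pResidual_eq_bot_iff P₁).mpr hQ
  have hsup : (P₁ : Subgroup (G ⧸ R)) ⊔ N = ⊤ := Transfer.sylow_sup_pResidual P₁
  have inR : ∀ U : Subgroup G, IsPGroup p U → U ≤ N.comap f → U ≤ R := by
    intro U hU hle u hu
    rw [← hfR]
    exact eq_one_of_mem (hU.map f) (Subgroup.mem_map_of_mem f hu)
      (hNc.coprime_dvd_left (Subgroup.orderOf_dvd_natCard N (hle hu)))
  haveI hCRn : (Subgroup.centralizer (R : Set G)).Normal := inferInstance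
  have hCK : N.comap f ⊓ Subgroup.centralizer (R : Set G) ≤ R := by
    set C := N.comap f ⊓ Subgroup.centralizer (R : Set G) with hC
    haveI hCn : C.Normal := Subgroup.normal_inf_normal _ _
    have hnpc : HasNormalPComplement p C := by
      obtain ⟨S⟩ : Nonempty (Sylow p C) := inferInstance
      refine Transfer.hasNormalPComplement_of_frobenius S fun Q hQS _ g _ _ => ?_
      rw [Subgroup.mem_centralizer_iff]
      intro q hq
      have hqR : (q : G) ∈ R := inR _ (S.2.map C.subtype)
        ((Subgroup.map_subtype_le _).trans inf_le_left) ⟨q, hQS hq, rfl⟩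
      exact Subtype.ext (Subgroup.mem_centralizer_iff.mp g.2.2 (q : G) hqR)
    haveI : (pResidual p C).Characteristic := inferInstance
    have hL : (pResidual p C).map C.subtype = ⊥ := by
      refine hpprime _ (Core.normal_map_subtype_of_characteristic _) ?_
      rw [Subgroup.card_map_of_injective C.subtype_injective]
      exact Transfer.hasNormalPComplement_iff_coprime_pResidual.mp hnpc
    rw [Subgroup.map_eq_bot_iff_of_injective _ C.subtype_injective] at hL
    exact inR C (isPGroup_of_hasNPC hnpc hL) inf_le_left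
  have hCR : Subgroup.centralizer (R : Set G) ≤ R := by
    have hX : ((Subgroup.centralizer (R : Set G)).map f).Normal := hCRn.map f hfs
    have hXp : IsPGroup p ((Subgroup.centralizer (R : Set G)).map f) := by
      refine Core.ThompsonComplement.isPGroup_of_forall_coprime fun c hc ho => ?_
      obtain ⟨x, hx, rfl⟩ := hc
      exact hfR.mpr (hCK ⟨Transfer.mem_pResidual_of_coprime ho, hx⟩)
    have := Core.le_pCore hX hXp
    rwa [hcore, le_bot_iff, Subgroup.map_eq_bot_iff, QuotientGroup.ker_mk'] at this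
  have hmaxP : ∀ H : Subgroup G, H ≠ ⊤ → (P : Subgroup G) ≤ H → H = (P : Subgroup G) := by
    intro H hH hPH
    have hnpc := subP H hH hPH
    refine P.3 (isPGroup_of_hasNPC hnpc ?_) hPH
    rw [eq_bot_iff]
    intro l hl
    rw [Subgroup.mem_bot]
    have hlc : (l : G) ∈ Subgroup.centralizer (R : Set G) := by
      rw [Subgroup.mem_centralizer_iff]
      intro r hr
      have h1 : ⁅(⟨r, hPH (hRP hr)⟩ : H), l⁆ ∈ pResidual p H :=
        (pResidual p H).mul_mem (Transfer.pResidual_normal.conj_mem l hl _) ((pResidual p H).inv_mem hl)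
      have h2 : ((⁅(⟨r, hPH (hRP hr)⟩ : H), l⁆ : H) : G) ∈ R := by
        show r * (l : G) * r⁻¹ * (l : G)⁻¹ ∈ R
        rw [show r * (l : G) * r⁻¹ * (l : G)⁻¹ = r * ((l : G) * r⁻¹ * (l : G)⁻¹) by group]
        exact R.mul_mem hr ((inferInstance : R.Normal).conj_mem _ (R.inv_mem hr) _)
      have h3 := eq_one_of_mem (Core.isPGroup_pCore p G) h2 (by
        rw [Subgroup.orderOf_coe]; exact (Transfer.mem_pResidual_iff hnpc).mp h1)
      have h4 : r * (l : G) * r⁻¹ * (l : G)⁻¹ = 1 := h3
      exact mul_inv_eq_iff_eq_mul.mp (mul_inv_eq_one.mp h4)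
    refine Subtype.ext ?_
    exact eq_one_of_mem (Core.isPGroup_pCore p G) (hCR hlc) (by
      rw [Subgroup.orderOf_coe]; exact (Transfer.mem_pResidual_iff hnpc).mp hl)
  have hmaxP₁ : ∀ L : Subgroup (G ⧸ R), L ≠ ⊤ → (P₁ : Subgroup (G ⧸ R)) ≤ L →
      L ≤ (P₁ : Subgroup (G ⧸ R)) := by
    intro L hL hPL
    have h1 := hmaxP (L.comap f) (fun e => hL (by
        rw [← Subgroup.map_comap_eq_self_of_surjective hfs L, e, Subgroup.map_top_of_surjective _ hfs]))
      (Subgroup.map_le_iff_le_comap.mp (hP₁c ▸ hPL))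
    rw [← Subgroup.map_comap_eq_self_of_surjective hfs L, h1, hP₁c]
  have hNne : N ≠ ⊥ := by
    intro e
    rw [e, sup_bot_eq] at hsup
    have hn : (P₁ : Subgroup (G ⧸ R)).Normal := by rw [hsup]; infer_instance
    have := Core.le_pCore hn P₁.2
    rw [hcore, le_bot_iff] at this
    exact hP₁ne this
  have inv_trivial : ∀ S : Subgroup (G ⧸ R), S ≤ N →
      (P₁ : Subgroup (G ⧸ R)) ≤ Subgroup.normalizer (S : Set (G ⧸ R)) → S = ⊥ ∨ S = N := by
    intro S hS hnorm
    by_cases htop : (P₁ : Subgroup (G ⧸ R)) ⊔ S = ⊤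
    · right
      refine le_antisymm hS fun x hx => ?_
      obtain ⟨s, hs, t, ht, rfl⟩ := Coprime.exists_mul_of_mem_sup hnorm
        (sup_comm (P₁ : Subgroup (G ⧸ R)) S ▸ htop.symm ▸ Subgroup.mem_top x)
      have ht1 : t ∈ (P₁ : Subgroup (G ⧸ R)) ⊓ N :=
        ⟨ht, by simpa using N.mul_mem (N.inv_mem (hS hs)) hx⟩
      rw [hNP, Subgroup.mem_bot] at ht1
      simpa [ht1] using hs
    · left
      have := hmaxP₁ _ htop le_sup_left
      rw [← le_bot_iff, ← hNP]
      exact le_inf (le_sup_right.trans this) hS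
  have hcopPN : (Nat.card (P₁ : Subgroup (G ⧸ R))).Coprime (Nat.card N) := by
    obtain ⟨k, hk⟩ := IsPGroup.iff_card.mp P₁.2
    rw [hk]; exact hNc.symm.pow_left k
  obtain ⟨q, hq, hqN⟩ := Nat.exists_prime_and_dvd ((Subgroup.one_lt_card_iff_ne_bot N).mpr hNne).ne'
  haveI : Fact q.Prime := ⟨hq⟩
  haveI := Coprime.isSolvable_of_isPGroup P₁.2
  obtain ⟨S, hSN, hSq, hSi, hSP⟩ := Coprime.exists_invariant_sylow
    (le_top.trans_eq (Subgroup.normalizer_eq_top N).symm) hcopPN q
  have hSeq : S = N := (inv_trivial S hSN hSP).resolve_left (by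
    rintro rfl
    rw [Subgroup.relIndex_bot_left] at hSi
    exact hSi hqN)
  haveI hNnil : Group.IsNilpotent N := by
    rw [← hSeq]; exact hSq.isNilpotent
  have hNab : ⁅N, N⁆ = ⊥ := by
    refine (inv_trivial ⁅N, N⁆ (Subgroup.commutator_le_right N N)
      (le_top.trans_eq (Subgroup.normalizer_eq_top _).symm)).resolve_right ?_
    intro e
    exact hNne (Transfer.eq_bot_of_le_commutator le_rfl e.ge)
  -- abelian Sylow 2-subgroups, so `Z(J(P))` is normal
  haveI := Fact.mk Nat.prime_two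
  have hT2 : ∀ T : Sylow 2 G, IsMulCommutative T := by
    intro T
    have hcop : ∀ x ∈ (T : Subgroup G), (orderOf x).Coprime p := fun x hx => by
      obtain ⟨k, hk⟩ := IsPGroup.iff_card.mp T.2
      refine Nat.Coprime.coprime_dvd_left (hk ▸ Subgroup.orderOf_dvd_natCard (T : Subgroup G) hx) ?_
      exact ((Nat.coprime_primes Nat.prime_two hp.out).mpr (Ne.symm hp2)).pow_left k
    refine ⟨⟨fun x y => Subtype.ext ?_⟩⟩
    show (x : G) * (y : G) = (y : G) * (x : G)
    have hmemN : ∀ z : T, f (z : G) ∈ N := fun z =>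
      Transfer.mem_pResidual_of_coprime ((hcop _ z.2).coprime_dvd_left (orderOf_map_dvd f (z : G)))
    have h1 : ⁅(x : G), (y : G)⁆ ∈ R := by
      rw [← hfR, map_commutatorElement]
      simpa [hNab] using Subgroup.commutator_mem_commutator (hmemN x) (hmemN y)
    have h2 : ⁅(x : G), (y : G)⁆ ∈ (T : Subgroup G) := by
      rw [commutatorElement_def]
      exact Subgroup.mul_mem _ (Subgroup.mul_mem _ (Subgroup.mul_mem _ x.2 y.2) (Subgroup.inv_mem _ x.2))
        (Subgroup.inv_mem _ y.2)
    exact commutatorElement_eq_one_iff_mul_comm.mp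
      (eq_one_of_mem (Core.isPGroup_pCore p G) h1 (hcop _ h2))
  have hn := center_thompson_normal hp2 _ rfl (Dickson.no_section_of_abelian_sylow_two hp2 hT2) hCR P
  rw [Subgroup.normalizer_eq_top_iff.mpr hn] at hN
  exact hno (Transfer.hasNormalPComplement_equiv Subgroup.topEquiv hN)

/-- **The Glauberman–Thompson theorem.** -/
theorem glauberman_thompson {G : Type*} [Group G] [Finite G] {p : ℕ} [Fact p.Prime] (hp2 : p ≠ 2)
    (P : Sylow p G)
    (hN : HasNormalPComplement p (Subgroup.normalizer (centerThompsonOf p (P : Subgroup G) : Set G))) :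
    HasNormalPComplement p G :=
  glauberman_thompson_aux hp2 _ le_rfl P hN

end Cfsg.Agent.Transfer.ZJ

namespace Cfsg.Agent.Transfer.ZJ

open Cfsg Cfsg.Agent.OddLocal
open scoped commutatorElement

/-- **The Thompson factorization**: `G = C(Ω₁ Z(P)) N(J(P))`. -/
theorem thompson_factorization {G : Type*} [Group G] [Finite G] {p : ℕ} [hp : Fact p.Prime] (hp2 : p ≠ 2)
    (hns : ¬ Dickson.HasSL2Section p (⊤ : Subgroup G))
    (hCO : Subgroup.centralizer (pCore p G : Set G) ≤ pCore p G) (P : Sylow p G) :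
    Subgroup.normalizer (thompsonSubgroupOf p (P : Subgroup G) : Set G) ⊔
      Subgroup.centralizer (Subgroup.normalClosure
        {x : G | x ∈ (P : Subgroup G) ∧ (∀ y ∈ (P : Subgroup G), x * y = y * x) ∧ x ^ p = 1} : Set G) = ⊤ := by
  classical
  set O := pCore p G with hO
  have hOP : O ≤ (P : Subgroup G) := Core.pCore_le_sylow P
  set Z1 := {x : G | x ∈ (P : Subgroup G) ∧ (∀ y ∈ (P : Subgroup G), x * y = y * x) ∧ x ^ p = 1}
  set V := Subgroup.normalClosure Z1 with hV
  set C := Subgroup.centralizer (V : Set G) with hC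
  haveI hCn : C.Normal := inferInstance
  haveI : (O ⊓ Subgroup.centralizer (O : Set G)).Normal := Subgroup.normal_inf_normal _ _
  have hcomm : ∀ x ∈ O ⊓ Subgroup.centralizer (O : Set G), ∀ y ∈ O ⊓ Subgroup.centralizer (O : Set G),
      Commute x y := fun x hx y hy => Subgroup.mem_centralizer_iff.mp hy.2 x hx.1
  let W : Subgroup G :=
    { carrier := {x | x ∈ O ⊓ Subgroup.centralizer (O : Set G) ∧ x ^ p = 1}
      one_mem' := ⟨Subgroup.one_mem _, one_pow _⟩
      mul_mem' := fun {x y} hx hy => ⟨Subgroup.mul_mem _ hx.1 hy.1, by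
        rw [(hcomm x hx.1 y hy.1).mul_pow, hx.2, hy.2, one_mul]⟩
      inv_mem' := fun {x} hx => ⟨Subgroup.inv_mem _ hx.1, by rw [inv_pow, hx.2, inv_one]⟩ }
  haveI : W.Normal := ⟨fun x hx g => ⟨(inferInstance : (O ⊓ Subgroup.centralizer (O : Set G)).Normal).conj_mem
    x hx.1 g, by rw [conj_pow, hx.2]; group⟩⟩
  have hVW : V ≤ W := Subgroup.normalClosure_le_normal fun z hz => by
    have h1 : z ∈ Subgroup.centralizer (O : Set G) :=
      Subgroup.mem_centralizer_iff.mpr fun y hy => (hz.2.1 y (hOP hy)).symm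
    exact ⟨⟨hCO h1, h1⟩, hz.2.2⟩
  have hVc : ∀ x ∈ V, ∀ y ∈ V, Commute x y := fun x hx y hy => hcomm x (hVW hx).1 y (hVW hy).1
  have hVP : V ≤ (P : Subgroup G) := fun x hx => hOP (hVW hx).1.1
  -- `O_p(G / C) = 1`
  set f := QuotientGroup.mk' C with hf
  set L := (pCore p (G ⧸ C)).comap f with hL
  haveI : L.Normal := Subgroup.Normal.comap inferInstance f
  have hLC : L ≤ C := by
    set S1 := (P : Subgroup G) ⊓ L with hS1
    have hfr := Sylow.normalizer_sup_eq_top (Transfer.sylowOfNormal P L)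
    rw [Transfer.coe_sylowOfNormal, Subgroup.subgroupOf_map_subtype, ← hS1] at hfr
    have hLle : L ≤ C ⊔ S1 := by
      intro t ht
      obtain ⟨s, hs, hst⟩ := (Sylow.coe_mapSurjective (QuotientGroup.mk'_surjective C) P).le
        (Core.pCore_le_sylow (P.mapSurjective (QuotientGroup.mk'_surjective C)) ht)
      have hsL : s ∈ L := by rw [hL, Subgroup.mem_comap, hst]; exact ht
      have h1 : t * s⁻¹ ∈ C := (QuotientGroup.eq_one_iff _).mp (by
        show f (t * s⁻¹) = 1
        rw [map_mul, map_inv, hst, mul_inv_cancel])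
      have h2 := Subgroup.mul_mem_sup h1 (show s ∈ S1 from ⟨hs, hsL⟩)
      rwa [inv_mul_cancel_right] at h2
    have htop : C ⊔ Subgroup.normalizer (S1 : Set G) = ⊤ :=
      top_le_iff.mp (hfr ▸ sup_le le_sup_right
        (hLle.trans (sup_le le_sup_left (Subgroup.le_normalizer.trans le_sup_right))))
    have hVS : V ≤ Subgroup.centralizer (S1 : Set G) := by
      rw [hV, Subgroup.normalClosure, Subgroup.closure_le]
      intro w hw
      obtain ⟨z, hz, hzw⟩ := Group.mem_conjugatesOfSet_iff.mp hw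
      obtain ⟨g, rfl⟩ := isConj_iff.mp hzw
      obtain ⟨c, hc, m, hm, rfl⟩ := Subgroup.mem_sup_of_normal_left.mp (htop ▸ Subgroup.mem_top g)
      have hmz : m * z * m⁻¹ ∈ V :=
        Subgroup.normalClosure_normal.conj_mem z (Subgroup.subset_normalClosure hz) m
      have h1 : c * m * z * (c * m)⁻¹ = m * z * m⁻¹ := by
        rw [show c * m * z * (c * m)⁻¹ = c * (m * z * m⁻¹) * c⁻¹ by group,
          ← Subgroup.mem_centralizer_iff.mp hc _ hmz, mul_inv_cancel_right]
      rw [h1]
      refine Subgroup.mem_centralizer_iff.mpr fun s hs => ?_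
      have hs' : m⁻¹ * s * m ∈ S1 := (Subgroup.mem_normalizer_iff''.mp hm s).mp hs
      calc s * (m * z * m⁻¹) = m * ((m⁻¹ * s * m) * z) * m⁻¹ := by group
        _ = m * (z * (m⁻¹ * s * m)) * m⁻¹ := by rw [← hz.2.1 _ hs'.1]
        _ = m * z * m⁻¹ * s := by group
    exact hLle.trans (sup_le le_rfl (Subgroup.le_centralizer_iff.mp hVS))
  -- every `A` lies in `C`
  have hall : ∀ A : Subgroup G, OddLocal.ZJ.MaxIn p (P : Subgroup G) A → A ≤ C := by
    by_contra hcon
    push Not at hcon
    obtain ⟨A₀, hA₀, hA₀C⟩ := hcon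
    obtain ⟨A, ⟨hA, hAC⟩, hAmax⟩ :=
      (Set.toFinite {A : Subgroup G | OddLocal.ZJ.MaxIn p (P : Subgroup G) A ∧ ¬ A ≤ C}).exists_maximalFor
        (fun A => Nat.card (A ⊓ V : Subgroup G)) _ ⟨A₀, hA₀, hA₀C⟩
    have hVA : V ≤ Subgroup.normalizer (A : Set G) := by
      by_contra hnot
      obtain ⟨A', hA', hlt, hnc⟩ := OddLocal.ZJ.replacement hp2 P.2 hVP (fun v hv => (hVW hv).2)
        (fun x hx y hy g => by rw [(hVc x hx y hy).eq]; simp) hA hnot
      have hA'C : ¬ A' ≤ C := fun h => hnc fun y hy x hx =>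
        (Subgroup.mem_centralizer_iff.mp (h hx) y hy).symm
      have h1 : Nat.card (A ⊓ V : Subgroup G) < Nat.card (A' ⊓ V : Subgroup G) :=
        lt_of_le_of_ne (Subgroup.card_le_of_le hlt.le) fun e =>
          hlt.ne (Subgroup.eq_of_le_of_card_ge hlt.le e.ge)
      exact absurd (hAmax (show A' ∈ _ from ⟨hA', hA'C⟩) h1.le) (not_le.mpr h1)
    refine hAC fun a ha => hLC (Dickson.isPStableOn_of_no_section hp2 hns V
      (P.2.to_le hVP) a (le_bot_iff.mp ?_))
    have h1 : ⁅V, A⁆ ≤ A := by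
      rw [Subgroup.commutator_le]
      intro v hv b hb
      exact A.mul_mem ((Subgroup.mem_normalizer_iff.mp (hVA hv) b).mp hb) (A.inv_mem hb)
    haveI := hA.ea.1
    calc ⁅⁅V, Subgroup.zpowers a⁆, Subgroup.zpowers a⁆ ≤ ⁅⁅V, A⁆, A⁆ := Subgroup.commutator_mono
          (Subgroup.commutator_mono le_rfl (Subgroup.zpowers_le.mpr ha)) (Subgroup.zpowers_le.mpr ha)
      _ ≤ ⁅A, A⁆ := Subgroup.commutator_mono h1 le_rfl
      _ = ⊥ := Subgroup.commutator_eq_bot_iff_le_centralizer.mpr
          (Subgroup.le_centralizer_iff_isMulCommutative.mpr inferInstance)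
  have hJ : thompsonSubgroupOf p (P : Subgroup G) = thompsonSubgroupOf p ((P : Subgroup G) ⊓ C) :=
    OddLocal.thompsonSubgroupOf_eq_of inf_le_left fun A hA hAP hmax =>
      le_inf hAP (hall A ⟨hA, hAP, hmax⟩)
  have hfr := Sylow.normalizer_sup_eq_top (Transfer.sylowOfNormal P C)
  rw [Transfer.coe_sylowOfNormal, Subgroup.subgroupOf_map_subtype] at hfr
  refine top_le_iff.mp (hfr ▸ sup_le_sup_right ?_ C)
  rw [hJ]
  exact OddLocal.normalizer_le_normalizer_thompson p _

end Cfsg.Agent.Transfer.ZJ
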