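/-
Transfer library: averaging onto the centre for an abelian normal subgroup of coprime index,
and fusion in abelian Sylow subgroups.
-/
import Mathlib.GroupTheory.Focal
import Cfsg.Agent.Transfer.CentralTransfer
import Cfsg.Agent.Transfer.Complement

namespace Cfsg.Agent.Transfer

open Cfsg
open scoped commutatorElement

variable {G : Type*} [Group G] [Finite G]

/-- An averaging endomorphism of an abelian normal subgroup `A`: it lands in `Z(G)`, is the
`|G:A|`-th power map on `A ⊓ Z(G)`, and is congruent to that map modulo `[A, G]`. -/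
theorem exists_average (A : Subgroup G) [hAn : A.Normal] (hA : IsMulCommutative A) :
    ∃ μ : A →* A, (∀ a, (μ a : G) ∈ Subgroup.center G) ∧
      (∀ a : A, (a : G) ∈ Subgroup.center G → μ a = a ^ A.index) ∧
      (∀ a : A, ((a ^ A.index)⁻¹ * μ a : G) ∈ ⁅A, (⊤ : Subgroup G)⁆) ∧
      (∀ (g : G) (a : A), μ ⟨g * a * g⁻¹, hAn.conj_mem a a.2 g⟩ = μ a) := by
  classical
  letI : CommGroup A := { (inferInstance : Group A) with mul_comm := fun a b => mul_comm' a b }
  haveI : Fintype (G ⧸ A) := Fintype.ofFinite _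
  let c : G → A →* A := fun g =>
    { toFun := fun a => ⟨g * a * g⁻¹, hAn.conj_mem a a.2 g⟩
      map_one' := by apply Subtype.ext; simp
      map_mul' := fun a b => by apply Subtype.ext; simp [mul_assoc] }
  have hc : ∀ g h : G, (g⁻¹ * h) ∈ A → c g = c h := by
    intro g h hgh
    ext a
    show g * a * g⁻¹ = h * a * h⁻¹
    have he : (⟨g⁻¹ * h, hgh⟩ : A) * a = a * ⟨g⁻¹ * h, hgh⟩ := mul_comm _ _
    have he' : g⁻¹ * h * a = a * (g⁻¹ * h) := congrArg Subtype.val he
    calc g * a * g⁻¹ = g * (a * (g⁻¹ * h)) * h⁻¹ := by group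
      _ = h * a * h⁻¹ := by rw [← he']; group
  have hcm : ∀ g h : G, ∀ a, c g (c h a) = c (g * h) a := fun g h a => by
    apply Subtype.ext
    show g * (h * a * h⁻¹) * g⁻¹ = g * h * a * (g * h)⁻¹
    group
  let μ : A →* A := ∏ q : G ⧸ A, c q.out
  have hinv : ∀ (g : G) (a : A), c g (μ a) = μ a := by
    intro g a
    simp only [μ, MonoidHom.finsetProd_apply, map_prod, hcm]
    refine Fintype.prod_equiv (MulAction.toPerm g) _ _ fun q => ?_
    congr 1
    apply hc
    rw [← QuotientGroup.eq, QuotientGroup.out_eq']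
    show ((g * q.out : G) : G ⧸ A) = g • q
    conv_rhs => rw [← QuotientGroup.out_eq' q]
    rfl
  refine ⟨μ, fun a => ?_, fun a ha => ?_, fun a => ?_, fun g a => ?_⟩
  · rw [Subgroup.mem_center_iff]
    intro g
    have h : g * (μ a : G) * g⁻¹ = μ a := congrArg Subtype.val (hinv g a)
    exact mul_inv_eq_iff_eq_mul.mp h
  · simp only [μ, MonoidHom.finsetProd_apply]
    rw [Finset.prod_congr rfl (g := fun _ => a) fun q _ => ?_, Finset.prod_const, Finset.card_univ,
      Subgroup.index_eq_card, Nat.card_eq_fintype_card]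
    apply Subtype.ext
    show q.out * (a : G) * q.out⁻¹ = a
    rw [Subgroup.mem_center_iff.mp ha, mul_inv_cancel_right]
  · let K := ⁅A, (⊤ : Subgroup G)⁆.subgroupOf A
    have hq : QuotientGroup.mk' K (μ a) = QuotientGroup.mk' K (a ^ A.index) := by
      simp only [μ, MonoidHom.finsetProd_apply, map_prod, map_pow]
      rw [Finset.prod_congr rfl (g := fun _ => QuotientGroup.mk' K a) fun q _ => ?_, Finset.prod_const,
        Finset.card_univ, Subgroup.index_eq_card, Nat.card_eq_fintype_card]
      rw [QuotientGroup.mk'_apply, QuotientGroup.mk'_apply, QuotientGroup.eq, Subgroup.mem_subgroupOf]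
      have : ⁅q.out, (a : G)⁻¹⁆ ∈ ⁅A, (⊤ : Subgroup G)⁆ := by
        rw [Subgroup.commutator_comm]
        exact Subgroup.commutator_mem_commutator (Subgroup.mem_top _) (inv_mem a.2)
      rw [commutatorElement_def, inv_inv] at this
      show (q.out * (a : G) * q.out⁻¹)⁻¹ * a ∈ _
      simpa [mul_assoc] using this
    rw [QuotientGroup.mk'_apply, QuotientGroup.mk'_apply, eq_comm, QuotientGroup.eq,
      Subgroup.mem_subgroupOf] at hq
    simpa using hq
  · show μ (c g a) = μ a
    simp only [μ, MonoidHom.finsetProd_apply, hcm]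
    refine Fintype.prod_equiv ((Equiv.mulRight (g : G ⧸ A))) _ _ fun q => ?_
    congr 1
    apply hc
    rw [← QuotientGroup.eq, QuotientGroup.out_eq', QuotientGroup.mk_mul, QuotientGroup.out_eq']
    rfl

/-- In an abelian Sylow subgroup fusion is controlled by its normalizer. -/
theorem exists_normalizer_conj_of_abelian {p : ℕ} [Fact p.Prime] (P : Sylow p G)
    (hP : IsMulCommutative P) {x g : G} (hx : x ∈ (P : Subgroup G))
    (hgx : g * x * g⁻¹ ∈ (P : Subgroup G)) :
    ∃ n ∈ Subgroup.normalizer (P : Set G), n * x * n⁻¹ = g * x * g⁻¹ := by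
  have hc : ∀ z ∈ (P : Subgroup G), z ∈ Subgroup.centralizer (P : Set G) := fun z hz => by
    rw [Subgroup.mem_centralizer_iff]
    intro y hy
    exact congrArg Subtype.val (mul_comm' (⟨y, hy⟩ : P) ⟨z, hz⟩)
  exact burnside_fusion_elem P (hc x hx) (hc _ hgx)

theorem focalSubgroup_eq_commutator_of_abelian {p : ℕ} [Fact p.Prime] (P : Sylow p G)
    (hP : IsMulCommutative P) :
    (P : Subgroup G).focalSubgroup = ⁅(P : Subgroup G), Subgroup.normalizer (P : Set G)⁆ := by
  apply le_antisymm
  · refine focalSubgroup_le_of_forall fun x hx g hgx => ?_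
    obtain ⟨n, hn, e⟩ := exists_normalizer_conj_of_abelian P hP hx hgx
    rw [← e, show x⁻¹ * (n * x * n⁻¹) = ⁅x⁻¹, n⁆ by rw [commutatorElement_def]; group]
    exact Subgroup.commutator_mem_commutator (inv_mem hx) hn
  · rw [Subgroup.commutator_le]
    intro x hx n hn
    have h1 : n * x⁻¹ * n⁻¹ ∈ (P : Subgroup G) :=
      (Subgroup.mem_normalizer_iff.mp hn _).mp (inv_mem hx)
    have := mul_mem_focalSubgroup (inv_mem hx) h1
    rwa [inv_inv, show x * (n * x⁻¹ * n⁻¹) = ⁅x, n⁆ by rw [commutatorElement_def]; group] at this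

end Cfsg.Agent.Transfer
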