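import Mathlib
import Cfsg.Prelude.Def_Transfer
import Cfsg.Agent.Coprime.PxQ
import Cfsg.Agent.FGS3.PGroupFrattini
import Cfsg.Agent.FGS3.ClassTwo

/-!
The Hall–Higman reduction for a minimal nontrivial action.
-/

set_option autoImplicit false

namespace Cfsg.Agent.Transfer.HHRed

open scoped commutatorElement

variable {X : Type*} [Group X] [Finite X]

/-- Stability for an arbitrary acting group: reduce to its cyclic subgroups. -/
theorem eq_bot_of_chain {N M A : Subgroup X} (hA : A ≤ Subgroup.normalizer (N : Set X))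
    (hcop : (Nat.card A).Coprime (Nat.card N)) (hNM : ⁅N, A⁆ ≤ M) (hM : ⁅M, A⁆ = ⊥) :
    ⁅N, A⁆ = ⊥ := by
  rw [eq_bot_iff, Subgroup.commutator_le]
  intro n hn a ha
  have hle : Subgroup.zpowers a ≤ A := Subgroup.zpowers_le.2 ha
  have h1 : ⁅N, Subgroup.zpowers a⁆ = ⊥ :=
    Coprime.commutator_eq_bot_of_chain (hle.trans hA)
      (Nat.Coprime.of_dvd_left (Subgroup.card_dvd_of_le hle) hcop)
      ((Subgroup.commutator_mono le_rfl hle).trans hNM)
      (le_bot_iff.1 ((Subgroup.commutator_mono le_rfl hle).trans hM.le))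
  exact h1.le (Subgroup.commutator_mem_commutator hn (Subgroup.mem_zpowers a))

theorem normalizer_map_char {P : Subgroup X} (K : Subgroup P) [K.Characteristic] :
    Subgroup.normalizer (P : Set X) ≤ Subgroup.normalizer ((K.map P.subtype : Subgroup X) : Set X) := by
  intro g hg
  rw [Subgroup.mem_normalizer_iff]
  have key : ∀ g ∈ Subgroup.normalizer (P : Set X), ∀ x ∈ K.map P.subtype, g * x * g⁻¹ ∈ K.map P.subtype := by
    rintro g hg x ⟨k, hk, rfl⟩
    let φ : P ≃* P :=
      { toFun := fun y => ⟨g * y * g⁻¹, (Subgroup.mem_normalizer_iff.1 hg y).1 y.2⟩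
        invFun := fun y => ⟨g⁻¹ * y * g, by
          have := (Subgroup.mem_normalizer_iff.1 (inv_mem hg) (y : X)).1 y.2
          rwa [inv_inv] at this⟩
        left_inv := fun y => Subtype.ext (by show g⁻¹ * (g * (y : X) * g⁻¹) * g = y; group)
        right_inv := fun y => Subtype.ext (by show g * (g⁻¹ * (y : X) * g) * g⁻¹ = y; group)
        map_mul' := fun y z => Subtype.ext (by
          show g * ((y : X) * z) * g⁻¹ = g * y * g⁻¹ * (g * z * g⁻¹); group) }
    refine ⟨φ k, ?_, rfl⟩
    have h := Subgroup.Characteristic.fixed (H := K) inferInstance φ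
    have : k ∈ K.comap φ.toMonoidHom := by rw [h]; exact hk
    exact this
  intro x
  refine ⟨key g hg x, fun h => ?_⟩
  have := key g⁻¹ (inv_mem hg) _ h
  rwa [inv_inv, show g⁻¹ * (g * x * g⁻¹) * g = x by group] at this

/-- In a group generated by commutators with `A`, a fixed element lies in every normal subgroup
with abelian quotient. -/
theorem mem_of_fixed {P A : Subgroup X} (hAP : A ≤ Subgroup.normalizer (P : Set X))
    (hcop : (Nat.card A).Coprime (Nat.card P)) (hfull : ⁅P, A⁆ = P) (K : Subgroup P) [K.Normal]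
    (hK : commutator P ≤ K) {u : P} (hu : ∀ a ∈ A, a * (u : X) = (u : X) * a) : u ∈ K := by
  classical
  haveI := Fintype.ofFinite A
  letI : CommGroup (P ⧸ K) :=
    { (inferInstance : Group (P ⧸ K)) with
      mul_comm := fun a b => by
        induction a using QuotientGroup.induction_on with
        | H a =>
          induction b using QuotientGroup.induction_on with
          | H b =>
            rw [← QuotientGroup.mk_mul, ← QuotientGroup.mk_mul, QuotientGroup.eq]
            have h1 : (a * b)⁻¹ * (b * a) = ⁅b⁻¹, a⁻¹⁆ := by rw [commutatorElement_def]; group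
            rw [h1]
            exact hK (Subgroup.commutator_mem_commutator (Subgroup.mem_top _) (Subgroup.mem_top _)) }
  let c : A → P →* P := fun a =>
    { toFun := fun y => ⟨(a : X) * y * (a : X)⁻¹, (Subgroup.mem_normalizer_iff.1 (hAP a.2) _).1 y.2⟩
      map_one' := by ext; simp
      map_mul' := fun y z => by ext; simp [mul_assoc] }
  let ν : P →* P ⧸ K := ∏ a : A, (QuotientGroup.mk' K).comp (c a)
  have hν : ∀ y : P, ν y = ∏ a : A, QuotientGroup.mk' K (c a y) := fun y =>
    MonoidHom.finsetProd_apply _ _ _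
  have hker : ∀ p : P, p ∈ ν.ker := by
    have hle : P ≤ ν.ker.map P.subtype := by
      intro z hz
      have hz' : z ∈ ⁅P, A⁆ := by rw [hfull]; exact hz
      revert z
      suffices ⁅P, A⁆ ≤ ν.ker.map P.subtype from fun z _ h => this h
      rw [Subgroup.commutator_le]
      intro v hv b hb
      have hb' : b * v⁻¹ * b⁻¹ ∈ P := (Subgroup.mem_normalizer_iff.1 (hAP hb) _).1 (P.inv_mem hv)
      refine ⟨⟨v, hv⟩ * ⟨b * v⁻¹ * b⁻¹, hb'⟩, ?_, by simp [commutatorElement_def, mul_assoc]⟩
      rw [SetLike.mem_coe, MonoidHom.mem_ker, map_mul]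
      have h1 : ν ⟨b * v⁻¹ * b⁻¹, hb'⟩ = ν ⟨v⁻¹, P.inv_mem hv⟩ := by
        rw [hν, hν]
        exact Fintype.prod_equiv (Equiv.mulRight (⟨b, hb⟩ : A)) _ _ fun a => by
          congr 1
          ext; simp [c, mul_assoc]
      rw [h1, ← map_mul, show (⟨v, hv⟩ : P) * ⟨v⁻¹, P.inv_mem hv⟩ = 1 from by ext; simp, map_one]
    intro p
    obtain ⟨q, hq, hqe⟩ := hle p.2
    rwa [← (Subtype.ext hqe : q = p)]
  have h2 : (QuotientGroup.mk' K u) ^ Nat.card A = 1 := by
    rw [← (hker u : ν u = 1), hν, Finset.prod_congr rfl (fun a _ => ?_), Finset.prod_const,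
      Finset.card_univ, Nat.card_eq_fintype_card]
    congr 1
    ext
    show (a : X) * (u : X) * (a : X)⁻¹ = u
    rw [hu a a.2, mul_inv_cancel_right]
  have h3 : QuotientGroup.mk' K u = 1 := by
    rw [← orderOf_eq_one_iff]
    exact Nat.eq_one_of_dvd_coprimes hcop (orderOf_dvd_of_pow_eq_one h2)
      ((orderOf_map_dvd _ _).trans (orderOf_dvd_natCard u))
  exact (QuotientGroup.eq_one_iff u).1 h3

variable {p : ℕ} [Fact p.Prime]

theorem reduction (B A P : Subgroup X) (hP : IsPGroup p P)
    (hBP : B ≤ Subgroup.normalizer (P : Set X)) (hAB : A ≤ B)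
    (hAn : B ≤ Subgroup.normalizer (A : Set X)) (hAp : (Nat.card A).Coprime p) (hnt : ⁅P, A⁆ ≠ ⊥)
    (hmin : ∀ U : Subgroup X, U < P → B ≤ Subgroup.normalizer (U : Set X) → ⁅U, A⁆ = ⊥) :
    ⁅P, A⁆ = P ∧ (Cfsg.IsElementaryAbelian p P ∨ Cfsg.IsSpecial p ↥P) ∧
      (∀ U : Subgroup X, (frattini ↥P).map P.subtype ≤ U → U ≤ P →
        B ≤ Subgroup.normalizer (U : Set X) → U = (frattini ↥P).map P.subtype ∨ U = P) ∧
      (p ≠ 2 → ∀ x ∈ P, x ^ p = 1) := by
  have hAP : A ≤ Subgroup.normalizer (P : Set X) := hAB.trans hBP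
  have hcop := Coprime.coprime_card_of_isPGroup hP hAp
  -- the commutator is everything
  have hfull : ⁅P, A⁆ = P := by
    refine le_antisymm (Coprime.commutator_le_of_le_normalizer hAP) ?_
    by_contra hne
    have hlt : ⁅P, A⁆ < P := lt_of_le_not_ge (Coprime.commutator_le_of_le_normalizer hAP) hne
    have hB : B ≤ Subgroup.normalizer ((⁅P, A⁆ : Subgroup X) : Set X) := by
      intro b hb
      refine Coprime.mem_normalizer_of_conj_mem fun y hy => ?_
      have : (⁅P, A⁆ : Subgroup X).map (MulAut.conj b).toMonoidHom ≤ ⁅P, A⁆ := by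
        rw [Subgroup.map_commutator]
        exact Subgroup.commutator_mono (Subgroup.mem_normalizer_iff_map_conj_eq.1 (hBP hb)).le
          (Subgroup.mem_normalizer_iff_map_conj_eq.1 (hAn hb)).le
      exact this ⟨y, hy, rfl⟩
    exact hnt (eq_bot_of_chain hAP hcop le_rfl (hmin _ hlt hB))
  have hPne : P ≠ ⊥ := fun h => hnt (by rw [h]; exact Subgroup.commutator_bot_left A)
  haveI : Nontrivial P := (Subgroup.nontrivial_iff_ne_bot P).2 hPne
  set Φ : Subgroup X := (frattini P).map P.subtype with hΦ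
  have hΦP : Φ ≤ P := Subgroup.map_subtype_le _
  have hΦlt : Φ < P := by
    refine lt_of_le_of_ne hΦP fun h => ?_
    have htop : frattini P = ⊤ := by
      apply Subgroup.map_injective P.subtype_injective
      rw [← hΦ, h, ← MonoidHom.range_eq_map, Subgroup.range_subtype]
    exact bot_ne_top (α := Subgroup P) (frattini_nongenerating (K := ⊥) (by rw [htop, bot_sup_eq]))
  have hΦA : ⁅Φ, A⁆ = ⊥ := hmin Φ hΦlt (hBP.trans (normalizer_map_char _))
  have hfixΦ : ∀ u : P, u ∈ frattini P → ∀ a ∈ A, a * (u : X) = (u : X) * a := fun u hu a ha =>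
    Subgroup.mem_centralizer_iff.1
      (Subgroup.commutator_eq_bot_iff_le_centralizer.1 hΦA ⟨u, hu, rfl⟩) a ha
  have hcommΦ : commutator P ≤ frattini P := FGS3.commutator_le_frattini hP
  -- the Frattini subgroup is central
  have hΦZ : frattini P ≤ Subgroup.center P := by
    have h1 : ⁅⁅P, Φ⁆, A⁆ = ⊥ := by
      refine le_bot_iff.1 ((Subgroup.commutator_mono ?_ le_rfl).trans hΦA.le)
      rw [Subgroup.commutator_le]
      rintro v hv _ ⟨f, hf, rfl⟩
      exact ⟨⁅(⟨v, hv⟩ : P), f⁆,
        hcommΦ (Subgroup.commutator_mem_commutator (Subgroup.mem_top _) (Subgroup.mem_top _)),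
        map_commutatorElement P.subtype _ _⟩
    have h2 : ⁅⁅Φ, A⁆, P⁆ = ⊥ := by rw [hΦA, Subgroup.commutator_bot_left]
    have h3 := Subgroup.commutator_commutator_eq_bot_of_rotate h1 h2
    rw [Subgroup.commutator_comm A P, hfull, Subgroup.commutator_eq_bot_iff_le_centralizer] at h3
    intro f hf
    rw [Subgroup.mem_center_iff]
    intro v
    exact Subtype.ext (Subgroup.mem_centralizer_iff.1 (h3 v.2) f ⟨f, hf, rfl⟩).symm
  haveI : (frattini P).Normal := inferInstance
  refine ⟨hfull, ?_, ?_, ?_⟩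
  · by_cases hab : Subgroup.center P = ⊤
    · left
      haveI hcomm : IsMulCommutative P :=
        ⟨⟨fun a b => (Subgroup.mem_center_iff.1 (hab ▸ Subgroup.mem_top b : b ∈ Subgroup.center P) a)⟩⟩
      have hcb : commutator P ≤ ⊥ := by
        show ⁅(⊤ : Subgroup P), ⊤⁆ ≤ ⊥
        rw [le_bot_iff, Subgroup.commutator_eq_bot_iff_le_centralizer]
        intro a _
        rw [Subgroup.mem_centralizer_iff]
        exact fun b _ => Std.Commutative.comm b a
      refine ⟨hcomm, fun x hx => ?_⟩
      have : (⟨x, hx⟩ : P) ^ p ∈ (⊥ : Subgroup P) :=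
        mem_of_fixed hAP hcop hfull ⊥ hcb (hfixΦ _ (FGS3.pow_mem_frattini hP _))
      simpa [Subtype.ext_iff] using this
    · right
      set Zc : Subgroup X := (Subgroup.center P).map P.subtype with hZc
      have hZlt : Zc < P := by
        refine lt_of_le_of_ne (Subgroup.map_subtype_le _) fun h => hab ?_
        apply Subgroup.map_injective P.subtype_injective
        rw [← hZc, h, ← MonoidHom.range_eq_map, Subgroup.range_subtype]
      have hZA : ⁅Zc, A⁆ = ⊥ := hmin Zc hZlt (hBP.trans (normalizer_map_char _))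
      have hfixZ : ∀ u : P, u ∈ Subgroup.center P → ∀ a ∈ A, a * (u : X) = (u : X) * a := fun u hu a ha =>
        Subgroup.mem_centralizer_iff.1
          (Subgroup.commutator_eq_bot_iff_le_centralizer.1 hZA ⟨u, hu, rfl⟩) a ha
      have e1 : frattini P = Subgroup.center P := le_antisymm hΦZ
        fun u hu => mem_of_fixed hAP hcop hfull _ hcommΦ (hfixZ u hu)
      refine ⟨hP, e1, le_antisymm (hcommΦ.trans hΦZ) ?_⟩
      intro u hu
      exact mem_of_fixed hAP hcop hfull _ le_rfl (hfixZ u hu)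
  · intro U hΦU hUP hBU
    by_cases hU : U = P
    · exact Or.inr hU
    left
    refine le_antisymm (fun u hu => ?_) hΦU
    have hUA : ⁅U, A⁆ = ⊥ := hmin U (lt_of_le_of_ne hUP hU) hBU
    exact ⟨⟨u, hUP hu⟩, mem_of_fixed hAP hcop hfull _ hcommΦ (u := ⟨u, hUP hu⟩) (fun a ha =>
      Subgroup.mem_centralizer_iff.1 (Subgroup.commutator_eq_bot_iff_le_centralizer.1 hUA hu) a ha), rfl⟩
  · intro hp2 x hx
    have hc : commutator P ≤ Subgroup.center P := hcommΦ.trans hΦZ
    have hodd : Odd p := (Fact.out : p.Prime).odd_of_ne_two hp2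
    have hpow : ∀ a b : P, (a * b) ^ p = a ^ p * b ^ p := fun a b => by
      apply FGS3.mul_pow_of_center_odd hc a b hodd
      rw [← FGS3.commutatorElement_pow_left hc, commutatorElement_eq_one_iff_commute]
      exact (Subgroup.mem_center_iff.1 (hΦZ (FGS3.pow_mem_frattini hP b)) a).symm
    let f : P →* P := MonoidHom.mk' (fun a => a ^ p) hpow
    have hle : P ≤ f.ker.map P.subtype := by
      intro z hz
      have hz' : z ∈ ⁅P, A⁆ := by rw [hfull]; exact hz
      revert z
      suffices ⁅P, A⁆ ≤ f.ker.map P.subtype from fun z _ h => this h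
      rw [Subgroup.commutator_le]
      intro v hv b hb
      have hb' : b * v⁻¹ * b⁻¹ ∈ P := (Subgroup.mem_normalizer_iff.1 (hAP hb) _).1 (P.inv_mem hv)
      refine ⟨⟨v, hv⟩ * ⟨b * v⁻¹ * b⁻¹, hb'⟩, ?_, by simp [commutatorElement_def, mul_assoc]⟩
      rw [SetLike.mem_coe, MonoidHom.mem_ker, map_mul]
      have h1 := hfixΦ _ (FGS3.pow_mem_frattini hP (⟨v, hv⟩ : P)) b hb
      apply Subtype.ext
      show v ^ p * (b * v⁻¹ * b⁻¹) ^ p = 1
      rw [conj_pow, inv_pow]
      have h2 : b * (v ^ p)⁻¹ * b⁻¹ = (v ^ p)⁻¹ := by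
        have h3 : Commute b (v ^ p) := by
          show b * v ^ p = v ^ p * b
          simpa using h1
        rw [h3.inv_right.eq, mul_inv_cancel_right]
      rw [h2, mul_inv_cancel]
    obtain ⟨q, hq, hqe⟩ := hle hx
    have : (q : X) ^ p = 1 := congrArg Subtype.val (show q ^ p = 1 from hq)
    rwa [show (q : X) = x from hqe] at this

end Cfsg.Agent.Transfer.HHRed
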