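import Mathlib
import Cfsg.Prelude.Def_CaseTheorems
import Cfsg.Prelude.Def_PLocal
import Cfsg.Prelude.Def_Transfer

import Cfsg.Agent.TwoGroups.ExtSub
import Cfsg.Agent.OddLocal.NilBasics

/-!
`p`-groups with a self-centralizing cyclic normal subgroup.
-/

set_option autoImplicit false

namespace Cfsg.Agent.Transfer.SelfCent

universe u

variable {G : Type u} [Group G]

/-- The data: `U = ⟨u⟩` is cyclic, self-centralizing and normalized by all of `G`. -/
structure Data (p n : ℕ) (u : G) : Prop where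
  pg : IsPGroup p G
  ord : orderOf u = p ^ n
  nor : ∀ g : G, ∃ k : ℤ, g * u * g⁻¹ = u ^ k
  self : ∀ g : G, g * u * g⁻¹ = u → g ∈ Subgroup.zpowers u

theorem geom_sum_form {p : ℕ} (hp : p.Prime) {k : ℤ} (hk : (p : ℤ) ∣ k - 1)
    (h4 : p = 2 → (4 : ℤ) ∣ k - 1) :
    ∃ c : ℤ, ∑ i ∈ Finset.range p, k ^ i = p * (1 + p * c) := by
  rcases hp.eq_two_or_odd' with rfl | hodd
  · obtain ⟨c, hc⟩ := h4 rfl
    exact ⟨c, by simp [Finset.sum_range_succ]; omega⟩
  · obtain ⟨b, hb⟩ := hk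
    obtain ⟨c, hc⟩ := odd_sq_dvd_geom_sum₂_sub (R := ℤ) (p := p) 1 b hodd
    refine ⟨c, ?_⟩
    have hk' : k = 1 + p * b := by omega
    simp only [one_pow, mul_one] at hc
    rw [← hk'] at hc
    linear_combination hc

theorem conj_pow_smul {m u : G} {k : ℤ} (h : m * u * m⁻¹ = u ^ k) (i : ℕ) :
    m ^ i * u * (m ^ i)⁻¹ = u ^ (k ^ i) := by
  induction i with
  | zero => simp
  | succ i ih =>
    rw [pow_succ', show m * m ^ i * u * (m * m ^ i)⁻¹ = m * (m ^ i * u * (m ^ i)⁻¹) * m⁻¹ by group, ih,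
      ← conj_zpow, h, ← zpow_mul, ← pow_succ']

theorem zpow_mul_pow {m u : G} {k : ℤ} (h : m * u * m⁻¹ = u ^ k) (j : ℤ) (t : ℕ) :
    (u ^ j * m) ^ t = u ^ (j * ∑ i ∈ Finset.range t, k ^ i) * m ^ t := by
  induction t with
  | zero => simp
  | succ t ih =>
    have h1 : m ^ t * u ^ j = u ^ (k ^ t * j) * m ^ t := by
      rw [zpow_mul, ← conj_pow_smul h t, conj_zpow, inv_mul_cancel_right]
    rw [pow_succ, ih, mul_assoc, ← mul_assoc (m ^ t), h1, mul_assoc, ← mul_assoc (u ^ _), ← zpow_add,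
      Finset.sum_range_succ, ← pow_succ]
    congr 2
    ring

namespace Data

variable {p n : ℕ} [Fact p.Prime] {u : G}

theorem zpow_eq_iff (h : Data p n u) (a b : ℤ) : u ^ a = u ^ b ↔ ((p : ℤ) ^ n) ∣ a - b := by
  rw [← Nat.cast_pow, ← h.ord, orderOf_dvd_iff_zpow_eq_one, zpow_sub, mul_inv_eq_one]

theorem zpow_one_iff (h : Data p n u) (a : ℤ) : u ^ a = 1 ↔ ((p : ℤ) ^ n) ∣ a := by
  rw [← Nat.cast_pow, ← h.ord, orderOf_dvd_iff_zpow_eq_one]

/-- An element acting as a power map congruent to `1` fixes the `p`-th powers. -/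
theorem fix_iff (h : Data p n u) (hn : 1 ≤ n) {g : G} {k : ℤ} (hg : g * u * g⁻¹ = u ^ k) :
    g * u ^ p * g⁻¹ = u ^ p ↔ ((p : ℤ) ^ (n - 1)) ∣ k - 1 := by
  have hp0 : (p : ℤ) ≠ 0 := Int.natCast_ne_zero.2 (Fact.out : p.Prime).ne_zero
  rw [← zpow_natCast, ← conj_zpow, hg, ← zpow_mul, h.zpow_eq_iff,
    show (p : ℤ) ^ n = p * p ^ (n - 1) by rw [← pow_succ', Nat.sub_add_cancel hn],
    show k * (p : ℤ) - p = p * (k - 1) by ring, mul_dvd_mul_iff_left hp0]

theorem n_ge_two [Finite G] (h : Data p n u) (hna : ¬ IsMulCommutative G) : 2 ≤ n := by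
  by_contra hn
  have hU : ∀ g : G, g ∈ Subgroup.zpowers u := by
    intro g
    refine h.self g ?_
    haveI hZn : (Subgroup.zpowers u).Normal := ⟨fun x hx g => by
      obtain ⟨i, rfl⟩ := Subgroup.mem_zpowers_iff.1 hx
      obtain ⟨k, hk⟩ := h.nor g
      rw [← conj_zpow, hk, ← zpow_mul]
      exact Subgroup.zpow_mem _ (Subgroup.mem_zpowers u) _⟩
    by_cases hu : u = 1
    · subst hu; simp
    haveI := h.pg.isNilpotent
    obtain ⟨w, hwU, hw1, hwc⟩ := Cfsg.Agent.OddLocal.exists_ne_one_mem_center_of_normal (Subgroup.zpowers u)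
      (by simpa using hu)
    haveI hnt : Nontrivial (↥(Subgroup.zpowers u ⊓ Subgroup.center G)) :=
      ⟨⟨⟨w, hwU, hwc⟩, 1, fun e => hw1 (congrArg Subtype.val e)⟩⟩
    have hcard : Nat.card (Subgroup.zpowers u) = p := by
      rw [Nat.card_zpowers, h.ord]
      rcases n with _ | _ | n
      · exact absurd (orderOf_eq_one_iff.1 (by rw [h.ord, pow_zero])) hu
      · simp
      · omega
    have hle : Subgroup.zpowers u ≤ Subgroup.center G := by
      have h1 := Subgroup.card_dvd_of_le (inf_le_left : Subgroup.zpowers u ⊓ Subgroup.center G ≤ Subgroup.zpowers u)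
      rw [hcard] at h1
      rcases (Nat.dvd_prime Fact.out).1 h1 with h2 | h2
      · exact absurd h2 (Finite.one_lt_card_iff_nontrivial.2 hnt).ne'
      · exact inf_eq_left.1 (Subgroup.eq_of_le_of_card_ge inf_le_left (by rw [hcard, h2]))
    rw [Subgroup.mem_center_iff.1 (hle (Subgroup.mem_zpowers u)) g, mul_inv_cancel_right]
  exact hna ⟨⟨fun a b => by
    obtain ⟨i, rfl⟩ := Subgroup.mem_zpowers_iff.1 (hU a)
    obtain ⟨j, rfl⟩ := Subgroup.mem_zpowers_iff.1 (hU b)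
    rw [← zpow_add, ← zpow_add, add_comm]⟩⟩

theorem dvd_of_sq {b : ℤ} {n : ℕ} (h : (2 : ℤ) ^ n ∣ (b - 1) * (b + 1)) :
    (2 : ℤ) ^ (n - 1) ∣ b - 1 ∨ (2 : ℤ) ^ (n - 1) ∣ b + 1 := by
  rcases n with _ | n
  · simp
  rcases Int.even_or_odd b with hb | hb
  · exfalso
    obtain ⟨c, rfl⟩ := hb
    have h2 : (2 : ℤ) ∣ (c + c - 1) * (c + c + 1) := (dvd_pow_self 2 n.succ_ne_zero).trans h
    have : ((c + c - 1) * (c + c + 1)) = 2 * (2 * c * c - 1) + 1 := by ring
    omega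
  · obtain ⟨c, rfl⟩ := hb
    rw [show n + 1 - 1 = n by omega]
    rcases n with _ | n
    · simp
    have h' : (2 : ℤ) ^ n ∣ c * (c + 1) := by
      have e : ((2 * c + 1) - 1) * ((2 * c + 1) + 1) = 2 ^ 2 * (c * (c + 1)) := by ring
      rw [e, show n + 1 + 1 = 2 + n by omega, pow_add] at h
      exact Int.dvd_of_mul_dvd_mul_left (by norm_num) h
    rw [pow_succ']
    rcases Int.even_or_odd c with hc | hc
    · left
      rw [show 2 * c + 1 - 1 = 2 * c by ring]
      refine mul_dvd_mul_left 2 ?_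
      refine IsCoprime.dvd_of_dvd_mul_right ?_ h'
      exact (Int.isCoprime_iff_gcd_eq_one.2 (Int.prime_two.coprime_iff_not_dvd.2 (by obtain ⟨d, rfl⟩ := hc; omega) |> Int.isCoprime_iff_gcd_eq_one.1)).pow_left
    · right
      rw [show 2 * c + 1 + 1 = 2 * (c + 1) by ring]
      refine mul_dvd_mul_left 2 ?_
      refine IsCoprime.dvd_of_dvd_mul_left ?_ h'
      exact (Int.prime_two.coprime_iff_not_dvd.2 (by obtain ⟨d, rfl⟩ := hc; omega)).pow_left

/-- If only `U` fixes the `p`-th powers then `p = 2` and everything outside squares into `U`. -/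
theorem only_fix [Finite G] (h : Data p n u) (hna : ¬ IsMulCommutative G)
    (hM : ∀ g : G, g * u ^ p * g⁻¹ = u ^ p → g ∈ Subgroup.zpowers u) :
    p = 2 ∧ (∀ g : G, g * g ∈ Subgroup.zpowers u) ∧
      (∀ g : G, g ∉ Subgroup.zpowers u → ∃ k : ℤ, g * u * g⁻¹ = u ^ k ∧ (p : ℤ) ^ (n - 1) ∣ k + 1) := by
  have hn := h.n_ge_two hna
  have hp : p.Prime := Fact.out
  -- elements of order `p` modulo `U`
  have key : ∀ g : G, g ^ p ∈ Subgroup.zpowers u → g ∉ Subgroup.zpowers u →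
      p = 2 ∧ ∃ k : ℤ, g * u * g⁻¹ = u ^ k ∧ (p : ℤ) ^ (n - 1) ∣ k + 1 := by
    intro g hgp hg
    obtain ⟨k, hk⟩ := h.nor g
    have hkp : u ^ (k ^ p) = u ^ (1 : ℤ) := by
      obtain ⟨i, hi⟩ := Subgroup.mem_zpowers_iff.1 hgp
      rw [← conj_pow_smul hk, ← hi, zpow_one, ((Commute.refl u).zpow_left i).eq, mul_inv_cancel_right]
    rw [h.zpow_eq_iff] at hkp
    rcases hp.eq_two_or_odd' with rfl | hodd
    · refine ⟨rfl, k, hk, ?_⟩
      rcases dvd_of_sq (b := k) (n := n) (by rw [show (k - 1) * (k + 1) = k ^ 2 - 1 by ring]; exact hkp) with h1 | h1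
      · exact absurd (hM g ((h.fix_iff (by omega) hk).2 h1)) hg
      · exact h1
    · exfalso
      apply hg
      refine hM g ((h.fix_iff (by omega) hk).2 ?_)
      have hk1 : (p : ℤ) ∣ k - 1 := by
        have h1 : (p : ℤ) ∣ k ^ p - 1 := (dvd_pow_self _ (by omega)).trans hkp
        rw [← ZMod.intCast_zmod_eq_zero_iff_dvd] at h1 ⊢
        push_cast at h1 ⊢
        rwa [ZMod.pow_card] at h1
      obtain ⟨c, hc⟩ := geom_sum_form hp hk1 (fun e => absurd hodd (by subst e; decide))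
      rw [← geom_sum_mul, hc, show (p : ℤ) ^ n = p * p ^ (n - 1) by rw [← pow_succ', Nat.sub_add_cancel (by omega : 1 ≤ n)],
        mul_assoc (p : ℤ), mul_dvd_mul_iff_left (Int.natCast_ne_zero.2 hp.ne_zero)] at hkp
      refine IsCoprime.dvd_of_dvd_mul_left ?_ hkp
      exact (IsCoprime.pow_left ⟨-c, 1, by ring⟩)
  obtain ⟨g₀, hg₀⟩ : ∃ g : G, g ∉ Subgroup.zpowers u := by
    by_contra hcon
    push Not at hcon
    exact hna ⟨⟨fun a b => by
      obtain ⟨i, rfl⟩ := Subgroup.mem_zpowers_iff.1 (hcon a)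
      obtain ⟨j, rfl⟩ := Subgroup.mem_zpowers_iff.1 (hcon b)
      rw [← zpow_add, ← zpow_add, add_comm]⟩⟩
  have hstep : ∀ g : G, g ∉ Subgroup.zpowers u → ∃ i : ℕ,
      g ^ p ^ i ∉ Subgroup.zpowers u ∧ g ^ p ^ (i + 1) ∈ Subgroup.zpowers u := by
    intro g hg
    classical
    obtain ⟨s, hs⟩ := h.pg g
    have hex : ∃ i : ℕ, g ^ p ^ i ∈ Subgroup.zpowers u := ⟨s, hs ▸ one_mem _⟩
    have h0 : Nat.find hex ≠ 0 := fun e => hg (by simpa [e] using Nat.find_spec hex)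
    refine ⟨Nat.find hex - 1, Nat.find_min hex (by omega), ?_⟩
    rw [Nat.sub_add_cancel (by omega)]
    exact Nat.find_spec hex
  have hp2 : p = 2 := by
    obtain ⟨i, h1, h2⟩ := hstep g₀ hg₀
    exact (key _ (by rwa [← pow_mul, ← pow_succ]) h1).1
  subst hp2
  have hn3 : 3 ≤ n := by
    by_contra hn3
    obtain ⟨k, hk⟩ := h.nor g₀
    obtain ⟨i, h1, h2⟩ := hstep g₀ hg₀
    obtain ⟨-, k', hk', hdvd⟩ := key _ (by rwa [← pow_mul, ← pow_succ]) h1
    refine h1 (hM _ ((h.fix_iff (by omega) hk').2 ?_))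
    have e : n - 1 = 1 := by omega
    rw [e, pow_one] at hdvd ⊢
    push_cast at hdvd ⊢
    omega
  have hsq : ∀ g : G, g * g ∈ Subgroup.zpowers u := by
    intro g
    by_contra hg
    obtain ⟨i, h1, h2⟩ := hstep (g * g) hg
    obtain ⟨-, k', hk', hdvd⟩ := key _ (by rwa [← pow_mul, ← pow_succ]) h1
    obtain ⟨k, hk⟩ := h.nor (g ^ 2 ^ i)
    have e : (g * g) ^ 2 ^ i = g ^ 2 ^ i * g ^ 2 ^ i := by rw [← sq, ← sq, ← pow_mul, ← pow_mul, mul_comm]
    have hk2 : u ^ k' = u ^ (k ^ 2) := by rw [← hk', ← conj_pow_smul hk, e, sq]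
    rw [h.zpow_eq_iff] at hk2
    have h4 : (4 : ℤ) ∣ k' - k ^ 2 := by
      refine dvd_trans ?_ hk2
      exact_mod_cast pow_dvd_pow (2 : ℤ) (show 2 ≤ n by omega)
    have h4' : (4 : ℤ) ∣ k' + 1 := by
      refine dvd_trans ?_ hdvd
      exact_mod_cast pow_dvd_pow (2 : ℤ) (show 2 ≤ n - 1 by omega)
    rcases Int.even_or_odd k with ⟨c, rfl⟩ | ⟨c, rfl⟩
    · have : (c + c) ^ 2 = 4 * (c * c) := by ring
      omega
    · have : (2 * c + 1) ^ 2 = 4 * (c * c + c) + 1 := by ring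
      omega
  exact ⟨rfl, hsq, fun g hg => (key g (by rw [pow_two]; exact hsq g) hg).2⟩

/-- The three groups of maximal class. -/
theorem shapes [Finite G] (h : Data 2 n u) (hn : 2 ≤ n) {g : G} (hg : g ∉ Subgroup.zpowers u)
    (hidx : (Subgroup.zpowers u).index = 2)
    {k : ℤ} (hk : g * u * g⁻¹ = u ^ k) (hk1 : (2 : ℤ) ^ (n - 1) ∣ k + 1) :
    Nat.card G = 2 ^ (n + 1) ∧ ((∃ m : ℕ, Nonempty (G ≃* DihedralGroup m)) ∨
      (∃ m : ℕ, Nonempty (G ≃* QuaternionGroup m)) ∨ Cfsg.IsQuasiDihedral G) := by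
  have hcard : Nat.card G = 2 ^ (n + 1) := by
    rw [← (Subgroup.zpowers u).card_mul_index, hidx, Nat.card_zpowers, h.ord, pow_succ]
  refine ⟨hcard, ?_⟩
  have h2n : (2 : ℤ) ^ n = 2 * 2 ^ (n - 1) := by rw [← pow_succ', Nat.sub_add_cancel (by omega)]
  set z := u ^ ((2 : ℤ) ^ (n - 1)) with hz
  -- the square of `g`
  obtain ⟨i, hi⟩ := Subgroup.mem_zpowers_iff.1 (Subgroup.mul_self_mem_of_index_two hidx g)
  have hifix : u ^ (k * i) = u ^ i := by
    rw [zpow_mul, ← hk, conj_zpow, hi, ← mul_assoc g g g, mul_inv_cancel_right]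
  rw [h.zpow_eq_iff] at hifix
  push_cast at hifix
  obtain ⟨a, ha⟩ := hk1
  have hk' : k = 2 ^ (n - 1) * a - 1 := by omega
  have hi2 : (2 : ℤ) ^ (n - 1) ∣ i := by
    rcases Int.even_or_odd a with ⟨c, rfl⟩ | ⟨c, rfl⟩
    · rw [hk', h2n, show (2 ^ (n - 1) * (c + c) - 1) * i - i = 2 * (2 ^ (n - 1) * (c * i) - i) by ring] at hifix
      exact (dvd_sub_right (dvd_mul_right _ _)).1 (Int.dvd_of_mul_dvd_mul_left two_ne_zero hifix)
    · obtain ⟨r, rfl⟩ : ∃ r, n = r + 2 := ⟨n - 2, by omega⟩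
      rw [show r + 2 - 1 = r + 1 by omega] at *
      rw [hk', h2n, show (2 ^ (r + 1) * (2 * c + 1) - 1) * i - i = 2 * ((2 ^ r * (2 * c + 1) - 1) * i) by ring] at hifix
      have h1 := Int.dvd_of_mul_dvd_mul_left two_ne_zero hifix
      rcases r with _ | r
      · have : (2 ^ 0 * (2 * c + 1) - 1) * i = 2 * (c * i) := by ring
        have hk0 : k = 4 * c + 1 := by rw [hk']; ring
        exfalso
        apply hg
        refine h.self g ?_
        rw [hk, ← zpow_one u, ← zpow_mul, h.zpow_eq_iff, hk0]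
        exact ⟨c, by push_cast; ring⟩
      · refine IsCoprime.dvd_of_dvd_mul_left ?_ h1
        exact (show IsCoprime (2 : ℤ) _ from ⟨2 ^ r * (2 * c + 1), -1, by ring⟩).pow_left
  have hgg : g * g = 1 ∨ g * g = z := by
    obtain ⟨c, rfl⟩ := hi2
    rw [← hi]
    rcases Int.even_or_odd c with ⟨d, rfl⟩ | ⟨d, rfl⟩
    · exact Or.inl ((h.zpow_one_iff _).2 ⟨d, by push_cast; rw [h2n]; ring⟩)
    · refine Or.inr ((h.zpow_eq_iff _ _).2 ⟨d, by push_cast; rw [h2n]; ring⟩)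
  have hcard' : Nat.card G = 2 * 2 ^ n := by rw [hcard, pow_succ']
  rcases Int.even_or_odd a with ⟨c, rfl⟩ | ⟨c, rfl⟩
  · -- inversion
    have hinv : g * u * g⁻¹ = u⁻¹ := by
      rw [hk, ← zpow_neg_one, h.zpow_eq_iff, hk']; push_cast; rw [h2n]
      exact ⟨c, by ring⟩
    rcases hgg with hgg | hgg
    · exact Or.inl ⟨2 ^ n, TwoGroups.IsTwoExt.dihedral (x := u) (y := g)
        ⟨h.ord, hcard', by positivity, hg, hgg, by rw [hinv, zpow_neg_one]⟩⟩
    · refine Or.inr (Or.inl ⟨2 ^ (n - 1), TwoGroups.exists_quaternion_equiv (u := u) (v := g)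
        (by positivity) ?_ ?_ hg ?_ hinv⟩)
      · rw [h.ord, ← pow_succ', Nat.sub_add_cancel (by omega)]
      · rw [hcard, show (4 : ℕ) = 2 ^ 2 from rfl, ← pow_add]; congr 1; omega
      · rw [hgg, hz, ← zpow_natCast]; push_cast; rfl
  · -- the semidihedral case
    rcases Nat.lt_or_ge n 3 with hn3 | hn3
    · exfalso
      obtain rfl : n = 2 := by omega
      refine hg (h.self g ?_)
      rw [hk, ← zpow_one u, ← zpow_mul, h.zpow_eq_iff, hk']
      exact ⟨c, by push_cast; ring⟩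
    have hk'' : g * u * g⁻¹ = u ^ ((2 : ℤ) ^ (n - 1) - 1) := by
      rw [hk, h.zpow_eq_iff, hk']; push_cast; rw [h2n]
      exact ⟨c, by ring⟩
    have hnat : u ^ ((2 : ℤ) ^ (n - 1) - 1) = u ^ (2 ^ (n - 1) - 1 : ℕ) := by
      rw [← zpow_natCast, Nat.cast_sub Nat.one_le_two_pow]; push_cast; rfl
    refine Or.inr (Or.inr ⟨n, hn3, hcard, u, ?_⟩)
    rcases hgg with hgg | hgg
    · refine ⟨g, h.ord, orderOf_eq_prime (by rw [sq, hgg]) fun e => hg (e ▸ one_mem _), ?_⟩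
      rw [hk'', hnat]
    · refine ⟨g * u, h.ord, orderOf_eq_prime ?_ fun e => hg ?_, ?_⟩
      · rw [sq, show g * u * (g * u) = (g * u * g⁻¹) * (g * g) * u by group, hk'', hgg, hz, ← zpow_add,
          ← zpow_add_one]
        exact (h.zpow_one_iff _).2 ⟨1, by push_cast; rw [h2n]; ring⟩
      · rw [eq_inv_of_mul_eq_one_left e]; exact inv_mem (Subgroup.mem_zpowers u)
      · rw [show g * u * u * (g * u)⁻¹ = g * u * g⁻¹ by group, hk'', hnat]

end Data

end Cfsg.Agent.Transfer.SelfCent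

namespace Cfsg.Agent.Transfer.SelfCent

namespace Data

variable {G : Type*} [Group G] {p n : ℕ} [Fact p.Prime] {u : G}

/-- The centralizer of `U ^ p` when it is larger than `U`. -/
theorem big_fix [Finite G] (h : Data p n u) (hn : 2 ≤ n) (h3 : p = 2 → 3 ≤ n)
    (M : Subgroup G) (hMdef : ∀ g : G, g ∈ M ↔ g * u ^ p * g⁻¹ = u ^ p)
    (hne : ∃ m ∈ M, m ∉ Subgroup.zpowers u) :
    (Subgroup.zpowers u).relIndex M = p ∧ Cfsg.IsElementaryAbelian p (Cfsg.omegaOne p M) ∧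
      Nat.card ↥(Cfsg.omegaOne p M) = p ^ 2 ∧ (Cfsg.omegaOne p M).Characteristic := by
  have hp : p.Prime := Fact.out
  have hp0 : (p : ℤ) ≠ 0 := Int.natCast_ne_zero.2 hp.ne_zero
  have hpn : (p : ℤ) ^ n = p * p ^ (n - 1) := by rw [← pow_succ', Nat.sub_add_cancel (by omega)]
  have hUM : Subgroup.zpowers u ≤ M := by
    rw [Subgroup.zpowers_le, hMdef, ← pow_succ', pow_succ, mul_inv_cancel_right]
  set z := u ^ ((p : ℤ) ^ (n - 1)) with hz
  have hzp : z ^ p = 1 := by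
    rw [hz, ← zpow_natCast, ← zpow_mul, h.zpow_one_iff, hpn, mul_comm]
  have hzne : z ≠ 1 := by
    intro e
    rw [hz, h.zpow_one_iff, ← Nat.cast_pow, ← Nat.cast_pow, Int.natCast_dvd_natCast] at e
    have := (Nat.pow_dvd_pow_iff_le_right hp.one_lt).1 e
    omega
  have hact : ∀ g ∈ M, ∃ k : ℤ, g * u * g⁻¹ = u ^ k ∧ (p : ℤ) ^ (n - 1) ∣ k - 1 := by
    intro g hg
    obtain ⟨k, hk⟩ := h.nor g
    exact ⟨k, hk, (h.fix_iff (by omega) hk).1 ((hMdef g).1 hg)⟩
  have hsum : ∀ k : ℤ, (p : ℤ) ^ (n - 1) ∣ k - 1 → ∃ c : ℤ, ∑ i ∈ Finset.range p, k ^ i = p * (1 + p * c) := by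
    intro k hk
    refine geom_sum_form hp ((dvd_pow_self _ (by omega)).trans hk) fun e => ?_
    subst e
    exact dvd_trans (by exact_mod_cast pow_dvd_pow (2 : ℤ) (show 2 ≤ n - 1 by have := h3 rfl; omega)) hk
  have hcop : ∀ c : ℤ, IsCoprime ((p : ℤ) ^ (n - 1)) (1 + p * c) := fun c =>
    (show IsCoprime (p : ℤ) (1 + p * c) from ⟨-c, 1, by ring⟩).pow_left
  have hzfix : ∀ g ∈ M, g * z * g⁻¹ = z := by
    intro g hg
    obtain ⟨k, hk, a, ha⟩ := hact g hg
    rw [hz, ← conj_zpow, hk, ← zpow_mul, h.zpow_eq_iff, hpn]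
    refine dvd_trans (mul_dvd_mul_right (dvd_pow_self (p : ℤ) (by omega : n - 1 ≠ 0)) _) ⟨a, ?_⟩
    rw [show k * (p : ℤ) ^ (n - 1) - p ^ (n - 1) = (k - 1) * p ^ (n - 1) by ring, ha]
    ring
  obtain ⟨m, hmM, hmU⟩ := hne
  obtain ⟨k, hk, hk1⟩ := hact m hmM
  obtain ⟨a, ha⟩ := hk1
  -- `a` is prime to `p`
  have hacop : IsCoprime a (p : ℤ) := by
    refine ((Nat.prime_iff_prime_int.1 hp).coprime_iff_not_dvd.2 fun ⟨b, hb⟩ => hmU (h.self m ?_)).symm
    rw [hk]
    refine Eq.trans ?_ (zpow_one u)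
    rw [h.zpow_eq_iff, ha, hpn, hb]
    exact ⟨b, by ring⟩
  haveI hUn : (Subgroup.zpowers u).Normal := ⟨fun x hx g => by
    obtain ⟨i, rfl⟩ := Subgroup.mem_zpowers_iff.1 hx
    obtain ⟨q, hq⟩ := h.nor g
    rw [← conj_zpow, hq, ← zpow_mul]
    exact Subgroup.zpow_mem _ (Subgroup.mem_zpowers u) _⟩
  have hgenz : ∀ g ∈ M, ∃ j : ℕ, g * (m ^ j)⁻¹ ∈ Subgroup.zpowers u := by
    intro g hg
    obtain ⟨k', hk', b, hb⟩ := hact g hg
    obtain ⟨x, y, hxy⟩ := hacop
    set j : ℕ := ((b * x) % (p : ℤ)).toNat with hj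
    have hjc : (p : ℤ) ∣ (j : ℤ) * a - b := by
      rw [hj, Int.toNat_of_nonneg (Int.emod_nonneg _ hp0)]
      refine ⟨-((b * x) / p * a) - b * y, ?_⟩
      linear_combination a * Int.emod_add_mul_ediv (b * x) p + b * hxy
    refine ⟨j, hUn.mem_comm (h.self _ ?_)⟩
    have h2 : u ^ (k ^ j) = u ^ k' := by
      rw [h.zpow_eq_iff]
      -- `k ^ j ≡ 1 + j (k - 1)`
      have h3 : (p : ℤ) ^ n ∣ k ^ j - (1 + j * (k - 1)) := by
        clear hj hjc
        induction j with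
        | zero => simp
        | succ j ih =>
          have e : k ^ (j + 1) - (1 + (↑(j + 1)) * (k - 1)) =
              k * (k ^ j - (1 + j * (k - 1))) + j * ((k - 1) * (k - 1)) := by push_cast; ring
          rw [e]
          refine dvd_add (ih.mul_left _) (Dvd.dvd.mul_left ?_ _)
          rw [ha, hpn]
          exact mul_dvd_mul ((dvd_pow_self _ (by omega)).mul_right _) (dvd_mul_right _ _)
      obtain ⟨d, hd⟩ := hjc
      have e : k ^ j - k' = (k ^ j - (1 + j * (k - 1))) + ((j : ℤ) * (k - 1) - (k' - 1)) := by ring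
      rw [e]
      refine dvd_add h3 ⟨d, ?_⟩
      rw [ha, hb, hpn]
      linear_combination (p : ℤ) ^ (n - 1) * hd
    calc (m ^ j)⁻¹ * g * u * ((m ^ j)⁻¹ * g)⁻¹ = (m ^ j)⁻¹ * (g * u * g⁻¹) * m ^ j := by group
      _ = u := by rw [hk', ← h2, ← conj_pow_smul hk]; group
  -- `m ^ p ∈ U`
  have hmp : m ^ p ∈ Subgroup.zpowers u := by
    refine h.self _ ?_
    rw [conj_pow_smul hk]
    refine Eq.trans ?_ (zpow_one u)
    rw [h.zpow_eq_iff, ← geom_sum_mul]
    obtain ⟨c, hc⟩ := hsum k ⟨a, ha⟩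
    rw [hc, hpn, ha]
    exact ⟨(1 + p * c) * a, by ring⟩
  obtain ⟨e, he⟩ := Subgroup.mem_zpowers_iff.1 hmp
  -- `p ∣ e`
  obtain ⟨e', he'⟩ : (p : ℤ) ∣ e := by
    have h1 : u ^ (k * e) = u ^ e := by
      rw [zpow_mul, ← hk, conj_zpow, he, ← pow_succ', pow_succ, mul_inv_cancel_right]
    rw [h.zpow_eq_iff, show k * e - e = (k - 1) * e by ring, ha, hpn, mul_comm (p : ℤ), mul_assoc,
      mul_dvd_mul_iff_left (pow_ne_zero _ hp0)] at h1
    exact hacop.symm.dvd_of_dvd_mul_left h1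
  obtain ⟨c, hc⟩ := hsum k ⟨a, ha⟩
  obtain ⟨x, y, hxy⟩ := hcop c
  set m' := u ^ (-(e' * y)) * m with hm'
  have hm'p : m' ^ p = 1 := by
    rw [hm', zpow_mul_pow hk, hc, ← he, ← zpow_add, h.zpow_one_iff, he', hpn]
    exact ⟨e' * x, by linear_combination (-(p : ℤ)) * e' * hxy⟩
  have hm'M : m' ∈ M := mul_mem (hUM (Subgroup.zpow_mem _ (Subgroup.mem_zpowers u) _)) hmM
  have hm'U : m' ∉ Subgroup.zpowers u := fun hh => hmU (by
    have := mul_mem (Subgroup.zpow_mem _ (Subgroup.mem_zpowers u) (e' * y)) hh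
    rwa [hm', ← mul_assoc, ← zpow_add, add_neg_cancel, zpow_zero, one_mul] at this)
  have hk'' : m' * u * m'⁻¹ = u ^ k := by
    rw [hm', show u ^ (-(e' * y)) * m * u * (u ^ (-(e' * y)) * m)⁻¹ =
      u ^ (-(e' * y)) * (m * u * m⁻¹) * (u ^ (-(e' * y)))⁻¹ by group, hk,
      ((Commute.refl u).zpow_zpow (-(e' * y)) k).eq, mul_inv_cancel_right]
  -- the candidate
  have hzc : Commute z m' := by
    have := hzfix m' hm'M
    exact (mul_inv_eq_iff_eq_mul.1 this).symm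
  let A : Subgroup G := Subgroup.zpowers z ⊔ Subgroup.zpowers m'
  have hAc : IsMulCommutative A := by
    have : A = Subgroup.closure {z, m'} := by
      rw [Set.insert_eq, Subgroup.closure_union, ← Subgroup.zpowers_eq_closure, ← Subgroup.zpowers_eq_closure]
    rw [this]
    refine Subgroup.isMulCommutative_closure ?_
    rintro a (rfl | rfl) b (rfl | rfl) <;> first | rfl | exact hzc.eq | exact hzc.eq.symm
  have hall : ∀ g ∈ M, g ^ p = 1 → g ∈ A := by
    intro g hg hgp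
    obtain ⟨j, hj⟩ := hgenz g hg
    have hj' : g * (m' ^ j)⁻¹ ∈ Subgroup.zpowers u := by
      rw [hm', zpow_mul_pow hk, mul_inv_rev, ← mul_assoc]
      exact mul_mem hj (inv_mem (Subgroup.zpow_mem _ (Subgroup.mem_zpowers u) _))
    obtain ⟨l, hl⟩ := Subgroup.mem_zpowers_iff.1 hj'
    have hgl : g = u ^ l * m' ^ j := by rw [hl, inv_mul_cancel_right]
    have hkj : (p : ℤ) ^ (n - 1) ∣ k ^ j - 1 := by
      obtain ⟨k', hk', hd⟩ := hact _ (pow_mem hm'M j)
      rw [conj_pow_smul hk'', h.zpow_eq_iff] at hk'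
      have : k ^ j - 1 = (k ^ j - k') + (k' - 1) := by ring
      rw [this]
      exact dvd_add ((Dvd.intro_left _ hpn.symm).trans hk') hd
    obtain ⟨c', hc'⟩ := hsum _ hkj
    rw [hgl, zpow_mul_pow (conj_pow_smul hk'' j), hc', ← pow_mul, mul_comm j, pow_mul, hm'p, one_pow,
      mul_one, h.zpow_one_iff, hpn, show l * ((p : ℤ) * (1 + p * c')) = p * (l * (1 + p * c')) by ring,
      mul_dvd_mul_iff_left hp0] at hgp
    obtain ⟨d, hd⟩ := (hcop c').dvd_of_dvd_mul_right hgp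
    rw [hgl]
    refine Subgroup.mul_mem_sup ?_ (Subgroup.pow_mem _ (Subgroup.mem_zpowers m') j)
    rw [hd, zpow_mul]
    exact Subgroup.zpow_mem _ (Subgroup.mem_zpowers z) d
  have hAM : A ≤ M := sup_le (Subgroup.zpowers_le.2 (hUM (Subgroup.zpow_mem _ (Subgroup.mem_zpowers u) _)))
    (Subgroup.zpowers_le.2 hm'M)
  have hAp : ∀ g ∈ A, g ^ p = 1 := by
    intro g hg
    let φ : A →* A := @powMonoidHom A { (inferInstance : Group A) with mul_comm := hAc.is_comm.comm } p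
    have hle : A ≤ φ.ker.map A.subtype := by
      refine sup_le (Subgroup.zpowers_le.2 ⟨⟨z, ?_⟩, ?_, rfl⟩) (Subgroup.zpowers_le.2 ⟨⟨m', ?_⟩, ?_, rfl⟩)
      · exact Subgroup.mem_sup_left (Subgroup.mem_zpowers z)
      · exact Subtype.ext hzp
      · exact Subgroup.mem_sup_right (Subgroup.mem_zpowers m')
      · exact Subtype.ext hm'p
    obtain ⟨w, hw, rfl⟩ := hle hg
    exact congrArg Subtype.val hw
  have hΩ : Cfsg.omegaOne p M = A :=
    le_antisymm ((Subgroup.closure_le _).2 fun g hg => hall g hg.1 hg.2)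
      fun g hg => Subgroup.subset_closure ⟨hAM hg, hAp g hg⟩
  rw [hΩ]
  refine ⟨?_, ⟨hAc, hAp⟩, ?_, ?_⟩
  · -- the index
    have hlt : Subgroup.zpowers u < M := lt_of_le_of_ne hUM fun e => hmU (e ▸ hmM)
    let f : Subgroup.zpowers m' →* M ⧸ (Subgroup.zpowers u).subgroupOf M :=
      (QuotientGroup.mk' _).comp (Subgroup.inclusion (Subgroup.zpowers_le.2 hm'M))
    have hs : Function.Surjective f := by
      intro q
      obtain ⟨⟨g, hg⟩, rfl⟩ := QuotientGroup.mk_surjective q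
      obtain ⟨j, hj⟩ := hgenz g hg
      refine ⟨⟨m' ^ j, Subgroup.pow_mem _ (Subgroup.mem_zpowers m') j⟩, ?_⟩
      refine QuotientGroup.eq.2 ?_
      rw [Subgroup.mem_subgroupOf]
      show (m' ^ j)⁻¹ * g ∈ _
      have h1 : g * (m' ^ j)⁻¹ ∈ Subgroup.zpowers u := by
        rw [hm', zpow_mul_pow hk, mul_inv_rev, ← mul_assoc]
        exact mul_mem hj (inv_mem (Subgroup.zpow_mem _ (Subgroup.mem_zpowers u) _))
      exact hUn.mem_comm h1
    have h1 : Nat.card (M ⧸ (Subgroup.zpowers u).subgroupOf M) ∣ p := by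
      have := Subgroup.card_dvd_of_surjective f hs
      rwa [Nat.card_zpowers, orderOf_eq_prime hm'p (fun e => hm'U (e ▸ one_mem _))] at this
    exact ((Nat.dvd_prime hp).1 h1).resolve_left fun e => hlt.not_ge (Subgroup.relIndex_eq_one.1 e)
  · have hzo : Nat.card (Subgroup.zpowers z) = p := by rw [Nat.card_zpowers, orderOf_eq_prime hzp hzne]
    have hmo : Nat.card (Subgroup.zpowers m') = p := by
      rw [Nat.card_zpowers, orderOf_eq_prime hm'p fun e => hm'U (e ▸ one_mem _)]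
    let φ : Subgroup.zpowers z × Subgroup.zpowers m' →* G :=
      MonoidHom.noncommCoprod (Subgroup.zpowers z).subtype (Subgroup.zpowers m').subtype (fun a b =>
        congrArg Subtype.val (hAc.is_comm.comm (⟨a, Subgroup.mem_sup_left a.2⟩ : A) ⟨b, Subgroup.mem_sup_right b.2⟩))
    have hinj : Function.Injective φ := by
      have hdisj : Subgroup.zpowers z ⊓ Subgroup.zpowers m' = ⊥ := by
        have hd := Subgroup.card_dvd_of_le (inf_le_right : Subgroup.zpowers z ⊓ Subgroup.zpowers m' ≤ _)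
        rw [hmo] at hd
        rcases (Nat.dvd_prime hp).1 hd with e | e
        · exact Subgroup.card_eq_one.1 e
        · exfalso
          apply hm'U
          have := inf_eq_right.1 (Subgroup.eq_of_le_of_card_ge inf_le_right (by rw [hmo, e]))
          exact (Subgroup.zpowers_le.2 (Subgroup.zpow_mem _ (Subgroup.mem_zpowers u) _)) (this (Subgroup.mem_zpowers m'))
      rintro ⟨⟨a1, ha1⟩, ⟨b1, hb1⟩⟩ ⟨⟨a2, ha2⟩, ⟨b2, hb2⟩⟩ heq
      have heq' : a1 * b1 = a2 * b2 := heq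
      have h1 : a2⁻¹ * a1 = b2 * b1⁻¹ := by
        rw [eq_mul_inv_iff_mul_eq, mul_assoc, heq', inv_mul_cancel_left]
      have h2 : a2⁻¹ * a1 ∈ Subgroup.zpowers z ⊓ Subgroup.zpowers m' :=
        ⟨Subgroup.mul_mem _ (Subgroup.inv_mem _ ha2) ha1, h1 ▸ Subgroup.mul_mem _ hb2 (Subgroup.inv_mem _ hb1)⟩
      rw [hdisj, Subgroup.mem_bot] at h2
      obtain rfl : a2 = a1 := inv_mul_eq_one.1 h2
      obtain rfl := mul_left_cancel heq'
      rfl
    have hr : φ.range = A := by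
      refine (MonoidHom.noncommCoprod_range _ _ _).trans ?_
      rw [Subgroup.range_subtype, Subgroup.range_subtype]
    rw [← hr, ← Nat.card_congr (MonoidHom.ofInjective hinj).toEquiv, Nat.card_prod, hzo, hmo, sq]
  · -- `A` is characteristic
    have hnormA : A.Normal := by
      refine ⟨fun g hg w => hall _ ?_ (by rw [conj_pow, hAp g hg, mul_one, mul_inv_cancel])⟩
      rw [hMdef]
      obtain ⟨q, hq⟩ := h.nor w⁻¹
      rw [inv_inv] at hq
      have h1 : w⁻¹ * u ^ p * w = (u ^ p) ^ q := by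
        have := conj_pow (i := p) (a := w⁻¹) (b := u)
        rw [inv_inv] at this
        rw [← this, hq, ← zpow_natCast, ← zpow_mul, mul_comm, zpow_mul, zpow_natCast]
      calc w * g * w⁻¹ * u ^ p * (w * g * w⁻¹)⁻¹ = w * (g * (w⁻¹ * u ^ p * w) * g⁻¹) * w⁻¹ := by group
        _ = u ^ p := by rw [h1, ← conj_zpow, (hMdef g).1 (hAM hg), ← h1]; group
    -- every normal subgroup of exponent `p` lies in `A`
    have hmax : ∀ F : Subgroup G, F.Normal → (∀ f ∈ F, f ^ p = 1) → F ≤ A := by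
      intro F hFn hFp f hf
      refine hall f ?_ (hFp f hf)
      rw [hMdef]
      obtain ⟨q, hq⟩ := h.nor f
      have h1 : u ^ (q - 1) ∈ F := by
        rw [zpow_sub, zpow_one, ← hq, mul_assoc f u, mul_assoc f]
        exact mul_mem hf (hFn.conj_mem _ (inv_mem hf) u)
      have h2 := hFp _ h1
      rw [← zpow_natCast, ← zpow_mul, h.zpow_one_iff] at h2
      rw [h.fix_iff (by omega) hq]
      rw [hpn, mul_comm (q - 1), mul_dvd_mul_iff_left hp0] at h2
      exact h2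
    refine Subgroup.characteristic_iff_map_le.2 fun α => hmax _ (hnormA.map _ α.surjective) ?_
    rintro _ ⟨g, hg, rfl⟩
    rw [← map_pow, hAp g hg, map_one]

end Data

/-- The statement in `U`-form. -/
theorem main {G : Type*} [Group G] [Finite G] {p : ℕ} [Fact p.Prime] (hG : IsPGroup p G)
    (hna : ¬ IsMulCommutative G) (U : Subgroup G) [U.Normal] (hU : IsCyclic U) (n : ℕ)
    (hUn : Nat.card U = p ^ n) (hC : Subgroup.centralizer (U : Set G) = U) :
    (p = 2 ∧ Nat.card G = 2 ^ (n + 1) ∧ ((∃ m : ℕ, Nonempty (G ≃* DihedralGroup m)) ∨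
      (∃ m : ℕ, Nonempty (G ≃* QuaternionGroup m)) ∨ Cfsg.IsQuasiDihedral G)) ∨
    (U.relIndex (Subgroup.centralizer (Cfsg.powerClosure p 1 U : Set G)) = p ∧
      Cfsg.IsElementaryAbelian p (Cfsg.omegaOne p (Subgroup.centralizer (Cfsg.powerClosure p 1 U : Set G))) ∧
      Nat.card ↥(Cfsg.omegaOne p (Subgroup.centralizer (Cfsg.powerClosure p 1 U : Set G))) = p ^ 2 ∧
      (Cfsg.omegaOne p (Subgroup.centralizer (Cfsg.powerClosure p 1 U : Set G))).Characteristic) := by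
  obtain ⟨u, rfl⟩ := (Subgroup.isCyclic_iff_exists_zpowers_eq_top U).1 hU
  have hd : Data p n u := by
    refine ⟨hG, by rw [← Nat.card_zpowers, hUn], fun g => ?_, fun g hg => ?_⟩
    · obtain ⟨k, hk⟩ := Subgroup.mem_zpowers_iff.1
        ((inferInstance : (Subgroup.zpowers u).Normal).conj_mem u (Subgroup.mem_zpowers u) g)
      exact ⟨k, hk.symm⟩
    · rw [← hC, Subgroup.mem_centralizer_iff]
      intro v hv
      obtain ⟨i, rfl⟩ := Subgroup.mem_zpowers_iff.1 hv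
      exact ((show Commute g u from mul_inv_eq_iff_eq_mul.1 hg).zpow_right i).eq.symm
  have hM : ∀ g : G, g ∈ Subgroup.centralizer (Cfsg.powerClosure p 1 (Subgroup.zpowers u) : Set G) ↔
      g * u ^ p * g⁻¹ = u ^ p := by
    intro g
    rw [mul_inv_eq_iff_eq_mul, Cfsg.powerClosure, Subgroup.centralizer_closure, Subgroup.mem_centralizer_iff]
    constructor
    · intro h
      exact (h _ ⟨u, Subgroup.mem_zpowers u, by rw [pow_one]⟩).symm
    · rintro h _ ⟨x, hx, rfl⟩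
      obtain ⟨i, rfl⟩ := Subgroup.mem_zpowers_iff.1 hx
      rw [pow_one, ← zpow_natCast, ← zpow_mul, mul_comm, zpow_mul, zpow_natCast]
      exact ((show Commute g (u ^ p) from h).zpow_right i).eq.symm
  have hn := hd.n_ge_two hna
  by_cases hcase : ∃ g, g * u ^ p * g⁻¹ = u ^ p ∧ g ∉ Subgroup.zpowers u
  · by_cases hp2 : p = 2 ∧ n = 2
    · obtain ⟨rfl, rfl⟩ := hp2
      obtain ⟨g, -, hg⟩ := hcase
      left
      obtain ⟨k, hk⟩ := hd.nor g
      have hodd : ¬ (2 : ℤ) ∣ k := by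
        rintro ⟨c, rfl⟩
        have h1 : (g * u * g⁻¹) ^ (2 : ℤ) = 1 := by
          rw [hk, ← zpow_mul, hd.zpow_one_iff]
          exact ⟨c, by ring⟩
        rw [conj_zpow, conj_eq_one_iff, hd.zpow_one_iff] at h1
        norm_num at h1
      have hkey : ∀ v : G, v ∉ Subgroup.zpowers u → v * u * v⁻¹ = u⁻¹ := by
        intro v hv
        obtain ⟨q, hq⟩ := hd.nor v
        rw [hq, ← zpow_neg_one, hd.zpow_eq_iff]
        have hne : ¬ (4 : ℤ) ∣ q - 1 := fun h4 => hv (hd.self v (by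
          rw [hq]; refine Eq.trans ?_ (zpow_one u); rw [hd.zpow_eq_iff]; exact_mod_cast h4))
        have hqodd : ¬ (2 : ℤ) ∣ q := by
          rintro ⟨c, rfl⟩
          have h1 : (v * u * v⁻¹) ^ (2 : ℤ) = 1 := by
            rw [hq, ← zpow_mul, hd.zpow_one_iff]
            exact ⟨c, by ring⟩
          rw [conj_zpow, conj_eq_one_iff, hd.zpow_one_iff] at h1
          norm_num at h1
        norm_num
        omega
      have hidx : (Subgroup.zpowers u).index = 2 := by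
        rw [Subgroup.index_eq_two_iff]
        refine ⟨g, fun b => ?_⟩
        by_cases hb : b ∈ Subgroup.zpowers u
        · refine Or.inr ⟨hb, fun h => hg ?_⟩
          exact (Subgroup.mul_mem_cancel_left _ hb).1 h
        · refine Or.inl ⟨hd.self _ ?_, hb⟩
          calc b * g * u * (b * g)⁻¹ = b * (g * u * g⁻¹) * b⁻¹ := by group
            _ = u := by rw [hkey g hg, ← conj_inv, hkey b hb, inv_inv]
      exact ⟨rfl, hd.shapes le_rfl hg hidx (k := -1) (by rw [hkey g hg, zpow_neg_one]) (by simp)⟩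
    · right
      obtain ⟨g, hg1, hg2⟩ := hcase
      exact hd.big_fix hn (fun e => by by_contra; exact hp2 ⟨e, by omega⟩) _ hM ⟨g, (hM g).2 hg1, hg2⟩
  · left
    push Not at hcase
    obtain ⟨rfl, hsq, hinv⟩ := hd.only_fix hna hcase
    obtain ⟨g, hg⟩ : ∃ g : G, g ∉ Subgroup.zpowers u := by
      by_contra hcon
      push Not at hcon
      exact hna ⟨⟨fun a b => by
        obtain ⟨i, rfl⟩ := Subgroup.mem_zpowers_iff.1 (hcon a)
        obtain ⟨j, rfl⟩ := Subgroup.mem_zpowers_iff.1 (hcon b)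
        rw [← zpow_add, ← zpow_add, add_comm]⟩⟩
    have hidx : (Subgroup.zpowers u).index = 2 := by
      rw [Subgroup.index_eq_two_iff]
      refine ⟨g, fun b => ?_⟩
      by_cases hb : b ∈ Subgroup.zpowers u
      · exact Or.inr ⟨hb, fun h => hg ((Subgroup.mul_mem_cancel_left _ hb).1 h)⟩
      · refine Or.inl ⟨hcase _ ?_, hb⟩
        obtain ⟨k, hk, hk1⟩ := hinv g hg
        obtain ⟨q, hq, hq1⟩ := hinv b hb
        have hbg : b * g * u * (b * g)⁻¹ = u ^ (q * k) := by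
          rw [show b * g * u * (b * g)⁻¹ = b * (g * u * g⁻¹) * b⁻¹ by group, hk, ← conj_zpow, hq, ← zpow_mul]
        rw [hd.fix_iff (by omega) hbg, show q * k - 1 = q * (k + 1) - (q + 1) by ring]
        exact dvd_sub (hk1.mul_left q) hq1
    obtain ⟨k, hk, hk1⟩ := hinv g hg
    exact ⟨rfl, hd.shapes hn hg hidx hk (by exact_mod_cast hk1)⟩

end Cfsg.Agent.Transfer.SelfCent
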